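import Cfsg.Agent.Forms.LieBound
import Cfsg.Agent.Tw.TwPar

/-! Orders of the twisted exceptional groups compared with their Sylow subgroups. -/

set_option autoImplicit false

namespace Cfsg.Agent.Forms

open Finset Cfsg.Lie Cfsg.Agent.Chev Cfsg.Agent.Tw Equiv

variable {G : Type*} [Group G] {p : ℕ} {F : Type*} [Field F] [Fintype F]

theorem aut_ext {D : ChevalleyDatum} {C : Cert D} {w w' : Perm (Rt D)} (h : w ∈ C.Aut) (h' : w' ∈ C.Aut)
    (e : ∀ i, w (C.sp i) = w' (C.sp i)) : w = w' := by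
  ext1 r
  apply C.rc_inj
  rw [Cert.Aut.rc_map h, Cert.Aut.rc_map h', C.lin_apply, C.lin_apply]
  simp only [e]

theorem ln_w0_univ {D : ChevalleyDatum} (C : Cert D) : C.ln (C.w0 Set.univ) = D.nroots / 2 := by
  have h1 := (C.sys (ZMod 2)).card_Uw (C.W_le_Aut (C.w0_mem_W Set.univ))
  rw [Stb.Uw_w0, Sys.card_Up] at h1
  exact (Nat.pow_right_injective (Finite.one_lt_card (α := ZMod 2)) h1).symm

omit [Fintype F] in
theorem card_fixW_D4 (φ : F ≃+* F) : Nat.card {w // w ∈ certD4.W ∧ (stbD4 φ).cj w = w} ≤ 36 := by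
  let s : Finset (Rt chevD4 × Rt chevD4) := univ.filter fun x => triD4.ρ x.1 = x.1 ∧ triD4.ρ x.2 ≠ x.2 ∧
    ∃ u : Rt chevD4, ∀ i : Nd chevD4, rcD4 u i = rcD4 x.1 i + rcD4 x.2 i
  have hs : s.card = 36 := by decide +kernel
  have hc : ∀ w : {w // w ∈ certD4.W ∧ (stbD4 φ).cj w = w}, ∀ r, w.1 (triD4.ρ r) = triD4.ρ (w.1 r) :=
    fun w r => by
      have := (stbD4 φ).cj_apply w.1 r
      rwa [w.2.2] at this
  let a : Nd chevD4 := ⟨0, by decide⟩
  let b : Nd chevD4 := ⟨1, by decide⟩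
  rw [← hs, ← Fintype.card_coe, ← Nat.card_eq_fintype_card]
  refine Nat.card_le_card_of_injective (fun w => ⟨(w.1 (certD4.sp b), w.1 (certD4.sp a)), ?_⟩) fun w w' e => ?_
  · refine mem_filter.2 ⟨mem_univ _, ?_, ?_, ?_⟩
    · rw [← hc]; congr 1
    · rw [← hc, w.1.injective.ne_iff]; decide +kernel
    · obtain ⟨u, hu⟩ : ∃ u : Rt chevD4, ∀ i : Nd chevD4,
        rcD4 u i = rcD4 (certD4.sp b) i + rcD4 (certD4.sp a) i := by decide +kernel
      exact ⟨w.1 u, congrFun (Cert.Aut.map_add (certD4.W_le_Aut w.2.1) (funext hu))⟩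
  · simp only [Subtype.mk.injEq, Prod.mk.injEq] at e
    refine Subtype.ext (aut_ext (certD4.W_le_Aut w.2.1) (certD4.W_le_Aut w'.2.1) fun i => ?_)
    have : certD4.sp i = certD4.sp b ∨ certD4.sp i = certD4.sp a ∨ certD4.sp i = triD4.ρ (certD4.sp a) ∨
        certD4.sp i = triD4.ρ (triD4.ρ (certD4.sp a)) := by revert i; decide +kernel
    rcases this with h | h | h | h <;> simp only [h, hc, e]

theorem ncard_fix {q d : ℕ} (h : Nat.card F = q ^ d) : {t : Fˣ | (t : F) ^ q = t}.ncard ≤ q - 1 := by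
  have h1 := card_fixed h
  have hq : q ≠ 0 := by
    rintro rfl
    have : Nonempty {t : F // t ^ 0 = t} := ⟨⟨1, by simp⟩⟩
    exact Nat.card_pos.ne' h1
  rw [← Set.ncard_image_of_injective _ Units.val_injective]
  have h2 : {t : F | t ^ q = t}.ncard = q := h1
  have h3 := Set.ncard_diff_singleton_of_mem (s := {t : F | t ^ q = t}) (a := 0) (by simp [hq])
  rw [h2] at h3
  rw [← h3]
  refine Set.ncard_le_ncard ?_
  rintro _ ⟨t, ht, rfl⟩
  exact ⟨ht, t.ne_zero⟩

theorem ncard_units : (Set.univ : Set Fˣ).ncard = Nat.card F - 1 := by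
  rw [Set.ncard_univ, Nat.card_units]

variable [Fact p.Prime] [CharP F p]

theorem cube_3D4 {q : ℕ} (hF : Fintype.card F = q ^ 3) (e : G ≃* twistedD4 F q) : Cube p G := by
  rw [← Nat.card_eq_fintype_card] at hF
  obtain ⟨φ, hφ⟩ := exists_frob F hF
  have h := goodD4 hφ (frob3 hφ hF)
  have hq : 2 ≤ q := by
    have := Finite.one_lt_card (α := F)
    rw [hF] at this
    exact (Nat.one_lt_pow_iff three_ne_zero).1 this
  refine cube_good h (e.trans (genEquiv certD4 _).symm) (c := 36 * ((q - 1) * (q ^ 3 - 1)))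
    (Nat.mul_le_mul (card_fixW_D4 φ) ?_) ?_
  · refine (fix_H_card_le (certD4.sys_φ_inj F) h.fix (ι := Fin 2) ![⟨1, by decide⟩, ⟨0, by decide⟩]
      (by change ∀ j, ∃ i, triD4.nodes.SameCycle _ j; decide +kernel)
      ![{t : Fˣ | (t : F) ^ q = t}, Set.univ] ?_).trans ?_
    · refine Fin.forall_fin_two.2 ⟨fun a ha => ?_, fun _ _ => trivial⟩
      have h1 := Stb.chi_σ (T := stbD4 φ) ha.2 (certD4.sp ⟨1, by decide⟩)
      rw [h.fix a ha.1, Stb.sp] at h1
      have h2 := congrArg Units.val h1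
      rw [Stb.fu_val] at h2
      exact (hφ _).symm.trans h2.symm
    · rw [Fin.prod_univ_two, ← hF, ← ncard_units]
      exact Nat.mul_le_mul_right _ (ncard_fix hF)
  · rw [inf_comm, ← Stb.Uw_w0, cardUw_D4 h hφ hF (certD4.w0_mem_W _) (stbD4 φ).stable_univ.cj_w0,
      ln_w0_univ, ← pow_mul]
    change _ < q ^ (8 * 3)
    rw [pow_mul]
    refine Nat.pow_lt_pow_left ?_ (by norm_num)
    rcases hq.eq_or_lt with rfl | hq
    · norm_num
    · calc 36 * ((q - 1) * (q ^ 3 - 1)) ≤ 3 ^ 4 * ((q - 1) * (q ^ 3 - 1)) := by gcongr; norm_num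
        _ < q ^ 4 * (q * q ^ 3) := by
          refine Nat.mul_lt_mul_of_le_of_lt (Nat.pow_le_pow_left hq _) ?_ (by positivity)
          exact Nat.mul_lt_mul_of_lt_of_le (by omega) (Nat.sub_le _ _) (by positivity)
        _ = q ^ 8 := by ring

theorem cube_2E6 {q : ℕ} (hF : Fintype.card F = q ^ 2) (e : G ≃* twistedE6 F q) : Cube p G := by
  rw [← Nat.card_eq_fintype_card] at hF
  obtain ⟨φ, hφ⟩ := exists_frob F hF
  have h := goodE6 hφ (frob2 hφ hF)
  have hq : 2 ≤ q := by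
    have := Finite.one_lt_card (α := F)
    rw [hF] at this
    exact (Nat.one_lt_pow_iff two_ne_zero).1 this
  refine cube_good h (e.trans (genEquiv certE6 _).symm) (c := 51840 * (q ^ 2 - 1) ^ 4)
    (Nat.mul_le_mul (card_fixW_le.trans card_W_E6) ?_) ?_
  · refine (fix_H_card_le (certE6.sys_φ_inj F) h.fix (ι := Fin 4) (fun i => ⟨i, i.2.trans (by decide)⟩)
      (by change ∀ j, ∃ i, symE6.nodes.SameCycle _ j; decide +kernel)
      (fun _ => Set.univ) fun _ _ _ => trivial).trans_eq ?_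
    rw [ncard_units, hF]; simp
  · rw [inf_comm, ← Stb.Uw_w0, cardUw_E6 h hφ hF (certE6.w0_mem_W _) (stbE6 φ).stable_univ.cj_w0,
      ln_w0_univ, ← pow_mul]
    change _ < q ^ (24 * 3)
    rw [pow_mul]
    refine Nat.pow_lt_pow_left ?_ (by norm_num)
    calc 51840 * (q ^ 2 - 1) ^ 4 ≤ 2 ^ 16 * (q ^ 2 - 1) ^ 4 := by gcongr; norm_num
      _ < q ^ 16 * (q ^ 2) ^ 4 := Nat.mul_lt_mul_of_le_of_lt (Nat.pow_le_pow_left hq _)
        (Nat.pow_lt_pow_left (Nat.sub_lt (by positivity) one_pos) (by norm_num)) (by positivity)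
      _ = q ^ 24 := by ring

omit [Fact p.Prime] [CharP F p] in
theorem cube_2F4 {m : ℕ} (hm : 1 ≤ m) (hF : Fintype.card F = 2 ^ (2 * m + 1))
    (e : G ≃* twistedF4 F (2 ^ m)) : Cube 2 G := by
  have : CharP F 2 := charP_of_card_eq_prime_pow hF
  rw [← Nat.card_eq_fintype_card] at hF
  let φ : F ≃+* F := iterateFrobeniusEquiv F 2 m
  have hφ : ∀ t, φ t = t ^ 2 ^ m := fun t => iterateFrobenius_def ..
  have h := goodF4 hφ (frobp hφ hF)
  have hq : 8 ≤ Nat.card F := hF ▸ Nat.pow_le_pow_right (n := 2) (i := 3) two_pos (by omega)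
  refine cube_good h (e.trans (genEquiv certF4 _).symm) (c := 1152 * (Nat.card F - 1) ^ 4)
    (Nat.mul_le_mul (card_fixW_le.trans card_W_F4) ?_) ?_
  · refine (fix_H_card_le (certF4.sys_φ_inj F) h.fix id (fun j => ⟨j, Stb.mem_orb _ j⟩)
      (fun _ => Set.univ) fun _ _ _ => trivial).trans_eq ?_
    rw [ncard_units]; simp; rfl
  · rw [inf_comm, ← Stb.Uw_w0, cardUw_F4 h (frobp hφ hF) (certF4.w0_mem_W _) (stbF4 φ).stable_univ.cj_w0,
      ln_w0_univ]
    change _ < _ ^ (8 * 3)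
    rw [pow_mul]
    refine Nat.pow_lt_pow_left ?_ (by norm_num)
    calc 1152 * (Nat.card F - 1) ^ 4 ≤ 8 ^ 4 * (Nat.card F - 1) ^ 4 := by gcongr; norm_num
      _ < Nat.card F ^ 4 * Nat.card F ^ 4 := Nat.mul_lt_mul_of_le_of_lt (Nat.pow_le_pow_left hq _)
        (Nat.pow_lt_pow_left (by omega) (by norm_num)) (by positivity)
      _ = _ := by ring

omit [Fact p.Prime] [CharP F p] in
theorem cube_2G2 {m : ℕ} (hm : 1 ≤ m) (hF : Fintype.card F = 3 ^ (2 * m + 1))
    (e : G ≃* twistedG2 F (3 ^ m)) : Cube 3 G := by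
  have : Fact (Nat.Prime 3) := ⟨Nat.prime_three⟩
  have : CharP F 3 := charP_of_card_eq_prime_pow hF
  rw [← Nat.card_eq_fintype_card] at hF
  let φ : F ≃+* F := iterateFrobeniusEquiv F 3 m
  have hφ : ∀ t, φ t = t ^ 3 ^ m := fun t => iterateFrobenius_def ..
  have h := goodG2 hφ (frobp hφ hF)
  have hq : 27 ≤ Nat.card F := hF ▸ Nat.pow_le_pow_right (n := 3) (i := 3) (by norm_num) (by omega)
  refine cube_good h (e.trans (genEquiv certG2 _).symm) (c := 12 * (Nat.card F - 1))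
    (Nat.mul_le_mul (card_fixW_le.trans card_W_G2) ?_) ?_
  · refine (fix_H_card_le (certG2.sys_φ_inj F) h.fix (ι := Unit) (fun _ => ⟨0, by decide⟩)
      (by change ∀ j, ∃ i, Fin.revPerm.SameCycle _ j; decide +kernel)
      (fun _ => Set.univ) fun _ _ _ => trivial).trans_eq ?_
    rw [ncard_units]; simp
  · rw [inf_comm, ← Stb.Uw_w0, cardUw_G2 h (frobp hφ hF) (certG2.w0_mem_W _) (stbG2 φ).stable_univ.cj_w0,
      ln_w0_univ]
    change _ < _ ^ (2 * 3)
    rw [pow_mul]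
    refine Nat.pow_lt_pow_left ?_ (by norm_num)
    rw [sq]
    exact Nat.mul_lt_mul_of_le_of_lt (by omega) (by omega) (by omega)

end Cfsg.Agent.Forms
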