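import Cfsg.Agent.GLn.TyCount

/-! Bounds for the number of weighted sequences. -/

set_option autoImplicit false

namespace Cfsg.Agent.Forms

open Finset

variable {α : Type*} (S : Set α) (w : α → ℕ) (a0 : α)

/-- Weighted sequences. -/
def GT (N m : ℕ) : Set (ℕ → α) :=
  {g | (∀ e, g e ∈ S) ∧ (∀ e, e = 0 ∨ N < e → g e = a0) ∧ ∑ e ∈ range (N + 1), e * w (g e) = m}

/-- Level sets. -/
def Lev (d : ℕ) : Set α := {a | a ∈ S ∧ w a = d}

variable {S w a0}

theorem GT_succ_subset (h0 : a0 ∈ S) (N m : ℕ) : GT S w a0 (N + 1) m ⊆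
    ⋃ d ∈ (range (m + 1)).filter (fun d => (N + 1) * d ≤ m),
    (fun x : (ℕ → α) × α => Function.update x.1 (N + 1) x.2) ''
      (GT S w a0 N (m - (N + 1) * d) ×ˢ Lev S w d) := by
  rintro g ⟨h1, h2, h3⟩
  simp only [Set.mem_iUnion]
  rw [sum_range_succ _ (N + 1)] at h3
  refine ⟨w (g (N + 1)), ?_, (Function.update g (N + 1) a0, g (N + 1)), ⟨⟨?_, ?_, ?_⟩, h1 _, rfl⟩, ?_⟩
  · rw [mem_filter, mem_range]
    have : w (g (N + 1)) ≤ (N + 1) * w (g (N + 1)) := Nat.le_mul_of_pos_left _ N.succ_pos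
    exact ⟨by omega, by omega⟩
  · intro e
    by_cases he : e = N + 1
    · subst he; simpa
    · simpa [he] using h1 e
  · intro e he
    by_cases he' : e = N + 1
    · subst he'; simp
    · simpa [he'] using h2 e (by omega)
  · rw [sum_congr rfl fun e he => by
      simp only []
      rw [Function.update_of_ne (by have := mem_range.mp he; omega)]]
    omega
  · simp

theorem GT_zero_subset (m : ℕ) : GT S w a0 0 m ⊆ if m = 0 then {fun _ => a0} else ∅ := by
  rintro g ⟨-, h2, h3⟩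
  have : m = 0 := by simpa using h3.symm
  rw [if_pos this]
  exact funext fun e => h2 e (by omega)

theorem GT_finite (h0 : a0 ∈ S) (hL : ∀ d, (Lev S w d).Finite) (N m : ℕ) :
    (GT S w a0 N m).Finite := by
  induction N generalizing m with
  | zero => exact Set.Finite.subset (by split_ifs <;> simp) (GT_zero_subset m)
  | succ N ih =>
    exact Set.Finite.subset (Set.Finite.biUnion (finite_toSet _) fun d _ =>
      ((ih _).prod (hL _)).image _) (GT_succ_subset h0 N m)

theorem ncard_GT_succ_le (h0 : a0 ∈ S) (hL : ∀ d, (Lev S w d).Finite) (N m : ℕ) :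
    (GT S w a0 (N + 1) m).ncard ≤ ∑ d ∈ (range (m + 1)).filter (fun d => (N + 1) * d ≤ m),
      (GT S w a0 N (m - (N + 1) * d)).ncard * (Lev S w d).ncard := by
  refine ((Set.ncard_le_ncard (GT_succ_subset h0 N m)
    (Set.Finite.biUnion (finite_toSet _) fun d _ =>
      ((GT_finite h0 hL N _).prod (hL _)).image _)).trans (GLn.ncard_biUnion_le' _ _)).trans
    (sum_le_sum fun d _ => ?_)
  refine (Set.ncard_image_le ((GT_finite h0 hL N _).prod (hL _))).trans ?_
  rw [Set.ncard_prod]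

theorem ncard_GT_one_le (h0 : a0 ∈ S) (hL : ∀ d, (Lev S w d).Finite) (m : ℕ) :
    (GT S w a0 1 m).ncard ≤ (Lev S w m).ncard := by
  refine (ncard_GT_succ_le h0 hL 0 m).trans ?_
  rw [sum_eq_single m]
  · have := Set.ncard_le_ncard (GT_zero_subset (S := S) (w := w) (a0 := a0) (m - (0 + 1) * m))
      (by split_ifs <;> simp)
    rw [if_pos (by omega), Set.ncard_singleton] at this
    exact (Nat.mul_le_mul_right _ this).trans_eq (one_mul _)
  · intro d hd hne
    have := Set.ncard_le_ncard (GT_zero_subset (S := S) (w := w) (a0 := a0) (m - (0 + 1) * d))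
      (by split_ifs <;> simp)
    rw [mem_filter] at hd
    rw [if_neg (by omega), Set.ncard_empty] at this
    rw [Nat.le_zero.1 this, zero_mul]
  · intro h; exact (h (by simp)).elim

theorem GT_mono (hw : w a0 = 0) {N N' : ℕ} (h : N ≤ N') (m : ℕ) :
    GT S w a0 N m ⊆ GT S w a0 N' m := by
  rintro g ⟨h1, h2, h3⟩
  refine ⟨h1, fun e he => h2 e (by omega), ?_⟩
  rw [← h3]
  exact (sum_subset (range_mono (by omega)) fun e _ he => by
    rw [h2 e (by simp at he; omega), hw, mul_zero]).symm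

theorem GT_subset_of_le (hw : ∀ a ∈ S, w a = 0 → a = a0) (hw0 : w a0 = 0) (N m : ℕ) :
    GT S w a0 N m ⊆ GT S w a0 m m := by
  rcases le_total N m with h | h
  · exact GT_mono hw0 h m
  rintro g ⟨h1, h2, h3⟩
  have key : ∀ e, m < e → g e = a0 := fun e he => by
    by_cases hN : N < e
    · exact h2 e (Or.inr hN)
    · have := single_le_sum (f := fun e => e * w (g e)) (fun _ _ => Nat.zero_le _)
        (mem_range.mpr (by omega : e < N + 1))
      rw [h3] at this
      refine hw _ (h1 e) ?_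
      by_contra h0
      have : e * 1 ≤ e * w (g e) := Nat.mul_le_mul_left _ (by omega)
      omega
  refine ⟨h1, fun e he => he.elim (fun h0 => h2 e (Or.inl h0)) (key e), ?_⟩
  refine Eq.trans (sum_subset (range_mono (by omega)) fun e _ he => ?_) h3
  rw [key e (by simpa using he), hw0, mul_zero]

theorem ncard_GT_step (h0 : a0 ∈ S) (hL : ∀ d, (Lev S w d).Finite) {q C φ : ℝ} (hq : 0 < q)
    {N : ℕ} (hC : ∀ m, ((GT S w a0 N m).ncard : ℝ) ≤ C * q ^ m)
    (hφ : ∀ D, ∑ d ∈ range D, ((Lev S w d).ncard : ℝ) * ((q⁻¹) ^ (N + 1)) ^ d ≤ φ) (m : ℕ) :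
    ((GT S w a0 (N + 1) m).ncard : ℝ) ≤ C * φ * q ^ m := by
  have hC0 : 0 ≤ C := by have := hC 0; simp at this; exact le_trans (by positivity) this
  refine (Nat.cast_le.2 (ncard_GT_succ_le h0 hL N m)).trans ?_
  push_cast
  calc _ ≤ ∑ d ∈ (range (m + 1)).filter (fun d => (N + 1) * d ≤ m),
        C * q ^ m * (((Lev S w d).ncard : ℝ) * ((q⁻¹) ^ (N + 1)) ^ d) := by
        refine sum_le_sum fun d hd => ?_
        obtain ⟨k, hk⟩ := Nat.exists_eq_add_of_le (mem_filter.1 hd).2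
        refine (mul_le_mul_of_nonneg_right (hC _) (by positivity)).trans_eq ?_
        rw [← pow_mul, hk, Nat.add_sub_cancel_left, pow_add, inv_pow]
        field_simp
    _ ≤ ∑ d ∈ range (m + 1), C * q ^ m * (((Lev S w d).ncard : ℝ) * ((q⁻¹) ^ (N + 1)) ^ d) :=
        sum_le_sum_of_subset_of_nonneg (filter_subset _ _) fun _ _ _ => by positivity
    _ ≤ C * φ * q ^ m := by
        rw [← mul_sum, mul_right_comm C φ]
        exact mul_le_mul_of_nonneg_left (hφ _) (by positivity)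

theorem ncard_GT_le (h0 : a0 ∈ S) (hL : ∀ d, (Lev S w d).Finite) (hw0 : w a0 = 0) {q K c : ℝ}
    (hq : 0 < q) (hK : 0 ≤ K) (hc : 0 ≤ c) {N0 : ℕ} (φ : ℕ → ℝ)
    (hC : ∀ m, ((GT S w a0 N0 m).ncard : ℝ) ≤ K * (1 - c * q⁻¹ ^ N0) * q ^ m)
    (hφ : ∀ N, N0 ≤ N → ∀ D,
      ∑ d ∈ range D, ((Lev S w d).ncard : ℝ) * ((q⁻¹) ^ (N + 1)) ^ d ≤ φ N)
    (hstep : ∀ N, N0 ≤ N → (1 - c * q⁻¹ ^ N) * φ N ≤ 1 - c * q⁻¹ ^ (N + 1)) (N m : ℕ) :
    ((GT S w a0 N m).ncard : ℝ) ≤ K * q ^ m := by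
  have key : ∀ N, N0 ≤ N → ∀ m, ((GT S w a0 N m).ncard : ℝ) ≤ K * (1 - c * q⁻¹ ^ N) * q ^ m := by
    intro N hN
    induction N, hN using Nat.le_induction with
    | base => exact hC
    | succ N hN ih =>
      intro m
      refine (ncard_GT_step h0 hL hq ih (hφ N hN) m).trans ?_
      rw [mul_assoc K]
      exact mul_le_mul_of_nonneg_right (mul_le_mul_of_nonneg_left (hstep N hN) hK) (by positivity)
  refine (Nat.cast_le.2 (Set.ncard_le_ncard (GT_mono hw0 (le_max_left N N0) m)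
    (GT_finite h0 hL _ _))).trans ((key _ (le_max_right _ _) m).trans ?_)
  refine mul_le_mul_of_nonneg_right ?_ (by positivity)
  have : 0 ≤ c * q⁻¹ ^ max N N0 := by positivity
  nlinarith

theorem sum_range_geom_le {y : ℝ} (h0 : 0 ≤ y) (h1 : y < 1) (D : ℕ) :
    ∑ d ∈ range D, y ^ d ≤ (1 - y)⁻¹ := by
  rw [← tsum_geometric_of_lt_one h0 h1]
  exact (summable_geometric_of_lt_one h0 h1).sum_le_tsum _ fun _ _ => by positivity

end Cfsg.Agent.Forms
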