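import Cfsg.Agent.Forms.OrdBound
import Cfsg.Agent.Forms.CellBound
import Cfsg.Agent.Sz.Inst
import Cfsg.Agent.Sz.Struct
import Cfsg.Prelude.Def_LieTypeChar

/-! Orders of groups of Lie type compared with their Sylow subgroups. -/

set_option autoImplicit false

namespace Cfsg.Agent.Forms

open Module Finset Cfsg.Agent.Polar Cfsg.Agent.Polar.PQ Cfsg.Lie Cfsg.Agent.Chev Cfsg.Agent.Tw

/-- The cube of the order is less than the eighth power of the `p`-part. -/
def Cube (p : ℕ) (G : Type*) [Group G] : Prop :=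
  Nat.card G ^ 3 < p ^ (8 * (Nat.card G).factorization p)

variable {G : Type*} [Group G] {p : ℕ}

theorem cube_quot {H : Type*} [Group H] [Finite H] (e : G ≃* H ⧸ Subgroup.center H) {q k a : ℕ}
    (hp : p.Prime) (hq : q = p ^ k) (h1 : q ^ a ∣ Nat.card H) (h2 : Nat.card H ^ 3 < q ^ (8 * a))
    (h3 : ¬ p ∣ Nat.card (Subgroup.center H)) : Cube p G := by
  subst hq
  rw [← pow_mul] at h1 h2
  exact cube_lt_of_quot e hp h1 (by rwa [mul_left_comm]) h3

theorem cube_of {H : Type*} [Group H] [Finite H] (e : G ≃* H) {q k a : ℕ}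
    (hp : p.Prime) (hq : q = p ^ k) (h1 : q ^ a ∣ Nat.card H) (h2 : Nat.card H ^ 3 < q ^ (8 * a)) :
    Cube p G := by
  subst hq
  rw [← pow_mul] at h1 h2
  rw [Cube, Nat.card_congr e.toEquiv]
  exact cube_lt_of_dvd hp h1 (by rwa [mul_left_comm])

theorem prod_sub_one_lt {q : ℕ} (hq : 1 < q) (s : Finset ℕ) (hs : s.Nonempty) (f : ℕ → ℕ)
    (hf : ∀ i ∈ s, 0 < f i) : ∏ i ∈ s, (q ^ f i - 1) < q ^ ∑ i ∈ s, f i := by
  rw [← prod_pow_eq_pow_sum]
  exact prod_lt_prod_of_nonempty (fun i hi => Nat.sub_pos_of_lt (Nat.one_lt_pow (hf i hi).ne' hq))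
    (fun i _ => Nat.sub_lt (by positivity) one_pos) hs

theorem sum_Icc_two (n : ℕ) (hn : 1 ≤ n) : 2 * ∑ i ∈ Icc 2 n, i + 2 = n * (n + 1) := by
  induction n, hn using Nat.le_induction with
  | base => simp
  | succ n hn ih => rw [sum_Icc_succ_top (by omega)]; linarith

theorem sum_Icc_one (n : ℕ) : ∑ i ∈ Icc 1 n, 2 * i = n * (n + 1) := by
  induction n with
  | zero => simp
  | succ n ih => rw [sum_Icc_succ_top (by omega)]; linarith

variable {F : Type*} [Field F] [Fintype F] [Fact p.Prime] [CharP F p]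

theorem not_dvd_center_SL (n : ℕ) (hn : 1 ≤ n) :
    ¬ p ∣ Nat.card (Subgroup.center (Matrix.SpecialLinearGroup (Fin n) F)) := by
  have : Nonempty (Fin n) := ⟨⟨0, hn⟩⟩
  rw [GLn.card_center_SL]
  exact fun h => (Fact.out : p.Prime).coprime_iff_not_dvd.1 (GLn.coprime_card_sub_one (F := F) p)
    (h.trans (Nat.gcd_dvd_right _ _))

theorem cube_psl {n : ℕ} (hn : 3 ≤ n) (e : G ≃* Matrix.ProjectiveSpecialLinearGroup (Fin n) F) :
    Cube p G := by
  obtain ⟨k, -, hk⟩ := FiniteField.card F p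
  have hq := Fintype.one_lt_card (α := F)
  refine cube_quot e (a := n * (n - 1) / 2) Fact.out hk (by rw [GLn.card_SL_eq]; exact dvd_mul_right _ _)
    ?_ (not_dvd_center_SL n (by omega))
  rw [GLn.card_SL_eq]
  have h1 := prod_sub_one_lt hq (Icc 2 n) ⟨2, by simp; omega⟩ id fun i hi => by
    simp at hi ⊢; omega
  refine (Nat.pow_lt_pow_left (Nat.mul_lt_mul_of_pos_left h1 (by positivity)) (by norm_num)).trans_le ?_
  rw [← pow_add, ← pow_mul]
  refine Nat.pow_le_pow_right hq.le ?_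
  have h2 := sum_Icc_two n (by omega)
  have h3 := Nat.div_mul_cancel (Nat.even_mul_pred_self n).two_dvd
  obtain ⟨m, rfl⟩ : ∃ m, n = m + 1 := ⟨n - 1, by omega⟩
  simp only [id, Nat.add_sub_cancel] at *
  nlinarith

theorem psl_two (e : G ≃* Matrix.ProjectiveSpecialLinearGroup (Fin 2) F) :
    Fintype.card F = p ^ (Nat.card G).factorization p ∧
      Nat.card G < p ^ (3 * (Nat.card G).factorization p) := by
  obtain ⟨k, hp, hk⟩ := FiniteField.card F p
  have hq := Fintype.one_lt_card (α := F)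
  have h1 := Subgroup.card_eq_card_quotient_mul_card_subgroup
    (Subgroup.center (Matrix.SpecialLinearGroup (Fin 2) F))
  rw [← Nat.card_congr e.toEquiv, GLn.card_SL_eq] at h1
  simp only [Icc_self, prod_singleton, Nat.reduceSub, Nat.reduceMul, Nat.reduceDiv, pow_one] at h1
  have h2 := congrArg (fun n => n.factorization p) h1
  have h3 : Fintype.card F ^ 2 - 1 ≠ 0 := (Nat.sub_pos_of_lt (Nat.one_lt_pow two_ne_zero hq)).ne'
  have h4 : Nat.card G ≠ 0 := fun h => by
    rw [h, zero_mul] at h1; exact mul_ne_zero (by omega) h3 h1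
  rw [Nat.factorization_mul (by omega) h3, Nat.factorization_mul h4 Nat.card_pos.ne',
    Finsupp.add_apply, Finsupp.add_apply,
    Nat.factorization_eq_zero_of_not_dvd (not_dvd_center_SL 2 one_le_two),
    Nat.factorization_eq_zero_of_not_dvd
      (hp.coprime_iff_not_dvd.1 (GLn.coprime_card_pow_sub_one p two_pos)), hk,
    hp.factorization_pow, Finsupp.single_eq_same, add_zero, add_zero] at h2
  rw [← h2, mul_comm, pow_mul, ← hk]
  refine ⟨rfl, ((Nat.le_mul_of_pos_right _ Nat.card_pos).trans_eq h1.symm).trans_lt ?_⟩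
  rw [pow_succ' _ 2]
  exact Nat.mul_lt_mul_of_pos_left (Nat.sub_lt (by positivity) one_pos) (by omega)

theorem cube_psp {m : ℕ} (hm : 2 ≤ m) (e : G ≃* PSp m F) : Cube p G := by
  obtain ⟨k, -, hk⟩ := FiniteField.card F p
  have hq := Fintype.one_lt_card (α := F)
  refine cube_quot e (a := m ^ 2) Fact.out hk (by rw [card_symplecticGroup]; exact dvd_mul_right _ _)
    ?_ ?_
  · rw [card_symplecticGroup]
    have h1 := prod_sub_one_lt hq (Icc 1 m) ⟨1, by simp; omega⟩ (2 * ·) fun i hi => by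
      simp at hi ⊢; omega
    refine (Nat.pow_lt_pow_left (Nat.mul_lt_mul_of_pos_left h1 (by positivity))
      (by norm_num)).trans_le ?_
    rw [← pow_add, ← pow_mul, sum_Icc_one]
    exact Nat.pow_le_pow_right hq.le (by nlinarith)
  · have : Nonempty (Fin m) := ⟨⟨0, by omega⟩⟩
    obtain ⟨v, hv⟩ := exists_ne (0 : Fin m ⊕ Fin m → F)
    obtain ⟨f, hf⟩ := (spStd_nd m).exists_hyp (sp_sing v) hv
    rw [center_equiv_card (spEquivEG m)]
    exact not_dvd_center_EG (spStd_nd m) sp_rich hf p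

theorem cube_psu {n q : ℕ} (hF : Fintype.card F = q ^ 2) (hn : 3 ≤ n) (e : G ≃* PSU n F q) :
    Cube p G := by
  obtain ⟨k, hp, hk⟩ := FiniteField.card F p
  obtain ⟨j, -, hj⟩ := (Nat.dvd_prime_pow hp).1
    (show q ∣ p ^ (k : ℕ) from hk ▸ hF ▸ dvd_pow_self q two_ne_zero)
  obtain ⟨a, h1, h2⟩ := u_cube hF (uStd_nd hF n) (by simpa using hn)
  rw [← Nat.card_congr (suEquiv hF n).toEquiv] at h1 h2
  refine cube_quot e hp hj h1 h2 ?_
  obtain ⟨v, hv, hv'⟩ := u_exists_sing (uStd hF n) (by simp; omega)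
  obtain ⟨f, hf⟩ := (uStd_nd hF n).exists_hyp hv' hv
  rw [center_equiv_card (suEquiv hF n)]
  exact not_dvd_center_EG (uStd_nd hF n) u_rich hf p

theorem cube_pomega {ι : Type} [Fintype ι] [DecidableEq ι] {Q : QuadraticForm F (ι → F)}
    (hQ : (pol Q).Nondegenerate) (h7 : 7 ≤ Fintype.card ι) (e : G ≃* POmega F Q) : Cube p G := by
  obtain ⟨k, hp, hk⟩ := FiniteField.card F p
  obtain ⟨a, h1, h2⟩ := o_cube (ofQuad_nd hQ) (by simpa using h7)
  rw [← Nat.card_congr (omegaEquiv hQ (by omega)).toEquiv, Nat.card_eq_fintype_card (α := F)] at h1 h2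
  refine cube_quot e hp hk h1 h2 ?_
  obtain ⟨v, hv, hv'⟩ := o_exists_sing (ofQuad Q) (by simp; omega)
  obtain ⟨f, hf⟩ := (ofQuad_nd hQ).exists_hyp hv' hv
  rw [center_equiv_card (omegaEquiv hQ (by omega))]
  exact not_dvd_center_EG (ofQuad_nd hQ) ((ofQuad_nd hQ).rich (by simp; omega)) hf p

omit [Fact p.Prime] [CharP F p] in
theorem cube_sz {m : ℕ} (hm : 1 ≤ m) (hF : Fintype.card F = 2 ^ (2 * m + 1))
    (e : G ≃* Lie.Sz F (2 ^ (m + 1))) : Cube 2 G := by
  rw [← Nat.card_eq_fintype_card] at hF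
  have M := Sz.lieModel hm hF
  have h1 := M.card_G
  have h2 := M.eight_le_card
  refine cube_of e Nat.prime_two hF (a := 2) (by rw [h1, mul_assoc]; exact dvd_mul_right _ _) ?_
  rw [h1]
  obtain ⟨r, hr⟩ : ∃ r, Nat.card F = r + 1 := ⟨Nat.card F - 1, by omega⟩
  have h3 : Nat.card F ^ 2 * (Nat.card F - 1) * (Nat.card F ^ 2 + 1) < Nat.card F ^ 5 := by
    rw [hr, Nat.add_sub_cancel, mul_assoc, show 5 = 2 + 3 from rfl, pow_add]
    exact Nat.mul_lt_mul_of_pos_left (by nlinarith) (by positivity)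
  refine (Nat.pow_lt_pow_left h3 (by norm_num)).trans_le ?_
  rw [← pow_mul]
  exact Nat.pow_le_pow_right (by omega) (by norm_num)

theorem cube_good {D : ChevalleyDatum} {C : Cert D} {T : Stb (C.sys F)} {K : Subgroup (D.group F)}
    (h : T.Good K) (e : G ≃* K) {c : ℕ}
    (h1 : Nat.card {w // w ∈ C.W ∧ T.cj w = w} *
      Nat.card (K ⊓ (C.sys F).H : Subgroup (D.group F)) ≤ c)
    (h2 : c ^ 3 < Nat.card (K ⊓ (C.sys F).Up : Subgroup (D.group F)) ^ 2) : Cube p G := by
  obtain ⟨k, hk⟩ := IsPGroup.exists_card_eq (((C.sys F).isPGroup_Up p).to_inf_right (H := K))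
  refine cube_of e Fact.out hk (a := 1) ?_ (good_cube h h1 h2)
  rw [pow_one]; exact Subgroup.card_dvd_of_le inf_le_left

theorem cube_chev {D : ChevalleyDatum} (C : Cert D) (e : G ≃* D.group F) {b : ℕ}
    (hb : Nat.card C.W ≤ b)
    (h : (b * (Fintype.card F - 1) ^ D.rank) ^ 3 < Fintype.card F ^ (D.nroots / 2 * 2)) :
    Cube p G := by
  refine cube_good (Stb.good_one (S := C.sys F)) (e.trans Subgroup.topEquiv.symm)
    (Nat.mul_le_mul (card_fixW_le.trans hb) ?_) (h.trans_eq ?_)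
  · refine (fix_H_card_le (T := Stb.one _) (C.sys_φ_inj F) (fun _ _ => rfl) id
      (fun j => ⟨j, Stb.mem_orb _ j⟩) (fun _ => Set.univ) fun _ _ _ => trivial).trans_eq ?_
    simp [Set.ncard_univ, Nat.card_units]
  · rw [top_inf_eq, Sys.card_Up, pow_mul, Nat.card_eq_fintype_card]

theorem chev_num {q b r N s : ℕ} (hq : 2 ≤ q) (hr : 0 < r) (hb : b ≤ 2 ^ s) (h : (s + r) * 3 ≤ N) :
    (b * (q - 1) ^ r) ^ 3 < q ^ N := by
  have h1 : b * (q - 1) ^ r < q ^ (s + r) := by
    rw [pow_add]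
    exact Nat.mul_lt_mul_of_le_of_lt (hb.trans (Nat.pow_le_pow_left hq s))
      (Nat.pow_lt_pow_left (by omega) hr.ne') (by positivity)
  refine (Nat.pow_lt_pow_left h1 (by norm_num)).trans_le ?_
  rw [← pow_mul]
  exact Nat.pow_le_pow_right (by omega) h

theorem cube_exc (h : IsExceptionalChevChar p G) : Cube p G := by
  obtain ⟨F, _, _, _, ⟨h3, ⟨e⟩⟩ | ⟨⟨e⟩⟩ | ⟨⟨e⟩⟩ | ⟨⟨e⟩⟩ | ⟨⟨e⟩⟩⟩ := h
  · refine cube_chev certG2 e card_W_G2 ?_
    change (12 * (_ - 1) ^ 2) ^ 3 < _ ^ (4 * 3)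
    rw [pow_mul]
    refine Nat.pow_lt_pow_left ?_ (by norm_num)
    obtain ⟨r, hr⟩ : ∃ r, Fintype.card F = r + 3 := ⟨Fintype.card F - 3, by omega⟩
    rw [hr, show r + 3 - 1 = r + 2 from rfl]
    ring_nf
    omega
  · exact cube_chev certF4 e card_W_F4 (chev_num (s := 11) Fintype.one_lt_card (by decide)
      (by norm_num) (by decide))
  · exact cube_chev certE6 e card_W_E6 (chev_num (s := 16) Fintype.one_lt_card (by decide)
      (by norm_num) (by decide))
  · exact cube_chev certE7 e card_W_E7 (chev_num (s := 27) Fintype.one_lt_card (by decide)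
      (by norm_num) (by decide))
  · exact cube_chev certE8 e card_W_E8 (chev_num (s := 35) Fintype.one_lt_card (by decide)
      (by norm_num) (by decide))

end Cfsg.Agent.Forms
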