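import Cfsg.Agent.Forms.LieG2a
import Cfsg.Agent.Tw.SwG2

/-!
Representations of `G₂(q)`: characteristic three.
-/

set_option autoImplicit false

namespace Cfsg.Agent.Forms

open Module Finset Cfsg.Lie Cfsg.Agent.Chev Cfsg.Agent.Tw Cfsg.Agent.GLn MulAut

variable {F : Type*} [Field F] {G : Type*} [Group G] (S : Sys certG2 F G)
  {V : Type*} [AddCommGroup V] [Module ℂ V] (ρ : Representation ℂ G V) (ψ : AddChar F ℂ)

/-- Simultaneous weight spaces. -/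
noncomputable def Sp (l : List (ℕ × F)) (A : Finset ℕ) : Submodule ℂ V :=
  (⨅ p ∈ l, Wx ρ ψ (xi S p.1) p.2) ⊓ ⨅ r ∈ A, Wx ρ ψ (xi S r) 0

/-- Their dimensions. -/
noncomputable def dm (l : List (ℕ × F)) (A : Finset ℕ) : ℕ := finrank ℂ (Sp S ρ ψ l A)

/-- The check for commutation. -/
def Ok3 (r s : ℕ) (A : Finset ℕ) : Prop :=
  s = r ∨ r < 12 ∧ s < 12 ∧ s + r + 1 ≠ 12 ∧ ∀ p ∈ chevG2.commTerms r s, p.1 ∈ A ∨ 3 ∣ p.2.1

instance (r s : ℕ) (A : Finset ℕ) : Decidable (Ok3 r s A) := by unfold Ok3; infer_instance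

/-- The check for stability. -/
def Chk (r : ℕ) (L : List ℕ) (A : Finset ℕ) : Prop := (∀ s ∈ L, Ok3 r s A) ∧ ∀ s ∈ A, Ok3 r s A

instance (r : ℕ) (L : List ℕ) (A : Finset ℕ) : Decidable (Chk r L A) := by unfold Chk; infer_instance

variable {S ρ ψ} {l : List (ℕ × F)} {A B : Finset ℕ} {r s : ℕ}

theorem mem_Sp {v : V} : v ∈ Sp S ρ ψ l A ↔ (∀ p ∈ l, v ∈ Wx ρ ψ (xi S p.1) p.2) ∧ ∀ r ∈ A, v ∈ Wx ρ ψ (xi S r) 0 := by
  simp [Sp, Submodule.mem_iInf]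

theorem Sp_cons (c : F) : Sp S ρ ψ l A ⊓ Wx ρ ψ (xi S r) c = Sp S ρ ψ ((r, c) :: l) A := by
  ext; simp only [Submodule.mem_inf, mem_Sp, List.forall_mem_cons]; tauto

theorem Sp_zero : Sp S ρ ψ ((r, 0) :: l) A = Sp S ρ ψ l (insert r A) := by
  ext; simp only [mem_Sp, List.forall_mem_cons, forall_mem_insert]; tauto

theorem dm_swap (p p' : ℕ × F) : dm S ρ ψ [p, p'] A = dm S ρ ψ [p', p] A := by
  rw [dm, dm, show Sp S ρ ψ [p, p'] A = Sp S ρ ψ [p', p] A by ext; simp only [mem_Sp, List.forall_mem_cons]; tauto]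

variable [FiniteDimensional ℂ V]

theorem dm_conj {g : G} {f : ℕ → ℕ} {e : ℕ → Fˣ} (h : ∀ r < 12, ∀ u, conj g (xi S r u) = xi S (f r) (e r * u))
    (hl : ∀ p ∈ l, p.1 < 12) (hA : ∀ r ∈ A, r < 12) :
    dm S ρ ψ (l.map fun p => (p.1, e p.1 * p.2)) A = dm S ρ ψ (l.map fun p => (f p.1, p.2)) (A.image f) := by
  refine finrank_eq_of_map ρ g (fun v hv => ?_) fun v hv => ?_ <;>
    simp only [mem_Sp, List.forall_mem_map, forall_mem_image] at hv ⊢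
  · exact ⟨fun p hp => by simpa using Wx_conj _ (h _ (hl p hp)) (hv.1 p hp),
      fun r hr => Wx_conj0 _ (h _ (hA r hr)) (hv.2 r hr)⟩
  · exact ⟨fun p hp => Wx_conj' _ (h _ (hl p hp)) (hv.1 p hp), fun r hr => Wx_conj0' _ (h _ (hA r hr)) (hv.2 hr)⟩

theorem dm_h (a : Rt chevG2) (x : Fˣ) {m n : ℤ} (h : (∃ h : r < 12, certG2.A a ⟨r, h⟩ = m) ∧
    (∃ h : s < 12, certG2.A a ⟨s, h⟩ = n) ∧ ∀ r ∈ A, r < 12) (c d : F) :
    dm S ρ ψ [(r, (x ^ m : Fˣ) * c), (s, (x ^ n : Fˣ) * d)] A = dm S ρ ψ [(r, c), (s, d)] A := by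
  obtain ⟨⟨h1, rfl⟩, ⟨h2, rfl⟩, h3⟩ := h
  simpa [h1, h2] using dm_conj (ρ := ρ) (ψ := ψ) (l := [(r, c), (s, d)]) (f := id)
    (e := fun r => x ^ if h : r < 12 then certG2.A a ⟨r, h⟩ else 0)
    (fun r hr => conj_h S a x ⟨hr, by rw [dif_pos hr]⟩) (by simp [h1, h2]) h3

theorem tor2 (a b : Rt chevG2) (h : ((∃ h : r < 12, certG2.A a ⟨r, h⟩ = 1) ∧ (∃ h : s < 12, certG2.A a ⟨s, h⟩ = 0) ∧
    ∀ r ∈ A, r < 12) ∧ (∃ h : r < 12, certG2.A b ⟨r, h⟩ = 0) ∧ (∃ h : s < 12, certG2.A b ⟨s, h⟩ = 1) ∧ ∀ r ∈ A, r < 12)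
    {c d : F} (hc : c ≠ 0) (hd : d ≠ 0) : dm S ρ ψ [(r, c), (s, d)] A = dm S ρ ψ [(r, 1), (s, 1)] A := by
  rw [← dm_h b (Units.mk0 d hd) h.2 1 1]
  simpa using dm_h a (Units.mk0 c hc) h.1 1 d

theorem tor1 (a : Rt chevG2) (h : (∃ h : r < 12, certG2.A a ⟨r, h⟩ = 1) ∧ ∀ r ∈ A, r < 12)
    {c : F} (hc : c ≠ 0) : dm S ρ ψ [(r, c)] A = dm S ρ ψ [(r, 1)] A := by
  have e : ∀ c, dm S ρ ψ [(r, c)] A = dm S ρ ψ [(r, c), (r, c)] A := fun c => by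
    rw [dm, dm, show Sp S ρ ψ [(r, c)] A = Sp S ρ ψ [(r, c), (r, c)] A by ext; simp [mem_Sp]]
  rw [e, e, ← dm_h a (Units.mk0 c hc) ⟨h.1, h⟩ 1 1]; simp

theorem weyl (i : Nd chevG2) (hl : ∀ p ∈ l, p.1 < 12) (h : (∀ r ∈ A, r < 12) ∧ A.image (reflG2 i) = B) :
    ∃ e : ℕ → Fˣ, dm S ρ ψ (l.map fun p => (reflG2 i p.1, p.2)) B = dm S ρ ψ (l.map fun p => (p.1, e p.1 * p.2)) A := by
  have : ∀ r, ∃ e : Fˣ, r < 12 → ∀ u, conj (S.n (certG2.sp i) 1) (xi S r u) = xi S (reflG2 i r) (e * u) := fun r => by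
    by_cases hr : r < 12
    · exact ⟨_, fun _ u => by rw [xi_eq S hr, conj_apply, S.n_conj, ← xi_val, ← ssG2 i ⟨r, hr⟩]; rfl⟩
    · exact ⟨1, fun h => (hr h).elim⟩
  choose e he using this
  exact ⟨e, h.2 ▸ (dm_conj he hl h.1).symm⟩

theorem weyl1 (i : Nd chevG2) (a : Rt chevG2) (h : (reflG2 i r = s ∧ (∀ r ∈ A, r < 12) ∧ A.image (reflG2 i) = B) ∧
    (∃ h : r < 12, certG2.A a ⟨r, h⟩ = 1) ∧ ∀ r ∈ A, r < 12) : dm S ρ ψ [(s, 1)] B = dm S ρ ψ [(r, 1)] A := by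
  obtain ⟨e, he⟩ := weyl (S := S) (ρ := ρ) (ψ := ψ) (l := [(r, 1)]) i (by simpa using h.2.1.1) h.1.2
  obtain ⟨⟨rfl, -⟩, h⟩ := h
  exact he.trans (tor1 a h (by simp))

theorem weyl2 (i : Nd chevG2) {r' s' : ℕ} (h : (reflG2 i r = r' ∧ reflG2 i s = s' ∧ r < 12 ∧ s < 12) ∧
    (∀ r ∈ A, r < 12) ∧ A.image (reflG2 i) = B) {c d : F} (hc : c ≠ 0) (hd : d ≠ 0) :
    ∃ c' ≠ 0, ∃ d' ≠ 0, dm S ρ ψ [(r', c), (s', d)] B = dm S ρ ψ [(r, c'), (s, d')] A := by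
  obtain ⟨e, he⟩ := weyl (S := S) (ρ := ρ) (ψ := ψ) (l := [(r, c), (s, d)]) i (by simpa using h.1.2.2) h.2
  obtain ⟨⟨rfl, rfl, -⟩, -⟩ := h
  exact ⟨_, mul_ne_zero (e r).ne_zero hc, _, mul_ne_zero (e s).ne_zero hd, he⟩

variable [CharP F 3]

omit [FiniteDimensional ℂ V] in
theorem Ok3.mem (h : Ok3 r s A) {v : V} (hv : ∀ r ∈ A, v ∈ Wx ρ ψ (xi S r) 0) {c : F} (h1 : v ∈ Wx ρ ψ (xi S s) c)
    (t : F) : ρ (xi S r t) v ∈ Wx ρ ψ (xi S s) c := by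
  by_cases e : s = r
  · exact Wx_comm (fun u => e ▸ (xi_ad S s).comm u t) h1
  obtain ⟨h2, h3, h4, h5⟩ := h.resolve_left e
  refine mem_Wx.2 fun u => ?_
  rw [← mul_ap, xi_swap S ⟨h2, h3, e, h4, rfl⟩, mul_ap, mul_ap, ← map_smul, ← mem_Wx.1 h1]
  congr 2
  generalize chevG2.commTerms r s = L at h5
  induction L with
  | nil => exact one_ap v
  | cons p L ih =>
    rw [List.map_cons, wd_cons, mul_ap, ih fun p hp => h5 p (List.mem_cons_of_mem _ hp)]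
    rcases h5 p List.mem_cons_self with h | h
    · exact mem_Wx_zero.1 (hv _ h) _
    · rw [(CharP.intCast_eq_zero_iff F 3 _).2 h, zero_mul, zero_mul, xi_zero, one_ap]

theorem Chk.mem (h : Chk r (l.map Prod.fst) A) (t : F) : xi S r t ∈ Sts ρ (Sp S ρ ψ l A) := fun v hv => by
  rw [mem_Sp] at hv ⊢
  exact ⟨fun p hp => (h.1 _ (List.mem_map_of_mem hp)).mem hv.2 (hv.1 p hp) t, fun s hs => (h.2 s hs).mem hv.2 (hv.2 s hs) t⟩

variable [Fintype F] [DecidableEq F] (hψ : ψ ≠ 1)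
include hψ

theorem dm_split (h : Chk r (l.map Prod.fst) A ∧ insert r A = B) :
    dm S ρ ψ l A = dm S ρ ψ l B + ∑ c : Fˣ, dm S ρ ψ ((r, c) :: l) A := by
  rw [dm, (xi_ad S r).finrank_eq_sum ρ hψ h.1.mem, sum_eq_add_units]
  rw [Sp_cons, Sp_zero, h.2]
  exact congrArg _ (sum_congr rfl fun c _ => by rw [Sp_cons, dm])

theorem dm_split' (h : Chk r (l.map Prod.fst) A ∧ insert r A = B) {n : ℕ} (h' : ∀ c ≠ 0, dm S ρ ψ ((r, c) :: l) A = n) :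
    dm S ρ ψ l A = dm S ρ ψ l B + (Fintype.card F - 1) * n := by
  rw [dm_split hψ h, sum_congr rfl fun (c : Fˣ) _ => h' c c.ne_zero, sum_const, card_univ, Fintype.card_units, smul_eq_mul]

omit [DecidableEq F] in
theorem dm_heis (h : (Chk r (l.map Prod.fst) A ∧ Chk s (l.map Prod.fst) A) ∧ insert s A = B)
    (h' : ∀ e, ∃ t, ∀ u, ∀ v ∈ Sp S ρ ψ l A, ρ (xi S s u) (ρ (xi S r t) v) = ψ (u * e) • ρ (xi S r t) (ρ (xi S s u) v)) :
    dm S ρ ψ l A = Fintype.card F * dm S ρ ψ l B := by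
  rw [dm, heis_mul hψ (xi_ad S s) h.1.2.mem (fun e => (h' e).elim fun t ht => ⟨_, h.1.1.mem t, ht⟩) 0, Sp_cons,
    Sp_zero, h.2]; rfl

omit [DecidableEq F] in
theorem heis9 (h : (Chk 7 (l.map Prod.fst) A ∧ Chk 8 (l.map Prod.fst) A) ∧ insert 8 A = B) (h' : (9, 1) ∈ l) :
    dm S ρ ψ l A = Fintype.card F * dm S ρ ψ l B := dm_heis hψ h fun e => ⟨-e, fun u v hv => by
  have := swG23_8_7 S (-e) u 1
  simp only [mul_one] at this
  rw [← mul_ap, this, mul_ap, mul_ap, mem_Wx.1 ((mem_Sp.1 hv).1 _ h'), map_smul, map_smul]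
  congr 2; ring⟩

omit [DecidableEq F] hψ [Fintype F] [FiniteDimensional ℂ V] in
theorem sh11 (h' : (11, 1) ∈ l) (e u : F) (v : V) (hv : v ∈ Sp S ρ ψ l A) :
    ρ (xi S 10 u) (ρ (xi S 6 (-e)) v) = ψ (u * e) • ρ (xi S 6 (-e)) (ρ (xi S 10 u) v) := by
  have := swG23_10_6 S (-e) u 1
  simp only [mul_one] at this
  rw [← mul_ap, this, mul_ap, mul_ap, mem_Wx.1 ((mem_Sp.1 hv).1 _ h'), map_smul, map_smul]
  congr 2; ring

omit [DecidableEq F] hψ [Fintype F] [FiniteDimensional ℂ V] [CharP F 3] in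
theorem sh6 {c d : F} (t u : F) (v : V) (hv : v ∈ Sp S ρ ψ [(8, c), (10, d)] {9, 11}) :
    ρ (xi S 6 u) (ρ (xi S 7 t) v) = ψ (u * (t * c - t ^ 3 * d)) • ρ (xi S 7 t) (ρ (xi S 6 u) v) := by
  simp only [mem_Sp, List.forall_mem_cons, forall_mem_insert, mem_singleton, forall_eq] at hv
  rw [← mul_ap, xi_swap S (L := [(8, -1, 1, 1), (9, 1, 2, 1), (10, 1, 3, 1), (11, 1, 3, 2)]) (by decide +kernel)]
  simp only [List.map, wd_cons, wd_nil, mul_ap, one_ap, mem_Wx_zero.1 hv.2.1, mem_Wx_zero.1 hv.2.2, mem_Wx.1 hv.1.1,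
    mem_Wx.1 hv.1.2.1, map_smul, smul_smul, ← AddChar.map_add_eq_mul]
  congr 2; push_cast; ring

omit hψ [DecidableEq F] [CharP F 3] in
theorem exists_ne3 (hq : 3 < Fintype.card F) : ∃ d : F, d ≠ 0 ∧ d ≠ 1 ∧ d ≠ -1 := by
  obtain ⟨d, hd⟩ := exists_pow_ne F (n := 3) (by norm_num) (by rwa [Nat.card_eq_fintype_card])
  exact ⟨d, by rintro rfl; simp at hd, by rintro rfl; simp at hd, by rintro rfl; norm_num at hd⟩

theorem K_eq {c d : F} (hc : c ≠ 0) (hd : d ≠ 0) :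
    dm S ρ ψ [(9, c), (11, d)] {10} = Fintype.card F * dm S ρ ψ [(9, 1), (10, 1)] {8, 11} := by
  obtain ⟨c', hc', d', hd', he⟩ := weyl2 (S := S) (ρ := ρ) (ψ := ψ) (r := 9) (s := 10) (r' := 9) (s' := 11) (A := {11})
    (B := {10}) ⟨1, by decide⟩ (by decide +kernel) hc hd
  exact he.trans ((tor2 ⟨8, by decide⟩ ⟨5, by decide⟩ (by decide +kernel) hc' hd').trans
    (heis9 hψ (l := [(9, 1), (10, 1)])
      (by decide +kernel : (Chk 7 [9, 10] {11} ∧ Chk 8 [9, 10] {11}) ∧ insert 8 {11} = {8, 11}) (by simp)))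

theorem K_eq' {c : F} (hc : c ≠ 0) : dm S ρ ψ [(8, c), (11, 1)] {9, 10} = dm S ρ ψ [(9, 1), (10, 1)] {8, 11} := by
  obtain ⟨c', hc', d', hd', he⟩ := weyl2 (S := S) (ρ := ρ) (ψ := ψ) (r := 9) (s := 11) (r' := 8) (s' := 11) (A := {8})
    (B := {9}) ⟨0, by decide⟩ (by decide +kernel) hc one_ne_zero
  have h1 := he.trans (tor2 ⟨7, by decide⟩ ⟨6, by decide⟩ (by decide +kernel) hc' hd')
  have h2 := K_eq (S := S) (ρ := ρ) hψ one_ne_zero one_ne_zero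
  rw [heis9 hψ (l := [(9, 1), (11, 1)])
    (by decide +kernel : (Chk 7 [9, 11] {10} ∧ Chk 8 [9, 11] {10}) ∧ insert 8 {10} = {8, 10}) (by simp)] at h2
  rw [dm_heis hψ (l := [(9, 1), (11, 1)])
    (by decide +kernel : (Chk 6 [9, 11] {8} ∧ Chk 10 [9, 11] {8}) ∧ insert 10 {8} = {8, 10})
    fun e => ⟨_, sh11 (by simp) e⟩, h2] at h1
  exact Nat.eq_of_mul_eq_mul_left Fintype.card_pos ((dm_heis hψ (l := [(8, c), (11, 1)])
    (by decide +kernel : (Chk 6 [8, 11] {9} ∧ Chk 10 [8, 11] {9}) ∧ insert 10 {9} = {9, 10})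
    fun e => ⟨_, sh11 (by simp) e⟩).symm.trans h1)

theorem K_pos (hq : 3 < Fintype.card F) (h : 1 ≤ finrank ℂ (Wx ρ ψ (xi S 11) 1)) :
    1 ≤ dm S ρ ψ [(9, 1), (10, 1)] {8, 11} := by
  by_contra h0
  replace h0 : dm S ρ ψ [(9, 1), (10, 1)] {8, 11} = 0 := by omega
  have a1 : ∀ c ≠ 0, ∀ d ≠ 0, dm S ρ ψ [(9, c), (11, d)] ∅ = 0 := fun c hc d hd => by
    rw [tor2 ⟨7, by decide⟩ ⟨6, by decide⟩ (by decide +kernel) hc hd, dm_heis hψ (l := [(9, 1), (11, 1)])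
      (by decide +kernel : (Chk 6 [9, 11] ∅ ∧ Chk 10 [9, 11] ∅) ∧ insert 10 ∅ = {10}) fun e => ⟨_, sh11 (by simp) e⟩,
      K_eq hψ one_ne_zero one_ne_zero, h0, mul_zero, mul_zero]
  have a2 : ∀ c ≠ 0, ∀ d ≠ 0, dm S ρ ψ [(8, c), (11, d)] ∅ = 0 := fun c hc d hd => by
    obtain ⟨c', hc', d', hd', he⟩ := weyl2 (S := S) (ρ := ρ) (ψ := ψ) (r := 9) (s := 11) (r' := 8) (s' := 11) (A := ∅)
      (B := ∅) ⟨0, by decide⟩ (by decide +kernel) hc hd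
    exact he.trans (a1 _ hc' _ hd')
  have a3 : ∀ c ≠ 0, ∀ d ≠ 0, dm S ρ ψ [(7, c), (10, d)] ∅ = 0 := fun c hc d hd => by
    obtain ⟨c', hc', d', hd', he⟩ := weyl2 (S := S) (ρ := ρ) (ψ := ψ) (r := 8) (s := 11) (r' := 7) (s' := 10) (A := ∅)
      (B := ∅) ⟨1, by decide⟩ (by decide +kernel) hc hd
    exact he.trans (a2 _ hc' _ hd')
  have a4 : ∀ r s, Chk r [s] ∅ → (∀ c ≠ 0, ∀ d ≠ 0, dm S ρ ψ [(r, c), (s, d)] ∅ = 0) → ∀ d ≠ 0,
      ∀ v ∈ Wx ρ ψ (xi S s) d, ∀ t, ρ (xi S r t) v = v := fun r s h1 h2 d hd v hv => mem_Wx_zero.1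
    ((xi_ad S r).induction ρ hψ (W := Sp S ρ ψ [(s, d)] ∅) (Chk.mem h1) (fun c w hw hw' => by
      by_cases hc : c = 0
      · exact hc ▸ hw'
      rw [show w = 0 from (Submodule.finrank_eq_zero.1 (h2 c hc d hd)).le (by rw [← Sp_cons]; exact ⟨hw, hw'⟩)]
      exact zero_mem _) (by simpa [mem_Sp] using hv))
  obtain ⟨d, d0, d1, d2⟩ := exists_ne3 hq
  have a5 := heis_mul hψ (xi_ad S 10) (N := Sp S ρ ψ [(11, 1)] ∅) (Chk.mem (by decide +kernel : Chk 10 [11] _))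
    (fun e => ⟨_, Chk.mem (by decide +kernel : Chk 6 [11] _) _, sh11 (by simp) e⟩) d
  rw [show Sp S ρ ψ [(11, 1)] ∅ = Wx ρ ψ (xi S 11) 1 by ext; simp [mem_Sp]] at a5
  obtain ⟨v, ⟨b1, b2⟩, v0⟩ := exists_of_finrank (right_ne_zero_of_mul (a5 ▸ Nat.one_le_iff_ne_zero.1 h))
  have b3 := (stG2 S).shift d3_fin 1 (stG2_02 S ▸ b1) (stG2_12 S ▸ b2)
  rw [stG2_01, stG2_12, one_mul] at b3
  obtain ⟨t, ht⟩ := exists_char_ne hψ (mt eq_neg_of_add_eq_zero_left d2)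
  obtain ⟨u, rfl⟩ : ∃ u, u ^ 3 = t := surjective_frobenius F 3 t
  have b4 := congrArg (ρ · v) (swG23_7_6 S 1 u 1)
  simp only [mul_ap, one_ap, a4 7 10 (by decide +kernel) a3 _ (sub_ne_zero.2 d1) _ b3, mem_Wx.1 b1, mem_Wx.1 b2, map_smul,
    a4 9 11 (by decide +kernel) a1 _ one_ne_zero v b1, a4 8 11 (by decide +kernel) a2 _ one_ne_zero v b1,
    a4 7 10 (by decide +kernel) a3 _ d0 v b2, smul_smul, ← AddChar.map_add_eq_mul] at b4
  refine ht (.trans ?_ (smul_left_injective ℂ (mt ap_eq_zero.1 v0) ((one_smul _ _).trans b4)).symm)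
  congr 1; ring

theorem three_le (hq : 3 < Fintype.card F) {c : F} (hc : c ≠ 0) (h : dm S ρ ψ [(8, c), (10, 1)] {9, 11} ≠ 0) :
    3 ≤ dm S ρ ψ [(8, c), (10, 1)] {9, 11} := by
  obtain ⟨t, ht⟩ : ∃ t, t * c - t ^ 3 * 1 ≠ 0 := by
    by_contra! h
    obtain ⟨d, d0, d1, d2⟩ := exists_ne3 hq
    have := h 1
    have := h d
    grind
  have a1 := (xi_ad S 6).finrank_eq_sum ρ hψ (N := Sp S ρ ψ [(8, c), (10, 1)] {9, 11})
    (Chk.mem (by decide +kernel : Chk 6 [8, 10] _))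
  have a2 := shift_eq (Chk.mem (S := S) (ρ := ρ) (ψ := ψ) (l := [(8, c), (10, 1)]) (by decide +kernel : Chk 7 [8, 10] {9, 11}) t)
    (sh6 t)
  generalize t * c - t ^ 3 * 1 = e at *
  rw [dm, a1] at h ⊢
  obtain ⟨d, -, hd⟩ := exists_ne_zero_of_sum_ne_zero h
  refine le_trans ?_ (sum_le_sum_of_subset (subset_univ {d, d + e, d + e + e}))
  rw [sum_insert (by simp; grind), sum_pair (by simpa)]
  have := a2 d
  have := a2 (d + e)
  omega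

theorem bound_G23 (hq : 9 ≤ Fintype.card F) (h : 1 ≤ finrank ℂ (Wx ρ ψ (xi S 11) 1)) :
    Fintype.card F ^ 4 + Fintype.card F ^ 2 ≤ finrank ℂ V + 2 := by
  have hA := StA.inv_top (ρ := ρ) (A := stG2 S)
  have e0 := hA.dim_total hψ d3_fin
  have e0' := hA.sum_mu hψ d3_fin 0
  rw [sum_eq_add_units, sum_congr rfl fun (c : Fˣ) _ => hA.mu_left d3_fin c.ne_zero one_ne_zero, sum_const, card_univ,
    Fintype.card_units, smul_eq_mul] at e0'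
  rw [finrank_top, mul_add, ← add_assoc, ← e0', stG2_02, stG2_12,
    show ⊤ ⊓ Wx ρ ψ (xi S 11) 0 ⊓ Wx ρ ψ (xi S 10) 0 = Sp S ρ ψ [] {10, 11} by ext; simp [mem_Sp, and_comm],
    show ⊤ ⊓ Wx ρ ψ (xi S 11) 0 ⊓ Wx ρ ψ (xi S 10) 1 = Sp S ρ ψ [(10, 1)] {11} by ext; simp [mem_Sp, and_comm],
    ← dm, ← dm] at e0
  have e1 := dm_split' (S := S) (ρ := ρ) hψ (l := [(10, 1)]) (by decide +kernel : Chk 9 [10] {11} ∧ _ = {9, 11})
    fun c hc => (tor2 ⟨8, by decide⟩ ⟨5, by decide⟩ (by decide +kernel) hc one_ne_zero).trans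
      (heis9 hψ (by decide +kernel : (Chk 7 [9, 10] _ ∧ Chk 8 [9, 10] _) ∧ _ = {8, 11}) (by simp))
  have e2 := (weyl1 (S := S) (ρ := ρ) (ψ := ψ) (s := 10) (B := {9, 11}) ⟨1, by decide⟩ ⟨6, by decide⟩
    (by decide +kernel)).trans (dm_split' hψ (l := [(11, 1)])
      (by decide +kernel : Chk 8 [11] {9, 10} ∧ _ = {8, 9, 10}) fun c hc => K_eq' hψ hc)
  have e3 := dm_split (S := S) (ρ := ρ) hψ (l := [(10, 1)]) (by decide +kernel : Chk 8 [10] {9, 11} ∧ _ = {8, 9, 11})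
  have e4 := dm_split' (S := S) (ρ := ρ) hψ (l := []) (by decide +kernel : Chk 9 [] {10, 11} ∧ _ = {9, 10, 11})
    fun c hc => (tor1 ⟨8, by decide⟩ (by decide +kernel) hc).trans
      (heis9 hψ (by decide +kernel : (Chk 7 [9] _ ∧ Chk 8 [9] _) ∧ _ = {8, 10, 11}) (by simp))
  have e4' := dm_split' (S := S) (ρ := ρ) hψ (l := []) (by decide +kernel : Chk 8 [] {9, 10, 11} ∧ _ = {8, 9, 10, 11})
    fun c hc => tor1 ⟨6, by decide⟩ (by decide +kernel) hc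
  have e5 := (dm_split (S := S) (ρ := ρ) hψ (l := [(8, 1)])
    (by decide +kernel : Chk 10 [8] {9, 11} ∧ _ = {9, 10, 11})).symm.trans
    ((weyl1 (r := 9) ⟨0, by decide⟩ ⟨8, by decide⟩ (by decide +kernel)).trans (dm_split' hψ (l := [(9, 1)])
      (by decide +kernel : Chk 10 [9] {8, 11} ∧ _ = {8, 10, 11}) fun c hc =>
        (dm_swap _ _).trans (tor2 ⟨8, by decide⟩ ⟨5, by decide⟩ (by decide +kernel) one_ne_zero hc)))
  have e6 := dm_heis (S := S) (ρ := ρ) hψ (l := [(10, 1)])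
    (by decide +kernel : (Chk 7 [10] {8, 9, 11} ∧ Chk 6 [10] _) ∧ _ = {6, 8, 9, 11}) fun e => by
      obtain ⟨t, rfl⟩ : ∃ t, (-t) ^ 3 = e := (surjective_frobenius F 3 e).elim fun t h => ⟨-t, by rwa [neg_neg]⟩
      refine ⟨t, fun u v hv => (sh6 (c := 0) (d := 1) t u v (by rwa [Sp_zero])).trans ?_⟩
      congr 2; ring
  rw [weyl1 (r := 6) (s := 10) (B := {6, 8, 9, 11}) (A := {8, 9, 10, 11}) ⟨0, by decide⟩ ⟨11, by decide⟩ (by decide +kernel)] at e6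
  have e6' := dm_heis (S := S) (ρ := ρ) hψ (l := [(8, 1)])
    (by decide +kernel : (Chk 6 [8] {9, 10, 11} ∧ Chk 7 [8] _) ∧ _ = {7, 9, 10, 11}) fun e => ⟨-e, fun u v hv => by
      have := swG23_7_6 S (-e) u 1
      simp only [mem_Sp, List.forall_mem_cons, forall_mem_insert, mem_singleton, forall_eq] at hv
      rw [← mul_ap, ← mul_one (xi S 6 _), this]
      simp only [mul_ap, one_ap, mem_Wx_zero.1 hv.2.1, mem_Wx_zero.1 hv.2.2.1, mem_Wx_zero.1 hv.2.2.2, mem_Wx.1 hv.1.1,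
        map_smul]
      congr 2; ring⟩
  rw [weyl1 (r := 7) (s := 8) (B := {7, 9, 10, 11}) (A := {8, 9, 10, 11}) ⟨1, by decide⟩ ⟨9, by decide⟩ (by decide +kernel),
    dm_split' hψ (l := [(7, 1)]) (by decide +kernel : Chk 6 [7] {8, 9, 10, 11} ∧ _ = {6, 8, 9, 10, 11}) fun c hc =>
      tor2 ⟨11, by decide⟩ ⟨9, by decide⟩ (by decide +kernel) hc one_ne_zero] at e6'
  have e7 := dm_split' (S := S) (ρ := ρ) hψ (l := [])
    (by decide +kernel : Chk 6 [] {8, 9, 10, 11} ∧ _ = {6, 8, 9, 10, 11}) fun c hc =>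
      tor1 ⟨11, by decide⟩ (by decide +kernel) hc
  rw [dm_split' hψ (l := []) (by decide +kernel : Chk 7 [] {6, 8, 9, 10, 11} ∧ _ = {6, 7, 8, 9, 10, 11}) fun c hc =>
      tor1 ⟨9, by decide⟩ (by decide +kernel) hc] at e7
  have e8 : (∑ c : Fˣ, dm S ρ ψ [(8, c), (10, 1)] {9, 11} = 0 ∧ ∑ c : Fˣ, dm S ρ ψ [(10, c), (8, 1)] {9, 11} = 0) ∨
      (Fintype.card F - 1) * 3 ≤ 2 * ∑ c : Fˣ, dm S ρ ψ [(8, c), (10, 1)] {9, 11} := by
    by_cases h1 : ∀ c : Fˣ, dm S ρ ψ [(8, c), (10, 1)] {9, 11} = 0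
    · refine Or.inl ⟨sum_eq_zero fun c _ => h1 c, sum_eq_zero fun c _ => ?_⟩
      rw [dm_swap, ← h1 c, ← dm_h ⟨5, by decide⟩ c (m := -1) (n := 1) (by decide +kernel) c 1]
      simp
    push Not at h1
    obtain ⟨c, hc⟩ := h1
    refine Or.inr ?_
    rw [← Fintype.card_units, ← card_univ, ← smul_eq_mul, ← sum_const, mul_sum,
      ← sum_fiberwise univ fun x : Fˣ => x ^ 2 * c]
    refine sum_le_sum fun d _ => ?_
    rcases (univ.filter fun x : Fˣ => x ^ 2 * c = d).eq_empty_or_nonempty with e | ⟨x, hx⟩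
    · simp [e]
    obtain rfl := (mem_filter.1 hx).2
    rw [sum_const, smul_eq_mul]
    refine Nat.mul_le_mul ((card_le_card (t := {x, -x}) fun y hy => ?_).trans card_le_two) ?_
    · simpa [Units.ext_iff, sq_eq_sq_iff_eq_or_eq_neg] using hy
    · rw [← dm_h ⟨8, by decide⟩ x (m := 2) (n := 0) (by decide +kernel)] at hc
      simpa using three_le hψ (by omega) (by simp) (by simpa using hc)
  have e9 := K_pos hψ (by omega) h
  rw [e0, e4, e4', e7, e1, e2]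
  rw [e2, e6] at e3
  rw [e6'] at e5 ⊢
  generalize dm S ρ ψ [(9, 1), (10, 1)] {8, 11} = K at *
  generalize dm S ρ ψ [(11, 1)] {8, 9, 10} = r at *
  generalize dm S ρ ψ [(9, 1)] {8, 10, 11} = s at *
  generalize dm S ρ ψ [(6, 1)] {8, 9, 10, 11} = b at *
  generalize dm S ρ ψ [(7, 1)] {6, 8, 9, 10, 11} = a at *
  generalize dm S ρ ψ [(6, 1), (7, 1)] {8, 9, 10, 11} = m at *
  generalize dm S ρ ψ [] {6, 7, 8, 9, 10, 11} = z at *
  generalize ∑ c : Fˣ, dm S ρ ψ [(8, c), (10, 1)] {9, 11} = x at *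
  generalize ∑ c : Fˣ, dm S ρ ψ [(10, c), (8, 1)] {9, 11} = y at *
  generalize Fintype.card F = q at *
  clear e0 e0' e1 e2 e4 e4' e6 e6' e7
  obtain ⟨n, rfl⟩ : ∃ n, q = n + 9 := ⟨q - 9, by omega⟩
  simp only [show n + 9 - 1 = n + 8 from rfl] at *
  obtain ⟨K, rfl⟩ := Nat.exists_eq_add_of_le' e9
  rcases K with _ | K
  swap
  · ring_nf; omega
  by_cases h1 : 4 ≤ r
  · obtain ⟨r, rfl⟩ := Nat.exists_eq_add_of_le' h1
    ring_nf; omega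
  obtain ⟨rfl, rfl⟩ := e8.resolve_right (by omega)
  obtain rfl : b = 1 := by
    rcases b with _ | _ | b
    · omega
    · rfl
    · ring_nf at e3; omega
  obtain rfl : r = 1 := by omega
  rcases s with _ | _ | s
  · exact absurd (Nat.le_of_dvd (by omega) ⟨_, e5.symm⟩) (by omega)
  · have e : a + (n + 8) * m = 1 := Nat.eq_of_mul_eq_mul_left (show 0 < n + 9 by omega) (by omega)
    obtain rfl : m = 0 := by
      rcases m with _ | m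
      · rfl
      · ring_nf at e; omega
    obtain rfl : a = 1 := by omega
    ring_nf; omega
  · obtain ⟨u, hu⟩ : ∃ u, a + (n + 8) * m = u + 2 := Nat.exists_eq_add_of_le'
      (Nat.lt_of_mul_lt_mul_left (a := n + 9) (by omega))
    rw [hu]; ring_nf; omega

end Cfsg.Agent.Forms
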