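import Cfsg.Agent.Forms.OnePar
import Cfsg.Agent.Polar.SpRep

/-!
Representations of a finite symplectic group of odd characteristic in which all weights of the
Siegel radical have rank at most one satisfy the relations of the even part of the Heisenberg
algebra.
-/

set_option autoImplicit false

namespace Cfsg.Agent.Forms

open Module Finset Cfsg.Agent.Polar Cfsg.Agent.Polar.PQ

variable {F : Type*} [Field F] {V : Type*} [AddCommGroup V] [Module F V] {P : PQ (spFP F) V}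
  {M : Type*} [AddCommGroup M] [Module ℂ M] (ρ : Representation ℂ P.EG M) {ψ : AddChar F ℂ}

/-- Transvection groups. -/
noncomputable def tv (u : V) (c : F) : End ℂ M := ρ (P.ee u 0 c)

/-- Long root groups of the Siegel radical. -/
noncomputable def sg (a w : V) (s : F) : End ℂ M := ρ (P.ee a (s • w) 0)

theorem op_tv (u : V) : OP (tv ρ u) where
  zero := by rw [tv, ee_zero, map_one]
  add c d := by
    rw [tv, tv, tv, ← map_mul, (sp_eOk (by simp) c).ee_mul (sp_eOk (by simp) d)]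
    simp

variable {ρ}

theorem op_sg {a w : V} (h : P.B w a = 0) : OP (sg ρ a w) where
  zero := by rw [sg, zero_smul, ee_zero, map_one]
  add c d := by
    rw [sg, sg, sg, ← map_mul, (sp_eOk (by simp [h]) 0).ee_mul (sp_eOk (by simp [h]) 0)]
    simp [add_smul, sp_B_self]

theorem tv_conj (g : P.EG) (u : V) (c : F) :
    ρ g * tv ρ u c = tv ρ ((g : P.Iso) • u) c * ρ g := by
  have := (sp_eOk (P := P) (e := u) (w := 0) (by simp) c).conj_ee g
  rw [smul_zero] at this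
  rw [tv, tv, ← map_mul, ← map_mul, ← this, inv_mul_cancel_right]

theorem ee_comm_tv {a w u : V} (h : P.B w a = 0) (h1 : P.B u a = 0) (h2 : P.B u w = 0) (d c : F) :
    ρ (P.ee a w d) * tv ρ u c = tv ρ u c * ρ (P.ee a w d) := by
  rw [tv_conj, coe_ee, (sp_eOk h d).eich_smul_of_perp₂ h1 h2]

theorem ee_comm_tv_self {a w : V} (h : P.B w a = 0) (d c : F) :
    ρ (P.ee a w d) * tv ρ a c = tv ρ a c * ρ (P.ee a w d) := by
  rw [tv_conj, coe_ee, (sp_eOk h d).eich_smul_e]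

theorem tv_comm_tv {u v : V} (h : P.B v u = 0) (d c : F) :
    tv ρ u d * tv ρ v c = tv ρ v c * tv ρ u d := ee_comm_tv (by simp) h (by simp) d c

theorem ee_eq_mul {a w : V} (h : P.B w a = 0) (c : F) :
    ρ (P.ee a w c) = ρ (P.ee a w 0) * tv ρ a c := by
  rw [tv, ← map_mul, (sp_eOk h 0).ee_mul (sp_eOk (by simp) c)]
  simp

theorem tv_smul (s : F) (u : V) (c : F) : tv ρ (s • u) c = tv ρ u (s * s * c) := by
  have := (sp_eOk (P := P) (e := u) (w := 0) (by simp) c).eich_smul_left s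
  rw [smul_zero] at this
  exact congrArg ρ (Subtype.ext this)

theorem tv_neg (u : V) : tv ρ (-u) = tv ρ u := funext fun c => by
  rw [← neg_one_smul F u, tv_smul]
  simp

theorem wt_smul (s : F) {u : V} {x : F} {m : M} (hm : m ∈ Wt ψ (tv ρ u) x) :
    m ∈ Wt ψ (tv ρ (s • u)) (s * s * x) := mem_Wt.2 fun c => by
  rw [tv_smul, mem_Wt.1 hm]
  congr 2
  ring

theorem wt_add {a w : V} (h : P.B w a = 0) {x y z : F} {m : M} (hx : m ∈ Wt ψ (tv ρ a) x)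
    (hy : m ∈ Wt ψ (sg ρ a w) y) (hz : m ∈ Wt ψ (tv ρ w) z) :
    m ∈ Wt ψ (tv ρ (a + w)) (x + y + z) := mem_Wt.2 fun c => by
  have h1 : P.ee (a + w) 0 c = P.ee a (c • w) c * P.ee w 0 c := Subtype.ext (sp_transvec_add h c)
  rw [tv, h1, map_mul, ee_eq_mul (by simp [h]), End.mul_apply, End.mul_apply, ← tv, mem_Wt.1 hz,
    map_smul, mem_Wt.1 hx, map_smul, map_smul, ← sg, mem_Wt.1 hy, smul_smul, smul_smul,
    ← AddChar.map_add_eq_mul, ← AddChar.map_add_eq_mul]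
  congr 2
  ring

theorem wt_sg_neg {a w : V} {y : F} {m : M} (hy : m ∈ Wt ψ (sg ρ a w) y) :
    m ∈ Wt ψ (sg ρ a (-w)) (-y) := mem_Wt.2 fun c => by
  rw [sg, smul_neg, ← neg_smul, ← sg, mem_Wt.1 hy, neg_mul_comm]

variable (ρ ψ) in
/-- All weights of the Siegel radical have rank at most one. -/
def Low : Prop := ∀ a w, P.B w a = 0 → ∀ x y z m, m ≠ 0 → m ∈ Wt ψ (tv ρ a) x →
  m ∈ Wt ψ (sg ρ a w) y → m ∈ Wt ψ (tv ρ w) z → y * y = 4 * x * z

theorem bound_of_not_low [Finite F] [FiniteDimensional F V] [FiniteDimensional ℂ M] (hP : P.ND)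
    {n : ℕ} (hn : finrank F V = 2 * n) (hn2 : 2 ≤ n) (hψ : ψ ≠ 1) (h : ¬Low ρ ψ) :
    (Nat.card F ^ n - 1) * (Nat.card F ^ n - Nat.card F) ≤ 2 * (Nat.card F + 1) * finrank ℂ M := by
  unfold Low at h
  push Not at h
  obtain ⟨a, w, h, x, y, z, m, hm0, hx, hy, hz, hne⟩ := h
  obtain ⟨X, hX, heX, hXm⟩ := exists_totSing hP sp_iso (k := n) (by omega)
    (sp_eOk h 0).totSing_span (le_trans (by
      classical
      have := (finrank_span_finset_le_card (R := F) ({a, w} : Finset V)).trans Finset.card_le_two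
      rwa [Set.finrank, Finset.coe_pair] at this) hn2)
  have ha : a ∈ X := heX (Submodule.subset_span (by simp))
  have hw : w ∈ X := heX (Submodule.subset_span (by simp))
  have hok : ∀ (x y : X) c, P.EOk x y c := fun x y c => sp_eOk (hX.perp _ y.2 _ x.2) c
  have hc : ∀ i j : X × X × F, ρ (P.ee i.1 i.2.1 i.2.2) * ρ (P.ee j.1 j.2.1 j.2.2) =
      ρ (P.ee j.1 j.2.1 j.2.2) * ρ (P.ee i.1 i.2.1 i.2.2) := fun i j => by
    rw [← map_mul, ← map_mul, hX.commute j.1.2 j.2.1.2 (hok _ _ _) fun v hv =>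
      hX.eich_smul i.1.2 (hok _ _ _) (hX.le_perp i.2.1.2) hv]
  have hc1 : ∀ (i : X × X × F) (x : X) c, ρ (P.ee i.1 i.2.1 i.2.2) * tv ρ x c =
      tv ρ x c * ρ (P.ee i.1 i.2.1 i.2.2) := fun i x c => hc i (x, 0, c)
  have hc2 : ∀ (i : X × X × F) (x y : X) c, ρ (P.ee i.1 i.2.1 i.2.2) * sg ρ x y c =
      sg ρ x y c * ρ (P.ee i.1 i.2.1 i.2.2) := fun i x y c => hc i (x, c • y, 0)
  obtain ⟨v, ⟨⟨h1, h2⟩, h3⟩, hv0, hv⟩ := exists_common_eigenvector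
    (fun i : X × X × F => ρ (P.ee i.1 i.2.1 i.2.2)) (fun i j => LinearMap.congr_fun (hc i j))
    (Wt ψ (tv ρ a) x ⊓ Wt ψ (sg ρ a w) y ⊓ Wt ψ (tv ρ w) z)
    (fun i m hm => ⟨⟨map_mem_Wt' (hc1 i ⟨a, ha⟩) hm.1.1,
      map_mem_Wt' (hc2 i ⟨a, ha⟩ ⟨w, hw⟩) hm.1.2⟩, map_mem_Wt' (hc1 i ⟨w, hw⟩) hm.2⟩)
    ((Submodule.ne_bot_iff _).2 ⟨m, ⟨⟨hx, hy⟩, hz⟩, hm0⟩)
  choose χ hχ using hv
  obtain ⟨Q, hQ1, hQ2⟩ := sp_exists_quad (χ := fun x y c => χ (x, y, c)) hX hψ hv0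
    fun x y c => hχ (x, y, c)
  have key : ∀ {i : X × X × F} {b c c' : F}, ρ (P.ee i.1 i.2.1 i.2.2) v = ψ (c * b) • v → χ i = ψ c' →
      ψ (b * c) = ψ c' := fun {i b c c'} h h' => by
    rw [mul_comm, ← h']
    exact smul_left_injective ℂ hv0 (h.symm.trans (hχ i))
  have hQa : x = Q ⟨a, ha⟩ := eq_of_addChar_mul hψ fun c =>
    key (i := (⟨a, ha⟩, 0, c)) (mem_Wt.1 h1 c) (hQ1 _ c)
  have hQw : z = Q ⟨w, hw⟩ := eq_of_addChar_mul hψ fun c =>
    key (i := (⟨w, hw⟩, 0, c)) (mem_Wt.1 h3 c) (hQ1 _ c)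
  have hQy : y = pol Q ⟨a, ha⟩ ⟨w, hw⟩ := eq_of_addChar_mul hψ fun c =>
    key (i := (⟨a, ha⟩, c • (⟨w, hw⟩ : X), 0)) (mem_Wt.1 h2 c) (by
      rw [hQ2, map_smul, smul_eq_mul, mul_comm])
  rw [← hXm]
  refine sp_rep_bound_two (ρ := ρ) hP hX hψ (Q₀ := Q) hv0
    (fun x c => by rw [← hQ1, ← hχ]; rfl) (x := ⟨a, ha⟩) (y := ⟨w, hw⟩) fun h0 => hne ?_
  rw [polar_self', polar_self', ← hQa, ← hQw, ← hQy] at h0
  linear_combination -h0

variable [Fintype F]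

theorem Low.induction (h : Low ρ ψ) (hψ : ψ ≠ 1) {a w : V} (hw : P.B w a = 0) {x : F}
    {N : Submodule ℂ M} (hN : ∀ y z m, m ≠ 0 → m ∈ Wt ψ (tv ρ a) x → m ∈ Wt ψ (sg ρ a w) y →
      m ∈ Wt ψ (tv ρ w) z → y * y = 4 * x * z → m ∈ N) : Wt ψ (tv ρ a) x ≤ N := by
  refine wt_induction hψ (op_tv ρ w) (fun c m hm =>
    map_mem_Wt' (tv_comm_tv (B_swap_zero hw) c) hm) fun z m hm hm' => ?_
  refine wt_induction hψ (op_sg hw) (W := Wt ψ (tv ρ a) x ⊓ Wt ψ (tv ρ w) z) (fun c m hm =>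
    ⟨map_mem_Wt' (ee_comm_tv_self (by simp [hw]) 0) hm.1,
      map_mem_Wt' (ee_comm_tv (by simp [hw]) hw (by simp [sp_B_self]) 0) hm.2⟩)
    (fun y m hm hm' => ?_) ⟨hm, hm'⟩
  by_cases hm0 : m = 0
  · rw [hm0]
    exact N.zero_mem
  · exact hN y z m hm0 hm.1 hm' hm.2 (h a w hw x y z m hm0 hm.1 hm' hm.2)

theorem Low.fixed (h : Low ρ ψ) (hψ : ψ ≠ 1) {a w : V} (hw : P.B w a = 0) (c : F) {m : M}
    (hm : m ∈ Wt ψ (tv ρ a) 0) : ρ (P.ee a w c) m = m := by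
  rw [ee_eq_mul hw, End.mul_apply, mem_Wt.1 hm, mul_zero, AddChar.map_zero_eq_one, one_smul]
  refine h.induction hψ hw (N := LinearMap.eqLocus (ρ (P.ee a w 0)) 1)
    (fun y z m _ _ hy _ h0 => ?_) hm
  have := mem_Wt.1 hy 1
  rwa [sg, mul_zero, zero_mul, mul_self_eq_zero.1 h0, mul_zero, AddChar.map_zero_eq_one, one_smul,
    one_smul] at *

theorem Low.fixed_of_hyp (h : Low ρ ψ) (hψ : ψ ≠ 1) (hP : P.ND) {a b : V} (hab : P.Hyp a b) {m : M}
    (ha : m ∈ Wt ψ (tv ρ a) 0) (hb : m ∈ Wt ψ (tv ρ b) 0) (g : P.EG) : ρ g m = m := by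
  let H : Subgroup P.EG :=
    { carrier := {g | ρ g m = m}
      one_mem' := by simp
      mul_mem' := fun {g h} hg hh => by
        simp only [Set.mem_setOf_eq] at *
        rw [map_mul, End.mul_apply, hh, hg]
      inv_mem' := fun {g} hg => by
        simp only [Set.mem_setOf_eq] at *
        conv_lhs => rw [← hg, ← End.mul_apply, ← map_mul, inv_mul_cancel, map_one, End.one_apply] }
  have key : ∀ a b, P.Hyp a b → m ∈ Wt ψ (tv ρ a) 0 → P.U a ≤ H.map P.EG.subtype := by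
    intro a b hab ha g hg
    obtain ⟨w, -, c, hc, rfl⟩ := hab.mem_U_iff.1 hg
    exact ⟨P.ee a w c, h.fixed hψ hc.perp c ha, rfl⟩
  obtain ⟨k, hk, hk'⟩ := hab.EG_le hP (key a b hab ha) (key b _ hab.swap hb) g.2
  exact (Subtype.ext hk' : k = g) ▸ hk

variable [FiniteDimensional F V]

theorem Low.eq_zero (h : Low ρ ψ) (hψ : ψ ≠ 1) (hP : P.ND) (h3 : 2 < finrank F V)
    (hfix : ∀ m, (∀ g, ρ g m = m) → m = 0) {u v : V} (huv : P.B u v ≠ 0) {D : End ℂ M}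
    (h1 : ∀ a, P.B u a = 0 → P.B v a = 0 → ∀ c, D * tv ρ a c = tv ρ a c * D)
    (h2 : ∀ a, P.B u a = 0 → P.B v a = 0 → ∀ x ≠ 0, ∀ m ∈ Wt ψ (tv ρ a) x, D m = 0) : D = 0 := by
  have key : ∀ a, P.B a u = 0 → P.B a v = 0 → ∀ m, D m ∈ Wt ψ (tv ρ a) 0 := by
    intro a hu hv m
    refine wt_induction hψ (op_tv ρ a) (W := ⊤) (N := (Wt ψ (tv ρ a) 0).comap D)
      (fun _ _ _ => trivial) (fun x m _ hm => ?_) trivial
    by_cases hx : x = 0
    · exact map_mem_Wt' (h1 a (B_swap_zero hu) (B_swap_zero hv)) (hx ▸ hm)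
    · rw [Submodule.mem_comap, h2 a (B_swap_zero hu) (B_swap_zero hv) x hx m hm]
      exact Submodule.zero_mem _
  obtain ⟨a, ha0, hau, hav⟩ := exists_ne_zero_ker₂ (P.B.flip u) (P.B.flip v) h3
  rw [LinearMap.flip_apply] at hau hav
  obtain ⟨y, hy⟩ := hP.exists_eq ha0 1
  have hyp := hyp_of_ne (sp_sing u) (sp_sing v) huv
  obtain ⟨hb1, hb2⟩ := mem_perp_pair.1 (hyp.hproj_mem y)
  rw [B_smul_right, mul_eq_zero, or_iff_right (by simpa using huv)] at hb2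
  refine LinearMap.ext fun m => hfix _ (h.fixed_of_hyp hψ hP (sp_hyp ?_) (key a hau hav m)
    (key _ hb1 hb2 m))
  simp [hproj_apply, hy, hau, hav]

variable (ρ ψ) in
/-- All weights of the transvection groups are halves of squares. -/
def Typed : Prop := ∀ u x m, m ≠ 0 → m ∈ Wt ψ (tv ρ u) x → ∃ r, x = 2⁻¹ * (r * r)

theorem Low.typed (h : Low ρ ψ) (hψ : ψ ≠ 1) (hP : P.ND) (h3 : 2 < finrank F V) (h2 : (2 : F) ≠ 0)
    (hfix : ∀ m, (∀ g, ρ g m = m) → m = 0) [ρ.IsIrreducible] {a₀ : V} {r₀ : F} (hr₀ : r₀ ≠ 0)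
    {m₀ : M} (hm₀ : m₀ ∈ Wt ψ (tv ρ a₀) (2⁻¹ * (r₀ * r₀))) (hm0 : m₀ ≠ 0) : Typed ρ ψ := by
  have hA : ∀ a w, P.B w a = 0 → ∀ r ≠ 0, ∀ z, (¬∃ s, z = 2⁻¹ * (s * s)) →
      ∀ m ∈ Wt ψ (tv ρ a) (2⁻¹ * (r * r)), m ∈ Wt ψ (tv ρ w) z → m = 0 := by
    intro a w hw r hr z hz m hm hm'
    have := h.induction hψ hw (N := LinearMap.ker (prj ψ (tv ρ w) z)) (fun y z' m _ _ _ h1 h4 => by
      classical
      rw [LinearMap.mem_ker, prj_of_mem hψ h1, if_neg]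
      rintro rfl
      refine hz ⟨y / r, ?_⟩
      rw [div_mul_div_comm, h4]
      field_simp
      norm_num) hm
    rwa [LinearMap.mem_ker, prj_self hψ hm'] at this
  intro u x m hm0' hm
  by_contra hx
  have hB : ∀ v, prj ψ (tv ρ u) x * prj ψ (tv ρ v) (2⁻¹ * (r₀ * r₀)) = 0 := by
    intro v
    by_cases huv : P.B u v = 0
    · exact LinearMap.ext fun m => hA v u huv r₀ hr₀ x hx (prj ψ (tv ρ u) x _) (map_mem_Wt'
        (fun c => (prj_comm (tv_comm_tv huv c) x).symm) (prj_mem (op_tv ρ v) _ m))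
        (prj_mem (op_tv ρ u) _ _)
    refine h.eq_zero hψ hP h3 hfix huv (fun a hu hv c => ?_) fun a hu hv s hs m hm => ?_
    · rw [mul_assoc, ← prj_comm (tv_comm_tv hv c), ← mul_assoc, ← prj_comm (tv_comm_tv hu c),
        mul_assoc]
    have h4 : prj ψ (tv ρ v) (2⁻¹ * (r₀ * r₀)) m ∈ Wt ψ (tv ρ a) s :=
      map_mem_Wt' (fun c => (prj_comm (tv_comm_tv hv c) _).symm) hm
    by_cases hs' : ∃ r, s = 2⁻¹ * (r * r)
    · obtain ⟨r, rfl⟩ := hs'
      exact hA a u hu r (by rintro rfl; simp at hs) x hx _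
        (map_mem_Wt' (fun c => (prj_comm (tv_comm_tv hu c) _).symm) h4) (prj_mem (op_tv ρ u) _ _)
    · rw [End.mul_apply, hA v a (B_swap_zero hv) r₀ hr₀ s hs' _ (prj_mem (op_tv ρ v) _ _) h4,
        map_zero]
  let N : Subrepresentation ρ := ⟨⨆ v, Wt ψ (tv ρ v) (2⁻¹ * (r₀ * r₀)), fun g m hm =>
    Submodule.mem_comap.1 (iSup_le (a := Submodule.comap (ρ g) _) (fun v m hm => by
      exact Submodule.mem_iSup_of_mem ((g : P.Iso) • v) (map_mem_Wt' (tv_conj g v) hm)) hm)⟩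
  have hN : N = ⊤ := (eq_bot_or_eq_top N).resolve_left fun h => hm0 (by
    have : m₀ ∈ N.toSubmodule := Submodule.mem_iSup_of_mem _ hm₀
    rwa [h] at this)
  have h5 : N.toSubmodule ≤ LinearMap.ker (prj ψ (tv ρ u) x) := iSup_le fun v m hm => by
    rw [LinearMap.mem_ker, ← prj_self hψ hm, ← End.mul_apply, hB, LinearMap.zero_apply]
  exact hm0' ((prj_self hψ hm).symm.trans (h5 (by rw [hN]; trivial)))

open Classical in
variable (ρ ψ) in
/-- The operators corresponding to the even parts of the Heisenberg operators. -/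
noncomputable def evn (u : V) : End ℂ M :=
  fcal ψ (tv ρ u) fun x => if h : ∃ r, x = 2⁻¹ * (r * r) then ψ h.choose + ψ (-h.choose) else 0

omit [FiniteDimensional F V] in
theorem evn_of_mem (hψ : ψ ≠ 1) (h2 : (2 : F) ≠ 0) {u : V} {r : F} {m : M}
    (hm : m ∈ Wt ψ (tv ρ u) (2⁻¹ * (r * r))) : evn ρ ψ u m = (ψ r + ψ (-r)) • m := by
  have h : ∃ s, 2⁻¹ * (r * r) = 2⁻¹ * (s * s) := ⟨r, rfl⟩
  rw [evn, fcal_of_mem hψ _ hm, dif_pos h]
  rcases mul_self_eq_mul_self_iff.1 (mul_left_cancel₀ (inv_ne_zero h2) h.choose_spec) with h | h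
  · rw [← h]
  · rw [← neg_neg (Exists.choose _), ← h, neg_neg, add_comm]

omit [FiniteDimensional F V] in
theorem evn_neg (u : V) : evn ρ ψ (-u) = evn ρ ψ u := by rw [evn, evn, tv_neg]

omit [FiniteDimensional F V] in
theorem evn_zero (hψ : ψ ≠ 1) (h2 : (2 : F) ≠ 0) : evn ρ ψ 0 = (2 : ℂ) • 1 := by
  refine LinearMap.ext fun m => ?_
  rw [evn_of_mem hψ h2 (r := 0) (mem_Wt.2 fun c => by
    rw [← zero_smul F (0 : V), tv_smul]
    simp [(op_tv ρ 0).zero])]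
  simp [one_add_one_eq_two]

omit [FiniteDimensional F V] in
theorem evn_comm {a u : V} (h : P.B u a = 0) (c : F) :
    tv ρ a c * evn ρ ψ u = evn ρ ψ u * tv ρ a c := fcal_comm (tv_comm_tv h c) _

omit [FiniteDimensional F V] in
theorem Low.evn_eq (h : Low ρ ψ) (hψ : ψ ≠ 1) (h2 : (2 : F) ≠ 0) {a w : V} (hw : P.B w a = 0)
    {r : F} (hr : r ≠ 0) {m : M} (hm : m ∈ Wt ψ (tv ρ a) (2⁻¹ * (r * r))) :
    evn ρ ψ w m = sg ρ a w r⁻¹ m + sg ρ a (-w) r⁻¹ m := by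
  refine h.induction hψ hw (N := LinearMap.eqLocus (evn ρ ψ w) (sg ρ a w r⁻¹ + sg ρ a (-w) r⁻¹))
    (fun y z m _ _ hy hz h0 => ?_) hm
  have h1 : z = 2⁻¹ * (r⁻¹ * y * (r⁻¹ * y)) := by
    rw [mul_mul_mul_comm, h0]
    field_simp
    norm_num
  rw [LinearMap.mem_eqLocus, evn_of_mem hψ h2 (h1 ▸ hz), LinearMap.add_apply, mem_Wt.1 hy,
    mem_Wt.1 (wt_sg_neg hy), add_smul, mul_neg]

omit [Fintype F] [FiniteDimensional F V] in
theorem sg_mul {a u v : V} (hu : P.B u a = 0) (hv : P.B v a = 0) {r : F} (hr : r ≠ 0) {m : M}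
    (hm : m ∈ Wt ψ (tv ρ a) (2⁻¹ * (r * r))) :
    sg ρ a u r⁻¹ (sg ρ a v r⁻¹ m) = ψ (-(2⁻¹ * P.B u v)) • sg ρ a (u + v) r⁻¹ m := by
  rw [← End.mul_apply, sg, sg, ← map_mul, (sp_eOk (by simp [hu]) 0).ee_mul (sp_eOk (by simp [hv]) 0),
    ee_eq_mul (by simp [hu, hv]), End.mul_apply, mem_Wt.1 hm, map_smul, ← smul_add, sg]
  congr 2
  rw [B_smul_left, B_smul_right, sp_swap, RingHom.id_apply]
  field_simp
  ring

theorem Low.evn_mul (h : Low ρ ψ) (ht : Typed ρ ψ) (hψ : ψ ≠ 1) (hP : P.ND) (h3 : 2 < finrank F V)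
    (h2 : (2 : F) ≠ 0) (hfix : ∀ m, (∀ g, ρ g m = m) → m = 0) (u v : V) :
    evn ρ ψ u * evn ρ ψ v =
      ψ (-(2⁻¹ * P.B u v)) • evn ρ ψ (u + v) + ψ (2⁻¹ * P.B u v) • evn ρ ψ (u - v) := by
  by_cases huv : P.B u v = 0
  · have hvu := B_swap_zero huv
    refine wt_ext hψ (op_tv ρ u) fun x m hm => h.induction hψ hvu (N := LinearMap.eqLocus _ _)
      (fun y z m hm0 hx hy hz h0 => ?_) hm
    obtain ⟨r, rfl⟩ := ht _ _ _ hm0 hx
    obtain ⟨s, rfl, rfl⟩ : ∃ s, z = 2⁻¹ * (s * s) ∧ y = r * s := by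
      obtain ⟨s, rfl⟩ := ht _ _ _ hm0 hz
      have : y * y = r * s * (r * s) := by
        rw [h0]
        field_simp
        norm_num
      rcases mul_self_eq_mul_self_iff.1 this with h | h
      · exact ⟨s, rfl, h⟩
      · exact ⟨-s, by ring, by rw [h, mul_neg]⟩
    have h4 := wt_add hvu hx hy hz
    have h5 := wt_add (by simp [hvu]) hx (wt_sg_neg hy) (tv_neg (ρ := ρ) v ▸ hz)
    rw [show 2⁻¹ * (r * r) + r * s + 2⁻¹ * (s * s) = 2⁻¹ * ((r + s) * (r + s)) by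
      field_simp; ring] at h4
    rw [← sub_eq_add_neg u, show 2⁻¹ * (r * r) + -(r * s) + 2⁻¹ * (s * s) =
      2⁻¹ * ((r + -s) * (r + -s)) by field_simp; ring] at h5
    simp only [LinearMap.mem_eqLocus, End.mul_apply, LinearMap.add_apply, LinearMap.smul_apply,
      evn_of_mem hψ h2 hx, evn_of_mem hψ h2 hz, evn_of_mem hψ h2 h4, evn_of_mem hψ h2 h5, huv,
      map_smul, mul_zero, neg_zero, AddChar.map_zero_eq_one, neg_add, neg_neg,
      AddChar.map_add_eq_mul]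
    module
  rw [← sub_eq_zero]
  refine h.eq_zero hψ hP h3 hfix huv (fun a hu hv c => ?_) fun a hu hv x hx m hm => ?_
  · rw [sub_mul, mul_sub, add_mul, mul_add, smul_mul_assoc, smul_mul_assoc, mul_smul_comm,
      mul_smul_comm, evn_comm (by simp [hu, hv]), evn_comm (by simp [hu, hv]), mul_assoc,
      ← evn_comm hv, ← mul_assoc, ← evn_comm hu, mul_assoc]
  by_cases hm0 : m = 0
  · rw [hm0, map_zero]
  obtain ⟨r, rfl⟩ := ht _ _ _ hm0 hm
  have hr : r ≠ 0 := by rintro rfl; simp at hx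
  have h4 : ∀ w, P.B w a = 0 → sg ρ a w r⁻¹ m ∈ Wt ψ (tv ρ a) (2⁻¹ * (r * r)) := fun w hw =>
    map_mem_Wt' (ee_comm_tv_self (by simp [hw]) 0) hm
  have hu' : P.B (-u) a = 0 := by simp [hu]
  have hv' : P.B (-v) a = 0 := by simp [hv]
  rw [LinearMap.sub_apply, End.mul_apply, LinearMap.add_apply, LinearMap.smul_apply,
    LinearMap.smul_apply, h.evn_eq hψ h2 hv hr hm, map_add, h.evn_eq hψ h2 hu hr (h4 _ hv),
    h.evn_eq hψ h2 hu hr (h4 _ hv'), h.evn_eq hψ h2 (by simp [hu, hv]) hr hm,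
    h.evn_eq hψ h2 (by simp [hu, hv]) hr hm, sg_mul hu hv hr hm, sg_mul hu' hv hr hm,
    sg_mul hu hv' hr hm, sg_mul hu' hv' hr hm, neg_add, neg_sub, sub_eq_add_neg u,
    sub_eq_neg_add v]
  simp only [map_neg, LinearMap.neg_apply, mul_neg, neg_neg]
  module

end Cfsg.Agent.Forms
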