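import Mathlib

/-! Norm surjectivity and Hilbert 90 in finite rings with involution. -/

set_option autoImplicit false

namespace Cfsg.Agent.Forms

open Polynomial

theorem field_quad_rep {K : Type*} [Field K] [Finite K] (t n a : K) (hD : t ^ 2 - 4 * n ≠ 0) :
    ∃ x y, x ^ 2 + t * x * y + n * y ^ 2 = a := by
  have := Fintype.ofFinite K
  by_cases h2 : ringChar K = 2
  · obtain ⟨x, hx⟩ := FiniteField.isSquare_of_char_two h2 a
    exact ⟨x, 0, by rw [hx]; ring⟩
  · have h2' : (2 : K) ≠ 0 := Ring.two_ne_zero h2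
    have h4 : (4 : K) ≠ 0 := by
      have : (4 : K) = 2 * 2 := by norm_num
      rw [this]; exact mul_ne_zero h2' h2'
    have hc : -(t ^ 2 - 4 * n) / 4 ≠ 0 := div_ne_zero (neg_ne_zero.2 hD) h4
    obtain ⟨x, y, h⟩ := FiniteField.exists_root_sum_quadratic (f := X ^ 2 - C a)
      (g := C (-(t ^ 2 - 4 * n) / 4) * X ^ 2) (degree_X_pow_sub_C two_pos a)
      (degree_C_mul_X_pow 2 hc) (FiniteField.odd_card_of_char_ne_two h2)
    simp only [eval_sub, eval_pow, eval_X, eval_C, eval_mul] at h
    refine ⟨x - t * y / 2, y, ?_⟩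
    field_simp at h ⊢
    linear_combination h

theorem isUnit_of_forall_max {R : Type*} [CommRing R] {r : R}
    (h : ∀ m : Ideal R, m.IsMaximal → r ∉ m) : IsUnit r := by
  by_contra hr
  obtain ⟨m, hm, hr⟩ := exists_max_ideal_of_mem_nonunits (mem_nonunits_iff.2 hr)
  exact h m hm hr

theorem ring_quad_rep {R : Type*} [CommRing R] [Finite R] (t n a : R) (hD : IsUnit (t ^ 2 - 4 * n))
    (ha : IsUnit a) : ∃ x y, x ^ 2 + t * x * y + n * y ^ 2 = a := by
  have hfin : Finite (MaximalSpectrum R) :=
    Finite.of_injective (fun m : MaximalSpectrum R => (m.asIdeal : Set R))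
      fun m m' h => MaximalSpectrum.ext (SetLike.coe_injective h)
  have h1 : ∀ m : MaximalSpectrum R, ∃ x y : R,
      x ^ 2 + t * x * y + n * y ^ 2 - a ∈ m.asIdeal := by
    intro m
    have := m.isMaximal
    letI := Ideal.Quotient.field m.asIdeal
    have : Finite (R ⧸ m.asIdeal) := Finite.of_surjective _ Ideal.Quotient.mk_surjective
    obtain ⟨x, y, h⟩ := field_quad_rep (Ideal.Quotient.mk m.asIdeal t)
      (Ideal.Quotient.mk m.asIdeal n) (Ideal.Quotient.mk m.asIdeal a) (by
        have := (hD.map (Ideal.Quotient.mk m.asIdeal)).ne_zero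
        simpa [map_ofNat] using this)
    obtain ⟨x, rfl⟩ := Ideal.Quotient.mk_surjective x
    obtain ⟨y, rfl⟩ := Ideal.Quotient.mk_surjective y
    exact ⟨x, y, Ideal.Quotient.eq.1 (by simpa using h)⟩
  choose x y hxy using h1
  have hco : Pairwise (Function.onFun IsCoprime fun m : MaximalSpectrum R => m.asIdeal) :=
    fun _ _ h => MaximalSpectrum.isCoprime_of_ne h
  obtain ⟨x0, hx0⟩ := Ideal.exists_forall_sub_mem_ideal hco x
  obtain ⟨y0, hy0⟩ := Ideal.exists_forall_sub_mem_ideal hco y
  set ν := x0 ^ 2 + t * x0 * y0 + n * y0 ^ 2 - a with hν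
  have hνm : ∀ m : Ideal R, m.IsMaximal → ν ∈ m := by
    intro m hm
    have e : ν = (x ⟨m, hm⟩ ^ 2 + t * x ⟨m, hm⟩ * y ⟨m, hm⟩ + n * y ⟨m, hm⟩ ^ 2 - a) +
        (x0 + x ⟨m, hm⟩ + t * y0) * (x0 - x ⟨m, hm⟩) +
        (t * x ⟨m, hm⟩ + n * (y0 + y ⟨m, hm⟩)) * (y0 - y ⟨m, hm⟩) := by rw [hν]; ring
    rw [e]
    exact m.add_mem (m.add_mem (hxy ⟨m, hm⟩) (m.mul_mem_left _ (hx0 ⟨m, hm⟩)))
      (m.mul_mem_left _ (hy0 ⟨m, hm⟩))
  have hnil : IsNilpotent ν := by
    obtain ⟨k, hk⟩ := IsArtinianRing.isNilpotent_jacobson_bot (R := R)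
    have : ν ∈ Ideal.jacobson (⊥ : Ideal R) :=
      Ideal.mem_sInf.2 fun {m} hm => hνm m hm.2
    have := Ideal.pow_mem_pow this k
    rw [hk] at this
    exact ⟨k, by simpa using this⟩
  have key : ∀ k : ℕ, ∃ x y c, x ^ 2 + t * x * y + n * y ^ 2 = a + ν ^ (k + 1) * c := by
    intro k
    induction k with
    | zero => exact ⟨x0, y0, 1, by rw [hν]; ring⟩
    | succ k ih =>
      obtain ⟨x, y, c, h⟩ := ih
      have hu : IsUnit (a + ν ^ (k + 1) * c) :=
        isUnit_of_forall_max fun m hm hmem => by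
          have h1 : ν ^ (k + 1) * c ∈ m := by
            rw [pow_succ', mul_assoc]; exact m.mul_mem_right _ (hνm m hm)
          exact hm.ne_top (m.eq_top_of_isUnit_mem (by simpa using m.sub_mem hmem h1) ha)
      obtain ⟨w, hw⟩ := hu.exists_right_inv
      obtain ⟨d, hd⟩ := hD.exists_right_inv
      set α := -(d * w) * (2 * n * (x + t * y) - t * (n * y)) with hα
      set β := -(d * w) * (-t * (x + t * y) + 2 * (n * y)) with hβ
      have hαβ : α * (2 * x + t * y) + β * (t * x + 2 * n * y) = 1 := by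
        rw [hα, hβ]
        linear_combination (w * (a + ν ^ (k + 1) * c)) * hd + hw +
          (d * w * (t ^ 2 - 4 * n)) * h
      refine ⟨x - ν ^ (k + 1) * c * α, y - ν ^ (k + 1) * c * β,
        ν ^ k * c ^ 2 * (α ^ 2 + t * α * β + n * β ^ 2), ?_⟩
      linear_combination h - ν ^ (k + 1) * c * hαβ
  obtain ⟨k, hk⟩ := hnil
  obtain ⟨x, y, c, h⟩ := key k
  exact ⟨x, y, by rw [h, pow_succ, hk]; ring⟩

theorem ring_hilbert90 {R : Type*} [CommRing R] [Finite R] (ι : R →+* R) (hι : ∀ r, ι (ι r) = r)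
    (θ y : R) (hθ : IsUnit (θ - ι θ)) (hy : y * ι y = 1) :
    ∃ r, IsUnit r ∧ r = y * ι r := by
  set α := 1 + y with hα
  set β := θ + y * ι θ with hβ
  set K := (Nat.card R).factorial
  set b := 1 - (α * ι α) ^ K with hb
  have h1 : y * ι α = α := by rw [hα, map_add, map_one, mul_add, hy]; ring
  have h2 : y * ι β = β := by
    rw [hβ, map_add, map_mul, hι, mul_add, ← mul_assoc, hy]; ring
  have h3 : ι b = b := by rw [hb, map_sub, map_one, map_pow, map_mul, hι, mul_comm (ι α)]
  refine ⟨α + b * β, isUnit_of_forall_max fun m hm hmem => ?_, ?_⟩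
  · have hK : 0 < K := Nat.factorial_pos _
    by_cases hαm : α ∈ m
    · have e1 : (α * ι α) ^ K ∈ m := m.pow_mem_of_mem (m.mul_mem_right _ hαm) _ hK
      have e2 : β ∈ m := by
        have : β = (α + b * β) - α + (α * ι α) ^ K * β := by rw [hb]; ring
        rw [this]
        exact m.add_mem (m.sub_mem hmem hαm) (m.mul_mem_right _ e1)
      have e3 : θ - ι θ ∈ m := by
        have : θ - ι θ = ι y * (θ * α - β) := by
          rw [hα, hβ]; linear_combination (ι θ - θ) * hy
        rw [this]
        exact m.mul_mem_left _ (m.sub_mem (m.mul_mem_left _ hαm) e2)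
      exact hm.ne_top (m.eq_top_of_isUnit_mem e3 hθ)
    · letI := Ideal.Quotient.field m
      have : Finite (R ⧸ m) := Finite.of_surjective _ Ideal.Quotient.mk_surjective
      have := Fintype.ofFinite (R ⧸ m)
      have e1 : ι α ∉ m := fun h => hαm (h1 ▸ m.mul_mem_left _ h)
      have e2 : Ideal.Quotient.mk m (α * ι α) ≠ 0 := by
        rw [map_mul]
        exact mul_ne_zero (mt Ideal.Quotient.eq_zero_iff_mem.1 hαm)
          (mt Ideal.Quotient.eq_zero_iff_mem.1 e1)
      have e3 : Fintype.card (R ⧸ m) - 1 ∣ K := by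
        refine Nat.dvd_factorial (by have := Fintype.one_lt_card (α := R ⧸ m); omega) ?_
        have := Nat.card_le_card_of_surjective _ (Ideal.Quotient.mk_surjective (I := m))
        rw [Nat.card_eq_fintype_card (α := R ⧸ m)] at this
        omega
      have e4 : b ∈ m := by
        rw [← Ideal.Quotient.eq_zero_iff_mem, hb, map_sub, map_one, map_pow]
        obtain ⟨c, hc⟩ := e3
        rw [hc, pow_mul, FiniteField.pow_card_sub_one_eq_one _ e2, one_pow, sub_self]
      exact hαm (by simpa using m.sub_mem hmem (m.mul_mem_right β e4))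
  · rw [map_add, map_mul, h3]; linear_combination -h1 - b * h2

section Star

variable {M : Type*} [Ring M]

theorem isUnit_subring [Finite M] (R : Subring M) (x : R) (hx : IsUnit (x : M)) : IsUnit x := by
  obtain ⟨u, hu⟩ := hx
  have h0 : 0 < orderOf u := orderOf_pos u
  refine IsUnit.of_pow_eq_one (n := orderOf u) (Subtype.ext ?_) h0.ne'
  rw [SubmonoidClass.coe_pow, ← hu, ← Units.val_pow_eq_pow_val, pow_orderOf_eq_one]; rfl

theorem inv_mem_subring [Finite M] (R : Subring M) (u : Mˣ) (hu : (u : M) ∈ R) :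
    ((u⁻¹ : Mˣ) : M) ∈ R := by
  have h0 : 0 < orderOf u := orderOf_pos u
  have : u⁻¹ = u ^ (orderOf u - 1) := by
    rw [inv_eq_iff_mul_eq_one, ← pow_succ', Nat.sub_add_cancel h0, pow_orderOf_eq_one]
  rw [this, Units.val_pow_eq_pow_val]
  exact R.pow_mem hu _

theorem commute_of_mem_closure {s : Set M} {x c : M} (hx : x ∈ Subring.closure s)
    (hc : ∀ y ∈ s, Commute c y) : Commute c x := by
  have : Subring.closure s ≤ Subring.centralizer {c} :=
    Subring.closure_le.2 fun y hy => by
      simp only [SetLike.mem_coe, Subring.mem_centralizer_iff, Set.mem_singleton_iff, forall_eq]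
      exact (hc y hy).eq
  exact (this hx) c rfl

variable [StarRing M]

theorem star_eq_of_mem_closure {s : Set M} (hcomm : ∀ x ∈ s, ∀ y ∈ s, x * y = y * x)
    (hs : ∀ x ∈ s, star x = x) {x : M} (hx : x ∈ Subring.closure s) : star x = x := by
  induction hx using Subring.closure_induction with
  | mem x hx => exact hs x hx
  | zero => simp
  | one => simp
  | add x y _ _ h1 h2 => rw [star_add, h1, h2]
  | neg x _ h => rw [star_neg, h]
  | mul x y hx hy h1 h2 =>
    rw [star_mul, h1, h2]
    exact (commute_of_mem_closure hx fun z hz =>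
      (commute_of_mem_closure hy fun w hw => hcomm z hz w hw).symm).eq

/-- The norm lemma. -/
theorem exists_star_mul_self [Finite M] (A : Subring M) {a e s : M} (haA : a ∈ A) (heA : e ∈ A)
    (hsA : s ∈ A) (hsA' : star s ∈ A) (ha : star a = a) (he : star e = e) (hee : e * e = e)
    (hae : Commute a e) (has : Commute a s) (hes : Commute e s) (hss : Commute s (star s))
    (h1 : (1 - e) * a = 1 - e) (hau : IsUnit a) (hD : IsUnit ((s - star s) ^ 2 * e + (1 - e))) :
    ∃ z ∈ A, star z * z = a := by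
  have has' : Commute a (star s) := by simpa [ha] using has.star_star
  have hes' : Commute e (star s) := by simpa [he] using hes.star_star
  set t := s + star s with ht
  set n := s * star s with hn
  have hst : Commute s t := (Commute.refl s).add_right hss
  have hsn : Commute s n := (Commute.refl s).mul_right hss
  have hs't : Commute (star s) t := hss.symm.add_right (Commute.refl _)
  have hs'n : Commute (star s) n := hss.symm.mul_right (Commute.refl _)
  have hat : Commute a t := has.add_right has'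
  have han : Commute a n := has.mul_right has'
  have het : Commute e t := hes.add_right hes'
  have hen : Commute e n := hes.mul_right hes'
  have htn : Commute t n := hsn.add_left hs'n
  set S : Set M := {a, e, t, n} with hS
  have hcomm : ∀ x ∈ S, ∀ y ∈ S, x * y = y * x := by
    simp only [hS, Set.mem_insert_iff, Set.mem_singleton_iff, forall_eq_or_imp, forall_eq]
    exact ⟨⟨trivial, hae.eq, hat.eq, han.eq⟩, ⟨hae.symm.eq, trivial, het.eq, hen.eq⟩,
      ⟨hat.symm.eq, het.symm.eq, trivial, htn.eq⟩, han.symm.eq, hen.symm.eq, htn.symm.eq, trivial⟩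
  have hstar : ∀ x ∈ S, star x = x := by
    simp only [hS, Set.mem_insert_iff, Set.mem_singleton_iff, forall_eq_or_imp, forall_eq]
    refine ⟨ha, he, by rw [ht, star_add, star_star, add_comm], by rw [hn, star_mul, star_star]⟩
  letI := Subring.closureCommRingOfComm hcomm
  let a' : Subring.closure S := ⟨a, Subring.subset_closure (by simp [hS])⟩
  let e' : Subring.closure S := ⟨e, Subring.subset_closure (by simp [hS])⟩
  let t' : Subring.closure S := ⟨t, Subring.subset_closure (by simp [hS])⟩
  let n' : Subring.closure S := ⟨n, Subring.subset_closure (by simp [hS])⟩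
  have hee' : e' * e' = e' := Subtype.ext hee
  have hD' : IsUnit ((t' * e' + (1 - e')) ^ 2 - 4 * (n' * e')) := by
    have e1 : (t' * e' + (1 - e')) ^ 2 - 4 * (n' * e') = (t' ^ 2 - 4 * n') * e' + (1 - e') := by
      linear_combination (t' ^ 2 - 2 * t' + 1) * hee'
    rw [e1]
    refine isUnit_subring _ _ ?_
    have e2 : (((t' ^ 2 - 4 * n') * e' + (1 - e') : Subring.closure S) : M) =
        (t ^ 2 - 4 * n) * e + (1 - e) := rfl
    have e3 : t ^ 2 - 4 * n = (s - star s) ^ 2 := by
      rw [ht, hn, sq, sq]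
      have : (4 : M) = 1 + 1 + 1 + 1 := by norm_num
      simp only [this, add_mul, mul_add, sub_mul, mul_sub, one_mul, ← hss.eq]
      abel
    rw [e2, e3]; exact hD
  obtain ⟨x, y, hxy⟩ := ring_quad_rep (t' * e' + (1 - e')) (n' * e') a' hD'
    (isUnit_subring _ _ hau)
  have h1' : (1 - e') * a' = 1 - e' := Subtype.ext h1
  have hcl : Subring.closure S ≤ A := Subring.closure_le.2 (by
    rintro w (rfl | rfl | rfl | rfl)
    · exact haA
    · exact heA
    · exact A.add_mem hsA hsA'
    · exact A.mul_mem hsA hsA')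
  set u : Subring.closure S := (1 - e') + e' * x with hu
  set v : Subring.closure S := e' * y with hv
  have key : u ^ 2 + t' * u * v + n' * v ^ 2 = a' := by
    rw [hu, hv]
    linear_combination e' * hxy - h1' + (1 - 2 * x + x ^ 2 - t' * y + x * y + n' * y ^ 2 -
      n' * y ^ 2) * hee'
  have hsu : Commute s (u : M) := commute_of_mem_closure u.2 (by
    rintro w (rfl | rfl | rfl | rfl)
    exacts [has.symm, hes.symm, hst, hsn])
  have hsv : Commute s (v : M) := commute_of_mem_closure v.2 (by
    rintro w (rfl | rfl | rfl | rfl)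
    exacts [has.symm, hes.symm, hst, hsn])
  have hs'u : Commute (star s) (u : M) := commute_of_mem_closure u.2 (by
    rintro w (rfl | rfl | rfl | rfl)
    exacts [has'.symm, hes'.symm, hs't, hs'n])
  have hs'v : Commute (star s) (v : M) := commute_of_mem_closure v.2 (by
    rintro w (rfl | rfl | rfl | rfl)
    exacts [has'.symm, hes'.symm, hs't, hs'n])
  have huv : (v : M) * u = u * v := congrArg Subtype.val (mul_comm v u)
  refine ⟨u + s * v, A.add_mem (hcl u.2) (A.mul_mem hsA (hcl v.2)), ?_⟩
  have key' : (u : M) ^ 2 + t * u * v + n * v ^ 2 = a := congrArg Subtype.val key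
  rw [star_add, star_mul, star_eq_of_mem_closure hcomm hstar u.2,
    star_eq_of_mem_closure hcomm hstar v.2, ← key', ht, hn, ← hs'v.eq, hss.eq]
  simp only [add_mul, mul_add, sq, mul_assoc]
  rw [← mul_assoc (u : M) s, ← hsu.eq, huv, ← mul_assoc (v : M) s, ← hsv.eq]
  simp only [mul_assoc]
  abel

theorem isUnit_of_star_mul_self [Finite M] {z : M} (h : IsUnit (star z * z)) : IsUnit z :=
  isUnit_of_mul_isUnit_right h

/-- Conjugate unitary elements are conjugate by a unitary element. -/
theorem exists_unitary_of_conj [Finite M] {g h x e s : M} (hg : star g * g = 1)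
    (hh : star h * h = 1) (hx : IsUnit x) (hxg : x * g = h * x)
    (he : star e = e) (hee : e * e = e) (heg : Commute e g) (hsg : Commute s g)
    (hsg' : Commute (star s) g)
    (hae : Commute (star x * x) e) (has : Commute (star x * x) s) (hes : Commute e s)
    (hss : Commute s (star s)) (h1 : (1 - e) * (star x * x) = 1 - e)
    (hD : IsUnit ((s - star s) ^ 2 * e + (1 - e))) :
    ∃ u, star u * u = 1 ∧ u * g = h * u := by
  have hg' : g * star g = 1 := mul_eq_one_comm.1 hg
  have h2 : star x * h = g * star x := by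
    have := congrArg star hxg
    rw [star_mul, star_mul] at this
    calc star x * h = g * (star g * star x) * h := by rw [← mul_assoc g, hg', one_mul]
      _ = g * star x := by rw [this, mul_assoc, mul_assoc, hh, mul_one]
  have hag : Commute (star x * x) g := by
    change _ * _ = _ * _
    rw [mul_assoc, hxg, ← mul_assoc, h2, mul_assoc]
  have mem : ∀ {w}, Commute w g → w ∈ Subring.centralizer {g} := fun hw _ h => h ▸ hw.symm.eq
  obtain ⟨z, hz, hz'⟩ := exists_star_mul_self (Subring.centralizer {g}) (mem hag) (mem heg)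
    (mem hsg) (mem hsg') (by rw [star_mul, star_star]) he hee hae has hes hss h1
    (hx.star.mul hx) hD
  obtain ⟨z, rfl⟩ := isUnit_of_star_mul_self (hz' ▸ hx.star.mul hx)
  have hzg : Commute (z : M) g := (hz g rfl).symm
  refine ⟨x * (z⁻¹ : Mˣ), ?_, ?_⟩
  · rw [star_mul, mul_assoc, ← mul_assoc (star x), ← hz', mul_assoc, Units.mul_inv, mul_one,
      ← star_mul, Units.mul_inv, star_one]
  · rw [mul_assoc, hzg.units_inv_left.eq, ← mul_assoc, hxg, mul_assoc]

theorem exists_unitary_of_conj_central [Finite M] {g h x θ : M} (hg : star g * g = 1)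
    (hh : star h * h = 1) (hx : IsUnit x) (hxg : x * g = h * x) (hθ : ∀ m, Commute θ m)
    (hθ' : IsUnit (θ - star θ)) : ∃ u, star u * u = 1 ∧ u * g = h * u :=
  exists_unitary_of_conj (e := 1) (s := θ) hg hh hx hxg (star_one _) (mul_one _)
    (Commute.one_left _) (hθ _) (by simpa using (hθ (star g)).star_star) (Commute.one_right _)
    (hθ _).symm (Commute.one_left _) (hθ _) (by simp) (by simpa using hθ'.pow 2)

/-- `x (star x)⁻¹` is conjugate to a unitary element. -/
theorem exists_unitary_conj [Finite M] (A : Subring M) (hA : ∀ w ∈ A, star w ∈ A) {θ : M}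
    (hθA : θ ∈ A) (hθ : ∀ m, Commute θ m) (hθ' : IsUnit (θ - star θ)) (x : Mˣ) (hx : (x : M) ∈ A) :
    ∃ z u : Mˣ, (u : M) ∈ A ∧ star (u : M) * u = 1 ∧ u * z = z * (x * (star x)⁻¹) := by
  have hθs : ∀ m, Commute (star θ) m := fun m => by simpa using (hθ (star m)).star_star
  set y : Mˣ := x * (star x)⁻¹ with hy
  have hxA' : ((x⁻¹ : Mˣ) : M) ∈ A := inv_mem_subring A x hx
  have hyA : (y : M) ∈ A := A.mul_mem hx (inv_mem_subring A _ (hA _ hx))
  set S : Set M := {(y : M), ((y⁻¹ : Mˣ) : M), θ, star θ} with hS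
  have hcomm : ∀ x ∈ S, ∀ y ∈ S, x * y = y * x := by
    simp only [hS, Set.mem_insert_iff, Set.mem_singleton_iff, forall_eq_or_imp, forall_eq]
    exact ⟨⟨trivial, by simp, (hθ _).symm.eq, (hθs _).symm.eq⟩,
      ⟨by simp, trivial, (hθ _).symm.eq, (hθs _).symm.eq⟩,
      ⟨(hθ _).eq, (hθ _).eq, trivial, (hθ _).eq⟩, (hθs _).eq, (hθs _).eq, (hθs _).eq, trivial⟩
  letI := Subring.closureCommRingOfComm hcomm
  have hcm : ∀ r ∈ Subring.closure S, ∀ r' ∈ Subring.closure S, r * r' = r' * r :=
    fun r hr r' hr' => congrArg Subtype.val (mul_comm (⟨r, hr⟩ : Subring.closure S) ⟨r', hr'⟩)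
  have hyS : (y : M) ∈ Subring.closure S := Subring.subset_closure (by simp [hS])
  have hιy : (x : M) * star (y : M) * (x⁻¹ : Mˣ) = (y⁻¹ : Mˣ) := by
    rw [← Units.coe_star, ← Units.val_mul, ← Units.val_mul, hy]
    simp [star_mul]
  have hmem : ∀ r ∈ Subring.closure S, (x : M) * star r * (x⁻¹ : Mˣ) ∈ Subring.closure S := by
    intro r hr
    induction hr using Subring.closure_induction with
    | mem r hr =>
      rcases hr with rfl | rfl | rfl | rfl
      · rw [hιy]; exact Subring.subset_closure (by simp [hS])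
      · have : (x : M) * star ((y⁻¹ : Mˣ) : M) * (x⁻¹ : Mˣ) = y := by
          rw [← Units.coe_star, ← Units.val_mul, ← Units.val_mul, hy]
          simp [star_mul, mul_assoc]
        rw [this]; exact hyS
      · rw [← (hθs _).eq, mul_assoc, Units.mul_inv, mul_one]
        exact Subring.subset_closure (by simp [hS])
      · rw [star_star, ← (hθ _).eq, mul_assoc, Units.mul_inv, mul_one]
        exact Subring.subset_closure (by simp [hS])
    | zero => simp
    | one => simp
    | add r r' _ _ h1 h2 => rw [star_add, mul_add, add_mul]; exact add_mem h1 h2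
    | neg r _ h => rw [star_neg, mul_neg, neg_mul]; exact neg_mem h
    | mul r r' _ _ h1 h2 =>
      have : (x : M) * star (r * r') * (x⁻¹ : Mˣ) =
          (x * star r' * (x⁻¹ : Mˣ)) * (x * star r * (x⁻¹ : Mˣ)) := by
        simp [star_mul, mul_assoc]
      rw [this]; exact mul_mem h2 h1
  let ι : Subring.closure S →+* Subring.closure S :=
    { toFun := fun r => ⟨(x : M) * star (r : M) * (x⁻¹ : Mˣ), hmem _ r.2⟩
      map_one' := Subtype.ext (by simp)
      map_mul' := fun r r' => by
        rw [mul_comm (⟨_, hmem _ r.2⟩ : Subring.closure S)]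
        exact Subtype.ext (by simp [star_mul, mul_assoc])
      map_zero' := Subtype.ext (by simp)
      map_add' := fun r r' => Subtype.ext (by simp [mul_add, add_mul]) }
  have hι : ∀ r : Subring.closure S, (ι r : M) = (x : M) * star (r : M) * (x⁻¹ : Mˣ) :=
    fun _ => rfl
  have hιι : ∀ r, ι (ι r) = r := by
    intro r
    apply Subtype.ext
    have : (ι (ι r) : M) = y * r * (y⁻¹ : Mˣ) := by
      rw [hι, hι, hy]
      simp [star_mul, mul_assoc]
    rw [this, hcm _ hyS _ r.2, mul_assoc, Units.mul_inv, mul_one]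
  obtain ⟨r, hr, hr'⟩ := ring_hilbert90 ι hιι ⟨θ, Subring.subset_closure (by simp [hS])⟩
    ⟨y, hyS⟩ (isUnit_subring _ _ (by
      change IsUnit (θ - (x : M) * star θ * (x⁻¹ : Mˣ))
      rwa [← (hθs _).eq, mul_assoc, Units.mul_inv, mul_one]))
    (Subtype.ext (by change (y : M) * (x * star (y : M) * (x⁻¹ : Mˣ)) = 1; rw [hιy]; simp))
  have hr1 : (r : M) = y * (x * star (r : M) * (x⁻¹ : Mˣ)) := congrArg Subtype.val hr'
  have hrA : (r : M) ∈ A := (Subring.closure_le.2 (by
    rintro w (rfl | rfl | rfl | rfl)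
    exacts [hyA, inv_mem_subring A _ hyA, hθA, hA _ hθA]) : Subring.closure S ≤ A) r.2
  have hru : IsUnit (r : M) := hr.map (Subring.closure S).subtype
  have hsa : star (((x⁻¹ : Mˣ) : M) * r) = (x⁻¹ : Mˣ) * r := by
    conv_rhs => rw [hr1, hcm _ hyS _ (hmem _ r.2), hy]
    simp [star_mul, mul_assoc]
  obtain ⟨z, hz, hz'⟩ := exists_star_mul_self A (e := 1) (A.mul_mem hxA' hrA) A.one_mem hθA
    (hA _ hθA) hsa (star_one _) (mul_one _) (Commute.one_right _) (hθ _).symm
    (Commute.one_left _) (hθ _) (by simp) ((Units.isUnit _).mul hru) (by simpa using hθ'.pow 2)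
  obtain ⟨z, rfl⟩ := isUnit_of_star_mul_self (hz' ▸ (Units.isUnit _).mul hru)
  refine ⟨z, z * y * z⁻¹, A.mul_mem (A.mul_mem hz hyA) (inv_mem_subring A _ hz), ?_, by simp⟩
  have h3 : star (y : M) * (star (z : M) * z) * y = star (z : M) * z := by
    rw [hz', mul_assoc, mul_assoc, ← hcm _ hyS _ r.2, hy]
    simp [star_mul, mul_assoc]
    rw [← mul_assoc, ← star_mul, Units.inv_mul, star_one, one_mul]
  calc star ((z * y * z⁻¹ : Mˣ) : M) * (z * y * z⁻¹ : Mˣ) =
        star ((z⁻¹ : Mˣ) : M) * (star (y : M) * (star (z : M) * z) * y) * (z⁻¹ : Mˣ) := by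
        simp [star_mul, mul_assoc]
    _ = 1 := by
        rw [h3, ← mul_assoc, ← star_mul, Units.mul_inv, star_one, one_mul, Units.mul_inv]

end Star

end Cfsg.Agent.Forms
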