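import Cfsg.Agent.Forms.TwoRank
import Cfsg.Agent.Forms.Weights
import Cfsg.Agent.GLn.Card
import Cfsg.Agent.SymAlt.Automizer
import Cfsg.Prelude.Def_Transfer

/-!
Normal elementary abelian subgroups of Sylow 2-subgroups of linear groups in odd characteristic.
-/

set_option autoImplicit false

namespace Cfsg.Agent.Forms

open Module Finset MulAction
open scoped Pointwise

theorem exists_normal_elem {G D A B : Type*} [Group G] [Finite G] [CommGroup D] [Group A] [Group B] (τ : D →* G)
    (hτ : Function.Injective τ) (hD : ∀ d : D, d ^ 2 = 1) (φ : A →* G) (hφ : Function.Injective φ)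
    (h1 : ∀ a d, τ d * φ a = φ a * τ d) (σ : B →* G) (h2 : ∀ b d, ∃ d', τ d' * σ b = σ b * τ d)
    (h3 : ∀ b, (∀ d, τ d * σ b = σ b * τ d) → b = 1)
    (hv : padicValNat 2 (Nat.card G) ≤ padicValNat 2 (Nat.card A * Nat.card B)) (S : Sylow 2 G) :
    ∃ E : Subgroup S, E.Normal ∧ IsElementaryAbelian 2 E ∧ Nat.card D ≤ Nat.card E := by
  set N := Subgroup.normalizer (τ.range : Set G)
  have c1 : ∀ a, φ a ∈ Subgroup.centralizer (τ.range : Set G) := by rintro a _ ⟨d, rfl⟩; exact h1 a d
  have c2 : ∀ b, σ b ∈ N := fun b => Subgroup.mem_normalizer_fintype (by rintro _ ⟨d, rfl⟩; exact (h2 b d).imp fun _ => eq_mul_inv_of_mul_eq)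
  have c3 : Nat.card A * Nat.card B ∣ Nat.card N := by
    rw [← τ.range.normalizerMonoidHom.ker.card_mul_index, Subgroup.index_ker]
    refine mul_dvd_mul (Subgroup.card_dvd_of_injective ((φ.codRestrict N fun a => Subgroup.centralizer_le_normalizer _ (c1 a)).codRestrict
      _ fun a => by rw [Subgroup.normalizerMonoidHom_ker]; exact c1 a) fun a b h => hφ congr(($h).1.1))
      (Subgroup.card_dvd_of_injective (τ.range.normalizerMonoidHom.rangeRestrict.comp (σ.codRestrict N c2))
        ((injective_iff_map_eq_one _).2 fun b h => h3 b fun d => ?_))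
    have : σ.codRestrict N c2 b ∈ τ.range.normalizerMonoidHom.ker := congrArg Subtype.val h
    rw [Subgroup.normalizerMonoidHom_ker] at this
    exact this _ ⟨d, rfl⟩
  have c4 : ¬ 2 ∣ Nat.card (G ⧸ N) := fun h => by
    have e1 := (padicValNat_dvd_iff_le Nat.card_pos.ne').1 ((pow_padicValNat_dvd (p := 2)).trans c3)
    rw [← N.card_mul_index, padicValNat.mul Nat.card_pos.ne' Subgroup.index_ne_zero_of_finite] at hv
    have := one_le_padicValNat_of_dvd Subgroup.index_ne_zero_of_finite h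
    omega
  obtain ⟨x, hx⟩ := S.2.nonempty_fixed_point_of_prime_not_dvd_card (G ⧸ N) c4
  obtain ⟨g, rfl⟩ := QuotientGroup.mk_surjective x
  let τ' := (MulAut.conj g).toMonoidHom.comp τ
  have c5 : (S : Subgroup G) ≤ Subgroup.normalizer τ'.range := fun s hs => Subgroup.mem_normalizer_fintype (by
    rintro _ ⟨d, rfl⟩
    obtain ⟨d', h⟩ := ((inv_mem (QuotientGroup.eq.1 (hx ⟨s, hs⟩)) : _ ∈ N) (τ d)).1 ⟨d, rfl⟩
    exact ⟨d', by simp [τ', h, mul_assoc]⟩)
  have c6 : IsPGroup 2 τ'.range := by rintro ⟨_, d, rfl⟩; exact ⟨1, Subtype.ext (by simp [← map_pow, hD])⟩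
  have c7 : τ'.range ≤ S := le_sup_left.trans (S.is_maximal' (c6.to_sup_of_normal_left' S.2 c5) le_sup_right).le
  refine ⟨τ'.range.subgroupOf S, Subgroup.normal_subgroupOf_of_le_normalizer c5, ⟨⟨⟨?_⟩⟩, ?_⟩, ?_⟩
  · rintro ⟨x, d, h⟩ ⟨y, d', h'⟩
    exact Subtype.ext (S.1.subtype_injective (by
      rw [Subgroup.coe_mul, Subgroup.coe_mul, map_mul, map_mul, ← h, ← h', ← map_mul, ← map_mul, mul_comm]))
  · rintro x ⟨d, h⟩
    exact S.1.subtype_injective (by rw [map_pow, ← h, ← map_pow, hD, map_one, map_one])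
  · rw [Nat.card_congr (Subgroup.subgroupOfEquivOfLe c7).toEquiv]
    exact (Nat.card_congr (MonoidHom.ofInjective ((MulAut.conj g).injective.comp hτ)).toEquiv).le

theorem v2_pow {Q i : ℕ} (h : Q % 4 = 1) (h1 : 1 < Q) (hi : i ≠ 0) :
    padicValNat 2 (Q ^ i - 1) = padicValNat 2 (Q - 1) + padicValNat 2 i := by
  have := Int.two_pow_sub_pow' (x := Q) (y := 1) i (by omega) (by omega)
  rw [one_pow, ← Nat.cast_pow, ← Nat.cast_pred (by positivity), ← Nat.cast_pred (by omega)] at this
  simp only [← Nat.cast_inj (R := ℕ∞), Nat.cast_add]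
  rw [padicValNat_eq_emultiplicity (Nat.sub_ne_zero_of_lt (Nat.one_lt_pow hi h1)), padicValNat_eq_emultiplicity (by omega),
    padicValNat_eq_emultiplicity hi]
  simpa only [← Int.natCast_emultiplicity, Nat.cast_ofNat] using this

theorem prod_pow_ne {Q : ℕ} (h1 : 1 < Q) (m : ℕ) : ∏ i ∈ range m, (Q ^ (i + 1) - 1) ≠ 0 :=
  prod_ne_zero_iff.2 fun i _ => Nat.sub_ne_zero_of_lt (Nat.one_lt_pow i.succ_ne_zero h1)

theorem v2_prod {Q : ℕ} (h : Q % 4 = 1) (h1 : 1 < Q) (m : ℕ) :
    padicValNat 2 (∏ i ∈ range m, (Q ^ (i + 1) - 1)) = m * padicValNat 2 (Q - 1) + padicValNat 2 m.factorial := by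
  induction m with
  | zero => simp
  | succ m ih => rw [prod_range_succ, padicValNat.mul (prod_pow_ne h1 m) (Nat.sub_ne_zero_of_lt (Nat.one_lt_pow m.succ_ne_zero h1)),
      ih, v2_pow h h1 m.succ_ne_zero, Nat.factorial_succ, padicValNat.mul m.succ_ne_zero m.factorial_ne_zero]; ring

theorem sq_mod_four {q : ℕ} (h : q % 2 = 1) : q ^ 2 % 4 = 1 := by
  rcases show q % 4 = 1 ∨ q % 4 = 3 by omega with h | h <;> simp [Nat.pow_mod, h]

theorem v2_odd {q : ℕ} (h : q % 4 = 3) (m : ℕ) : padicValNat 2 (q ^ (2 * m + 1) - 1) = 1 := by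
  have : q ^ (2 * m + 1) % 4 = 3 := by rw [pow_succ, pow_mul, Nat.mul_mod, Nat.pow_mod, sq_mod_four (by omega), h]; simp
  rw [show q ^ (2 * m + 1) - 1 = 2 * (q ^ (2 * m + 1) / 2) by omega, padicValNat.mul two_ne_zero (by omega),
    padicValNat.self one_lt_two, padicValNat.eq_zero_of_not_dvd (by omega)]

theorem v2_prod' {q : ℕ} (h : q % 4 = 3) (m : ℕ) : padicValNat 2 (∏ i ∈ range (2 * m), (q ^ (i + 1) - 1)) =
    m * (1 + padicValNat 2 (q ^ 2 - 1)) + padicValNat 2 m.factorial := by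
  have h1 : 1 < q := by omega
  induction m with
  | zero => simp
  | succ m ih => rw [mul_add, mul_one, prod_range_succ, prod_range_succ, padicValNat.mul (mul_ne_zero (prod_pow_ne h1 _)
      (Nat.sub_ne_zero_of_lt (Nat.one_lt_pow (by omega) h1))) (Nat.sub_ne_zero_of_lt (Nat.one_lt_pow (by omega) h1)),
      padicValNat.mul (prod_pow_ne h1 _) (Nat.sub_ne_zero_of_lt (Nat.one_lt_pow (by omega) h1)), ih, v2_odd h,
      show 2 * m + 1 + 1 = 2 * (m + 1) by ring, pow_mul, v2_pow (sq_mod_four (by omega)) (Nat.one_lt_pow two_ne_zero h1)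
      m.succ_ne_zero, Nat.factorial_succ, padicValNat.mul m.succ_ne_zero m.factorial_ne_zero]; ring

variable {F : Type*} [Field F]

theorem v2_GL [Fintype F] (h : Odd (Fintype.card F)) (n : ℕ) : padicValNat 2 (Nat.card (GL (Fin n) F)) =
    padicValNat 2 (∏ i ∈ range n, (Fintype.card F ^ (i + 1) - 1)) := by
  rw [GLn.card_GL_eq, padicValNat.mul (by positivity) (prod_pow_ne Fintype.one_lt_card _), padicValNat.eq_zero_of_not_dvd
    (Nat.two_dvd_ne_zero.2 (Nat.odd_iff.1 h.pow)), zero_add]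

/-- Invertible matrices and linear automorphisms. -/
noncomputable def glEquiv {n : ℕ} {V : Type*} [AddCommGroup V] [Module F V] (e : (Fin n → F) ≃ₗ[F] V) :
    GL (Fin n) F ≃* (V ≃ₗ[F] V) :=
  Matrix.GeneralLinearGroup.toLin.trans ((LinearMap.GeneralLinearGroup.congrLinearEquiv e).trans
    (LinearMap.GeneralLinearGroup.generalLinearEquiv F V))

section

variable (κ κ' W W' : Type*) [AddCommGroup W] [Module F W] [AddCommGroup W'] [Module F W']

/-- Block diagonal automorphisms. -/
def blkHom : (κ → W ≃ₗ[F] W) × (κ' → W' ≃ₗ[F] W') →* (((κ → W) × (κ' → W')) ≃ₗ[F] (κ → W) × (κ' → W')) where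
  toFun a := (LinearEquiv.piCongrRight a.1).prodCongr (LinearEquiv.piCongrRight a.2)
  map_one' := rfl
  map_mul' _ _ := rfl

/-- Permuting blocks. -/
def permHom : Equiv.Perm κ →* (((κ → W) × (κ' → W')) ≃ₗ[F] (κ → W) × (κ' → W')) where
  toFun π := (LinearEquiv.funCongrLeft F W π.symm).prodCongr (LinearEquiv.refl _ _)
  map_one' := rfl
  map_mul' _ _ := rfl

theorem blkHom_apply (a : (κ → W ≃ₗ[F] W) × (κ' → W' ≃ₗ[F] W')) (x : (κ → W) × (κ' → W')) :
    blkHom κ κ' W W' a x = (fun i => a.1 i (x.1 i), fun i => a.2 i (x.2 i)) := rfl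

theorem permHom_apply (π : Equiv.Perm κ) (x : (κ → W) × (κ' → W')) :
    permHom (F := F) κ κ' W W' π x = (fun i => x.1 (π.symm i), x.2) := rfl

theorem blkHom_injective : Function.Injective (blkHom (F := F) κ κ' W W') :=
  (injective_iff_map_eq_one _).2 fun a h => Prod.ext
    (funext fun i => LinearEquiv.ext fun w => congr(($h (fun _ => w, 0)).1 i))
    (funext fun i => LinearEquiv.ext fun w => congr(($h (0, fun _ => w)).2 i))

end

theorem sign_injective (h2 : (2 : F) ≠ 0) (W : Type*) [AddCommGroup W] [Module F W] [Nontrivial W] :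
    Function.Injective (DistribMulAction.toModuleAut F W : ℤˣ →* _) := (injective_iff_map_eq_one _).2 fun s h => by
  obtain ⟨w, hw⟩ := exists_ne (0 : W)
  exact (Int.units_eq_one_or s).resolve_right fun e => ne_neg_self h2 hw (by simpa [e] using congr($h w).symm)

theorem gl_normal_elem [Fintype F] (h : Odd (Fintype.card F)) {n d m k : ℕ} (hn : n = m * (d + 1) + k)
    (hv : padicValNat 2 (Nat.card (GL (Fin n) F)) ≤ m * padicValNat 2 (Nat.card (GL (Fin (d + 1)) F)) +
      k * padicValNat 2 (Nat.card (GL (Fin 1) F)) + padicValNat 2 m.factorial) (S : Sylow 2 (GL (Fin n) F)) :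
    ∃ E : Subgroup S, E.Normal ∧ IsElementaryAbelian 2 E ∧ 2 ^ (m + k) ≤ Nat.card E := by
  have h2 := two_ne_zero_of_odd_card h
  let e := (glEquiv (LinearEquiv.ofFinrankEq (R := F) (Fin n → F) ((Fin m → Fin (d + 1) → F) × (Fin k → Fin 1 → F))
    (by simp [hn, finrank_pi_fintype]))).symm
  let t : (Fin m → ℤˣ) × (Fin k → ℤˣ) →* _ := ((DistribMulAction.toModuleAut F (Fin (d + 1) → F)).compLeft (Fin m)).prodMap
    ((DistribMulAction.toModuleAut F (Fin 1 → F)).compLeft (Fin k))
  have hφ := e.injective.comp (blkHom_injective (F := F) (Fin m) (Fin k) (Fin (d + 1) → F) (Fin 1 → F))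
  have ht : Function.Injective t := (sign_injective h2 _).comp_left.prodMap (sign_injective h2 _).comp_left
  simpa [pow_add] using exists_normal_elem ((e.toMonoidHom.comp (blkHom _ _ _ _)).comp t) (hφ.comp ht)
    (fun d => by ext <;> simp [Int.units_sq]) (e.toMonoidHom.comp (blkHom _ _ _ _)) hφ (fun a d => by
      simp only [MonoidHom.comp_apply, ← map_mul]; congr 2; ext <;> simp [t]) (e.toMonoidHom.comp (permHom _ _ _ _))
    (fun b d => ⟨(d.1 ∘ b.symm, d.2), by
      simp only [MonoidHom.comp_apply, ← map_mul]; congr 1; ext <;> simp [t, blkHom_apply, permHom_apply]⟩)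
    (fun b hb => Equiv.ext fun i => by_contra fun hi => by
      have := hb (Pi.mulSingle i (-1), 1)
      simp only [MonoidHom.comp_apply, ← map_mul] at this
      have := congr((($(e.injective this)) (fun _ _ => 1, 0)).1 (b i) 0)
      simp [t, blkHom_apply, permHom_apply, Pi.mulSingle_eq_of_ne (show b i ≠ i from hi)] at this
      exact h2 (by linear_combination this)) (by
      rw [Nat.card_prod, Nat.card_fun, Nat.card_fun, ← Nat.card_congr (glEquiv (.refl _ _)).toEquiv,
        ← Nat.card_congr (glEquiv (.refl _ _)).toEquiv, Nat.card_perm, padicValNat.mul (by simp [Nat.card_pos.ne'])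
        (Nat.factorial_ne_zero _), padicValNat.mul (by simp [Nat.card_pos.ne']) (by simp [Nat.card_pos.ne']),
        padicValNat.pow, padicValNat.pow]
      simpa using hv) S

theorem exists_sqrt_two [Fintype F] (h : Fintype.card F % 4 = 3) : ∃ a δ : F, δ * δ = 1 ∧ a * a = 2 * δ := by
  by_cases h1 : Fintype.card F % 8 = 3
  · obtain ⟨a, ha⟩ := FiniteField.isSquare_neg_two_iff.2 (show Fintype.card F % 8 ≠ 5 ∧ _ ≠ 7 by omega)
    exact ⟨a, -1, by ring, by linear_combination -ha⟩
  · obtain ⟨a, ha⟩ := FiniteField.isSquare_two_iff.2 (show Fintype.card F % 8 ≠ 3 ∧ _ ≠ 5 by omega)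
    exact ⟨a, 1, by ring, by linear_combination -ha⟩

theorem card_le_half [Fintype F] (h : Fintype.card F % 4 = 3) {V : Type*} [AddCommGroup V] [Module F V] [FiniteDimensional F V]
    (S : Sylow 2 (V ≃ₗ[F] V)) {E : Type*} [Group E] (ρ : E →* V ≃ₗ[F] V) (hρ : Function.Injective ρ)
    (hc : ∀ a b : E, a * b = b * a) (hsq : ∀ a : E, a * a = 1) (hS : ∀ s ∈ S, ∀ a, ∃ a', ρ a * s = s * ρ a') :
    Nat.card E ≤ 2 ^ ((finrank F V + 1) / 2) := by
  classical
  have h2 : (2 : F) ≠ 0 := two_ne_zero_of_odd_card (Nat.odd_iff.2 (by omega))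
  have := Module.finite_of_finite F (M := V)
  have : Finite (V ≃ₗ[F] V) := Finite.of_injective _ DFunLike.coe_injective
  let f : E → End F V := fun a => ρ a
  have f1 : ∀ a b x, f a (f b x) = f b (f a x) := fun a b x => congr($(show ρ a * ρ b = ρ b * ρ a by
    rw [← map_mul, hc, map_mul]) x)
  obtain ⟨b, hb⟩ := exists_signBasis h2 f f1 fun a x => congr($(show ρ a * ρ a = 1 by rw [← map_mul, hsq, map_one]) x)
  let χ : Fin (finrank F V) → E → F := fun i a => if f a (b i) = b i then 1 else -1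
  have b1 : ∀ i, b i ∈ wsp f (χ i) := fun i => mem_wsp.2 fun a => by
    simp only [χ]; split_ifs with e; exacts [by simpa using e, by simpa using (hb i a).resolve_left e]
  have b2 : ∀ ψ, ∀ v ∈ wsp f ψ, ∀ i, χ i ≠ ψ → b.repr v i = 0 := fun ψ v hv i hi => by
    obtain ⟨a, ha⟩ := Function.ne_iff.1 hi
    have e : (b.coord i).comp (f a) = χ i a • b.coord i := b.ext fun j => by
      by_cases e : j = i <;> simp [mem_wsp.1 (b1 _) a, e]
    have := congr($e v)
    simp only [LinearMap.comp_apply, mem_wsp.1 hv a, map_smul, LinearMap.smul_apply, smul_eq_mul] at this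
    exact (mul_eq_mul_right_iff.1 this).resolve_left ha.symm
  have b3 : ∀ s ∈ S, ∀ ψ, ∃ ψ', s • wsp f ψ = wsp f ψ' := fun s hs ψ => by
    choose c hc using hS s hs
    choose c' hc' using hS s⁻¹ (inv_mem hs)
    refine ⟨ψ ∘ c, le_antisymm ?_ fun v hv => ⟨s⁻¹ v, mem_wsp.2 fun a => ?_, s.apply_symm_apply v⟩⟩
    · rintro _ ⟨v, hv, rfl⟩
      exact mem_wsp.2 fun a => congr($(hc a) v).trans (by simpa [f] using congrArg s (mem_wsp.1 hv (c a)))
    · have e : c (c' a) = a := hρ (by
        rw [← mul_right_inj s, ← hc, ← mul_right_inj s⁻¹, ← mul_assoc, ← hc', inv_mul_cancel_left, inv_mul_cancel_right])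
      exact congr($(hc' a) v).trans (by simpa [e, f] using congrArg s.symm (mem_wsp.1 hv (c' a)))
  have key : ∀ i j, (∀ k, χ k = χ i → k = i) → (∀ k, χ k = χ j → k = j) → i = j := fun i j hi hj => by_contra fun hij => by
    obtain ⟨a, δ, a1, a2⟩ := exists_sqrt_two h
    have d0 : δ ≠ 0 := left_ne_zero_of_mul_eq_one a1
    have one : ∀ i, (∀ k, χ k = χ i → k = i) → finrank F (wsp f (χ i)) = 1 := fun i hi =>
      finrank_eq_one ⟨_, b1 i⟩ (fun e => b.ne_zero i congr(($e).1)) fun v => ⟨b.repr v i, Subtype.ext (b.ext_elem fun k => by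
        by_cases e : k = i
        · simp [e]
        · simp [Ne.symm e, b2 _ _ v.2 k (mt (hi k) e)])⟩
    let L := b.constr F fun k => if k = i then b j else if k = j then a • b j - δ • b i else b k
    have l1 : L (b i) = b j := by rw [b.constr_basis, if_pos rfl]
    have l2 : L (b j) = a • b j - δ • b i := by rw [b.constr_basis, if_neg (Ne.symm hij), if_pos rfl]
    have l3 : ∀ k, k ≠ i → k ≠ j → L (b k) = b k := fun k h1 h2 => by rw [b.constr_basis, if_neg h1, if_neg h2]
    have l4 : ∀ x, L (L (L x)) = (a + 1) • L (L x) - (a + δ) • L x + δ • x := fun x => by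
      refine congr($(b.ext (f₁ := L * L * L) (f₂ := (a + 1) • L * L - (a + δ) • L + δ • 1) fun k => ?_) x)
      by_cases h1 : k = i
      · simp [h1, l1, l2]; module
      by_cases h2 : k = j
      · simp [h2, l1, l2]; module
      · simp [l3 k h1 h2]; module
    have l5 : L (L (L (L (b i)))) = -b i := by
      simp only [l1, l2, map_sub, map_smul]; match_scalars <;> grind
    have l6 : L ^ 8 = 1 := b.ext fun k => by
      by_cases h1 : k = i
      · simp [pow_succ, h1, l5]
      by_cases h2 : k = j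
      · rw [h2, ← l1]; simp only [pow_succ, pow_zero, one_mul, End.mul_apply, l5, map_neg, neg_neg, End.one_apply]
      · simp [pow_succ, l3 k h1 h2]
    let g := LinearMap.GeneralLinearGroup.generalLinearEquiv F V (Units.ofPowEqOne L 8 l6 (by norm_num))
    have g1 : ∀ x, g x = L x := fun _ => rfl
    have g2 : g ^ 8 = 1 := by rw [← map_pow, Units.pow_ofPowEqOne, map_one]
    let U : Prop → Submodule F V := fun p => ⨆ (ψ) (_ : finrank F (wsp f ψ) = 1 ↔ p), wsp f ψ
    let H := stabilizer (V ≃ₗ[F] V) (U True) ⊓ stabilizer (V ≃ₗ[F] V) (U False)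
    have u0 : ∀ (s : V ≃ₗ[F] V) (W : Submodule F V), finrank F ↥(s • W) = finrank F W := fun s W =>
      LinearEquiv.finrank_map_eq s W
    have u1 : ∀ (s : V ≃ₗ[F] V) p, (∀ v ∈ U p, s v ∈ U p) → s ∈ stabilizer (V ≃ₗ[F] V) (U p) := fun s p h =>
      Submodule.eq_of_le_of_finrank_eq (by rintro _ ⟨v, hv, rfl⟩; exact h v hv) (u0 ..)
    have u2 : ∀ s ∈ S, ∀ p, s ∈ stabilizer (V ≃ₗ[F] V) (U p) := fun s hs p => u1 s p
      (show U p ≤ (U p).comap (s : End F V) from iSup₂_le fun ψ hψ v hv => by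
        obtain ⟨ψ', e⟩ := b3 s hs ψ
        exact le_iSup₂_of_le (f := fun ψ (_ : finrank F (wsp f ψ) = 1 ↔ p) => wsp f ψ) ψ' (by rwa [← e, u0]) le_rfl
          (e.le (Submodule.smul_mem_pointwise_smul _ _ _ hv)))
    have u3 : ∀ v ∈ U False, g v = v := show U False ≤ LinearMap.eqLocus L .id from iSup₂_le fun ψ hψ v hv => by
      have e : ∀ i, (∀ k, χ k = χ i → k = i) → b.repr v i = 0 := fun i hi => b2 _ _ hv i fun e => hψ.1 (e ▸ one i hi)
      rw [LinearMap.mem_eqLocus, ← b.sum_repr v, map_sum, map_sum]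
      refine sum_congr rfl fun k _ => ?_
      by_cases h1 : k = i
      · simp [h1, e i hi]
      by_cases h2 : k = j
      · simp [h2, e j hj]
      · simp [l3 k h1 h2]
    have u4 : ∀ i, (∀ k, χ k = χ i → k = i) → b i ∈ U True := fun i hi =>
      le_iSup₂_of_le (f := fun ψ (_ : finrank F (wsp f ψ) = 1 ↔ True) => wsp f ψ) _ (iff_true_intro (one i hi)) le_rfl (b1 i)
    have u5 : g ∈ H := ⟨u1 _ _ fun v hv => by
      have : ⊤ ≤ (U True).comap (L - 1) := b.span_eq ▸ Submodule.span_le.2 (by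
        rintro _ ⟨k, rfl⟩
        by_cases h1 : k = i
        · simpa [h1, l1] using sub_mem (u4 j hj) (u4 i hi)
        by_cases h2 : k = j
        · simpa [h2, l2] using sub_mem (sub_mem (Submodule.smul_mem _ a (u4 j hj)) (Submodule.smul_mem _ δ (u4 i hi))) (u4 j hj)
        · simp [l3 k h1 h2])
      simpa [g1] using add_mem (Submodule.mem_comap.1 (this (Submodule.mem_top (x := v)))) hv, u1 _ _ fun v hv => by rwa [u3 v hv]⟩
    obtain ⟨⟨c, c1⟩, hs⟩ := SymAlt.exists_conj_mem_sylow (S.subtype (N := H) fun s hs => ⟨u2 s hs _, u2 s hs _⟩) ⟨g, u5⟩ 3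
      (Subtype.ext g2)
    replace hs : c * g * c⁻¹ ∈ S := hs
    set s := c * g * c⁻¹ with s0
    have s1 : ∀ x, s x = c (L (c.symm x)) := fun _ => rfl
    have s2 : s ^ 8 = 1 := by rw [s0, conj_pow, g2, mul_one, mul_inv_cancel]
    have s3 : ∀ k, s (s (s (s (b k)))) = b k := fun k => by
      by_cases e : finrank F (wsp f (χ k)) = 1
      swap
      · have : s (b k) = b k := by
          rw [s1, ← g1, u3 (c.symm _) ((inv_mem (Subgroup.mem_inf.1 c1).2 : c⁻¹ • U False = _).le (Submodule.smul_mem_pointwise_smul _ _ _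
            (le_iSup₂_of_le (f := fun ψ (_ : finrank F (wsp f ψ) = 1 ↔ False) => wsp f ψ) _ (iff_false_intro e) le_rfl
              (b1 k))))]
          exact c.apply_symm_apply _
        simp only [this]
      have s4 : s * s ∈ stabilizer (V ≃ₗ[F] V) (wsp f (χ k)) := by_contra fun h2 => by
        have t : ∀ t ∈ S, t ∉ stabilizer (V ≃ₗ[F] V) (wsp f (χ k)) → t (b k) ∈ ⨆ (ψ) (_ : ψ ≠ χ k), wsp f ψ := fun t h1 h2 => by
          obtain ⟨ψ, e⟩ := b3 t h1 (χ k)
          exact le_iSup₂_of_le (f := fun ψ (_ : ψ ≠ χ k) => wsp f ψ) ψ (fun e' => h2 (e' ▸ e)) le_rfl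
            (e.le (Submodule.smul_mem_pointwise_smul _ _ _ (b1 k)))
        have h1 : s ∉ stabilizer (V ≃ₗ[F] V) (wsp f (χ k)) := fun h => h2 (mul_mem h h)
        have := add_mem (sub_mem (t _ (mul_mem hs (mul_mem hs hs)) fun h => h1 (by
          have := pow_mem h 3
          rwa [← sq, ← pow_succ', ← pow_mul, show (2 + 1) * 3 = 8 + 1 from rfl, pow_succ, s2, one_mul] at this))
          (Submodule.smul_mem _ (a + 1) (t _ (mul_mem hs hs) h2))) (Submodule.smul_mem _ (a + δ) (t _ hs h1))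
        simp only [LinearEquiv.mul_apply, s1, LinearEquiv.symm_apply_apply, l4, map_add, map_sub, map_smul,
          LinearEquiv.apply_symm_apply] at this
        exact b.ne_zero k ((smul_eq_zero_iff_right d0).1 (Submodule.disjoint_def.1 (iSupIndep_wsp f f1 (χ k)) _
          (Submodule.smul_mem _ _ (b1 k)) (by convert this using 1; abel)))
      obtain ⟨t, ht⟩ := (finrank_eq_one_iff_of_nonzero' (⟨_, b1 k⟩ : wsp f (χ k)) fun e => b.ne_zero k congr(($e).1)).1 e
        ⟨_, s4.le (Submodule.smul_mem_pointwise_smul _ _ _ (b1 k))⟩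
      replace ht : s (s (b k)) = t • b k := congr(($ht).1).symm
      have t1 : (t * t + 1) * (t * t - 1) = 0 := smul_left_injective F (b.ne_zero k) (by
        have := congr($s2 (b k))
        simp only [pow_succ, pow_zero, one_mul, LinearEquiv.mul_apply, ht, map_smul, LinearEquiv.coe_one, id] at this
        linear_combination (norm := module) this)
      have t2 := (mul_eq_zero.1 t1).resolve_left fun e => FiniteField.isSquare_neg_one_iff.1 ⟨t, by linear_combination -e⟩ h
      rw [ht, map_smul, map_smul, ht, smul_smul, sub_eq_zero.1 t2, one_smul]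
    have s4 := congr($(b.ext (f₁ := (s * s * s * s : End F V)) (f₂ := 1) s3) (c (b i)))
    simp only [End.mul_apply, LinearEquiv.coe_coe, s1, LinearEquiv.symm_apply_apply, l5, End.one_apply, c.injective.eq_iff] at s4
    exact ne_neg_self h2 (b.ne_zero i) s4.symm
  choose r hr using fun ψ : univ.image χ => (mem_image.1 ψ.2).imp fun _ => And.right
  refine (card_le_of_signVec f (fun a b x => congr($(map_mul ρ a b) x)) hsq (b ∘ r) (fun _ => hb _) fun a ha =>
    hρ (LinearEquiv.toLinearMap_injective (b.ext fun k => ?_))).trans (Nat.pow_le_pow_right two_pos ?_)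
  · have := mem_wsp.1 (b1 k) a
    rw [← show _ = χ k from hr ⟨_, mem_image_of_mem χ (mem_univ k)⟩] at this
    rw [map_one]
    exact this.trans (by simp [χ, show f a (b (r _)) = _ from ha _])
  have e1 : #{ψ ∈ univ.image χ | #{k | χ k = ψ} = 1} ≤ 1 := card_le_one.2 fun ψ h1 ψ' h2 => by
    obtain ⟨i, hi⟩ := card_eq_one.1 (mem_filter.1 h1).2
    obtain ⟨j, hj⟩ := card_eq_one.1 (mem_filter.1 h2).2
    simp only [Finset.ext_iff, mem_filter, mem_univ, true_and, mem_singleton] at hi hj
    rw [← (hi i).2 rfl, ← (hj j).2 rfl, key i j (fun k e => (hi k).1 (e.trans ((hi i).2 rfl)))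
      fun k e => (hj k).1 (e.trans ((hj j).2 rfl))]
  have e2 := card_eq_sum_card_image χ univ
  have e3 : ∑ _ψ ∈ univ.image χ, 2 ≤ ∑ ψ ∈ univ.image χ, (#{k | χ k = ψ} + if #{k | χ k = ψ} = 1 then 1 else 0) :=
    sum_le_sum fun ψ hψ => by
      obtain ⟨k, -, hk⟩ := mem_image.1 hψ
      have : 0 < #{k | χ k = ψ} := card_pos.2 ⟨k, by simp [hk]⟩
      split_ifs <;> omega
  rw [sum_add_distrib, ← e2, ← card_filter, sum_const, smul_eq_mul, card_univ, Fintype.card_fin] at e3
  rw [Fintype.card_coe]; omega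

end Cfsg.Agent.Forms
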