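import Cfsg.Agent.Forms.OKill

/-!
The weights of the unipotent radical of a point stabiliser in a small representation of an orthogonal group.
-/

set_option autoImplicit false

namespace Cfsg.Agent.Forms

open Module Finset Cfsg.Agent.GLn MulAut Cfsg.Agent.Polar Cfsg.Agent.Polar.PQ Cfsg.Agent.Cl Submodule
open scoped InnerProductSpace

variable {F : Type*} [Field F] {V : Type*} [AddCommGroup V] [Module F V] {P : PQ (oFP F) V} {a b a' b' e f : V}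
  {D W : Submodule F V}

theorem Pr.ne_zero (h : Pr P D a b) : a ≠ 0 := fun e => by
  obtain ⟨x, -, hx⟩ := h.ex
  simp [e] at hx

theorem pr_of_nds (hW : NDS P W) (h : W ≤ D ⊓ P.perp {e}) (he : e ∈ D) (h0 : P.Q e = 0) (hf : ∃ f ∈ D, P.B f e = 1)
    (hb : b ∈ W) (h1 : b ≠ 0) : Pr P D e b := by
  obtain ⟨y, y1, y2⟩ := hW b hb h1
  exact ⟨he, (h hb).1, h0, mem_perp_singleton.1 (h hb).2, hf, (P.B b y)⁻¹ • y, D.smul_mem _ (h y1).1,
    by simp [mem_perp_singleton.1 (h y1).2], by simp [o_swap b y, y2]⟩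

variable (P) in
/-- The number of non-zero vectors with a given value of the form. -/
noncomputable def cn0 (W : Submodule F V) (c : F) : ℕ := {x : W | x ≠ 0 ∧ P.Q x = c}.ncard

theorem nq_res [Finite V] [DecidableEq F] (W : Submodule F V) (c : F) :
    (P.res W).nq c = cn0 P W c + if c = 0 then 1 else 0 := by
  rw [nq_eq_ncard, cn0]
  split_ifs with h
  · rw [← Set.ncard_insert_of_notMem (a := 0) (by simp)]
    congr 1; ext x
    by_cases e : x = 0 <;> simp [e, o_QEq_iff, h, o_Q_zero]; rfl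
  · congr 1; ext x
    exact o_QEq_iff.trans ⟨fun e => ⟨by rintro rfl; exact h (e.symm.trans o_Q_zero), e⟩, fun e => e.2⟩

theorem nq_res_rec [Finite F] [Finite V] (h : P.Hyp e f) (he : e ∈ W) (hf : f ∈ W) (c : F) :
    (P.res W).nq c = (Nat.card F - 1) * Nat.card F ^ (finrank F W - 2) + Nat.card F * (P.res (W ⊓ P.perp {e, f})).nq c := by
  rw [Hyp.nq_rec (P := P.res W) (e := ⟨e, he⟩) (f := ⟨f, hf⟩) ⟨h.1, h.2, h.3⟩, card_oLam, mul_one]
  congr 2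
  exact Nat.card_congr ⟨fun x => ⟨⟨x.1.1.1, x.1.1.2, mem_perp_pair.2 (mem_perp_pair.1 x.1.2 :)⟩, x.2⟩,
    fun x => ⟨⟨⟨x.1.1, x.1.2.1⟩, mem_perp_pair.2 (mem_perp_pair.1 x.1.2.2 :)⟩, x.2⟩, fun _ => rfl, fun _ => rfl⟩

theorem exists_lin [Finite F] {ψ : AddChar F ℂ} (hψ : ψ ≠ 1) (χ : V → ℂ) (h0 : χ 0 = 1)
    (h : ∀ x y, χ (x + y) = χ x * χ y) : ∃ φ : V →ₗ[F] F, ∀ x, χ x = ψ (φ x) := by
  choose l hl using fun x => exists_eq_mulShift hψ
    ⟨fun t : F => χ (t • x), by simpa, fun s t => by simp only [add_smul, h]⟩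
  replace hl : ∀ x (t : F), χ (t • x) = ψ (l x * t) := hl
  exact ⟨⟨⟨l, fun x y => eq_of_addChar_mul hψ fun t => by rw [← hl, smul_add, h, hl, hl, add_mul, AddChar.map_add_eq_mul]⟩,
    fun s x => eq_of_addChar_mul hψ fun t => by rw [← hl, smul_smul, hl]; congr 1; simp; ring⟩,
    fun x => by simpa using hl x 1⟩

variable {M : Type*} [NormedAddCommGroup M] [InnerProductSpace ℂ M] [FiniteDimensional ℂ M]
  {ρ : Representation ℂ P.EG M} {ψ : AddChar F ℂ} {N : Submodule ℂ M} [Fintype F] (hρ : IsUni ρ) (hψ : ψ ≠ 1)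

omit [Fintype F] in
theorem Sw_trans [Finite F] [FiniteDimensional F V] (hP : P.ND) (hd : 7 ≤ finrank F V) (h : Pr P ⊤ a b)
    (h' : Pr P ⊤ a' b') (e : P.Q b' = P.Q b) : finrank ℂ (Sw ρ ψ ⊤ a b) ≤ finrank ℂ (Sw ρ ψ ⊤ a' b') := by
  obtain ⟨g, hg, g1⟩ := o_vTrans hP (by omega) a a' (o_sing_iff.2 h.qa) (o_sing_iff.2 h'.qa) h.ne_zero h'.ne_zero
  obtain ⟨f, hf⟩ := hP.exists_hyp (o_sing_iff.2 h'.qa) h'.ne_zero
  have key : ∀ x, P.B x a' = 0 → (∃ y, P.B y a' = 0 ∧ P.B y x = 1) →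
      x = hf.emb.r x + P.B x f • a' ∧ hf.emb.r x ≠ 0 ∧ P.Q (hf.emb.r x) = P.Q x := fun x h1 ⟨y, h2, h3⟩ => by
    refine ⟨by simp [hf.emb_r, hproj_apply, h1], fun e => ?_, by
      simp [hf.emb_r, hproj_apply, h1, o_Q_sub, o_Q_smul, h'.qa]⟩
    have := congrArg (fun z => P.B y z.1) e
    simp [hf.emb_r, hproj_apply, h1, h2, h3] at this
  obtain ⟨y, -, y1, y2⟩ := h.ey
  obtain ⟨a1, a2, a3⟩ := key (g • b) (by rw [← g1, B_smul_smul, h.ba]) ⟨g • y, by rw [← g1, B_smul_smul, y1], by simp [y2]⟩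
  obtain ⟨b1, b2, b3⟩ := key b' h'.ba (h'.ey.imp fun _ h => h.2)
  obtain ⟨k, hk, k1⟩ := o_trans (hf.emb.nd hP) (by have := hf.finrank_perp; omega) a2 b2
    (b3.trans (e.trans (a3.trans (o_Q_act _ _)).symm))
  have k2 := hf.emb.ext_smul_ker k hf.emb_r_left
  have k3 : (hf.emb.ext k * g) • a = a' := by rw [mul_smul, g1, k2]
  have k4 : ∀ w, P.B w a' = 0 → P.B w ((hf.emb.ext k * g) • b) = P.B w b' := fun w hw => by
    rw [mul_smul, a1, b1, smul_add, act_smul, k2, ← hf.emb_i, hf.emb.ext_smul_i, k1]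
    simp [hw, hf.emb_i]
  exact finrank_le_of_map ρ ⟨_, mul_mem (hf.emb.ext_mem_EG hk) hg⟩ fun v => Sw_map (D := ⊤) (fun _ _ => trivial)
    k3 fun w _ => k4 w

include hρ hψ

theorem sum_Sw_le [Fintype W] (hW : NDS P W) (h : W ≤ D ⊓ P.perp {e}) :
    ∑ u : W, finrank ℂ ↥(N ⊓ Sw ρ ψ D e u) ≤ finrank ℂ N :=
  sum_finrank_le_orth _ (fun u u' hu v hv w hw => by
    obtain ⟨y, y1, y2⟩ := hW _ (u - u').2 (by simpa [sub_eq_zero] using hu)
    exact inner_eq_zero_of_Wx hρ hψ (by simpa [sub_eq_zero, o_swap y] using y2)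
      (Sw_Wx hv.2 (h y1).1 (mem_perp_singleton.1 (h y1).2)) (Sw_Wx hw.2 (h y1).1 (mem_perp_singleton.1 (h y1).2)))
    N fun _ => inf_le_left

theorem sum_cn0_le [Finite V] (hW : NDS P W) (h : W ≤ D ⊓ P.perp {e}) (m : F → ℕ)
    (hm : ∀ u ∈ W, u ≠ 0 → m (P.Q u) ≤ finrank ℂ ↥(N ⊓ Sw ρ ψ D e u)) :
    finrank ℂ ↥(N ⊓ Sw ρ ψ D e 0) + ∑ c, cn0 P W c * m c ≤ finrank ℂ N := by
  classical
  have := Fintype.ofFinite W
  refine le_trans ?_ (sum_Sw_le hρ hψ hW h)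
  rw [← add_sum_erase _ _ (mem_univ (0 : W)), ← sum_fiberwise (univ.erase 0) fun u : W => P.Q u]
  refine Nat.add_le_add_left (sum_le_sum fun c _ => ?_) _
  rw [cn0, Set.ncard_eq_toFinset_card', ← smul_eq_mul, ← sum_const]
  refine (sum_le_sum fun u hu => ?_).trans (sum_congr (by ext; simp) fun _ _ => rfl).le
  simp only [Set.mem_toFinset, Set.mem_setOf_eq] at hu
  exact hu.2 ▸ hm u u.2 (by simpa using hu.1)

theorem cn0_le [Finite V] (hW : NDS P W) (h : W ≤ D ⊓ P.perp {e}) {c : F}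
    (hm : ∀ u ∈ W, u ≠ 0 → P.Q u = c → finrank ℂ ↥(N ⊓ Sw ρ ψ D e u) ≠ 0) :
    finrank ℂ ↥(N ⊓ Sw ρ ψ D e 0) + cn0 P W c ≤ finrank ℂ N := by
  classical
  simpa [Pi.single_apply] using sum_cn0_le hρ hψ hW h (Pi.single c 1) fun u h1 h2 => by
    rw [Pi.single_apply]
    split_ifs with h
    exacts [Nat.one_le_iff_ne_zero.2 (hm u h1 h2 h), Nat.zero_le _]

variable [FiniteDimensional F V] (hP : P.ND)
include hP

omit hρ in
theorem exists_Sw (hd : 5 ≤ finrank F V) (hnc : ¬ ∀ g h v, ρ g (ρ h v) = ρ h (ρ g v)) :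
    ∃ a b, Pr P ⊤ a b ∧ finrank ℂ (Sw ρ ψ ⊤ a b) ≠ 0 := by
  have := Module.finite_of_finite F (M := V)
  obtain ⟨a, w, h0, h1, h2, h3⟩ : ∃ a w, a ≠ 0 ∧ P.Q a = 0 ∧ P.B w a = 0 ∧ ρ (OE P a w) ≠ 1 := by
    by_contra! h
    have : P.EG ≤ ρ.ker.map P.EG.subtype := EG_le fun e w c h1 h2 => ⟨OE P e w,
      h e w h2 (o_eOk_iff.1 h1).1 h1.perp, by rw [← (o_eOk_iff.1 h1).2.2]; rfl⟩
    have : ∀ g, ρ g = 1 := fun g => by
      obtain ⟨k, hk, e⟩ := this g.2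
      exact Subtype.ext e ▸ hk
    exact hnc (by simp [this])
  obtain ⟨f, hf⟩ := hP.exists_hyp (o_sing_iff.2 h1) h0
  obtain ⟨χ, v, v0, hv, h4⟩ := exists_weight_ne_one (fun w => ρ (OE P a w)) (fun _ _ => ap_swap (OE_comm ..)) (i₀ := w)
    (n := Nat.card P.EG) (Nat.cast_ne_zero.2 Nat.card_pos.ne') (by rw [← map_pow, pow_card_eq_one', map_one]) h3
  rw [mem_wsp] at hv
  have p1 := fun x => (mem_perp_pair.1 (hf.hproj_mem x)).1
  obtain ⟨φ, hφ⟩ := exists_lin hψ (fun x => χ (P.hproj a f x)) (smul_left_injective ℂ v0 (by simp [← hv]))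
    fun x y => smul_left_injective ℂ v0 (by
      simp only; rw [← hv, map_add, OE_add (p1 x) (p1 y), mul_ap, hv, map_smul, hv, smul_smul, mul_comm])
  obtain ⟨b, hb⟩ := hP.rep φ
  have e1 : ∀ w, P.B w a = 0 → χ w = ψ (P.B w b) := fun w hw => smul_left_injective ℂ v0 (by
    simp only [hb, ← hφ, ← hv, hproj_apply, hw, mul_zero, zero_smul, sub_zero]
    rw [sub_eq_add_neg, ← neg_smul, OE_add_smul h1 hw])
  have e2 : P.B w b ≠ 0 := fun e => h4 (by rw [e1 w h2, e, AddChar.map_zero_eq_one])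
  refine ⟨a, b, ⟨trivial, trivial, h1, B_swap_zero (eq_of_addChar_mul hψ fun t => ?_), ⟨f, trivial, hf.pair'⟩,
    (P.B w b)⁻¹ • w, trivial, by simp [h2], by simp [e2]⟩,
    Nat.one_le_iff_ne_zero.1 (one_le_finrank (mem_Sw.2 fun w _ hw => e1 w hw ▸ hv w) v0)⟩
  have := e1 (t • a) (by simp [B_self0 h1])
  refine smul_left_injective ℂ v0 ?_
  have e3 := OE_add_smul h1 (w := 0) (by simp) t
  simp only [map_smul, LinearMap.smul_apply, smul_eq_mul, zero_add, OE_zero] at this e3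
  simp [mul_comm _ t, ← this, ← hv, e3]

theorem base {k : ℕ} (hd : finrank F V = k + 5) (hk : 2 ≤ k) (hnc : ¬ ∀ g h v, ρ g (ρ h v) = ρ h (ρ g v)) :
    (Nat.card F ^ 2 - 1) * Nat.card F ^ k * 2 ≤ finrank ℂ M ∨ ∃ c, (∀ r : F, r ≠ 0 → r ^ 2 * c = c) ∧
      ∀ a b, Pr P ⊤ a b → finrank ℂ (Sw ρ ψ ⊤ a b) ≤ 1 ∧ (finrank ℂ (Sw ρ ψ ⊤ a b) ≠ 0 ↔ P.Q b = c) := by
  classical
  have := Module.finite_of_finite F (M := V)
  obtain ⟨a, b, h1, h2⟩ := exists_Sw hψ hP (by omega) hnc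
  obtain ⟨f, hf⟩ := hP.exists_hyp (o_sing_iff.2 h1.qa) h1.ne_zero
  have h3 : ∀ c, (Nat.card F ^ 2 - 1) * Nat.card F ^ k ≤ cn0 P (P.perp {a, f}) c :=
    o_level (hf.emb.nd hP) (by have := hf.finrank_perp; omega) hk
  have h4 : P.perp {a, f} ≤ ⊤ ⊓ P.perp {a} := fun x hx => ⟨trivial, mem_perp_singleton.2 (mem_perp_pair.1 hx).1⟩
  have h5 : ∀ m : F → ℕ, (∀ c, m c ≠ 0 → ∃ a b, Pr P ⊤ a b ∧ P.Q b = c ∧ m c ≤ finrank ℂ (Sw ρ ψ ⊤ a b)) →
      (Nat.card F ^ 2 - 1) * Nat.card F ^ k * ∑ c, m c ≤ finrank ℂ M := fun m hm => by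
    have := sum_cn0_le hρ hψ (N := ⊤) (nds_perp hP hf) h4 m fun u u1 u2 => by
      by_cases h : m (P.Q u) = 0
      · omega
      obtain ⟨a', b', c1, c2, c3⟩ := hm _ h
      rw [top_inf_eq]
      exact c3.trans (Sw_trans hP (by omega) c1 (pr_of_nds (nds_perp hP hf) h4 trivial h1.qa h1.ex u1 u2) c2.symm)
    rw [finrank_top] at this
    rw [mul_sum]
    exact (sum_le_sum fun c _ => Nat.mul_le_mul_right _ (h3 c)).trans (le_add_self.trans this)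
  refine or_iff_not_imp_left.2 fun h => ?_
  have h6 : ∀ a' b', Pr P ⊤ a' b' → finrank ℂ (Sw ρ ψ ⊤ a' b') ≠ 0 → P.Q b' = P.Q b := fun a' b' c1 c2 =>
    by_contra fun c3 => h (by
      simpa [sum_add_distrib] using h5 (fun c => (if c = P.Q b then 1 else 0) + if c = P.Q b' then 1 else 0) fun c hc => by
        by_cases e : c = P.Q b
        · exact ⟨a, b, h1, e.symm, by simpa [e, Ne.symm c3] using Nat.one_le_iff_ne_zero.2 h2⟩
        by_cases e' : c = P.Q b'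
        · exact ⟨a', b', c1, e'.symm, by simpa [e', c3] using Nat.one_le_iff_ne_zero.2 c2⟩
        simp [e, e'] at hc)
  refine ⟨P.Q b, fun r hr => ?_, fun a' b' c1 => ⟨by_contra fun c2 => h ?_, h6 a' b' c1, fun e => ?_⟩⟩
  · obtain ⟨x, -, hx⟩ := h1.ex
    obtain ⟨y, -, hy⟩ := h1.ey
    rw [← o_Q_smul]
    exact h6 (r • a) _ ⟨trivial, trivial, by simp [o_Q_smul, h1.qa], by simp [h1.ba], ⟨r⁻¹ • x, trivial, by simp [hx, hr]⟩,
      r⁻¹ • y, trivial, by simp [hy.1], by simp [hy.2, hr]⟩ (by rwa [Sw_smul h1.qa hr])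
  · simpa [Pi.single_apply] using h5 (Pi.single (P.Q b') 2) fun c hc => by
      obtain rfl : c = P.Q b' := by_contra fun e => by simp [e] at hc
      exact ⟨a', b', c1, rfl, by simp; omega⟩
  · have := Sw_trans (ρ := ρ) (ψ := ψ) hP (by omega) h1 c1 e
    omega

omit hρ hψ in
theorem lv_top (hd : 7 ≤ finrank F V) {c : F}
    (h : ∀ a b, Pr P ⊤ a b → finrank ℂ (Sw ρ ψ ⊤ a b) ≤ 1 ∧ (finrank ℂ (Sw ρ ψ ⊤ a b) ≠ 0 ↔ P.Q b = c))
    (h' : (∃ r : F, r ≠ 0 ∧ r ^ 2 ≠ 1) ∨ 9 ≤ finrank F V ∨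
      finrank F V = 8 ∧ c = 0 ∧ ∀ U, P.TotSing U → finrank F U ≤ 3) : Lv ρ ψ c ⊤ ⊤ := by
  refine ⟨fun _ _ _ _ _ _ => trivial, fun a b hb => by rw [top_inf_eq]; exact (h a b hb).1,
    fun a b hb => by rw [top_inf_eq]; exact (h a b hb).2, fun a b hb x _ w _ c1 c2 c3 c4 v hv => ?_⟩
  by_cases h0 : finrank ℂ (Sw ρ ψ ⊤ a b) = 0
  · rw [show v = 0 from (Submodule.finrank_eq_zero.1 h0).le hv.2, map_zero]
  exact mem_Kil.1 (kill_all hP (h a b hb).1 hd hb.qa hb.ba (h'.imp_right (.imp_right fun e =>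
    ⟨e.1, ((h a b hb).2.1 h0).trans e.2.1, e.2.2⟩)) c1 c2 c3 c4) v hv.2

end Cfsg.Agent.Forms
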