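import Cfsg.Agent.Forms.ODn

/-!
The fixed space of a maximal unipotent subgroup of the odd-dimensional orthogonal group.
-/

set_option autoImplicit false

namespace Cfsg.Agent.Forms

open Module Finset Cfsg.Agent.GLn MulAut Cfsg.Agent.Polar Cfsg.Agent.Polar.PQ Cfsg.Agent.Cl Submodule

theorem HK.card_le_chain' {k Γ : Type*} [Field k] [Fintype k] [Group Γ] {V : Type*} [NormedAddCommGroup V]
    [InnerProductSpace ℂ V] [FiniteDimensional ℂ V] {ρ : Representation ℂ Γ V} {ψ : AddChar k ℂ} [Finite Γ] {N : ℕ}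
    (H : HK ρ ψ (Fin (N + 2))) (hadj : ∀ i j, H.adj i j ↔ i.1 + 1 = j.1 ∨ j.1 + 1 = i.1)
    (hA : ¬ ∀ i t, ∀ v ∈ H.Y, ρ (H.hh i t) v = v) (hB : ∀ p, H.Wt' p → (p (Fin.last _))⁻¹ = p (Fin.last _)) :
    N + 3 ≤ finrank ℂ H.Y := by
  classical
  obtain ⟨p, h1, i, h2⟩ := H.exists_wt hA
  obtain ⟨q, h3, h4⟩ := h1.move h2 (HK.chain_conn hadj i)
  have e : ∀ {q}, H.Wt' q → q 0 ≠ 1 → ∀ i : Fin (N + 2), 1 < i → q i = 1 := fun h3 h4 i hi => by_contra fun f => by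
    have : 1 < i.1 := hi
    rcases h3.clique h4 f with rfl | g
    · simp at this
    · rw [hadj] at g; simp at g; omega
  have e' : ∀ {q}, H.Wt' q → q 0 ≠ 1 → q 1 = 1 → N + 3 ≤ finrank ℂ H.Y := fun h3 h4 h5 =>
    HK.card_of_max hadj h3 h4 fun i hi => (show 1 ≤ i from Nat.succ_le_of_lt hi).eq_or_lt.elim (· ▸ h5) (e h3 h4 i)
  by_cases h5 : q 1 = 1
  · exact e' h3 h4 h5
  obtain ⟨r, r1, r2, r3, -⟩ := h3.step 0
  obtain ⟨s, s1, s2, s3, -⟩ := h3.step 1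
  replace r3 := r3 1 ((hadj _ _).2 (by simp))
  by_cases h6 : r 1 = 1
  · exact e' r1 (r2 ▸ inv_ne_one.2 h4) h6
  have s4 := s3 0 ((hadj _ _).2 (by simp))
  have c : ∀ i j, q i * q j = q j → q i = 1 := fun i j h => funext fun t => (mul_eq_right₀ (h3.ne j t)).1 (congrFun h t)
  rcases N with _ | N
  · have a1 : q ≠ r := fun f => h4 (c 0 1 (r3 ▸ (congrFun f 1).symm))
    have a2 : q ≠ s := fun f => h5 (c 1 0 (s4 ▸ (congrFun f 0).symm))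
    have a3 : r ≠ s := fun f => h4 (c 0 1 (by rw [← r3, f, s2]; exact hB q h3))
    have := H.card_wt (S := {q, r, s}) (by simp [h3, r1, s1])
    rwa [card_eq_three.2 ⟨_, _, _, a1, a2, a3, rfl⟩] at this
  · have := e s1 (by rwa [s4, mul_comm, ← r3]) ⟨2, by omega⟩ (by simp [Fin.lt_def])
    rw [s3 _ ((hadj _ _).2 (by simp)), e h3 h4 ⟨2, by omega⟩ (by simp [Fin.lt_def]), mul_one] at this
    exact (h5 this).elim

variable {F : Type*} [Field F] {V : Type*} [AddCommGroup V] [Module F V] {P : PQ (oFP F) V}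

namespace OFr

variable {m : ℕ} (Φ : OFr P m) {i : ℕ} {M : Type*} [NormedAddCommGroup M] [InnerProductSpace ℂ M]
  {ρ : Representation ℂ P.EG M} {ψ : AddChar F ℂ} {v : M} {z : V}

theorem Sw_span {W : Submodule F V} (h : ∀ w ∈ W, ∃ t : F, w = t • z) {a : V} (h0 : 2 * P.Q z ≠ 0) {d : F}
    (hv : v ∈ Wx ρ ψ (fun t : F => OE P a (t • z)) d) : v ∈ Sw ρ ψ W a ((d / (2 * P.Q z)) • z) := mem_Sw.2 fun w hw _ => by
  obtain ⟨t, rfl⟩ := h w hw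
  rw [mem_Wx.1 hv t]; congr 2
  simp only [map_smul, LinearMap.smul_apply, o_B_self, smul_eq_mul]
  rw [mul_left_comm, div_mul_cancel₀ _ h0]

variable [FiniteDimensional ℂ M] [Fintype F] (hρ : IsUni ρ) (hψ : ψ ≠ 1) (H : Lv ρ ψ 0 ⊤ ⊤) (h0 : 2 * P.Q z ≠ 0)
include hψ H h0

theorem short (hi : i < m) (hz : z ∈ Φ.W (i + 1)) (h : ∀ w ∈ Φ.W (i + 1), ∃ t : F, w = t • z) (t : F) :
    OE P (Φ.e i) (t • z) ∈ Kil ρ (Φ.Mx ρ ψ i) := mem_Kil.2 fun v hv => by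
  have z1 := Φ.W_le hz
  refine (mem_Wx_zero (ψ := ψ) (x := fun t : F => OE P (Φ.e i) (t • z))).1 ((OE_ad (Φ.e i) z).induction ρ hψ (fun t => (Φ.lv hψ H hi.le).stab _ (Φ.e_mem_D _ _) _
    (smul_mem _ _ z1.1)) (fun d v hv hd => ?_) hv) t
  by_cases e : d = 0
  · exact e ▸ hd
  refine Φ.van hψ H hi.le ⟨Φ.e_mem_D _ _, smul_mem _ _ z1.1, Φ.qe _, by simp [mem_perp_singleton.1 z1.2], ⟨_, Φ.f_mem_D le_rfl,
    Φ.one' hi⟩, d⁻¹ • z, smul_mem _ _ z1.1, by simp [mem_perp_singleton.1 z1.2], ?_⟩ hv (Φ.Sw_of_W hi (Φ.Mx_le_Fix hv)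
    (smul_mem _ _ z1) (Sw_span h h0 hd)) ?_ ▸ zero_mem _
  · simp only [map_smul, LinearMap.smul_apply, o_B_self, smul_eq_mul]
    rw [mul_left_comm, div_mul_cancel₀ _ h0, inv_mul_cancel₀ e]
  · rw [o_Q_smul]; exact mul_ne_zero (pow_ne_zero _ (div_ne_zero e h0)) (right_ne_zero_of_mul h0)

theorem exists_g (hi : i + 1 < m) (hz : z ∈ Φ.W (i + 2)) (h : ∀ w ∈ Φ.W (i + 2), ∃ t : F, w = t • z) :
    ∃ g ∈ Kil ρ (Φ.Mx ρ ψ (i + 1)), ∃ a : Fˣ, (∀ t, conj g (Φ.X i (i + 1) t) = (Φ.sw (i + 1)).X i (i + 1) (a⁻¹ * t)) ∧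
      ∀ t, conj g (Φ.X (i + 1) i t) = (Φ.sw (i + 1)).X (i + 1) i (a * t) := by
  have q := right_ne_zero_of_mul h0
  have z1 := Φ.mem_W.1 hz
  obtain ⟨a1, a2⟩ := z1 i (by omega)
  obtain ⟨a3, a4⟩ := z1 (i + 1) (by omega)
  have k1 := Φ.short hψ H h0 hi hz h 1
  have k2 := (Φ.sw (i + 1)).short hψ H h0 hi ((Φ.sw_W _ _).ge hz) (Φ.sw_W _ _ ▸ h) (P.Q z)⁻¹
  rw [Φ.sw_Mx le_rfl, show (Φ.sw (i + 1)).e (i + 1) = Φ.f (i + 1) from if_pos rfl] at k2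
  rw [one_smul] at k1
  have s : ∀ x, (OE P (Φ.e (i + 1)) z * OE P (Φ.f (i + 1)) ((P.Q z)⁻¹ • z) * OE P (Φ.e (i + 1)) z) • x =
      x - P.B x (Φ.f (i + 1)) • ((P.Q z)⁻¹ • Φ.f (i + 1) + Φ.e (i + 1)) - P.B x (Φ.e (i + 1)) •
        (P.Q z • Φ.e (i + 1) + Φ.f (i + 1)) - (P.B x z / P.Q z) • z := fun x => by
    rw [mul_smul, mul_smul, OE_smul (Φ.qe _) a3, OE_smul (Φ.qf _) (by simp [a4]), OE_smul (Φ.qe _) a3]
    simp only [map_add, map_sub, map_smul, LinearMap.add_apply, LinearMap.sub_apply, LinearMap.smul_apply, a3, a4,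
      B_swap_zero a3, B_swap_zero a4, Φ.ee, Φ.ff, Φ.one hi, Φ.one' hi, o_B_self, o_Q_smul, smul_eq_mul]
    match_scalars <;> field_simp <;> ring
  refine ⟨_, mul_mem (mul_mem k1 k2) k1, -(Units.mk0 _ q)⁻¹, fun t => ?_, fun t => ?_⟩
  · rw [X, conj_OE, s, s, sw_x]
    simp [Φ.ef, Φ.fe, Φ.one' hi, B_swap_zero a1, B_swap_zero a4, smul_smul, mul_comm]
  · rw [X, conj_OE, s, s, sw_y]
    simp only [mul_smul]
    rw [← OE_smul_left (Φ.qf _) (by simp)]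
    simp [Φ.ef, Φ.fe, Φ.one hi, B_swap_zero a2, B_swap_zero a3]

include hρ in
theorem odd [Finite V] {N : ℕ} (Φ : OFr P (N + 3)) (hz : z ∈ Φ.W (N + 3)) (h : ∀ w ∈ Φ.W (N + 3), ∃ t : F, w = t • z)
    {ν : F} (hν : ¬ IsSquare ν) : N + 3 ≤ finrank ℂ (Φ.Mx ρ ψ (N + 3)) := by
  classical
  obtain ⟨g, g1, a, g2, g3⟩ := Φ.exists_g hψ H h0 (i := N + 1) (by omega) hz h
  set K := Φ.hk hρ hψ H
  set K' := (Φ.sw (N + 2)).hk hρ hψ H
  set l := Fin.last (N + 1)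
  have hY : ∀ v ∈ K.Y, v ∈ Φ.Mx ρ ψ (N + 2) := fun v => Φ.NN_Mx (by omega) (by simp)
  have c1 : ∀ t, K.x l t ∈ Subgroup.centralizer (Set.range (K'.x l) ∪ Set.range (K'.y l)) := by
    rintro t _ (⟨s, rfl⟩ | ⟨s, rfl⟩); exacts [(Φ.comm_xx t s).symm, (Φ.comm_xy t s).symm]
  have c2 : ∀ t, K.y l t ∈ Subgroup.centralizer (Set.range (K'.x l) ∪ Set.range (K'.y l)) := by
    rintro t _ (⟨s, rfl⟩ | ⟨s, rfl⟩); exacts [(Φ.comm_yx t s).symm, (Φ.comm_yy t s).symm]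
  have kx : K'.x l = _ := Φ.sw_x
  rw [← Φ.NN_empty]
  refine K.card_le_chain' (fun _ _ => Iff.rfl) (fun hA => ?_) ?_
  · obtain ⟨f, f1, f2, f3, -⟩ := K.exists_refl hA l
    have c3 : ∀ c, ∀ k ∈ Subgroup.centralizer (Set.range (K'.x l) ∪ Set.range (K'.y l)), ∀ w,
        ρ k (Px ρ ψ (K'.x l) c (ρ (K'.n l 1) w)) = Px ρ ψ (K'.x l) c (ρ (K'.n l 1) (ρ k w)) := fun c k hk w => by
      rw [ap_Px_comm fun t => (hk _ (Or.inl ⟨t, rfl⟩)).symm, ap_swap (a := k) (K'.n_mem (K := Subgroup.centralizer {k})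
        (by rintro t _ rfl; exact (hk _ (Or.inl ⟨t, rfl⟩)).symm) (by rintro t _ rfl; exact (hk _ (Or.inr ⟨t, rfl⟩)).symm)
          1 k rfl)]
    have q1 : (Fintype.card F : ℂ) + 1 ≠ 0 := by exact_mod_cast (Fintype.card F).succ_ne_zero
    have m1 : ∀ t, K.x l t ∈ Sts ρ (Φ.Mx ρ ψ (N + 1)) := Φ.X_mem_Mx hψ H (by omega) (by simp [l])
    have m2 : ∀ t, K'.x l t ∈ Sts ρ (Φ.Mx ρ ψ (N + 1)) := Φ.sw_mem_Mx hψ H (by omega) (by simp [l]) (by omega)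
    have e1 : ρ (K'.n l 1) f ∈ Wx ρ ψ (K'.x l) 0 := K'.mem_Wx_of_Px l fun c hc => by
      have q := right_ne_zero_of_mul h0
      have e2 := StA.T_eq hψ (A := Φ.st (fun r : Fin 3 => N + r) (fun _ _ e => Fin.ext (by simpa using e)) fun r => by omega)
        d3_fin.p231 (v := Px ρ ψ (K'.x l) c (ρ (K'.n l 1) f))
        (mem_Wx_zero.2 fun t => (c3 _ _ (c1 t) f).trans (by rw [mem_Wx_zero.1 (K.Y_x l f1) t]))
        (fun u => (c3 _ _ (K.hh_mem c1 c2 u) f).trans (by rw [hA l u f f1])) (a := -(c⁻¹ * P.Q z * ν))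
        (by simpa [hc, q] using fun e : ν = 0 => hν (e ▸ IsSquare.zero)) (by
          refine (OE_ad (Φ.e (N + 1)) z).induction ρ hψ (N := ⊥)
            (W := Φ.Mx ρ ψ (N + 1) ⊓ Wx ρ ψ (K.x l) (-(c⁻¹ * P.Q z * ν)) ⊓ Wx ρ ψ (K'.x l) c) (fun t v hv =>
              ⟨⟨(Φ.lv hψ H (by omega)).stab _ (Φ.e_mem_D _ _) _ (smul_mem _ _ (Φ.D_anti (by omega) (Φ.W_le hz).1)) v hv.1.1,
                Wx_comm (fun _ => OE_comm ..) hv.1.2⟩, Wx_comm (fun _ => by rw [kx]; exact OE_comm ..) hv.2⟩)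
            (fun d v hv hd => Φ.van2 hψ H (by omega) hv.1.1 (smul_mem _ _ hz) (Sw_span h h0 hd) hv.1.2 (kx ▸ hv.2) hc
              fun e => hν ⟨d / (2 * P.Q z), mul_left_cancel₀ q ?_⟩) ⟨⟨Px_mem fun t => m1 t _ ?_, (K.add l).Px_mem _ _⟩, ?_⟩
          · rw [o_Q_smul] at e; field_simp at e ⊢; linear_combination -e
          · exact K.n_mem m1 (Φ.X_mem_Mx hψ H (by omega) (by simp [l])) 1 _ (Px_mem fun t => m2 t _ (K'.n_mem m2
              (Φ.sw_mem_Mx hψ H (by omega) (by simp [l]) (by omega)) 1 _ (hY f f1).1))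
          · refine Px_mem fun t => Wx_comm (fun s => c1 t _ (Or.inl ⟨s, rfl⟩)) (Wx_comm (fun s => K.n_mem c1 c2 1 _
              (Or.inl ⟨s, rfl⟩)) ((K'.add l).Px_mem _ _)))
      have e3 : K.T l (Px ρ ψ (K'.x l) c (ρ (K'.n l 1) f)) = -Px ρ ψ (K'.x l) c (ρ (K'.n l 1) f) := by
        rw [← map_neg, ← map_neg, ← f3, K.T_apply, K.T_apply, c3 _ _ (K.n_mem c1 c2 1), Sm_apply, Sm_apply, map_sum, map_sum]
        exact sum_congr rfl fun t _ => c3 _ _ (c1 t) _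
      replace e2 : K.T l _ = _ := e2
      exact smul_right_injective M q1 (by linear_combination (norm := module) e3 - e2)
    have e2 := Wx_conj0' _ (K'.n_y l 1) e1
    rw [inv_ap] at e2
    have e3 := Wx_conj0' _ g3 e2
    rw [inv_ap_of_fix (mem_Kil.1 g1 f (hY f f1))] at e3
    have e4 := mem_Wx_zero.1 (K.Y_x l f1)
    rw [K.T_apply, mem_Stv.1 (K.n_mem (K := Stv ρ f) e4 (mem_Wx_zero.1 e3) 1), Sm_of_fix e4] at f3
    have e5 : f = 0 := smul_right_injective M q1 (by linear_combination (norm := module) f3)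
    simp [e5] at f2
  · intro p hp
    have p0 := hp.ne
    obtain ⟨y, y1, y2, y3⟩ := hp
    have t1 : K.T l y ≠ 0 := by
      obtain ⟨i, hi⟩ := K.nbr l
      obtain ⟨A, M, a1, -, -, -, -, a2, -, a3, -⟩ := K.loc hi
      exact a3 ▸ A.T_ne_zero d3_fin (a1 ▸ K.Y_x l y1) y2 fun u => ⟨_, a2 ▸ y3 l u⟩
    funext t
    have c3 : conj g (K.hh l t) ∈ Subgroup.centralizer (Set.range (K.x l) ∪ Set.range (K.y l)) :=
      K.hh_mem (K := (Subgroup.centralizer _).comap (conj g).toMonoidHom) (by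
        rintro t _ (⟨s, rfl⟩ | ⟨s, rfl⟩) <;> erw [g2]; exacts [Φ.comm_xx _ _, Φ.comm_yx _ _]) (by
        rintro t _ (⟨s, rfl⟩ | ⟨s, rfl⟩) <;> erw [g3]; exacts [Φ.comm_xy _ _, Φ.comm_yy _ _]) t
    have c4 : ∀ w ∈ K.Y, ρ (conj g (K.hh l t)) w = ρ (K.hh l t) w := fun w hw => by
      rw [conj_apply, mul_ap, mul_ap, inv_ap_of_fix (mem_Kil.1 g1 w (hY w hw)), mem_Kil.1 g1 _ (hY _ (K.hh_Y l t hw))]
    obtain ⟨b, hb⟩ := K.hh_x l l t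
    have e1 := c4 _ (K.T_mem l (K.Y_N l y1))
    rw [K.T_apply, ap_Sm_comm fun s => (c3 _ (Or.inl ⟨s, rfl⟩)).symm, ap_swap (K.n_mem (K := Subgroup.centralizer {_})
      (by rintro s _ rfl; exact (c3 _ (Or.inl ⟨s, rfl⟩)).symm) (by rintro s _ rfl; exact (c3 _ (Or.inr ⟨s, rfl⟩)).symm)
        1 _ rfl), c4 y y1, y3, ap_Sm_conj b hb, ap_conj (K.hh l t), K.n_hh, show ρ (K.hh l t)⁻¹ y = (p l t)⁻¹ • y by
      rw [eq_inv_smul_iff₀ (p0 _ _), ← map_smul, ← y3, inv_ap], map_smul, map_smul, map_smul, map_smul] at e1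
    exact (smul_left_injective ℂ t1 e1).symm

end OFr

end Cfsg.Agent.Forms
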