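import Cfsg.Agent.Forms.OHecke

/-!
The Hecke algebra data attached to hyperbolic frames.
-/

set_option autoImplicit false

namespace Cfsg.Agent.Forms

open Module Finset Cfsg.Agent.GLn MulAut Cfsg.Agent.Polar Cfsg.Agent.Polar.PQ Cfsg.Agent.Cl Submodule

variable {F : Type*} [Field F] {V : Type*} [AddCommGroup V] [Module F V] {P : PQ (oFP F) V}

namespace OFr

variable {m : ℕ} (Φ : OFr P m) {i j k l : ℕ} {M : Type*} [NormedAddCommGroup M] [InnerProductSpace ℂ M]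
  {ρ : Representation ℂ P.EG M} {ψ : AddChar F ℂ} {v : M} {J : Set ℕ}

variable (ρ) in
/-- Fixed spaces of unipotent radicals of standard parabolic subgroups. -/
noncomputable def NN (J : Set ℕ) : Submodule ℂ M := ⨅ (k) (_ : k < m ∧ k ∉ J), Fix ρ (Φ.L (k + 1))

theorem mem_NN : v ∈ Φ.NN ρ J ↔ ∀ k < m, k ∉ J → v ∈ Fix ρ (Φ.L (k + 1)) := by simp [NN]

theorem NN_mono {J' : Set ℕ} (h : J ⊆ J') : Φ.NN ρ J ≤ Φ.NN ρ J' := fun _ hv =>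
  Φ.mem_NN.2 fun k hk hJ => Φ.mem_NN.1 hv k hk fun e => hJ (h e)

theorem NN_empty : Φ.NN ρ ∅ = Φ.Mx ρ ψ m := by ext; simp [mem_NN, mem_Mx']

theorem NN_Mx (h : i ≤ m) (hJ : ∀ k ∈ J, i ≤ k) (hv : v ∈ Φ.NN ρ J) : v ∈ Φ.Mx ρ ψ i :=
  Φ.mem_Mx'.2 fun k hk => Φ.mem_NN.1 hv k (by omega) fun e => (hJ k e).not_gt hk

theorem NN_Sw (hk : k < m) (hJ : k ∉ J) (h : i ≤ k) (hv : v ∈ Φ.NN ρ J) : v ∈ Sw ρ ψ (Φ.D (k + 1)) (Φ.e i) 0 :=
  Φ.Fix_L_le (by omega) le_rfl (Φ.mem_NN.1 hv k hk hJ)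

theorem Y_eq (h : i + 1 < m) : Φ.NN ρ ∅ = Φ.NN ρ {i} ⊓ Wx ρ ψ (Φ.X i (i + 1)) 0 := by
  refine le_antisymm (fun v hv => ⟨Φ.NN_mono (by simp) hv, Φ.X_fix_L i.lt_succ_self le_rfl
    (Φ.mem_NN.1 hv i (by omega) id)⟩) fun v hv => Φ.mem_NN.2 fun k hk _ => ?_
  by_cases e : k = i
  · subst e
    refine Φ.mem_Fix_L (ψ := ψ) fun j hj => (Nat.le_of_lt_succ hj).eq_or_lt.elim (fun e => ?_) fun e =>
      Φ.Fix_L_le j.lt_succ_self (by omega) (Φ.mem_NN.1 hv.1 j (by omega) e.ne)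
    subst e; exact Φ.to_Sw0 h (by omega) (Φ.NN_Sw h (by simp) (by omega) hv.1) hv.2
  · exact Φ.mem_NN.1 hv.1 k hk e

variable [FiniteDimensional ℂ M]

theorem X_mem_NN (h : ∀ k, k ∉ J → i ≤ k ∨ k < j) (t : F) : Φ.X i j t ∈ Sts ρ (Φ.NN ρ J) := fun v hv =>
  Φ.mem_NN.2 fun k hk hJ => Φ.X_mem_Sts (by have := h k hJ; omega) t v (Φ.mem_NN.1 hv k hk hJ)

variable [Fintype F] (hψ : ψ ≠ 1) (H : Lv ρ ψ 0 ⊤ ⊤)
include hψ H

theorem ca2 (h : i + 2 < m) :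
    CA2 ρ ψ (Φ.X i (i + 1)) (Φ.X (i + 1) i) (Φ.X (i + 1) (i + 2)) (Φ.X (i + 2) (i + 1)) (Φ.NN ρ {i + 1}) ∧
      CA2 ρ ψ (Φ.X (i + 1) (i + 2)) (Φ.X (i + 2) (i + 1)) (Φ.X i (i + 1)) (Φ.X (i + 1) i) (Φ.NN ρ {i}) :=
  ca2_of hψ (Φ.st (fun r : Fin 3 => i + r) (fun _ _ e => Fin.ext (by simpa using e)) fun r => by omega)
    (M := Φ.NN ρ {i, i + 1}) (fun a b _ => Φ.X_mem_NN fun k hk => by simp at hk ⊢; omega)
    (fun c hc v h1 h2 h3 => mem_Wx_zero.2 fun t => Φ.kill hψ H (by omega) hc (Φ.NN_Mx (by omega) (by simp) h1)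
      (Φ.to_Sw0 h (by omega) (Φ.NN_Sw h (by simp) (by omega) h1) h3) h2 (Φ.e_mem_D _ _)
      (smul_mem _ _ (neg_mem (Φ.f_mem_D le_rfl))))
    (fun v hv => ⟨Φ.NN_mono (by simp) hv, Φ.X_fix_L i.lt_succ_self (by simp) (Φ.mem_NN.1 hv i (by omega) (by simp))⟩)
    fun v hv => ⟨Φ.NN_mono (by simp) hv, Φ.X_fix_L (k := i + 2) (by simp) le_rfl
      (Φ.mem_NN.1 hv (i + 1) (by omega) (by simp))⟩

theorem ca11 (h : i + 1 < j) (hj : j + 1 < m) :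
    CA11 ρ ψ (Φ.X i (i + 1)) (Φ.X (i + 1) i) (Φ.X j (j + 1)) (Φ.X (j + 1) j) (Φ.NN ρ ∅) :=
  ⟨Φ.X_comm (by omega) (by omega), Φ.X_comm (by omega) (by omega), Φ.X_comm (by omega) (by omega), Φ.NN ρ {i, j},
    Φ.NN_mono (by simp), Φ.X_mem_NN fun _ _ => by omega, Φ.X_mem_NN fun k hk => by simp at hk; omega,
    Φ.X_mem_NN fun _ _ => by omega, Φ.X_mem_NN fun k hk => by simp at hk; omega, fun c hc v h1 h2 =>
    mem_Wx_zero.2 fun t => Φ.kill hψ H (by omega) hc (Φ.NN_Mx (by omega) (by simp; omega) h1)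
      (Φ.NN_Sw (k := i + 1) (by omega) (by simp; omega) (by omega) h1) h2 (Φ.e_mem_D _ _)
      (smul_mem _ _ (neg_mem (Φ.f_mem_D (by omega))))⟩

end OFr

variable {m : ℕ} {M : Type*} [NormedAddCommGroup M] [InnerProductSpace ℂ M] [FiniteDimensional ℂ M] [Fintype F]
  {ρ : Representation ℂ P.EG M} {ψ : AddChar F ℂ} (hρ : IsUni ρ) (hψ : ψ ≠ 1) (H : Lv ρ ψ 0 ⊤ ⊤)

/-- The Hecke algebra data. -/
noncomputable def hkOf {I : Type*} (fr : I → OFr P m) (ps : I → ℕ) (Φ : OFr P m) (h1 : ∀ i, ps i + 1 < m)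
    (h2 : ∀ i j, ps i < ps j → (fr i).X (ps i) (ps i + 1) = (fr j).X (ps i) (ps i + 1) ∧
      (fr i).X (ps i + 1) (ps i) = (fr j).X (ps i + 1) (ps i) ∧ (fr i).NN ρ {ps i} = (fr j).NN ρ {ps i})
    (h3 : ∀ i, Φ.NN ρ ∅ = (fr i).NN ρ ∅) (h4 : ∀ i g, (fr i).Dg g → Φ.Dg g)
    (h5 : ∀ i j, i ≠ j → ps i = ps j → CA11 ρ ψ ((fr i).X (ps i) (ps i + 1)) ((fr i).X (ps i + 1) (ps i))
      ((fr j).X (ps j) (ps j + 1)) ((fr j).X (ps j + 1) (ps j)) (Φ.NN ρ ∅))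
    (h6 : ∀ i, ∃ j, ps i + 1 = ps j ∨ ps j + 1 = ps i) : HK ρ ψ I where
  x i := (fr i).X (ps i) (ps i + 1)
  y i := (fr i).X (ps i + 1) (ps i)
  adj i j := ps i + 1 = ps j ∨ ps j + 1 = ps i
  Y := Φ.NN ρ ∅
  N i := (fr i).NN ρ {ps i}
  uni := hρ
  hψ := hψ
  symm := Or.symm
  nbr := h6
  x_mem i := (fr i).X_mem_NN fun _ _ => by omega
  y_mem i := (fr i).X_mem_NN fun k hk => by simp at hk; omega
  Y_eq i := (h3 i).trans ((fr i).Y_eq (h1 i))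
  line i := (fr i).line hψ H (h1 i) fun v hv => ⟨(fr i).NN_Mx (by have := h1 i; omega) (by simp) hv,
    (fr i).NN_Sw (h1 i) (by simp) (by omega) hv⟩
  ne i := by
    obtain ⟨v, a1, a2, a3, a4⟩ := (fr i).exists_vec hψ H rfl (h1 i)
    refine ⟨1, one_ne_zero, v, (fr i).mem_NN.2 fun k _ hk => (lt_or_gt_of_ne hk).elim ((fr i).mem_Mx'.1 a1 k) fun e =>
      a4 _ ((fr i).ts _) ((fr i).L_le fun j hj => (fr i).e_mem_L (by omega)), a2, a3⟩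
  tor i j s t := (h4 i _ ((fr i).dg_h (by omega) (by have := h1 i; omega) (h1 i) s)).comm _
    (h4 j _ ((fr j).dg_h (by omega) (by have := h1 j; omega) (h1 j) t))
  a2 i j h := by
    rcases h with h | h
    · obtain ⟨e1, e2, -⟩ := h2 i j (by omega)
      have := ((fr j).ca2 hψ H (i := ps i) (by have := h1 j; omega)).1
      rw [e1, e2, ← h]; exact this
    · obtain ⟨e1, e2, e3⟩ := h2 j i (by omega)
      have := ((fr i).ca2 hψ H (i := ps j) (by have := h1 i; omega)).2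
      rw [e1, e2, e3, ← h]; exact this
  a11 i j h h' := by
    rcases lt_trichotomy (ps i) (ps j) with e | e | e
    · obtain ⟨e1, e2, -⟩ := h2 i j e
      rw [e1, e2, h3 j]; exact (fr j).ca11 hψ H (by omega) (h1 j)
    · exact h5 i j h e
    · obtain ⟨e1, e2, -⟩ := h2 j i e
      rw [e1, e2, h3 i]
      exact ((fr i).ca11 hψ H (by omega) (h1 i)).symm hψ ((fr i).X_ad _ _) ((fr i).X_comm (by omega) (by omega))

/-- The chain. -/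
noncomputable def OFr.hk {N : ℕ} (Φ : OFr P (N + 3)) : HK ρ ψ (Fin (N + 2)) :=
  hkOf hρ hψ H (fun _ => Φ) Fin.val Φ (fun i => by omega) (fun _ _ _ => ⟨rfl, rfl, rfl⟩) (fun _ => rfl) (fun _ _ => id)
    (fun _ _ h e => (h (Fin.ext e)).elim) fun i => by
      by_cases e : i.1 = 0
      exacts [⟨1, Or.inl (by simp [e])⟩, ⟨⟨i - 1, by omega⟩, Or.inr (by simp; omega)⟩]

include hρ hψ H in
theorem OFr.chain [Finite V] {N : ℕ} (Φ : OFr P (N + 3)) : N + 2 ≤ finrank ℂ (Φ.Mx ρ ψ (N + 3)) :=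
  Φ.NN_empty (ρ := ρ) (ψ := ψ) ▸ (Φ.hk hρ hψ H).card_le_chain fun _ _ => Iff.rfl

end Cfsg.Agent.Forms
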