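import Cfsg.Agent.Forms.OChain

/-!
The fixed space of a maximal unipotent subgroup of the orthogonal group of plus type.
-/

set_option autoImplicit false

namespace Cfsg.Agent.Forms

open Module Finset Cfsg.Agent.GLn MulAut Cfsg.Agent.Polar Cfsg.Agent.Polar.PQ Cfsg.Agent.Cl Submodule

variable {F : Type*} [Field F] {V : Type*} [AddCommGroup V] [Module F V] {P : PQ (oFP F) V}

theorem OE_swap' {a b : V} (ha : P.Q a = 0) (hb : P.Q b = 0) (h : P.B b a = 0) (t : F) :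
    OE P a (t • -b) = OE P b (t • a) := by
  rw [← OE_smul_left hb (B_swap_zero h), OE_swap ha (by simp [h]) (by simp [o_Q_smul, hb]), smul_neg]

namespace OFr

variable {m : ℕ} (Φ : OFr P m) {i j k l r : ℕ}

/-- Interchanging the vectors of a hyperbolic pair. -/
def sw (r : ℕ) : OFr P m where
  e i := if i = r then Φ.f i else Φ.e i
  f i := if i = r then Φ.e i else Φ.f i
  qe i := by split_ifs <;> simp
  qf i := by split_ifs <;> simp
  ee i j := by split_ifs; exacts [Φ.ff _ _, Φ.fe (by omega), Φ.ef (by omega), Φ.ee _ _]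
  ff i j := by split_ifs; exacts [Φ.ee _ _, Φ.ef (by omega), Φ.fe (by omega), Φ.ff _ _]
  ef h := by split_ifs; exacts [Φ.fe h, Φ.ff _ _, Φ.ee _ _, Φ.ef h]
  one h := by split_ifs; exacts [Φ.one' h, Φ.one h]

theorem sw_W (r k : ℕ) : (Φ.sw r).W k = Φ.W k := by
  ext; simp only [mem_W, sw]
  exact forall₂_congr fun i _ => by split_ifs; exacts [and_comm, Iff.rfl]

theorem sw_L (h : k ≤ r) : (Φ.sw r).L k = Φ.L k :=
  congrArg (span F) (Set.image_congr fun _ hi => if_neg (hi.trans_le h).ne)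

theorem sw_X (h : i ≠ r) (h' : j ≠ r) : (Φ.sw r).X i j = Φ.X i j := funext fun _ => by simp [X, sw, h, h']

theorem sw_x : (Φ.sw (i + 1)).X i (i + 1) = fun t : F => OE P (Φ.e i) (t • -Φ.e (i + 1)) := funext fun _ => by simp [X, sw]

theorem sw_y : (Φ.sw (i + 1)).X (i + 1) i = fun t : F => OE P (Φ.f (i + 1)) (t • -Φ.f i) := funext fun _ => by simp [X, sw]

theorem sw_Dg {g : P.EG} (h : (Φ.sw r).Dg g) : Φ.Dg g :=
  ⟨fun i => by have := h.1 i; have := h.2.1 i; simp only [sw] at *; split_ifs at * <;> assumption,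
    fun i => by have := h.1 i; have := h.2.1 i; simp only [sw] at *; split_ifs at * <;> assumption, Φ.sw_W r m ▸ h.2.2⟩

theorem comm_xx (s t : F) : Φ.X i (i + 1) s * (Φ.sw (i + 1)).X i (i + 1) t = (Φ.sw (i + 1)).X i (i + 1) t * Φ.X i (i + 1) s := by
  rw [sw_x]; exact OE_comm ..

theorem comm_xy (s t : F) : Φ.X i (i + 1) s * (Φ.sw (i + 1)).X (i + 1) i t = (Φ.sw (i + 1)).X (i + 1) i t * Φ.X i (i + 1) s := by
  rw [sw_y, X, OE_swap' (Φ.qe _) (Φ.qf _) (Φ.fe (by omega))]; exact OE_comm ..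

theorem comm_yx (s t : F) : Φ.X (i + 1) i s * (Φ.sw (i + 1)).X i (i + 1) t = (Φ.sw (i + 1)).X i (i + 1) t * Φ.X (i + 1) i s := by
  simp only [sw_x, OE_swap' (Φ.qe _) (Φ.qe _) (Φ.ee _ _)]; exact OE_comm ..

theorem comm_yy (s t : F) : Φ.X (i + 1) i s * (Φ.sw (i + 1)).X (i + 1) i t = (Φ.sw (i + 1)).X (i + 1) i t * Φ.X (i + 1) i s := by
  simp only [sw_y, OE_swap' (Φ.qf _) (Φ.qf _) (Φ.ff _ _)]
  rw [X, OE_swap' (Φ.qe _) (Φ.qf _) (Φ.fe (by omega))]; exact OE_comm ..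

variable {M : Type*} [NormedAddCommGroup M] [InnerProductSpace ℂ M] {ρ : Representation ℂ P.EG M} {ψ : AddChar F ℂ}
  {v : M} {J : Set ℕ}

theorem sw_Mx (h : k ≤ r) : (Φ.sw r).Mx ρ ψ k = Φ.Mx ρ ψ k := by
  ext; simp only [mem_Mx']
  exact forall₂_congr fun i _ => by rw [Φ.sw_L (by omega)]

theorem Fix_succ (ψ : AddChar F ℂ) (h : i < m) (h1 : v ∈ Fix ρ (Φ.L i)) (h2 : ∀ w ∈ Φ.W (i + 1), ρ (OE P (Φ.e i) w) v = v) :
    v ∈ Fix ρ (Φ.L (i + 1)) :=
  Φ.mem_Fix_L (ψ := ψ) fun j hj => (Nat.le_of_lt_succ hj).eq_or_lt.elim (fun e => by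
    rw [e, Sw_succ]; exact Φ.Sw_of_W h h1 (zero_mem _) (mem_Sw0.2 fun w hw _ => h2 w hw)) fun e => Φ.Fix_L_le e (by omega) h1

theorem mem_NN' {n : ℕ} (Φ : OFr P (n + 2)) (hW : Φ.W (n + 2) = ⊥) (hJ : n ∉ J) :
    v ∈ Φ.NN ρ J ↔ ∀ k < n + 1, k ∉ J → v ∈ Fix ρ (Φ.L (k + 1)) :=
  Φ.mem_NN.trans ⟨fun h k hk => h k (by omega), fun h k hk h1 => (Nat.le_of_lt_succ hk).eq_or_lt.elim
    (fun e => e ▸ Φ.Fix_succ 1 (by omega) (h n (by omega) hJ) fun w hw => by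
      rw [hW, mem_bot] at hw; rw [hw, OE_zero, one_ap]) fun e => h k e h1⟩

theorem sw_NN {n : ℕ} (Φ : OFr P (n + 2)) (hW : Φ.W (n + 2) = ⊥) (hJ : n ∉ J) : (Φ.sw (n + 1)).NN ρ J = Φ.NN ρ J := by
  ext; rw [Φ.mem_NN' hW hJ, mem_NN' _ ((Φ.sw_W _ _).trans hW) hJ]
  exact forall₂_congr fun i _ => by rw [Φ.sw_L (by omega)]

variable [FiniteDimensional ℂ M] [Fintype F] (hρ : IsUni ρ) (hψ : ψ ≠ 1) (H : Lv ρ ψ 0 ⊤ ⊤)
include hψ H

theorem X_mem_Mx (h : k ≤ m) (hj : k ≤ j) (t : F) : Φ.X i j t ∈ Sts ρ (Φ.Mx ρ ψ k) :=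
  (Φ.lv hψ H h).stab _ (Φ.e_mem_D _ _) _ (smul_mem _ _ (neg_mem (Φ.f_mem_D hj)))

theorem sw_mem_Mx (h : k ≤ m) (hj : k ≤ j) (hr : k ≤ r) (t : F) : (Φ.sw r).X i j t ∈ Sts ρ (Φ.Mx ρ ψ k) :=
  Φ.sw_Mx (ρ := ρ) (ψ := ψ) hr ▸ (Φ.sw r).X_mem_Mx hψ H h hj t

theorem ca11' (h : i + 1 < m) (hW : Φ.W (i + 2) = ⊥) :
    CA11 ρ ψ (Φ.X i (i + 1)) (Φ.X (i + 1) i) ((Φ.sw (i + 1)).X i (i + 1)) ((Φ.sw (i + 1)).X (i + 1) i) (Φ.NN ρ ∅) := by
  have a := Φ.sw_mem_Mx hψ H (i := i) (show i ≤ m by omega) i.le_succ i.le_succ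
  refine ⟨Φ.comm_xx, Φ.comm_xy, Φ.comm_yy, Φ.Mx ρ ψ i, fun v => Φ.NN_Mx (by omega) (by simp),
    Φ.X_mem_Mx hψ H (by omega) (by omega), Φ.X_mem_Mx hψ H (by omega) le_rfl, a,
    Φ.sw_mem_Mx hψ H (by omega) le_rfl (by omega), fun c hc v h1 h2 => (X_ad _ _ _).induction ρ hψ
      (W := Φ.Mx ρ ψ i ⊓ Wx ρ ψ (Φ.X i (i + 1)) c) (fun t v hv => ⟨a t v hv.1, Wx_comm (Φ.comm_xx · t) hv.2⟩)
      (fun d v hv hd => ?_) ⟨h1, h2⟩⟩
  by_cases e : d = 0
  · exact e ▸ hd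
  · exact Φ.van2 hψ H h hv.1 (zero_mem _) (mem_Sw0.2 fun w hw _ => by rw [hW, mem_bot] at hw; rw [hw, OE_zero, one_ap]) hv.2
      (Φ.sw_x ▸ hd) e (by simp [o_Q_zero, hc, e]) ▸ zero_mem _

include hρ

theorem branch [Finite V] {N : ℕ} (Φ : OFr P (N + 4)) (hW : Φ.W (N + 4) = ⊥) : N + 4 ≤ finrank ℂ (Φ.Mx ρ ψ (N + 4)) := by
  classical
  let K := hkOf hρ hψ H (I := Fin (N + 2) ⊕ Bool) (Sum.elim (fun _ => Φ) fun b => cond b (Φ.sw (N + 3)) Φ)
    (Sum.elim Fin.val fun _ => N + 2) Φ (by rintro (i | i) <;> simp; omega) (by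
      rintro (i | i) (j | _ | _) h <;> simp only [Sum.elim_inl, Sum.elim_inr, cond_true, cond_false, and_self] at h ⊢
      · exact ⟨(Φ.sw_X (by omega) (by omega)).symm, (Φ.sw_X (by omega) (by omega)).symm, (Φ.sw_NN hW (by simp; omega)).symm⟩
      all_goals omega) (by rintro (i | _ | _); exacts [rfl, rfl, (Φ.sw_NN hW id).symm])
    (by rintro (i | _ | _) g; exacts [id, id, Φ.sw_Dg]) (by
      rintro (i | _ | _) (j | _ | _) h e <;> simp only [Sum.elim_inl, Sum.elim_inr, cond_true, cond_false] at e ⊢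
      any_goals omega
      exacts [(h (congrArg _ (Fin.ext e))).elim, (h rfl).elim, Φ.ca11' hψ H (by omega) hW,
        (Φ.ca11' hψ H (by omega) hW).symm hψ (X_ad _ _ _) fun s t => (Φ.comm_yx t s).symm, (h rfl).elim]) (by
      rintro (i | _)
      · by_cases e : i.1 = 0
        exacts [⟨.inl 1, Or.inl (by simp [e])⟩, ⟨.inl ⟨i - 1, by omega⟩, Or.inr (by simp; omega)⟩]
      · exact ⟨.inl (Fin.last _), Or.inr rfl⟩)
  have ha : ∀ i j, K.adj i j ↔ Sum.elim Fin.val (fun _ => N + 2) i + 1 = Sum.elim Fin.val (fun _ => N + 2) j ∨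
    Sum.elim Fin.val (fun _ => N + 2) j + 1 = Sum.elim Fin.val (fun _ => N + 2) i := fun _ _ => Iff.rfl
  have key : ∀ (p : ℕ) (t : Finset ℕ) {_ : ∀ j : Fin (N + 2), Decidable (p + 1 = j ∨ j + 1 = p)},
      (∀ j < N + 2, p + 1 = j ∨ j + 1 = p → j ∈ t) →
      ∑ j : Fin (N + 2), (if p + 1 = j ∨ j + 1 = p then 2 else 0 : ℝ) ≤ #t * 2 := fun p t _ h => by
    rw [← sum_filter, sum_const, nsmul_eq_mul]
    gcongr
    exact card_le_card_of_injOn Fin.val (fun j hj => h _ j.2 (by simpa using hj)) Fin.val_injective.injOn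
  have := K.card_le_branch (Sum.elim (fun _ => 2) fun _ => 1) (by rintro (_ | _) <;> simp) (fun i => by
      simp only [sum_filter, ha, Fintype.sum_sum_type, Fintype.sum_bool, Sum.elim_inl, Sum.elim_inr]
      rcases i with i | i <;> simp only [Sum.elim_inl, Sum.elim_inr]
      · by_cases h : i.1 + 1 = N + 2 ∨ N + 2 + 1 = i
        · exact (add_le_add_left (key i {i.1 - 1} fun j _ _ => by simp; omega) _).trans (by erw [if_pos h]; norm_num)
        · refine (add_le_add_left (key i {i.1 + 1, i.1 - 1} fun j _ _ => by simp; omega) _).trans ?_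
          have : (#{i.1 + 1, i.1 - 1} : ℝ) ≤ 2 := by exact_mod_cast card_le_two
          erw [if_neg h]; linarith
      · exact (add_le_add_left (key _ {N + 1} fun j _ _ => by simp; omega) _).trans (by simp)) (.inl (Fin.last _)) (by
      rintro (i | i)
      · induction i using Fin.reverseInduction with
        | last => rfl
        | cast i ih => exact .head ((ha _ _).2 (Or.inl rfl)) ih
      · exact .single ((ha _ _).2 (Or.inr rfl))) ![.inl (Fin.last N).castSucc, .inr true, .inr false]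
    (fun r => by fin_cases r <;> simp [ha]) fun r s h => by fin_cases r <;> fin_cases s <;> simp [ha] at h ⊢ <;> omega
  rw [← Φ.NN_empty]
  simp only [Fintype.card_sum, Fintype.card_fin, Fintype.card_bool] at this
  exact this

end OFr

end Cfsg.Agent.Forms
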