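import Cfsg.Agent.Forms.StA2
import Cfsg.Agent.Polar.OGeo
import Cfsg.Agent.Cl.Frm

/-!
Eichler transformations of orthogonal spaces and their weight spaces in representations.
-/

set_option autoImplicit false

namespace Cfsg.Agent.Forms

open Module Finset Cfsg.Agent.GLn MulAut Cfsg.Agent.Polar Cfsg.Agent.Polar.PQ

variable {F : Type*} [Field F] {V : Type*} [AddCommGroup V] [Module F V] {P : PQ (oFP F) V}

variable (P) in
/-- Eichler transformations. -/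
noncomputable def OE (a w : V) : P.EG := P.ee a w (P.Q w)

variable {a b c c' w w' e f : V}

theorem okE (ha : P.Q a = 0) (hw : P.B w a = 0) : P.EOk a w (P.Q w) := o_eOk_iff.2 ⟨ha, hw, rfl⟩

theorem OE_of_not (h : ¬ (P.Q a = 0 ∧ P.B w a = 0)) : OE P a w = 1 :=
  Subtype.ext (dif_neg fun h' => h ⟨(o_eOk_iff.1 h').1, h'.perp⟩)

theorem OE_smul (ha : P.Q a = 0) (hw : P.B w a = 0) (x : V) :
    OE P a w • x = x + P.B x a • w - (P.B x w + P.Q w * P.B x a) • a :=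
  ((okE ha hw).eich_smul x).trans (by simp [oFP])

theorem eg_ext {g h : P.EG} (e : ∀ x : V, g • x = h • x) : g = h := Subtype.ext (iso_ext e)

theorem eg_B (g : P.EG) (x y : V) : P.B (g • x) (g • y) = P.B x y := B_smul_smul (g : P.Iso) x y

theorem eg_B' (g : P.EG) (x y : V) : P.B x (g • y) = P.B (g⁻¹ • x) y := B_act_right (g : P.Iso) x y

theorem eg_Q (g : P.EG) (x : V) : P.Q (g • x) = P.Q x := o_Q_act (g : P.Iso) x

theorem eg_smul (g : P.EG) (t : F) (x : V) : g • t • x = t • g • x := act_smul (g : P.Iso) t x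

theorem conj_OE (g : P.EG) (a w : V) : conj g (OE P a w) = OE P (g • a) (g • w) := by
  by_cases h : P.Q a = 0 ∧ P.B w a = 0
  · rw [OE, OE, eg_Q]; exact (okE h.1 h.2).conj_ee g
  · rw [OE_of_not h, OE_of_not (by rwa [eg_Q, eg_B]), map_one]

theorem OE_add (hw : P.B w a = 0) (hw' : P.B w' a = 0) : OE P a (w + w') = OE P a w * OE P a w' := by
  by_cases ha : P.Q a = 0
  · rw [OE, OE, OE, (okE ha hw).ee_mul (okE ha hw'), o_Q_add, o_swap]
  · simp [OE_of_not, ha]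

@[simp] theorem OE_zero (a : V) : OE P a 0 = 1 := by rw [OE, o_Q_zero, ee_zero]

theorem OE_comm (a w w' : V) : OE P a w * OE P a w' = OE P a w' * OE P a w := by
  by_cases hw : P.B w a = 0
  · by_cases hw' : P.B w' a = 0
    · rw [← OE_add hw hw', ← OE_add hw' hw, add_comm]
    · simp [OE_of_not, hw']
  · simp [OE_of_not, hw]

theorem OE_ad (a w : V) : Ad1 fun t : F => OE P a (t • w) := fun s t => by
  by_cases hw : P.B w a = 0
  · simp only [add_smul]; exact OE_add (by simp [hw]) (by simp [hw])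
  by_cases hs : s = 0
  · simp [hs]
  by_cases ht : t = 0
  · simp [ht]
  by_cases h : s + t = 0
  · simp [h, OE_of_not, hs, ht, hw]
  · simp [h, OE_of_not, hs, ht, hw]

theorem OE_smul_left (ha : P.Q a = 0) (hw : P.B w a = 0) (t : F) : OE P (t • a) w = OE P a (t • w) :=
  eg_ext fun x => by
    rw [OE_smul (by simp [o_Q_smul, ha]) (by simp [hw]), OE_smul ha (by simp [hw]), o_Q_smul]
    simp only [map_smul, smul_eq_mul]; module

theorem B_self0 (ha : P.Q a = 0) : P.B a a = 0 := by rw [o_B_self, ha, mul_zero]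

theorem OE_add_smul (ha : P.Q a = 0) (hw : P.B w a = 0) (t : F) : OE P a (w + t • a) = OE P a w :=
  eg_ext fun x => by
    rw [OE_smul ha (by simp [hw, B_self0 ha]), OE_smul ha hw, o_Q_add, o_Q_smul]
    simp only [map_smul, smul_eq_mul, map_add, ha, hw]; module

theorem OE_swap (ha : P.Q a = 0) (hw : P.B w a = 0) (hw' : P.Q w = 0) : OE P w a = OE P a (-w) :=
  eg_ext fun x => by
    rw [OE_smul ha (by simp [hw]), OE_smul hw' (B_swap_zero hw), o_Q_neg]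
    simp only [map_neg, ha, hw']; module

theorem OE_add_left (hc : P.Q c = 0) (hc' : P.Q c' = 0) (h : P.B c' c = 0) (hw : P.B w c = 0) (hw' : P.B w c' = 0) :
    OE P (c + c') w = OE P c (w - P.Q w • c') * OE P c' w :=
  eg_ext fun x => by
    rw [mul_smul, OE_smul (by simp [o_Q_add, hc, hc', B_swap_zero h]) (by simp [hw, hw']), OE_smul hc' hw',
      OE_smul hc (by simp [hw, h]), o_Q_sub, o_Q_smul]
    simp only [map_smul, smul_eq_mul, map_add, map_sub, LinearMap.add_apply, LinearMap.sub_apply, LinearMap.smul_apply,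
      hc', hw, hw', h, B_swap_zero hw', B_self0 hc', o_B_self w]
    module

theorem OE_fix (h1 : P.B b a = 0) (h2 : P.B b w = 0) : OE P a w • b = b := by
  by_cases h : P.Q a = 0 ∧ P.B w a = 0
  · simp [OE_smul h.1 h.2, h1, h2]
  · rw [OE_of_not h, one_smul]

theorem OE_mem {D : Submodule F V} (ha : a ∈ D) (hw : w ∈ D) (hb : b ∈ D) : OE P a w • b ∈ D := by
  by_cases h : P.Q a = 0 ∧ P.B w a = 0
  · rw [OE_smul h.1 h.2]; exact sub_mem (add_mem hb (D.smul_mem _ hw)) (D.smul_mem _ ha)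
  · rwa [OE_of_not h, one_smul]

theorem OE_inv (a w : V) : (OE P a w)⁻¹ = OE P a (-w) := by simpa using ((OE_ad (P := P) a w).neg 1).symm

variable {M : Type*} [AddCommGroup M] [Module ℂ M] {ρ : Representation ℂ P.EG M} {ψ : AddChar F ℂ}
  {D : Submodule F V} {N : Submodule ℂ M}

theorem ap_OE (g : P.EG) (a w : V) (v : M) : ρ (OE P a w) (ρ g v) = ρ g (ρ (OE P (g⁻¹ • a) (g⁻¹ • w)) v) := by
  rw [← conj_OE, ap_conj, conj_apply, inv_inv]

variable (ρ ψ) in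
/-- Weight spaces of the unipotent radical of a point stabiliser. -/
noncomputable def Sw (D : Submodule F V) (a b : V) : Submodule ℂ M :=
  ⨅ w ∈ D, ⨅ _ : P.B w a = 0, End.eigenspace (ρ (OE P a w)) (ψ (P.B w b))

theorem mem_Sw {v : M} : v ∈ Sw ρ ψ D a b ↔ ∀ w ∈ D, P.B w a = 0 → ρ (OE P a w) v = ψ (P.B w b) • v := by
  simp [Sw, Submodule.mem_iInf]

theorem mem_Sw0 {v : M} : v ∈ Sw ρ ψ D a 0 ↔ ∀ w ∈ D, P.B w a = 0 → ρ (OE P a w) v = v := by
  simp [mem_Sw]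

theorem Sw_Wx {v : M} (hv : v ∈ Sw ρ ψ D a b) (hw : w ∈ D) (h : P.B w a = 0) :
    v ∈ Wx ρ ψ (fun t : F => OE P a (t • w)) (P.B w b) := mem_Wx.2 fun t => by
  rw [mem_Sw.1 hv _ (D.smul_mem t hw) (by simp [h])]; simp

theorem Sw_map {g : P.EG} {D' : Submodule F V} {a' b' : V} (hD : ∀ w ∈ D', g⁻¹ • w ∈ D) (ha : g • a = a')
    (hb : ∀ w ∈ D', P.B w a' = 0 → P.B w (g • b) = P.B w b') {v : M} (hv : v ∈ Sw ρ ψ D a b) :
    ρ g v ∈ Sw ρ ψ D' a' b' := mem_Sw.2 fun w hw h => by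
  rw [ap_OE, ← ha, inv_smul_smul, mem_Sw.1 hv _ (hD w hw) (by rwa [← eg_B', ha]), map_smul, ← eg_B', hb w hw h]

theorem Sw_smul (ha : P.Q a = 0) {t : F} (ht : t ≠ 0) : Sw ρ ψ D (t • a) (t • b) = Sw ρ ψ D a b := by
  ext v
  simp only [mem_Sw]
  refine ⟨fun h w hw h1 => ?_, fun h w hw h1 => ?_⟩
  · simpa [OE_smul_left ha, h1, ht] using h (t⁻¹ • w) (D.smul_mem _ hw) (by simp [h1])
  · replace h1 : P.B w a = 0 := by simpa [ht] using h1
    simpa [OE_smul_left ha h1] using h (t • w) (D.smul_mem _ hw) (by simp [h1])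

theorem mem_Sw_of {x : V} {v : M} (hx : x ∈ D) (h1 : P.B x a = 0) (h2 : P.B x e = 1)
    (hv : v ∈ Sw ρ ψ (D ⊓ P.perp {e}) a b) {d : F} (hd : v ∈ Wx ρ ψ (fun t : F => OE P a (t • x)) (P.B x b + d)) :
    v ∈ Sw ρ ψ D a (b + d • e) := mem_Sw.2 fun w hw h => by
  have e1 : w = (w - P.B w e • x) + P.B w e • x := by simp
  rw [e1, OE_add (by simp [h, h1]) (by simp [h1]), mul_ap, mem_Wx.1 hd, map_smul, mem_Sw.1 hv _
    ⟨sub_mem hw (D.smul_mem _ hx), by simp [mem_perp_singleton, h2]⟩ (by simp [h, h1]), smul_smul,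
    ← AddChar.map_add_eq_mul, ← e1]
  congr 2; simp; ring

variable (P) in
/-- Admissible pairs. -/
structure Pr (D : Submodule F V) (a b : V) : Prop where
  ma : a ∈ D
  mb : b ∈ D
  qa : P.Q a = 0
  ba : P.B b a = 0
  ex : ∃ x ∈ D, P.B x a = 1
  ey : ∃ y ∈ D, P.B y a = 0 ∧ P.B y b = 1

variable [FiniteDimensional ℂ M]

variable (ρ ψ) in
/-- The properties inherited by the fixed spaces. -/
structure Lv (q : F) (D : Submodule F V) (N : Submodule ℂ M) : Prop where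
  stab : ∀ a ∈ D, ∀ w ∈ D, OE P a w ∈ Sts ρ N
  le1 : ∀ a b, Pr P D a b → finrank ℂ ↥(N ⊓ Sw ρ ψ D a b) ≤ 1
  pos : ∀ a b, Pr P D a b → (finrank ℂ ↥(N ⊓ Sw ρ ψ D a b) ≠ 0 ↔ P.Q b = q)
  kill : ∀ a b, Pr P D a b → ∀ c ∈ D, ∀ w ∈ D, P.B c a = 0 → P.B c b = 0 → P.B w a = 0 → P.B w b = 0 →
    ∀ v ∈ N ⊓ Sw ρ ψ D a b, ρ (OE P c w) v = v

variable [Fintype F] (hψ : ψ ≠ 1) {q : F}
include hψ

theorem Lv.step (H : Lv ρ ψ q D N) (he : e ∈ D) (h0 : P.Q e = 0) (hf : ∃ f ∈ D, P.B f e = 1) :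
    Lv ρ ψ q (D ⊓ P.perp {e}) (N ⊓ Sw ρ ψ D e 0) := by
  have key : ∀ a b, Pr P (D ⊓ P.perp {e}) a b →
      finrank ℂ ↥(N ⊓ Sw ρ ψ D e 0 ⊓ Sw ρ ψ (D ⊓ P.perp {e}) a b) = finrank ℂ ↥(N ⊓ Sw ρ ψ D a b) ∧
      ∀ c ∈ D ⊓ P.perp {e}, ∀ w ∈ D ⊓ P.perp {e}, P.B c a = 0 → P.B c b = 0 → P.B w a = 0 → P.B w b = 0 →
        ∀ v ∈ N ⊓ Sw ρ ψ (D ⊓ P.perp {e}) a b, ρ (OE P c w) v = v := fun a b h => by
    obtain ⟨x, ⟨x1, x2⟩, x3⟩ := h.ex
    obtain ⟨y, ⟨y1, y2⟩, y3, y4⟩ := h.ey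
    obtain ⟨⟨a1, a2⟩, ⟨b1, b2⟩, a3, b3, -⟩ := h
    rw [SetLike.mem_coe, mem_perp_singleton] at x2 y2 a2 b2
    obtain ⟨f, f1, f2, f3⟩ : ∃ f ∈ D, P.B f e = 1 ∧ P.B f a = 0 := by
      obtain ⟨f, f1, f2⟩ := hf
      exact ⟨f - P.B f a • x, sub_mem f1 (D.smul_mem _ x1), by simp [f2, x2], by simp [x3]⟩
    have p1 : ∀ d : F, Pr P D a (b + d • e) := fun d => ⟨a1, add_mem b1 (D.smul_mem _ he), a3,
      by simp [b3, B_swap_zero a2], ⟨x, x1, x3⟩, y, y1, y3, by simp [y2, y4]⟩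
    set T := N ⊓ Sw ρ ψ (D ⊓ P.perp {e}) a b
    have s1 : ∀ t : F, OE P a (t • f) ∈ Sts ρ T := fun t v hv => ⟨H.stab _ a1 _ (D.smul_mem _ f1) v hv.1,
      mem_Sw.2 fun w hw h => by rw [ap_swap (OE_comm ..), mem_Sw.1 hv.2 w hw h, map_smul]⟩
    have k1 : ∀ c ∈ D ⊓ P.perp {e}, ∀ w ∈ D ⊓ P.perp {e}, P.B c a = 0 → P.B c b = 0 → P.B w a = 0 → P.B w b = 0 →
        ∀ v ∈ T, ρ (OE P c w) v = v := fun c hc w hw c1 c2 c3 c4 v hv => by
      have := (OE_ad a f).induction ρ hψ (N := LinearMap.eqLocus (ρ (OE P c w)) .id) s1 (fun d v hv hd =>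
        H.kill _ _ (p1 (d - P.B f b)) c hc.1 w hw.1 c1 (by simp [c2, mem_perp_singleton.1 hc.2]) c3
          (by simp [c4, mem_perp_singleton.1 hw.2]) v ⟨hv.1, mem_Sw_of f1 f3 f2 hv.2 (by simpa using hd)⟩) hv
      exact this
    refine ⟨?_, k1⟩
    have s2 : ∀ t : F, OE P e (t • y) ∈ Sts ρ T := fun t v hv => ⟨H.stab _ he _ (D.smul_mem _ y1) v hv.1,
      Sw_map (fun w hw => by
        rw [OE_inv]
        exact OE_mem ⟨he, mem_perp_singleton.2 (B_self0 h0)⟩ (neg_mem (Submodule.smul_mem _ _ ⟨y1, mem_perp_singleton.2 y2⟩)) hw)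
        (OE_fix a2 (by simp [B_swap_zero y3])) (fun w hw _ => by
          simp [OE_smul h0, y2, b2, mem_perp_singleton.1 hw.2]) hv.2⟩
    have c1 : ∀ s t : F, ∀ v ∈ T, ρ (OE P e (s • y)) (ρ (OE P a (t • f)) v) =
        ψ (s * t) • ρ (OE P a (t • f)) (ρ (OE P e (s • y)) v) := fun s t v hv => by
      rw [ap_swap (conj_swap (conj_OE ..)), OE_fix a2 (by simp [B_swap_zero y3]), OE_smul h0 (by simp [y2]), add_sub_assoc,
        OE_add (by simp [f3]) (by simp [y3, B_swap_zero a2]), mul_ap, mem_Sw.1 (s2 s v hv).2 _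
          (sub_mem (Submodule.smul_mem _ _ (Submodule.smul_mem _ _ ⟨y1, mem_perp_singleton.2 y2⟩))
            (Submodule.smul_mem _ _ ⟨he, mem_perp_singleton.2 (B_self0 h0)⟩)) (by simp [y3, B_swap_zero a2]), map_smul]
      congr 2; simp [f2, y4, B_swap_zero b2, mul_comm]
    have d1 := heis_mul hψ (OE_ad e y) s2 (fun t => ⟨_, s1 t, fun s => c1 s t⟩) 0
    rw [heis_mul hψ (OE_ad a f) s1 (fun s => ⟨_, s2 (-s), fun t v hv => by
      rw [c1 _ _ v hv, smul_smul, ← AddChar.map_add_eq_mul]; simp [mul_comm]⟩) (P.B f b)] at d1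
    have d2 : T ⊓ Wx ρ ψ (fun t : F => OE P a (t • f)) (P.B f b) = N ⊓ Sw ρ ψ D a b :=
      le_antisymm (fun v hv => ⟨hv.1.1, by simpa using mem_Sw_of f1 f3 f2 hv.1.2 (d := 0) (by simpa using hv.2)⟩)
        fun v hv => ⟨⟨hv.1, mem_Sw.2 fun w hw => mem_Sw.1 hv.2 w hw.1⟩, Sw_Wx hv.2 f1 f3⟩
    rw [← d2, Nat.eq_of_mul_eq_mul_left Fintype.card_pos d1]
    refine congrArg (fun X : Submodule ℂ M => finrank ℂ X)
      (le_antisymm (fun v hv => ⟨⟨hv.1.1, hv.2⟩, by simpa using Sw_Wx hv.1.2 y1 y2⟩) ?_)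
    have d3 : T ⊓ Wx ρ ψ (fun t : F => OE P e (t • y)) 0 ≤ Sw ρ ψ (D ⊓ P.perp {a}) e 0 := fun v hv =>
      mem_Sw0.2 fun w hw h => by
        have e1 : w = (w - P.B w b • y) + P.B w b • y := by simp
        have e2 := mem_perp_singleton.1 hw.2
        rw [e1, OE_add (by simp [h, y2]) (by simp [y2]), mul_ap, mem_Wx_zero.1 hv.2, k1 e ⟨he, mem_perp_singleton.2 (B_self0 h0)⟩
          _ ⟨sub_mem hw.1 (D.smul_mem _ y1), by simp [mem_perp_singleton, h, y2]⟩ (B_swap_zero a2) (B_swap_zero b2)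
          (by simp [e2, y3]) (by simp [y4]) v hv.1]
    refine (OE_ad e x).induction ρ hψ (fun t v hv => ⟨⟨H.stab _ he _ (D.smul_mem _ x1) v hv.1.1,
      mem_Sw.2 fun w hw h => ?_⟩, Wx_comm (fun _ => OE_comm ..) hv.2⟩) fun d v hv hd => ?_
    · have e2 := mem_perp_singleton.1 hw.2
      rw [ap_OE, OE_inv, OE_smul h0 (by simp [x2]),
        OE_smul h0 (by simp [x2]), a2, e2]
      simp only [zero_smul, add_zero, mul_zero, sub_eq_add_neg, ← neg_smul]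
      rw [add_comm a, OE_add_left (by simp [o_Q_smul, h0]) a3 (by simp [a2]) (by simp [e2, B_self0 h0])
        (by simp [h, B_swap_zero a2]), mul_ap, mem_Sw.1 hv.1.2 _ (add_mem hw (Submodule.smul_mem _ _
          ⟨he, mem_perp_singleton.2 (B_self0 h0)⟩)) (by simp [h, B_swap_zero a2]), map_smul,
        OE_smul_left h0 (by simp [e2, B_self0 h0, a2]), mem_Sw0.1 (d3 hv) _ (Submodule.smul_mem _ _ (sub_mem (add_mem
          ⟨hw.1, mem_perp_singleton.2 h⟩ (Submodule.smul_mem _ _ ⟨he, mem_perp_singleton.2 (B_swap_zero a2)⟩))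
          (Submodule.smul_mem _ _ ⟨a1, mem_perp_singleton.2 (B_self0 a3)⟩))) (by simp [e2, B_self0 h0, a2]), map_smul]
      simp [B_swap_zero b2]
    have d4 := mem_Sw_of x1 x2 x3 (d3 hv) (d := d) (by simpa using hd)
    by_cases h : d = 0
    · exact ⟨⟨hv.1.1, by simpa [h] using d4⟩, hv.1.2⟩
    rw [eq_zero_of_Wx hψ one_ne_zero (y4 ▸ Sw_Wx hv.1.2 ⟨y1, mem_perp_singleton.2 y2⟩ y3) (mem_Wx_zero.2 fun t =>
      H.kill _ _ ⟨he, by simpa using D.smul_mem _ a1, h0, by simp [a2], hf, d⁻¹ • x, D.smul_mem _ x1, by simp [x2],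
        by simp [x3, h]⟩ a a1 _ (D.smul_mem _ y1) a2 (by simp [B_self0 a3]) (by simp [y2]) (by simp [y3]) v ⟨hv.1.1, d4⟩)]
    exact zero_mem _
  refine ⟨fun a ha w hw v hv => ⟨H.stab a ha.1 w hw.1 v hv.1, Sw_map (fun u hu => by
    rw [OE_inv]; exact OE_mem ha.1 (neg_mem hw.1) hu) (OE_fix (B_swap_zero (mem_perp_singleton.1 ha.2))
      (B_swap_zero (mem_perp_singleton.1 hw.2))) (by simp) hv.2⟩, fun a b h => ?_, fun a b h => ?_,
    fun a b h c hc w hw c1 c2 c3 c4 v hv => (key a b h).2 c hc w hw c1 c2 c3 c4 v ⟨hv.1.1, hv.2⟩⟩ <;>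
  · rw [(key a b h).1]
    obtain ⟨a1, a2, a3, a4, ⟨x, x1, x2⟩, y, y1, y2⟩ := h
    first | exact H.le1 _ _ ⟨a1.1, a2.1, a3, a4, ⟨x, x1.1, x2⟩, y, y1.1, y2⟩
          | exact H.pos _ _ ⟨a1.1, a2.1, a3, a4, ⟨x, x1.1, x2⟩, y, y1.1, y2⟩

end Cfsg.Agent.Forms
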