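import Cfsg.Agent.Forms.OBase
import Cfsg.Agent.Forms.LongHecke

/-!
Hyperbolic frames, the chain of fixed spaces and the resulting dimension count.
-/

set_option autoImplicit false

namespace Cfsg.Agent.Forms

open Module Finset Cfsg.Agent.GLn MulAut Cfsg.Agent.Polar Cfsg.Agent.Polar.PQ Cfsg.Agent.Cl Submodule

variable {F : Type*} [Field F] {V : Type*} [AddCommGroup V] [Module F V] {P : PQ (oFP F) V}

variable (P) in
/-- Hyperbolic frames. -/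
structure OFr (m : ℕ) where
  e : ℕ → V
  f : ℕ → V
  qe : ∀ i, P.Q (e i) = 0
  qf : ∀ i, P.Q (f i) = 0
  ee : ∀ i j, P.B (e i) (e j) = 0
  ff : ∀ i j, P.B (f i) (f j) = 0
  ef : ∀ {i j}, i ≠ j → P.B (e i) (f j) = 0
  one : ∀ {i}, i < m → P.B (e i) (f i) = 1

attribute [simp] OFr.qe OFr.qf OFr.ee OFr.ff

/-- The frame of a system of hyperbolic pairs. -/
def OFr.of {m : ℕ} (H : HS P m) : OFr P m where
  e i := if h : i < m then H.e ⟨i, h⟩ else 0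
  f i := if h : i < m then H.f ⟨i, h⟩ else 0
  qe i := by split_ifs; exacts [o_sing_iff.1 (H.hyp _).1, o_Q_zero]
  qf i := by split_ifs; exacts [o_sing_iff.1 (H.hyp _).2, o_Q_zero]
  ee i j := by split_ifs <;> simp [H.ee]
  ff i j := by split_ifs <;> simp [H.ff]
  ef h := by split_ifs <;> simp [H.ef, h]
  one h := by simp [h, (H.hyp _).pair]

variable {M : Type*} [AddCommGroup M] [Module ℂ M] (ρ : Representation ℂ P.EG M) (ψ : AddChar F ℂ)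

/-- The fixed space of the unipotent radical of the stabiliser of a subspace. -/
def Fix (L : Submodule F V) : Submodule ℂ M := Fx ρ {g | ∃ c ∈ L, ∃ w ∈ P.perp L, OE P c w = g}

variable {ρ} in
theorem mem_Fix {L : Submodule F V} {v : M} : v ∈ Fix ρ L ↔ ∀ c ∈ L, ∀ w ∈ P.perp L, ρ (OE P c w) v = v :=
  ⟨fun h c hc w hw => h _ ⟨c, hc, w, hw, rfl⟩, fun h _ ⟨c, hc, w, hw, e⟩ => e ▸ h c hc w hw⟩

variable {ρ} in
theorem OE_mem_Sts [FiniteDimensional ℂ M] {L : Submodule F V} {a w : V} (h1 : a ∈ P.perp L)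
    (h2 : a ∈ L ∨ w ∈ P.perp L) : OE P a w ∈ Sts ρ (Fix ρ L) := fun v hv => mem_Fix.2 fun c hc z hz => by
  have e : ∀ w, a ∈ L ∨ w ∈ P.perp L → ∀ x ∈ L, OE P a w • x ∈ L := fun w h x hx => by
    by_cases h0 : P.Q a = 0 ∧ P.B w a = 0
    · rw [OE_smul h0.1 h0.2, B_swap_zero (h1 x hx)]
      rcases h with h | h
      · simpa using sub_mem hx (L.smul_mem _ h)
      · simpa [B_swap_zero (h x hx)]
    · rwa [OE_of_not h0, one_smul]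
  rw [ap_OE, mem_Fix.1 hv _ (OE_inv (P := P) a w ▸ e _ (h2.imp_right neg_mem) c hc) _ fun s hs => by
    rw [← eg_B', hz _ (e w h2 s hs)]]

namespace OFr

variable {m : ℕ} (Φ : OFr P m) {i j k l : ℕ} {x : V} {v : M}

theorem fe (h : i ≠ j) : P.B (Φ.f i) (Φ.e j) = 0 := B_swap_zero (Φ.ef h.symm)

theorem one' (h : i < m) : P.B (Φ.f i) (Φ.e i) = 1 := (o_swap _ _).trans (Φ.one h)

theorem hyp (h : i < m) : P.Hyp (Φ.e i) (Φ.f i) := ⟨o_sing_iff.2 (Φ.qe i), o_sing_iff.2 (Φ.qf i), Φ.one h⟩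

/-- The members of the flag. -/
def L (k : ℕ) : Submodule F V := span F (Φ.e '' Set.Iio k)

/-- Their orthogonal complements. -/
def D (k : ℕ) : Submodule F V := k.rec ⊤ fun j D => D ⊓ P.perp {Φ.e j}

/-- The non-degenerate complements. -/
def W (k : ℕ) : Submodule F V := k.rec ⊤ fun j W => W ⊓ P.perp {Φ.e j, Φ.f j}

/-- The fixed spaces. -/
noncomputable def Mx (k : ℕ) : Submodule ℂ M := k.rec ⊤ fun j N => N ⊓ Sw ρ ψ (Φ.D j) (Φ.e j) 0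

/-- Root elements. -/
noncomputable def X (i j : ℕ) (t : F) : P.EG := OE P (Φ.e i) (t • -Φ.f j)

variable {ρ ψ}

theorem mem_D : x ∈ Φ.D k ↔ ∀ i < k, P.B x (Φ.e i) = 0 := by
  induction k with
  | zero => simp [D]
  | succ k ih => exact (and_congr ih mem_perp_singleton).trans Nat.forall_lt_succ_right.symm

theorem mem_W : x ∈ Φ.W k ↔ ∀ i < k, P.B x (Φ.e i) = 0 ∧ P.B x (Φ.f i) = 0 := by
  induction k with
  | zero => simp [W]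
  | succ k ih => exact (and_congr ih mem_perp_pair).trans Nat.forall_lt_succ_right.symm

theorem mem_Mx : v ∈ Φ.Mx ρ ψ k ↔ ∀ i < k, v ∈ Sw ρ ψ (Φ.D i) (Φ.e i) 0 := by
  induction k with
  | zero => simp [Mx]
  | succ k ih => exact (and_congr ih Iff.rfl).trans Nat.forall_lt_succ_right.symm

theorem perp_L : P.perp (Φ.L k) = Φ.D k := by
  ext; simp [L, perp_span, PQ.mem_perp, mem_D]

theorem e_mem_D (i k : ℕ) : Φ.e i ∈ Φ.D k := Φ.mem_D.2 fun _ _ => Φ.ee _ _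

theorem f_mem_D (h : k ≤ i) : Φ.f i ∈ Φ.D k := Φ.mem_D.2 fun _ _ => Φ.fe (by omega)

theorem e_mem_L (h : i < k) : Φ.e i ∈ Φ.L k := subset_span ⟨i, h, rfl⟩

theorem L_le {U : Submodule F V} (h : ∀ i < k, Φ.e i ∈ U) : Φ.L k ≤ U := span_le.2 (by rintro _ ⟨i, hi, rfl⟩; exact h i hi)

theorem D_anti (h : k ≤ l) : Φ.D l ≤ Φ.D k := fun _ hx => Φ.mem_D.2 fun i hi => Φ.mem_D.1 hx i (by omega)

theorem ts (k : ℕ) : P.TotSing (Φ.L k) := totSing_span (by rintro _ ⟨i, -, rfl⟩; exact o_sing_iff.2 (Φ.qe i))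
  (by rintro _ ⟨i, -, rfl⟩ _ ⟨j, -, rfl⟩; exact Φ.ee i j)

theorem e_mem_W (h : k ≤ i) : Φ.e i ∈ Φ.W k := Φ.mem_W.2 fun _ _ => ⟨Φ.ee _ _, Φ.ef (by omega)⟩

theorem f_mem_W (h : k ≤ i) : Φ.f i ∈ Φ.W k := Φ.mem_W.2 fun _ _ => ⟨Φ.fe (by omega), Φ.ff _ _⟩

theorem W_le : Φ.W (k + 1) ≤ Φ.D k ⊓ P.perp {Φ.e k} := fun _ hx => Φ.mem_D (k := k + 1).2 fun i hi => (Φ.mem_W.1 hx i hi).1

theorem nds (hP : P.ND) (h : k ≤ m) : NDS P (Φ.W k) := by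
  induction k with
  | zero => exact fun x _ h => (hP.exists_ne h).imp fun _ h => ⟨trivial, h⟩
  | succ k ih => exact (ih (by omega)).inf (Φ.hyp h) (Φ.e_mem_W le_rfl) (Φ.f_mem_W le_rfl)

theorem finrank_W [FiniteDimensional F V] (h : k ≤ m) : finrank F (Φ.W k) + 2 * k = finrank F V := by
  induction k with
  | zero => exact finrank_top F V
  | succ k ih =>
    have := finrank_inf_perp (Φ.hyp h) (Φ.e_mem_W le_rfl) (Φ.f_mem_W le_rfl)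
    have := ih (by omega)
    change finrank F ↥(Φ.W k ⊓ _) + _ = _
    omega

theorem eq_top {S : Submodule F V} (h1 : ∀ i, Φ.e i ∈ S) (h2 : ∀ i, Φ.f i ∈ S) (h3 : Φ.W m ≤ S) (x : V) : x ∈ S := by
  have : ∀ k ≤ m, Φ.W k ≤ S := fun k hk => Nat.decreasingInduction (fun k hk ih x hx => by
    have := ih (show P.hproj (Φ.e k) (Φ.f k) x ∈ Φ.W (k + 1) from ⟨sub_mem (sub_mem hx (smul_mem _ _ (Φ.e_mem_W le_rfl)))
      (smul_mem _ _ (Φ.f_mem_W le_rfl)), (Φ.hyp hk).hproj_mem x⟩)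
    rw [hyp_decomp (P := P) (Φ.e k) (Φ.f k) x]
    exact add_mem (add_mem (S.smul_mem _ (h1 k)) this) (S.smul_mem _ (h2 k))) h3 hk
  exact this 0 m.zero_le trivial

theorem mem_Fix_L (h : ∀ i < k, v ∈ Sw ρ ψ (Φ.D k) (Φ.e i) 0) : v ∈ Fix ρ (Φ.L k) := by
  refine mem_Fix.2 fun c hc => ?_
  have q := fun x hx => o_sing_iff.1 ((Φ.ts k).sing x hx)
  induction hc using span_induction with
  | mem _ hc => obtain ⟨i, hi, rfl⟩ := hc; exact fun w hw => mem_Sw0.1 (h i hi) w (Φ.perp_L ▸ hw) (hw _ (Φ.e_mem_L hi))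
  | zero => exact fun w _ => by rw [← zero_smul F (0 : V), OE_smul_left o_Q_zero (by simp), zero_smul, OE_zero, one_ap]
  | add c c' hc hc' h1 h2 =>
    intro w hw
    rw [OE_add_left (q c hc) (q c' hc') ((Φ.ts k).perp _ hc' _ hc) (hw c hc) (hw c' hc'), mul_ap, h2 w hw,
        h1 _ (sub_mem hw (smul_mem _ _ ((Φ.ts k).le_perp hc')))]
  | smul t c hc h1 => exact fun w hw => by rw [OE_smul_left (q c hc) (hw c hc), h1 _ (smul_mem _ _ hw)]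

theorem Fix_le {U : Submodule F V} (h : Φ.e i ∈ U) (h' : Φ.D k ≤ P.perp U) : Fix ρ U ≤ Sw ρ ψ (Φ.D k) (Φ.e i) 0 :=
  fun _ hv => mem_Sw0.2 fun w hw _ => mem_Fix.1 hv _ h w (h' hw)

theorem Fix_L_le (h : i < l) (h' : l ≤ k) : Fix ρ (Φ.L l) ≤ Sw ρ ψ (Φ.D k) (Φ.e i) 0 :=
  Φ.Fix_le (Φ.e_mem_L h) ((Φ.D_anti h').trans Φ.perp_L.ge)

theorem Sw_succ (b : V) : Sw ρ ψ (Φ.D (i + 1)) (Φ.e i) b = Sw ρ ψ (Φ.D i) (Φ.e i) b := by
  ext; simp only [mem_Sw]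
  exact ⟨fun h w hw h1 => h w ⟨hw, mem_perp_singleton.2 h1⟩ h1, fun h w hw => h w hw.1⟩

theorem mem_Mx' : v ∈ Φ.Mx ρ ψ k ↔ ∀ i < k, v ∈ Fix ρ (Φ.L (i + 1)) := by
  rw [mem_Mx]
  exact ⟨fun h i hi => Φ.mem_Fix_L (ψ := ψ) fun j hj => mem_Sw0.2 fun w hw => mem_Sw0.1 (h j (by omega)) w
    (Φ.D_anti (by omega) hw), fun h i hi => (Φ.Sw_succ 0).le (Φ.Fix_L_le i.lt_succ_self le_rfl (h i hi))⟩

theorem X_ad (i j : ℕ) : Ad1 (Φ.X i j) := OE_ad _ _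

theorem X_fix {U : Submodule F V} (h : Φ.e i ∈ U) (h' : Φ.f j ∈ P.perp U) (hv : v ∈ Fix ρ U) : v ∈ Wx ρ ψ (Φ.X i j) 0 :=
  mem_Wx_zero.2 fun _ => mem_Fix.1 hv _ h _ (smul_mem _ _ (neg_mem h'))

theorem X_fix_L (h : i < k) (h' : k ≤ j) (hv : v ∈ Fix ρ (Φ.L k)) : v ∈ Wx ρ ψ (Φ.X i j) 0 :=
  Φ.X_fix (Φ.e_mem_L h) (Φ.perp_L ▸ Φ.f_mem_D h') hv

theorem to_Sw (hk : k < m) (h : k ≠ i) (hv : v ∈ Sw ρ ψ (Φ.D (k + 1)) (Φ.e i) 0) {c : F} (hc : v ∈ Wx ρ ψ (Φ.X i k) c) :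
    v ∈ Sw ρ ψ (Φ.D k) (Φ.e i) (c • -Φ.e k) := by
  simpa only [zero_add] using mem_Sw_of (e := -Φ.e k) (d := c) (neg_mem (Φ.f_mem_D le_rfl)) (by simp [Φ.fe h])
    (by simp [Φ.one' hk]) (mem_Sw0.2 fun w hw => mem_Sw0.1 hv w ⟨hw.1, by simpa [mem_perp_singleton] using hw.2⟩)
    (by rw [map_zero, zero_add]; exact hc)

theorem to_Sw0 (hk : k < m) (h : k ≠ i) (hv : v ∈ Sw ρ ψ (Φ.D (k + 1)) (Φ.e i) 0) (hc : v ∈ Wx ρ ψ (Φ.X i k) 0) :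
    v ∈ Sw ρ ψ (Φ.D k) (Φ.e i) 0 := by simpa using Φ.to_Sw hk h hv hc

theorem pr (h : i + 1 < m) {c : F} (hc : c ≠ 0) : Pr P (Φ.D i) (Φ.e i) (c • -Φ.e (i + 1)) :=
  ⟨Φ.e_mem_D _ _, smul_mem _ _ (neg_mem (Φ.e_mem_D _ _)), Φ.qe _, by simp, ⟨_, Φ.f_mem_D le_rfl, Φ.one' (by omega)⟩,
    c⁻¹ • -Φ.f (i + 1), smul_mem _ _ (neg_mem (Φ.f_mem_D (by omega))), by simp [Φ.fe], by simp [Φ.one' h, hc]⟩

variable [FiniteDimensional ℂ M]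

theorem X_mem_Sts (h : i < k ∨ k ≤ j) (t : F) : Φ.X i j t ∈ Sts ρ (Fix ρ (Φ.L k)) :=
  OE_mem_Sts (Φ.perp_L ▸ Φ.e_mem_D _ _) (h.imp Φ.e_mem_L fun h => Φ.perp_L ▸ smul_mem _ _ (neg_mem (Φ.f_mem_D h)))

variable [Fintype F] (hψ : ψ ≠ 1) {q : F} (H : Lv ρ ψ q ⊤ ⊤)
include hψ H

theorem lv (h : k ≤ m) : Lv ρ ψ q (Φ.D k) (Φ.Mx ρ ψ k) := by
  induction k with
  | zero => exact H
  | succ k ih => exact (ih (by omega)).step hψ (Φ.e_mem_D _ _) (Φ.qe _) ⟨_, Φ.f_mem_D le_rfl, Φ.one' h⟩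

theorem kill (h : i + 1 < m) {c : F} (hc : c ≠ 0) (h1 : v ∈ Φ.Mx ρ ψ i) (h2 : v ∈ Sw ρ ψ (Φ.D (i + 2)) (Φ.e i) 0)
    (h3 : v ∈ Wx ρ ψ (Φ.X i (i + 1)) c) {a w : V} (ha : a ∈ Φ.D (i + 2)) (hw : w ∈ Φ.D (i + 2)) : ρ (OE P a w) v = v :=
  (Φ.lv hψ H (by omega)).kill _ _ (Φ.pr h hc) a (Φ.D_anti (by omega) ha) w (Φ.D_anti (by omega) hw)
    (Φ.mem_D.1 ha i (by omega)) (by simp [Φ.mem_D.1 ha]) (Φ.mem_D.1 hw i (by omega)) (by simp [Φ.mem_D.1 hw]) v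
    ⟨h1, (Φ.Sw_succ _).le (Φ.to_Sw h (by omega) h2 h3)⟩

theorem line (h : i + 1 < m) {N : Submodule ℂ M} (h1 : N ≤ Φ.Mx ρ ψ i ⊓ Sw ρ ψ (Φ.D (i + 2)) (Φ.e i) 0) :
    finrank ℂ ↥(N ⊓ Wx ρ ψ (Φ.X i (i + 1)) 1) ≤ 1 :=
  (finrank_mono fun _ hv => by exact ⟨(h1 hv.1).1, (Φ.Sw_succ _).le (Φ.to_Sw h (by omega) (h1 hv.1).2 hv.2)⟩).trans
    ((Φ.lv hψ H (by omega)).le1 _ _ (Φ.pr h one_ne_zero))

theorem exists_vec (hq : q = 0) (h : i + 1 < m) : ∃ v ∈ Φ.Mx ρ ψ i, v ≠ 0 ∧ v ∈ Wx ρ ψ (Φ.X i (i + 1)) 1 ∧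
    ∀ U, P.TotSing U → Φ.L (i + 2) ≤ U → v ∈ Fix ρ U := by
  obtain ⟨v, hv, h0⟩ := exists_of_finrank (((Φ.lv hψ H (by omega)).pos _ _ (Φ.pr h one_ne_zero)).2
    (by simp [o_Q_neg, hq]))
  have h1 : v ∈ Wx ρ ψ (Φ.X i (i + 1)) 1 := by
    have := Sw_Wx hv.2 (neg_mem (Φ.f_mem_D (i := i + 1) (by omega))) (by simp [Φ.fe])
    rwa [show P.B _ _ = 1 by simp [Φ.one' h]] at this
  have h2 : ∀ U, Φ.L (i + 2) ≤ U → P.perp U ≤ Φ.D (i + 2) := fun U hU x hx => Φ.perp_L ▸ fun s hs => hx s (hU hs)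
  exact ⟨v, hv.1, h0, h1, fun U hU h3 => mem_Fix.2 fun c hc w hw => Φ.kill hψ H h one_ne_zero hv.1
    (mem_Sw0.2 fun w hw h => by simpa [Φ.mem_D.1 hw] using mem_Sw.1 hv.2 w (Φ.D_anti (by omega) hw) h) h1
    (h2 U h3 (hU.le_perp hc)) (h2 U h3 hw)⟩

end OFr

namespace OFr

variable {m : ℕ} (Φ : OFr P m) [Fintype F] [FiniteDimensional F V]

theorem nq_W {δ : ℕ} (hd : finrank F V = 2 * m + δ) (c : F) (r : ℕ) : ∀ j, j + r = m →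
    (Nat.card F * (P.res (Φ.W j)).nq c : ℤ) = Nat.card F ^ (2 * r + δ) +
      (Nat.card F * (P.res (Φ.W m)).nq c - Nat.card F ^ δ) * Nat.card F ^ r := by
  have := Module.finite_of_finite F (M := V)
  induction r with
  | zero => rintro j rfl; simp
  | succ r ih =>
    intro j hj
    have h1 := Φ.finrank_W (k := j) (by omega)
    rw [nq_res_rec (Φ.hyp (show j < m by omega)) (Φ.e_mem_W le_rfl) (Φ.f_mem_W le_rfl),
      show finrank F (Φ.W j) - 2 = 2 * r + δ by omega]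
    have := ih (j + 1) (by omega)
    push_cast [Nat.cast_sub (Nat.card_pos (α := F))]
    change _ * (_ + _ * ((P.res (Φ.W (j + 1))).nq c : ℤ)) = _
    rw [this]; ring

variable {M : Type*} [NormedAddCommGroup M] [InnerProductSpace ℂ M] [FiniteDimensional ℂ M]
  {ρ : Representation ℂ P.EG M} {ψ : AddChar F ℂ} (hρ : IsUni ρ) (hψ : ψ ≠ 1) (hP : P.ND) {c : F}
include hρ hψ hP

theorem count1 [DecidableEq F] {j : ℕ} (hj : j < m)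
    (h : ∀ a b, Pr P (Φ.D j) a b → P.Q b = c → finrank ℂ ↥(Φ.Mx ρ ψ j ⊓ Sw ρ ψ (Φ.D j) a b) ≠ 0) :
    finrank ℂ (Φ.Mx ρ ψ (j + 1)) + (P.res (Φ.W (j + 1))).nq c ≤ finrank ℂ (Φ.Mx ρ ψ j) + if c = 0 then 1 else 0 := by
  have := Module.finite_of_finite F (M := V)
  rw [nq_res, ← add_assoc]
  exact Nat.add_le_add_right (cn0_le hρ hψ (Φ.nds hP hj) Φ.W_le fun u h1 h2 => h _ _ (pr_of_nds (Φ.nds hP hj) Φ.W_le
    (Φ.e_mem_D _ _) (Φ.qe _) ⟨_, Φ.f_mem_D le_rfl, Φ.one' hj⟩ h1 h2)) _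

theorem count [DecidableEq F] (H : Lv ρ ψ c ⊤ ⊤) {δ : ℕ} (hd : finrank F V = 2 * m + δ) :
    (Nat.card F * (Nat.card F ^ 2 - 1) * (finrank ℂ (Φ.Mx ρ ψ m) - m * if c = 0 then 1 else 0) +
      Nat.card F ^ δ * (Nat.card F ^ (2 * m) - 1) + (Nat.card F * (P.res (Φ.W m)).nq c - Nat.card F ^ δ) *
        (Nat.card F + 1) * (Nat.card F ^ m - 1) : ℤ) ≤ Nat.card F * (Nat.card F ^ 2 - 1) * finrank ℂ M := by
  have : ∀ r j : ℕ, j + r = m → (Nat.card F * (Nat.card F ^ 2 - 1) * (finrank ℂ (Φ.Mx ρ ψ m) - r * if c = 0 then 1 else 0) +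
      Nat.card F ^ δ * (Nat.card F ^ (2 * r) - 1) + (Nat.card F * (P.res (Φ.W m)).nq c - Nat.card F ^ δ) *
        (Nat.card F + 1) * (Nat.card F ^ r - 1) : ℤ) ≤ Nat.card F * (Nat.card F ^ 2 - 1) * finrank ℂ (Φ.Mx ρ ψ j) := by
    intro r
    induction r with
    | zero => rintro j rfl; simp
    | succ r ih =>
      intro j hj
      have h1 := ih (j + 1) (by omega)
      have h2 := Φ.nq_W hd c r (j + 1) (by omega)
      have h3 := Φ.count1 hρ hψ hP (show j < m by omega) fun a b h => ((Φ.lv hψ H (by omega)).pos a b h).2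
      have h4 : (1 : ℤ) ≤ Nat.card F := by exact_mod_cast Nat.card_pos
      have h5 := mul_le_mul_of_nonneg_left (Int.ofNat_le.2 h3)
        (show (0 : ℤ) ≤ Nat.card F * (Nat.card F ^ 2 - 1) from mul_nonneg (by omega) (by nlinarith))
      push_cast at h5 ⊢
      linear_combination h1 + h5 - (Nat.card F ^ 2 - 1 : ℤ) * h2
  exact finrank_top ℂ M ▸ this m 0 (zero_add m)

end OFr

end Cfsg.Agent.Forms
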