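import Cfsg.Agent.Forms.OFrame

/-!
Steinberg relations and torus elements attached to hyperbolic frames.
-/

set_option autoImplicit false

namespace Cfsg.Agent.Forms

open Module Finset Cfsg.Agent.GLn MulAut Cfsg.Agent.Polar Cfsg.Agent.Polar.PQ Cfsg.Agent.Cl Submodule

section Abstract

variable {k Γ : Type*} [Field k] [Group Γ]

/-- Rescaling. -/
def StA.scale {ι : Type*} (A : StA ι k Γ) (c : ι → kˣ) : StA ι k Γ where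
  x i j t := A.x i j (c i * t * (c j)⁻¹)
  add i j s t := by simp only [mul_add, add_mul, A.add i j _]
  comm h s t := by rw [A.comm h]; congr 2; simp only [Units.val_inv_eq_inv_val]; field_simp
  row h s t := A.row h _ _
  col h s t := A.col h _ _

/-- The graph automorphism. -/
def StA.rev3 (A : StA (Fin 3) k Γ) : StA (Fin 3) k Γ := (A.flip.comap Fin.rev Fin.rev_injective).scale ![1, -1, 1]

variable {V : Type*} [AddCommGroup V] [Module ℂ V] [FiniteDimensional ℂ V] (ρ : Representation ℂ Γ V) (ψ : AddChar k ℂ)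

/-- The condition on adjacent nodes. -/
def CA2 (x y x' y' : k → Γ) (N : Submodule ℂ V) : Prop :=
  ∃ (A : StA (Fin 3) k Γ) (M : Submodule ℂ V), x = A.x 0 1 ∧ y = A.x 1 0 ∧ x' = A.x 1 2 ∧ y' = A.x 2 1 ∧ A.Inv ρ M ∧
    A.Kl ρ ψ M 0 1 2 ∧ A.Kr ρ ψ M 0 1 2 ∧ N ≤ M ⊓ Wx ρ ψ (A.x 0 2) 0

/-- The condition on non-adjacent nodes. -/
def CA11 (x y x' y' : k → Γ) (Y : Submodule ℂ V) : Prop :=
  (∀ s t, x s * x' t = x' t * x s) ∧ (∀ s t, x s * y' t = y' t * x s) ∧ (∀ s t, y s * y' t = y' t * y s) ∧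
    ∃ M : Submodule ℂ V, Y ≤ M ∧ (∀ t, x t ∈ Sts ρ M) ∧ (∀ t, y t ∈ Sts ρ M) ∧ (∀ t, x' t ∈ Sts ρ M) ∧
      (∀ t, y' t ∈ Sts ρ M) ∧ ∀ c ≠ 0, ∀ v ∈ M, v ∈ Wx ρ ψ x c → v ∈ Wx ρ ψ x' 0

variable {ρ ψ} [Fintype k] (hψ : ψ ≠ 1)
include hψ

theorem kill_symm {x x' : k → Γ} (hx : Ad1 x) {M : Submodule ℂ V} {c : k} (hc : c ≠ 0)
    (h1 : ∀ t, ∀ v ∈ M ⊓ Wx ρ ψ x' c, ρ (x t) v ∈ M ⊓ Wx ρ ψ x' c)
    (h : ∀ c ≠ 0, ∀ v ∈ M, v ∈ Wx ρ ψ x c → v ∈ Wx ρ ψ x' 0) : M ⊓ Wx ρ ψ x' c ≤ Wx ρ ψ x 0 :=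
  hx.induction ρ hψ h1 fun d v hv hd => by
    by_cases e : d = 0
    · exact e ▸ hd
    · exact eq_zero_of_Wx hψ hc hv.2 (h d e v hv.1 hd) ▸ zero_mem _

theorem ca2_of (A : StA (Fin 3) k Γ) {M N N' : Submodule ℂ V} (h1 : A.Inv ρ M) (h2 : A.Kl ρ ψ M 0 1 2)
    (h3 : N ≤ M ⊓ Wx ρ ψ (A.x 0 2) 0) (h4 : N' ≤ M ⊓ Wx ρ ψ (A.x 0 2) 0) :
    CA2 ρ ψ (A.x 0 1) (A.x 1 0) (A.x 1 2) (A.x 2 1) N ∧ CA2 ρ ψ (A.x 1 2) (A.x 2 1) (A.x 0 1) (A.x 1 0) N' := by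
  have h5 : A.Kr ρ ψ M 0 1 2 := fun c hc v a1 a2 a3 => kill_symm hψ (M := M ⊓ Wx ρ ψ (A.x 0 2) 0) (A.add 0 1) hc
    (fun t v hv => ⟨⟨h1 _ _ (by decide) t v hv.1.1, Wx_comm (fun _ => A.row d3_fin.p132 _ _) hv.1.2⟩,
      by simpa using A.shift d3_fin t hv.1.2 hv.2⟩) (fun c hc v hv h => h2 c hc v hv.1 h hv.2) ⟨⟨a1, a3⟩, a2⟩
  have e1 : A.rev3.x 0 1 = A.x 1 2 := funext fun t => by simp [StA.rev3, StA.scale, StA.comap, StA.flip]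
  have e2 : A.rev3.x 1 0 = A.x 2 1 := funext fun t => by simp [StA.rev3, StA.scale, StA.comap, StA.flip]
  have e3 : A.rev3.x 1 2 = A.x 0 1 := funext fun t => by simp [StA.rev3, StA.scale, StA.comap, StA.flip]
  have e4 : A.rev3.x 2 1 = A.x 1 0 := funext fun t => by simp [StA.rev3, StA.scale, StA.comap, StA.flip]
  have e5 : Wx ρ ψ (A.rev3.x 0 2) 0 = Wx ρ ψ (A.x 0 2) 0 := by
    ext; simp only [mem_Wx_zero]
    exact ⟨fun h t => by simpa [StA.rev3, StA.scale, StA.comap, StA.flip] using h (-t), fun h t => h _⟩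
  exact ⟨⟨A, M, rfl, rfl, rfl, rfl, h1, h2, h5, h3⟩, A.rev3, M, e1.symm, e2.symm, e3.symm, e4.symm,
    fun a b h t => h1 _ _ (Fin.rev_injective.ne h.symm) _, by rwa [StA.Kl, e1, e3, e5], by rwa [StA.Kr, e1, e3, e5],
    e5 ▸ h4⟩

theorem CA11.symm {x y x' y' : k → Γ} {Y : Submodule ℂ V} (h : CA11 ρ ψ x y x' y' Y) (hx : Ad1 x)
    (h' : ∀ s t, x' s * y t = y t * x' s) : CA11 ρ ψ x' y' x y Y := by
  obtain ⟨h1, -, h2, M, h3, h4, h5, h6, h7, h8⟩ := h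
  exact ⟨fun s t => (h1 t s).symm, h', fun s t => (h2 t s).symm, M, h3, h6, h7, h4, h5, fun c hc v a1 a2 =>
    kill_symm hψ hx hc (fun t v hv => ⟨h4 t v hv.1, Wx_comm (fun _ => (h1 _ _).symm) hv.2⟩) h8 ⟨a1, a2⟩⟩

omit [FiniteDimensional ℂ V] in
theorem StA.T_eq {ι : Type*} {A : StA ι k Γ} {i j l : ι} (h : D3 i j l) {v : V} (hv : v ∈ Wx ρ ψ (A.x i j) 0)
    (hh : ∀ u, ρ (A.hh i j u) v = v) {a : k} (ha : a ≠ 0) (h0 : Px ρ ψ (A.x i j) a (ρ (A.n i j 1) v) = 0) :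
    A.T ρ i j v = (Fintype.card k : ℂ) • v := by
  classical
  rw [Px_apply, smul_eq_zero_iff_right (inv_ne_zero cardk_ne)] at h0
  have e : ∀ t, ρ (A.x i j t) (ρ (A.n i j 1) v) = ρ (A.n i j 1) (ρ (A.x j i (-t)) v) := fun t =>
    (ap_swap (conj_swap (by simpa using A.n_ji h 1 (-t))) v).symm
  simp only [e, ← map_smul, ← map_sum, ap_eq_zero] at h0
  have h1 := congrArg (Sm ρ (A.x i j)) h0
  have h2 := sum_addChar_mul hψ (-a)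
  rw [if_neg (neg_ne_zero.2 ha), sum_eq_add_units, zero_mul, AddChar.map_zero_eq_one, add_eq_zero_iff_neg_eq] at h2
  rw [map_sum, sum_eq_add_units, map_zero, sum_congr rfl (g := fun u : kˣ => ψ (u * -a) • A.T ρ i j v) fun u _ => by
    rw [map_smul, map_smul, ← Units.val_neg, A.x_eq, mul_ap, mul_ap, mem_Wx_zero.1 hv, (A.add _ _).Sm_ap, A.n_eq, mul_ap, hh,
      T_apply, mul_neg], ← sum_smul, ← h2, neg_zero, (A.add _ _).zero, one_ap, map_smul,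
    Sm_of_fix (mem_Wx_zero.1 hv)] at h1
  simpa [add_neg_eq_zero, eq_comm (a := A.T ρ i j v)] using h1

end Abstract

variable {F : Type*} [Field F] {V : Type*} [AddCommGroup V] [Module F V] {P : PQ (oFP F) V}

theorem OE_comm' {a w c z : V} (h1 : P.B c a = 0) (h2 : P.B c w = 0) (h3 : P.B z a = 0) (h4 : P.B z w = 0) :
    OE P a w * OE P c z = OE P c z * OE P a w := conj_swap (by rw [conj_OE, OE_fix h1 h2, OE_fix h3 h4])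

namespace OFr

variable {m : ℕ} (Φ : OFr P m) {i j k l : ℕ} {x : V}

theorem X_smul (h : i ≠ j) (t : F) (x : V) : Φ.X i j t • x = x - (t * P.B x (Φ.e i)) • Φ.f j + (t * P.B x (Φ.f j)) • Φ.e i := by
  rw [X, OE_smul (Φ.qe i) (by simp [Φ.fe h.symm])]
  simp only [map_smul, map_neg, o_Q_smul, o_Q_neg, Φ.qf, smul_eq_mul]; module

theorem X_comm (h1 : i ≠ l) (h2 : j ≠ k) (s t : F) : Φ.X i j s * Φ.X k l t = Φ.X k l t * Φ.X i j s :=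
  OE_comm' (Φ.ee _ _) (by simp [Φ.ef h2.symm]) (by simp [Φ.fe h1.symm]) (by simp)

/-- The Steinberg relations. -/
noncomputable def st {ι : Type*} (s : ι → ℕ) (hs : Function.Injective s) (h : ∀ r, s r < m) : StA ι F P.EG where
  x a b := Φ.X (s a) (s b)
  add _ _ := Φ.X_ad _ _
  comm {a b c} d t u := by
    refine (conj_swap (conj_OE (Φ.X (s a) (s b) t) (Φ.e (s b)) (u • -Φ.f (s c)))).trans ?_
    rw [Φ.X_smul (hs.ne d.a), Φ.X_smul (hs.ne d.a), mul_assoc,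
      Φ.X_comm (hs.ne d.c) (hs.ne d.a.symm), ← mul_assoc]
    simp only [map_smul, map_neg, LinearMap.smul_apply, LinearMap.neg_apply, Φ.ee, Φ.ff, Φ.one (h b), Φ.fe (hs.ne d.c.symm),
      mul_zero, neg_zero, smul_zero, zero_smul, sub_zero, add_zero, mul_one]
    rw [OE_add_left (Φ.qe _) (by simp [o_Q_smul]) (by simp) (by simp [Φ.fe (hs.ne d.b.symm)])
      (by simp [Φ.fe (hs.ne d.c.symm)]), OE_smul_left (Φ.qe _) (by simp [Φ.fe (hs.ne d.c.symm)]), smul_smul]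
    simp [o_Q_smul, o_Q_neg, X, mul_smul]
  row _ _ _ := OE_comm ..
  col d _ _ := Φ.X_comm (hs.ne d.c) (hs.ne d.b.symm) _ _

theorem n_smul (h : i ≠ j) (hi : i < m) (hj : j < m) (t : Fˣ) (x : V) : nOf (Φ.X i j) (Φ.X j i) t • x =
    x + (t * P.B x (Φ.f j) - P.B x (Φ.f i)) • Φ.e i - (P.B x (Φ.f j) + (t : F)⁻¹ * P.B x (Φ.f i)) • Φ.e j +
      ((t : F)⁻¹ * P.B x (Φ.e j) - P.B x (Φ.e i)) • Φ.f i - (P.B x (Φ.e j) + t * P.B x (Φ.e i)) • Φ.f j := by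
  simp only [nOf, mul_smul, Φ.X_smul h, Φ.X_smul h.symm, map_add, map_sub, map_smul, LinearMap.add_apply,
    LinearMap.sub_apply, LinearMap.smul_apply, Φ.ee, Φ.ff, Φ.one hi, Φ.one hj, Φ.one' hi, Φ.one' hj, Φ.ef h, Φ.ef h.symm,
    Φ.fe h, Φ.fe h.symm, smul_eq_mul, Units.val_inv_eq_inv_val]
  match_scalars <;> field_simp <;> ring

theorem h_smul (h : i ≠ j) (hi : i < m) (hj : j < m) (t : Fˣ) (x : V) : hOf (Φ.X i j) (Φ.X j i) t • x =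
    x + (((t : F)⁻¹ - 1) * P.B x (Φ.f i)) • Φ.e i + ((t - 1) * P.B x (Φ.f j)) • Φ.e j +
      ((t - 1) * P.B x (Φ.e i)) • Φ.f i + (((t : F)⁻¹ - 1) * P.B x (Φ.e j)) • Φ.f j := by
  rw [hOf, mul_smul, inv_smul_eq_iff]
  simp only [Φ.n_smul h hi hj, map_add, map_sub, map_smul, LinearMap.add_apply,
    LinearMap.sub_apply, LinearMap.smul_apply, Φ.ee, Φ.ff, Φ.one hi, Φ.one hj, Φ.one' hi, Φ.one' hj, Φ.ef h, Φ.ef h.symm,
    Φ.fe h, Φ.fe h.symm, smul_eq_mul, Units.val_one]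
  match_scalars <;> field_simp <;> ring

theorem ext {g g' : P.EG} (h1 : ∀ i, g • Φ.e i = g' • Φ.e i) (h2 : ∀ i, g • Φ.f i = g' • Φ.f i)
    (h3 : ∀ x ∈ Φ.W m, g • x = g' • x) : g = g' := eg_ext fun x =>
  Φ.eq_top (S := LinearMap.eqLocus (g.1.1 : V →ₗ[F] V) (g'.1.1 : V →ₗ[F] V)) h1 h2 h3 x

/-- Diagonal elements. -/
def Dg (g : P.EG) : Prop :=
  (∀ i, ∃ c : F, g • Φ.e i = c • Φ.e i) ∧ (∀ i, ∃ c : F, g • Φ.f i = c • Φ.f i) ∧ ∀ x ∈ Φ.W m, g • x = x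

theorem Dg.comm {g g' : P.EG} (h : Φ.Dg g) (h' : Φ.Dg g') : g * g' = g' * g := by
  have : ∀ x : V, (∃ c : F, g • x = c • x) → (∃ c : F, g' • x = c • x) → (g * g') • x = (g' * g) • x :=
    fun x ⟨c, hc⟩ ⟨d, hd⟩ => by simp only [mul_smul, hc, hd, eg_smul, smul_comm c]
  exact Φ.ext (fun i => this _ (h.1 i) (h'.1 i)) (fun i => this _ (h.2.1 i) (h'.2.1 i))
    fun x hx => by simp only [mul_smul, h.2.2 x hx, h'.2.2 x hx]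

theorem dg_h (h : i ≠ j) (hi : i < m) (hj : j < m) (t : Fˣ) : Φ.Dg (hOf (Φ.X i j) (Φ.X j i) t) := by
  refine ⟨fun l => ?_, fun l => ?_, fun x hx => by simp [Φ.h_smul h hi hj, Φ.mem_W.1 hx, hi, hj]⟩ <;> rw [Φ.h_smul h hi hj]
  all_goals
    by_cases h1 : l = i
    · subst h1; exact ⟨1 + _, by simp [Φ.ef h, Φ.fe h, add_smul]; rfl⟩
    by_cases h2 : l = j
    · subst h2; exact ⟨1 + _, by simp [Φ.ef h1, Φ.fe h1, add_smul]; rfl⟩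
    exact ⟨1, by simp [Φ.ef h1, Φ.fe h1, Φ.ef h2, Φ.fe h2]⟩

theorem exists_sub_mem_W (h : k ≤ m) (hx : x ∈ Φ.D k) : ∃ y ∈ Φ.L k, x - y ∈ Φ.W k := by
  induction k with
  | zero => exact ⟨0, zero_mem _, trivial⟩
  | succ k ih =>
    obtain ⟨y, h1, h2⟩ := ih (by omega) hx.1
    refine ⟨y + P.B (x - y) (Φ.f k) • Φ.e k, add_mem (Φ.L_le (fun i hi => Φ.e_mem_L (by omega)) h1)
      (smul_mem _ _ (Φ.e_mem_L (by omega))), ?_⟩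
    rw [← sub_sub]
    exact ⟨sub_mem h2 (smul_mem _ _ (Φ.e_mem_W le_rfl)), mem_perp_pair.2 ⟨by
      simp [mem_perp_singleton.1 hx.2, B_swap_zero (Φ.perp_L.ge (Φ.e_mem_D k k) y h1)], by simp [Φ.one h]⟩⟩

variable {M : Type*} [AddCommGroup M] [Module ℂ M] {ρ : Representation ℂ P.EG M} {ψ : AddChar F ℂ} {v : M}

theorem Mx_le_Fix (h1 : v ∈ Φ.Mx ρ ψ i) : v ∈ Fix ρ (Φ.L i) := Φ.mem_Fix_L (ψ := ψ) fun j hj => mem_Sw0.2 fun w hw =>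
  mem_Sw0.1 (Φ.mem_Mx.1 h1 j hj) w (Φ.D_anti hj.le hw)

theorem Sw_of_W (h : i < m) (y6 : v ∈ Fix ρ (Φ.L i)) {b : V} (hb : b ∈ Φ.D (i + 1)) (h2 : v ∈ Sw ρ ψ (Φ.W (i + 1)) (Φ.e i) b) :
    v ∈ Sw ρ ψ (Φ.D i) (Φ.e i) b := mem_Sw.2 fun w hw h3 => by
  obtain ⟨y, y1, y2⟩ := Φ.exists_sub_mem_W h.le hw
  have y3 := Φ.perp_L.ge (Φ.e_mem_D i i) y y1
  have y4 : w - y - P.B (w - y) (Φ.f i) • Φ.e i ∈ Φ.W (i + 1) :=
    ⟨sub_mem y2 (smul_mem _ _ (Φ.e_mem_W le_rfl)), mem_perp_pair.2 ⟨by simp [h3, B_swap_zero y3], by simp [Φ.one h]⟩⟩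
  have y5 := mem_Sw.1 h2 _ y4 (Φ.mem_W.1 y4 i (by omega)).1
  rw [sub_eq_add_neg, ← neg_smul, OE_add_smul (Φ.qe i) (by simp [h3, B_swap_zero y3])] at y5
  rw [← sub_add_cancel w y, OE_add (by simp [h3, B_swap_zero y3]) (B_swap_zero y3), mul_ap,
    OE_swap (o_sing_iff.1 ((Φ.ts i).sing y y1)) y3 (Φ.qe i), mem_Fix.1 y6 y y1 _ (neg_mem (Φ.perp_L.ge (Φ.e_mem_D i i))), y5]
  simp [B_swap_zero (Φ.mem_D.1 hb i (by omega)), B_swap_zero (Φ.perp_L.ge hb.1 y y1)]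

variable [FiniteDimensional ℂ M] [Fintype F] (hψ : ψ ≠ 1) (H : Lv ρ ψ 0 ⊤ ⊤)
include hψ H

theorem van (h : i ≤ m) {a b : V} (h0 : Pr P (Φ.D i) a b) (h1 : v ∈ Φ.Mx ρ ψ i) (h2 : v ∈ Sw ρ ψ (Φ.D i) a b)
    (h3 : P.Q b ≠ 0) : v = 0 :=
  (Submodule.finrank_eq_zero.1 (not_not.1 (mt ((Φ.lv hψ H h).pos a b h0).1 h3))).le ⟨h1, h2⟩

theorem van2 (h : i + 1 < m) (h1 : v ∈ Φ.Mx ρ ψ i) {b : V} (hb : b ∈ Φ.W (i + 2)) (h2 : v ∈ Sw ρ ψ (Φ.W (i + 2)) (Φ.e i) b)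
    {a c : F} (h3 : v ∈ Wx ρ ψ (Φ.X i (i + 1)) a) (h4 : v ∈ Wx ρ ψ (fun t : F => OE P (Φ.e i) (t • -Φ.e (i + 1))) c)
    (ha : c ≠ 0) (h5 : P.Q b + a * c ≠ 0) : v = 0 := by
  have b1 := Φ.mem_W.1 hb
  have b2 := (b1 (i + 1) (by omega)).1
  have b3 := (b1 (i + 1) (by omega)).2
  have b4 : b + c • -Φ.f (i + 1) + a • -Φ.e (i + 1) ∈ Φ.D (i + 1) := add_mem (add_mem (Φ.mem_D.2 fun j hj => (b1 j (by omega)).1)
    (smul_mem _ _ (neg_mem (Φ.f_mem_D le_rfl)))) (smul_mem _ _ (neg_mem (Φ.e_mem_D _ _)))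
  refine Φ.van hψ H (by omega) ⟨Φ.e_mem_D _ _, b4.1, Φ.qe _, mem_perp_singleton.1 b4.2,
    ⟨_, Φ.f_mem_D le_rfl, Φ.one' (by omega)⟩, c⁻¹ • -Φ.e (i + 1), smul_mem _ _ (neg_mem (Φ.e_mem_D _ _)), by simp,
    by simp [B_swap_zero b2, Φ.one h, ha]⟩ h1 (Φ.Sw_of_W (by omega) (Φ.Mx_le_Fix h1) b4 (mem_Sw_of (D := Φ.W (i + 1)) (e := -Φ.e (i + 1)) (neg_mem (Φ.f_mem_W le_rfl))
      (by simp [Φ.fe]) (by simp [Φ.one' h]) (mem_Sw_of (D := Φ.W (i + 1) ⊓ P.perp {-Φ.e (i + 1)}) (x := -Φ.e (i + 1))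
        (e := -Φ.f (i + 1)) ⟨neg_mem (Φ.e_mem_W le_rfl), by simp [mem_perp_singleton]⟩
        (by simp) (by simp [Φ.one h]) (mem_Sw.2 fun w hw => mem_Sw.1 h2 w ⟨hw.1.1, mem_perp_pair.2
          ⟨by simpa [mem_perp_singleton] using hw.1.2, by simpa [mem_perp_singleton] using hw.2⟩⟩) ?_) ?_)) ?_
  · rwa [show P.B _ _ = 0 by simp [B_swap_zero b2], zero_add]
  · rwa [show P.B _ _ = 0 by simp [B_swap_zero b3], zero_add]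
  · simpa [o_Q_add, o_Q_smul, o_Q_neg, b2, b3, Φ.one' h, mul_comm c] using h5

end OFr

end Cfsg.Agent.Forms
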