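import Cfsg.Agent.Forms.OEich
import Cfsg.Agent.Polar.U4Loc

/-!
One-dimensional weight spaces are fixed by the Eichler transformations in their stabilisers.
-/

set_option autoImplicit false

namespace Cfsg.Agent.Forms

open Module Finset Cfsg.Agent.GLn MulAut Cfsg.Agent.Polar Cfsg.Agent.Polar.PQ Cfsg.Agent.Cl Submodule

variable {F : Type*} [Field F] {V : Type*} [AddCommGroup V] [Module F V] {P : PQ (oFP F) V} {a b c e f w x y z : V}

theorem exists_ws (h : P.Hyp e f) (hx : x ∈ P.perp {e, f}) (h0 : P.Q x ≠ 0) : ∃ g : P.EG, g • e = -(P.Q x)⁻¹ • f ∧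
    g • f = -P.Q x • e ∧ ∀ y ∈ P.perp {e, f}, g • y = y - (P.B y x / P.Q x) • x :=
  ⟨⟨_, ws_mem e f x _⟩, by
    have := ws_act h hx (QEq.self x) h0
    simp only [oFP, one_mul, RingHom.id_apply] at this
    exact this⟩

theorem exists_ws2 (h : P.Hyp e f) (hx : x ∈ P.perp {e, f}) (h0 : P.Q x ≠ 0) (hy : y ∈ P.perp {e, f}) (h1 : P.Q y ≠ 0) :
    ∃ g : P.EG, g • e = (P.Q x / P.Q y) • e ∧ ∀ z ∈ P.perp {e, f},
      g • z = z - (P.B z y / P.Q y) • y - (P.B (z - (P.B z y / P.Q y) • y) x / P.Q x) • x := by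
  obtain ⟨g, -, g1, g2⟩ := exists_ws h hx h0
  obtain ⟨k, k1, -, k2⟩ := exists_ws h hy h1
  refine ⟨g * k, by rw [mul_smul, k1, eg_smul, g1, smul_smul]; congr 1; ring, fun z hz => ?_⟩
  rw [mul_smul, k2 z hz, g2 _ (sub_mem hz (smul_mem _ _ hy))]

theorem fld_aux (h : ∀ r : F, r ≠ 0 → r ^ 2 = 1) {α β γ : F} (h0 : α ≠ 0) (h1 : ∀ t, γ + t ^ 2 * α + t * β ≠ 0) :
    ∃ t, γ + t ^ 2 * α + t * β = -α ∧ β + 2 * t * α ≠ 0 := by
  by_contra! h2
  have a1 := h _ h0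
  have a2 := h _ (h1 0)
  have a3 := h β
  have a5 := h (2 * α)
  have a6 := h2 0
  have a7 := h2 1
  have b1 := h1 1
  have b2 := h1 (-1)
  clear h h1 h2
  by_cases e : γ + 0 ^ 2 * α + 0 * β = -α
  · grind
  replace e := And.intro e ((sq_eq_sq_iff_eq_or_eq_neg.1 (a2.trans a1.symm)).resolve_right e)
  replace a5 := a5 (by grind)
  · by_cases e' : β = 0
    · grind
    · rcases sq_eq_sq_iff_eq_or_eq_neg.1 ((a3 e').trans a1.symm) with e | e <;> grind

variable [FiniteDimensional F V] (hP : P.ND)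
include hP

theorem exists_perp_ne {U : Submodule F V} (h : z ∉ U) : ∃ y ∈ P.perp U, P.B z y ≠ 0 := by
  by_contra! h'
  exact h (perp_perp hP U ▸ h')

theorem exists_B_ne {U : Submodule F V} (h : 2 * finrank F U < finrank F V) :
    ∃ y ∈ P.perp U, ∃ w ∈ P.perp U, P.B y w = 1 := by
  obtain ⟨y, h1, h2⟩ : ∃ y ∈ P.perp U, y ∉ U := by
    by_contra! h'
    have := finrank_mono h'
    have := finrank_perp hP U
    omega
  obtain ⟨w, h3, h4⟩ := exists_perp_ne hP h2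
  exact ⟨y, h1, _, smul_mem _ (P.B y w)⁻¹ h3, by simp [h4]⟩

theorem exists_hyp_perp {U : Submodule F V} (h : z ∉ U) (h1 : z ∈ P.perp U) (h2 : P.Q z = 0) :
    ∃ f ∈ P.perp U, P.Hyp z f := by
  obtain ⟨y, h3, h4⟩ := exists_perp_ne hP h
  obtain ⟨f, hf, s, t, rfl⟩ := exists_hyp_of_ne (o_sing_iff.2 h2) h4
  exact ⟨_, add_mem (smul_mem _ _ h3) (smul_mem _ _ h1), hf⟩

theorem exists_hyp_in [Finite F] {U : Submodule F V} (h : 2 * finrank F U + 3 ≤ finrank F V) :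
    ∃ e ∈ P.perp U, ∃ f ∈ P.perp U, P.Hyp e f := by
  obtain ⟨U', hU⟩ := U.exists_isCompl
  have h1 := finrank_sup_add_finrank_inf_eq (P.perp U) U'
  have h2 := finrank_add_eq_of_isCompl hU
  have h3 := finrank_perp hP U
  have h4 := finrank_le (P.perp U ⊔ U')
  obtain ⟨z, hz, h5, h6⟩ := o_iso (P := P) (P.perp U ⊓ U') (by omega)
  exact ⟨z, hz.1, exists_hyp_perp hP (fun e => h5 (hU.disjoint.le_bot ⟨e, hz.2⟩)) hz.1 (o_sing_iff.1 h6)⟩

omit hP in
theorem finrank_sup_span (U : Submodule F V) (z : V) : finrank F ↥(U ⊔ F ∙ z) ≤ finrank F U + 1 :=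
  (finrank_add_le_finrank_add_finrank _ _).trans (Nat.add_le_add_left (by simpa using finrank_span_le_card (R := F) {z}) _)

omit hP [FiniteDimensional F V] in
theorem mem_perp_sup {U : Submodule F V} : y ∈ P.perp (U ⊔ F ∙ z : Submodule F V) ↔ y ∈ P.perp U ∧ P.B y z = 0 :=
  ⟨fun h => ⟨fun s hs => h s (mem_sup_left hs), h z (mem_sup_right (mem_span_singleton_self z))⟩, fun h s hs => by
    obtain ⟨u, hu, _, hs', rfl⟩ := mem_sup.1 hs
    obtain ⟨t, rfl⟩ := mem_span_singleton.1 hs'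
    simp [h.1 u hu, h.2]⟩

variable {M : Type*} [AddCommGroup M] [Module ℂ M] [FiniteDimensional ℂ M] {ρ : Representation ℂ P.EG M}
  {ψ : AddChar F ℂ} (h1 : finrank ℂ (Sw ρ ψ ⊤ a b) ≤ 1)
include h1

omit hP [FiniteDimensional F V] in
theorem kill_comm {g : P.EG} {s : F} (ga : g • a = a) (gb : g • b = b) (gc : g • c = s • c) (hc : P.Q c = 0)
    (h : P.B w c = 0) (h' : P.B (g • w) c = 0) (ca : P.B a c = 0) (cb : P.B b c = 0) (wa : P.B a w = 0) (wb : P.B b w = 0) :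
    OE P c (s • g • w - w) ∈ Kil ρ (Sw ρ ψ ⊤ a b) := by
  have e : ∀ g : P.EG, g • a = a → g • b = b → g⁻¹ ∈ Sts ρ (Sw ρ ψ ⊤ a b) := fun g ga gb =>
    inv_mem fun v hv => Sw_map (D := ⊤) (fun _ _ => trivial) ga (by simp [gb]) hv
  have := comm_mem_Kil h1 (e g ga gb) (e (OE P c w) (OE_fix ca wa) (OE_fix cb wb))
  rwa [inv_inv, inv_inv, ← conj_apply, conj_OE, gc, OE_smul_left hc h', OE_inv, ← OE_add (by simp [h']) (by simp [h]),
    ← sub_eq_add_neg] at this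

theorem kill_sing {U : Submodule F V} (ha : a ∈ U) (hb : b ∈ U) (hc : c ∈ U) (hz : z ∈ U) (h2 : c ∈ P.perp U)
    (h3 : z ∈ P.perp U) (qc : P.Q c = 0) (qz : P.Q z = 0) (h : 2 * finrank F U < finrank F V) :
    OE P c z ∈ Kil ρ (Sw ρ ψ ⊤ a b) := by
  obtain ⟨y, y1, w, w1, e⟩ := exists_B_ne hP h
  have e1 : OE P z w • (-y) = z - y := by simp [OE_smul qz (w1 z hz), y1 z hz, e]; abel
  have := kill_comm h1 (g := OE P z w) (s := 1) (w := -y) (OE_fix (B_swap_zero (h3 a ha)) (B_swap_zero (w1 a ha)))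
    (OE_fix (B_swap_zero (h3 b hb)) (B_swap_zero (w1 b hb))) (by rw [one_smul, OE_fix (h2 z hz) (B_swap_zero (w1 c hc))])
    qc (by simp [y1 c hc]) (by simp [e1, y1 c hc, h3 c hc]) (B_swap_zero (h2 a ha)) (B_swap_zero (h2 b hb))
    (by simp [B_swap_zero (y1 a ha)]) (by simp [B_swap_zero (y1 b hb)])
  simpa [e1] using this

theorem kill_all [Finite F] (hd : 7 ≤ finrank F V) (qa : P.Q a = 0) (ba : P.B b a = 0)
    (h : (∃ r : F, r ≠ 0 ∧ r ^ 2 ≠ 1) ∨ 9 ≤ finrank F V ∨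
      finrank F V = 8 ∧ P.Q b = 0 ∧ ∀ U, P.TotSing U → finrank F U ≤ 3)
    (ca : P.B c a = 0) (cb : P.B c b = 0) (wa : P.B w a = 0) (wb : P.B w b = 0) : OE P c w ∈ Kil ρ (Sw ρ ψ ⊤ a b) := by
  by_cases hc : P.Q c = 0 ∧ P.B w c = 0
  swap
  · rw [OE_of_not hc]; exact one_mem _
  obtain ⟨qc, wc⟩ := hc
  set U := (F ∙ a) ⊔ F ∙ b with hU
  have p1 : ∀ {y}, y ∈ P.perp (U ⊔ F ∙ c : Submodule F V) ↔ (P.B y a = 0 ∧ P.B y b = 0) ∧ P.B y c = 0 := by
    simp [hU, mem_perp_sup, perp_span, mem_perp_singleton]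
  have m1 : a ∈ U ⊔ F ∙ c := mem_sup_left (mem_sup_left (mem_span_singleton_self _))
  have m2 : b ∈ U ⊔ F ∙ c := mem_sup_left (mem_sup_right (mem_span_singleton_self _))
  have m3 : c ∈ U ⊔ F ∙ c := mem_sup_right (mem_span_singleton_self _)
  have k1 : ∀ z, z ∈ P.perp (U ⊔ F ∙ c : Submodule F V) → P.Q z = 0 →
      2 * finrank F ↥((U ⊔ F ∙ c) ⊔ F ∙ z) < finrank F V → OE P c z ∈ Kil ρ (Sw ρ ψ ⊤ a b) := fun z hz qz h =>
    kill_sing hP h1 (mem_sup_left m1) (mem_sup_left m2) (mem_sup_left m3) (mem_sup_right (mem_span_singleton_self _))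
      (mem_perp_sup.2 ⟨p1.2 ⟨⟨ca, cb⟩, B_self0 qc⟩, B_swap_zero (hz c m3)⟩) (mem_perp_sup.2 ⟨hz, B_self0 qz⟩) qc qz h
  have d1 : finrank F U ≤ 2 := (finrank_sup_span _ _).trans (by simpa using finrank_span_le_card (R := F) {a})
  have d2 := finrank_sup_span U c
  by_cases h2 : 2 * finrank F ↥(U ⊔ F ∙ c) + 3 ≤ finrank F V
  · obtain ⟨e, he, f, hf, h3⟩ := exists_hyp_in hP h2
    let S : AddSubgroup V :=
      { carrier := {w | P.B w c = 0 ∧ OE P c w ∈ Kil ρ (Sw ρ ψ ⊤ a b)}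
        add_mem' := fun h h' => ⟨by simp [h.1, h'.1], OE_add h.1 h'.1 ▸ mul_mem h.2 h'.2⟩
        zero_mem' := ⟨by simp, by simp⟩
        neg_mem' := fun h => ⟨by simp [h.1], OE_inv (P := P) c _ ▸ inv_mem h.2⟩ }
    exact (h3.mem_of_sing (S := S) he hf (x := w) (fun z hz h => ⟨hz c m3, k1 z hz (o_sing_iff.1 h) (by
      have := finrank_sup_span (U ⊔ F ∙ c) z; omega)⟩) (p1.2 ⟨⟨wa, wb⟩, wc⟩)).2
  obtain ⟨f, f1, f2⟩ := exists_hyp_perp hP (U := U) (z := c) (fun e => by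
    rw [sup_eq_left.2 ((span_singleton_le_iff_mem _ _).2 e)] at h2; omega)
    (by simp [hU, mem_perp_sup, perp_span, mem_perp_singleton, ca, cb]) qc
  simp only [hU, mem_perp_sup, perp_span, mem_perp_singleton] at f1
  have e1 : ∀ {y}, P.B y c = 0 → y - P.B y f • c ∈ P.perp {c, f} := fun h => by
    simp [mem_perp_pair, h, B_self0 qc, f2.pair]
  have a1 : a ∈ P.perp {c, f} := mem_perp_pair.2 ⟨B_swap_zero ca, B_swap_zero f1.1⟩
  have b1 : b ∈ P.perp {c, f} := mem_perp_pair.2 ⟨B_swap_zero cb, B_swap_zero f1.2⟩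
  have w1 := e1 wc
  have w2 : P.B a (w - P.B w f • c) = 0 := by simp [B_swap_zero wa, B_swap_zero ca]
  have w3 : P.B b (w - P.B w f • c) = 0 := by simp [B_swap_zero wb, B_swap_zero cb]
  rw [← OE_add_smul qc wc (-P.B w f), neg_smul, ← sub_eq_add_neg]
  generalize w - P.B w f • c = x at *
  have x1 := (mem_perp_pair.1 w1).1
  by_cases h3 : ∃ r : F, r ≠ 0 ∧ r ^ 2 ≠ 1
  · obtain ⟨r, r0, r1⟩ := h3
    have := Module.finite_of_finite F (M := V)
    obtain ⟨⟨y, y1⟩, y2⟩ := o_exists_Q (f2.emb.nd hP) (by have := f2.finrank_perp; omega) one_ne_zero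
    replace y2 : P.Q y = 1 := y2
    obtain ⟨g, g1, g2⟩ := exists_ws2 f2 (smul_mem _ r y1) (by simp [o_Q_smul, y2, r0]) y1 (by simp [y2])
    replace g2 : ∀ z ∈ P.perp {c, f}, g • z = z := fun z hz => by
      rw [g2 z hz]; simp only [y2, o_Q_smul, map_sub, map_smul, LinearMap.sub_apply, LinearMap.smul_apply, o_B_self]
      match_scalars <;> field_simp <;> ring
    have := kill_comm h1 (w := (r ^ 2 - 1)⁻¹ • x) (g2 a a1) (g2 b b1) g1 qc (by simp [x1])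
      (by simp [eg_smul, g2 x w1, x1]) (B_swap_zero ca) (B_swap_zero cb) (by simp [w2]) (by simp [w3])
    rwa [eg_smul, g2 x w1, smul_smul, ← sub_smul, o_Q_smul, y2, mul_one, div_one, ← sub_one_mul,
      mul_inv_cancel₀ (sub_ne_zero.2 r1), one_smul] at this
  obtain ⟨h4, qb, h5⟩ := (h.resolve_left h3).resolve_left (by omega)
  have t1 : ∀ z, z ∈ P.perp (U ⊔ F ∙ c : Submodule F V) → P.Q z = 0 → finrank F ↥((U ⊔ F ∙ c) ⊔ F ∙ z) ≤ 3 :=
    fun z hz qz => h5 _ (by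
      obtain ⟨⟨z1, z2⟩, z3⟩ := p1.1 hz
      simp only [hU, ← span_union]
      refine totSing_span ?_ ?_ <;> simp [o_sing_iff, B_self0, B_swap_zero, *])
  have x2 := p1.2 ⟨⟨B_swap_zero w2, B_swap_zero w3⟩, x1⟩
  by_cases qx : P.Q x = 0
  · exact k1 x x2 qx (by have := t1 x x2 qx; omega)
  obtain ⟨y, y1, y2⟩ : ∃ y ∈ P.perp (U ⊔ F ∙ c : Submodule F V), y ∉ (U ⊔ F ∙ c) ⊔ F ∙ x := by
    by_contra! h'
    have := finrank_mono h'
    have := finrank_perp hP (U ⊔ F ∙ c)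
    have := finrank_sup_span (U ⊔ F ∙ c) x
    omega
  have y3 : ∀ t : F, y - P.B y f • c + t • x ∈ P.perp (U ⊔ F ∙ c : Submodule F V) := fun t =>
    add_mem (sub_mem y1 (smul_mem _ _ (p1.2 ⟨⟨ca, cb⟩, B_self0 qc⟩))) (smul_mem _ _ x2)
  obtain ⟨t, t2, t3⟩ := fld_aux (fun r r0 => by_contra fun e => h3 ⟨r, r0, e⟩) qx (β := P.B (y - P.B y f • c) x) (γ := P.Q (y - P.B y f • c))
    fun t ht => y2 (by
      have := eq_of_le_of_finrank_le le_sup_left ((t1 _ (y3 t) (by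
        rw [o_Q_add, o_Q_smul, map_smul]; exact ht)).trans (by omega))
      have := add_mem (sub_mem (mem_sup_left (this.ge (mem_sup_right (mem_span_singleton_self _))))
        (smul_mem _ t (mem_sup_right (mem_span_singleton_self x)))) (smul_mem _ (P.B y f) (mem_sup_left m3))
      simpa using this)
  have y4 := add_mem (e1 (p1.1 y1).2) (smul_mem _ t w1)
  have y5 : P.Q (y - P.B y f • c + t • x) = -P.Q x := by rw [o_Q_add, o_Q_smul, map_smul]; exact t2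
  have y6 : P.B (y - P.B y f • c + t • x) x ≠ 0 := by
    rw [map_add, LinearMap.add_apply, map_smul, LinearMap.smul_apply, o_B_self, smul_eq_mul]; convert t3 using 2; ring
  obtain ⟨⟨z1, z2⟩, z3⟩ := p1.1 (y3 t)
  generalize y - P.B y f • c + t • x = z at *
  obtain ⟨g, g1, g2⟩ := exists_ws2 f2 w1 qx y4 (by simp [y5, qx])
  have g3 : g • z = (P.B z x / P.Q x) • x - z := by
    rw [g2 z y4]; simp only [y5, map_sub, map_smul, LinearMap.sub_apply, LinearMap.smul_apply, o_B_self]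
    match_scalars <;> field_simp <;> ring
  have := kill_comm h1 (w := (-P.Q x / P.B z x) • z) (by simp [g2 a a1, w2, B_swap_zero z1])
    (by simp [g2 b b1, w3, B_swap_zero z2]) g1 qc (by simp [z3]) (by simp [eg_smul, g3, z3, x1]) (B_swap_zero ca)
    (B_swap_zero cb) (by simp [B_swap_zero z1]) (by simp [B_swap_zero z2])
  convert this using 2
  rw [eg_smul, g3, y5]
  match_scalars <;> field_simp <;> ring

end Cfsg.Agent.Forms
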