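import Cfsg.Agent.Forms.OBn
import Cfsg.Agent.Polar.SpOdd

/-!
Lower bounds for the degrees of representations of the finite orthogonal groups.
-/

set_option autoImplicit false

namespace Cfsg.Agent.Forms

open Module Finset Cfsg.Agent.GLn MulAut Cfsg.Agent.Polar Cfsg.Agent.Polar.PQ Cfsg.Agent.Cl Submodule

variable {F : Type*} [Field F] {V : Type*} [AddCommGroup V] [Module F V] {P : PQ (oFP F) V}

theorem OFr.of_W {m : ℕ} (H : HS P m) {x : V} (hx : x ∈ (OFr.of H).W m) : x ∈ H.W :=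
  H.mem_W.2 ⟨fun i => by simpa [OFr.of] using ((OFr.of H).mem_W.1 hx i i.2).1,
    fun i => by simpa [OFr.of] using ((OFr.of H).mem_W.1 hx i i.2).2⟩

variable [Fintype F] [FiniteDimensional F V] {M : Type*} [NormedAddCommGroup M] [InnerProductSpace ℂ M]
  [FiniteDimensional ℂ M] {ρ : Representation ℂ P.EG M} (hρ : IsUni ρ) (hP : P.ND)
  (hnc : ¬ ∀ g h v, ρ g (ρ h v) = ρ h (ρ g v))
include hρ hP

theorem OFr.count0 {ψ : AddChar F ℂ} (hψ : ψ ≠ 1) (H : Lv ρ ψ 0 ⊤ ⊤) {m δ : ℕ} (Φ : OFr P m) (hd : finrank F V = 2 * m + δ)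
    (hW : ∀ x ∈ Φ.W m, P.Q x = 0 → x = 0) {r : ℕ} (hr : m ≤ finrank ℂ (Φ.Mx ρ ψ m) + r) :
    (Nat.card F ^ δ * (Nat.card F ^ (2 * m) - 1) + (Nat.card F - Nat.card F ^ δ) * (Nat.card F + 1) * (Nat.card F ^ m - 1) : ℤ) ≤
      Nat.card F * ((Nat.card F ^ 2 - 1) * (finrank ℂ M + r)) := by
  classical
  have := Module.finite_of_finite F (M := V)
  have h1 := Φ.count hρ hψ hP H hd
  rw [nq_zero_of_aniso fun x hx => Subtype.ext (hW _ x.2 (o_sing_iff.1 hx)), if_pos rfl] at h1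
  have h4 : (1 : ℤ) ≤ Nat.card F := by exact_mod_cast Nat.card_pos
  have h5 := mul_le_mul_of_nonneg_left (Int.ofNat_le.2 hr)
    (show (0 : ℤ) ≤ Nat.card F * (Nat.card F ^ 2 - 1) from mul_nonneg (by omega) (by nlinarith))
  push_cast at h1 h5
  linear_combination h1 + h5

include hnc

theorem base' {k : ℕ} (hd : finrank F V = k + 5) (hk : 2 ≤ k) (hq : 4 ≤ Nat.card F) :
    (Nat.card F ^ 2 - 1) * Nat.card F ^ k * 2 ≤ finrank ℂ M ∨ Lv ρ (AddChar.FiniteField.primitiveChar_to_Complex F) 0 ⊤ ⊤ :=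
  (base hρ (psi_ne_one F) hP hd hk hnc).imp_right fun ⟨c, h1, h2⟩ => by
    obtain ⟨r, r0, r1⟩ := exists_sq_ne_one hq
    obtain rfl : c = 0 := by_contra fun e => r1 (sq r ▸ (mul_eq_right₀ e).1 (h1 r r0))
    exact lv_top hP (by omega) h2 (Or.inl ⟨r, r0, sq r ▸ r1⟩)

omit hρ hP hnc in
theorem big_case {q k d : ℕ} (hq : 2 ≤ q) (h : (q ^ 2 - 1) * q ^ k * 2 ≤ d) : (9 * q ^ (k + 4) : ℤ) ≤ 8 * ((q ^ 2 - 1) * d) := by
  zify [Nat.one_le_pow 2 q (by omega)] at h hq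
  have h1 : (4 : ℤ) ≤ q ^ 2 := by nlinarith
  have h2 : (0 : ℤ) ≤ q ^ k := by positivity
  have h3 := mul_le_mul_of_nonneg_left h (show (0 : ℤ) ≤ q ^ 2 - 1 by omega)
  have h4 := mul_le_mul_of_nonneg_left (show (9 : ℤ) * (q ^ 2) ^ 2 ≤ 16 * (q ^ 2 - 1) ^ 2 by nlinarith) h2
  linear_combination 8 * h3 + h4

theorem odd_bound {N : ℕ} (Φ : OFr P (N + 3)) (hd : finrank F V = 2 * (N + 3) + 1)
    (hW : ∀ x ∈ Φ.W (N + 3), P.Q x = 0 → x = 0) (hq : 4 ≤ Nat.card F) (h2 : ringChar F ≠ 2) :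
    (Nat.card F ^ (2 * (N + 3)) - 1 : ℤ) ≤ (Nat.card F ^ 2 - 1) * finrank ℂ M := by
  have := Module.finite_of_finite F (M := V)
  rcases base' hρ hP hnc (k := 2 * N + 2) (by omega) (by omega) hq with h | H
  · have := big_case (by omega) h
    have : (0 : ℤ) ≤ Nat.card F ^ (2 * (N + 3)) := by positivity
    ring_nf at *; omega
  obtain ⟨⟨z, hz⟩, z0, z1⟩ := finrank_eq_one_iff'.1 (show finrank F (Φ.W (N + 3)) = 1 by
    have := Φ.finrank_W le_rfl; omega)
  obtain ⟨ν, hν⟩ := FiniteField.exists_nonsquare h2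
  have := Φ.count0 hρ hP (psi_ne_one F) H hd hW (r := 0) (Φ.odd hρ (psi_ne_one F) H (mul_ne_zero (Ring.two_ne_zero h2)
    fun e => z0 (Subtype.ext (hW z hz e))) hz (fun w hw => (z1 ⟨w, hw⟩).imp fun _ e => (congrArg Subtype.val e).symm) hν)
  exact le_of_mul_le_mul_left (a := (Nat.card F : ℤ)) (by linear_combination this) (by omega)

theorem plus_bound {N : ℕ} (Φ : OFr P (N + 4)) (hd : finrank F V = 2 * (N + 4)) (hq : 4 ≤ Nat.card F) :
    ((Nat.card F ^ (N + 4) - 1) * (Nat.card F ^ (N + 3) + Nat.card F) : ℤ) ≤ (Nat.card F ^ 2 - 1) * finrank ℂ M := by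
  have := Module.finite_of_finite F (M := V)
  rcases base' hρ hP hnc (k := 2 * N + 3) (by omega) (by omega) hq with h | H
  · have h1 := big_case (by omega) h
    zify at hq
    have h2 : (8 : ℤ) ≤ Nat.card F ^ (N + 2) := by
      have := pow_le_pow_right₀ (show (1 : ℤ) ≤ Nat.card F by omega) (show 2 ≤ N + 2 by omega)
      nlinarith
    have h3 := mul_le_mul_of_nonneg_left h2 (show (0 : ℤ) ≤ Nat.card F ^ (N + 5) by positivity)
    have : (0 : ℤ) ≤ Nat.card F ^ (N + 3) := by positivity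
    ring_nf at *; omega
  have hW : Φ.W (N + 4) = ⊥ := Submodule.finrank_eq_zero.1 (by have := Φ.finrank_W le_rfl; omega)
  have := Φ.count0 hρ hP (psi_ne_one F) H (δ := 0) hd (by simp [hW]) (r := 0) (Φ.branch hρ (psi_ne_one F) H hW)
  exact le_of_mul_le_mul_left (a := (Nat.card F : ℤ)) (by linear_combination this) (by omega)

theorem minus_bound {N : ℕ} (Φ : OFr P (N + 3)) (hd : finrank F V = 2 * (N + 3) + 2)
    (hW : ∀ x ∈ Φ.W (N + 3), P.Q x = 0 → x = 0) (hU : ∀ U, P.TotSing U → finrank F U ≤ N + 3) :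
    ((Nat.card F ^ (N + 4) + 1) * (Nat.card F ^ (N + 3) - Nat.card F) : ℤ) ≤ (Nat.card F ^ 2 - 1) * finrank ℂ M := by
  classical
  have := Module.finite_of_finite F (M := V)
  have hq : 2 ≤ Nat.card F := Finite.one_lt_card
  have hψ := psi_ne_one F
  have hq' : (2 : ℤ) ≤ Nat.card F := by exact_mod_cast hq
  have p1 : (0 : ℤ) ≤ Nat.card F ^ (N + 3) := by positivity
  rcases base hρ hψ hP (k := 2 * N + 3) (by omega) (by omega) hnc with h | ⟨c, -, h⟩
  · have h1 := big_case hq h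
    have h2 := pow_le_pow_right₀ (show (1 : ℤ) ≤ Nat.card F by omega) (show N + 3 ≤ N + 5 by omega)
    have : (0 : ℤ) ≤ Nat.card F ^ (2 * N + 7) := by positivity
    ring_nf at *; omega
  by_cases hc : c = 0
  · subst hc
    have H := lv_top hP (by omega) h (Or.inr ((Nat.eq_zero_or_pos N).symm.imp (by omega) fun e =>
      ⟨by omega, rfl, by simpa [e] using hU⟩))
    have := Φ.count0 hρ hP hψ H hd hW (r := 1) (Nat.succ_le_succ (Φ.chain hρ hψ H))
    exact le_of_mul_le_mul_left (a := (Nat.card F : ℤ)) (by push_cast at this; linear_combination this) (by omega)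
  have h1 : (P.res (Φ.W (N + 3))).nq c = Nat.card F + 1 := o_count_aniso (fun x hx => by_contra fun e => by
      obtain ⟨y, h1, h2⟩ := Φ.nds hP le_rfl x x.2 fun f => e (Subtype.ext f)
      exact h2 (hx ⟨y, h1⟩)) (by have := Φ.finrank_W le_rfl; omega)
    (fun x hx => Subtype.ext (hW _ x.2 (o_sing_iff.1 hx))) hc
  refine le_of_mul_le_mul_left (a := (Nat.card F : ℤ)) ?_ (by omega)
  have p2 : (0 : ℤ) ≤ Nat.card F * (Nat.card F ^ 2 - 1) := mul_nonneg (by omega) (by nlinarith)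
  rcases N with _ | N
  · have h2 := Φ.count1 hρ hψ hP (c := c) (j := 0) (by omega) fun a b h2 h3 => by
      rw [show Φ.Mx ρ _ 0 = ⊤ from rfl, top_inf_eq]; exact (h a b h2).2.2 h3
    have h3 := Φ.nq_W hd c 2 1 rfl
    rw [if_neg hc, add_zero, show Φ.Mx ρ _ 0 = ⊤ from rfl, finrank_top] at h2
    have h4 := mul_le_mul_of_nonneg_left (Int.ofNat_le.2 (le_add_self.trans h2)) p2
    rw [h1] at h3
    push_cast at h3
    have h5 := mul_nonneg p2 (mul_nonneg (show (0 : ℤ) ≤ Nat.card F by omega) (show (0 : ℤ) ≤ Nat.card F - 1 by omega))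
    linear_combination h4 - (Nat.card F ^ 2 - 1 : ℤ) * h3 + h5
  · have h2 := Φ.count hρ hψ hP (lv_top hP (by omega) h (Or.inr (Or.inl (by omega)))) hd
    rw [h1, if_neg hc] at h2
    have h3 := mul_nonneg p2 (Int.natCast_nonneg (finrank ℂ (Φ.Mx ρ (AddChar.FiniteField.primitiveChar_to_Complex F) (N + 1 + 3))))
    have h4 : (1 : ℤ) ≤ Nat.card F ^ (N + 1 + 3) := one_le_pow₀ (by omega)
    have h5 := mul_nonneg (show (0 : ℤ) ≤ Nat.card F ^ 2 by positivity) (sub_nonneg.2 h4)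
    have h6 := mul_nonneg (show (0 : ℤ) ≤ Nat.card F by positivity) (sub_nonneg.2 (h4.trans (le_mul_of_one_le_left p1
      (show (1 : ℤ) ≤ Nat.card F ^ 2 from one_le_pow₀ (by omega)))))
    push_cast at h2
    linear_combination h2 + h3 + h5 + h6

end Cfsg.Agent.Forms
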