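import Cfsg.Agent.Forms.USemi
import Cfsg.Agent.Forms.GenCount
import Cfsg.Agent.Forms.NormCount

/-! Upper bound for the class number of `SU_n(q)`. -/

set_option autoImplicit false

namespace Cfsg.Agent.Forms

open Polynomial Finset Cfsg.Agent.GLn

variable {F : Type*} [Field F] {τ : F →+* F}

/-- Self-dual monic polynomials. -/
def uS (τ : F →+* F) : Set F[X] := {f | f.Monic ∧ f.coeff 0 ≠ 0 ∧ SD τ f}

theorem one_mem_uS : (1 : F[X]) ∈ uS τ :=
  ⟨monic_one, by simp, (sd_iff (by simp)).2 dualP_one⟩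

/-- Unitary types. -/
def TyU (τ : F →+* F) (N m : ℕ) : Set (ℕ → F[X]) := GT (uS τ) natDegree 1 N m

theorem TyU_subset (N m : ℕ) : TyU τ N m ⊆ Ty F N m :=
  fun _ h => ⟨fun e => ⟨(h.1 e).1, (h.1 e).2.1⟩, h.2⟩

/-- `t ↦ t / τ t`. -/
def phiU (τ : F →+* F) : Fˣ →* Fˣ := MonoidHom.id Fˣ / Units.map τ

theorem coe_phiU (t : Fˣ) : (phiU τ t : F) = t / τ t := by
  simp [phiU, div_eq_mul_inv]

/-- The determinant homomorphism of a type. -/
noncomputable def tyHomU (τ : F →+* F) (N : ℕ) (g : ℕ → F[X]) :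
    (Fin (N + 1) → Fˣ) →* (phiU τ).range := (phiU τ).rangeRestrict.comp (tyHom N g)

/-- Bound for the number of `SU`-classes in a class of type `g`. -/
noncomputable def idxU (τ : F →+* F) (N : ℕ) (g : ℕ → F[X]) : ℕ := (tyHomU τ N g).range.index

open Classical in
/-- Rescaling self-dual polynomials. -/
noncomputable def scaleU (τ : F →+* F) (v : Fˣ) (f : F[X]) : F[X] :=
  if f = 1 then 1 else C (v : F) * f + C (1 - (v : F)) * X ^ f.natDegree +
    C (((phiU τ v : F) - v) * f.coeff 0)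

theorem coeff_scaleU (v : Fˣ) {f : F[X]} (hf : f.Monic) (h1 : f ≠ 1) (i : ℕ) :
    (scaleU τ v f).coeff i = if i = f.natDegree then 1 else
      if i = 0 then (phiU τ v : F) * f.coeff 0 else v * f.coeff i := by
  have hd : f.natDegree ≠ 0 := fun h => h1 (hf.natDegree_eq_zero.1 h)
  rw [scaleU, if_neg h1, coeff_add, coeff_add, coeff_C_mul, coeff_C_mul, coeff_X_pow, coeff_C]
  by_cases h : i = f.natDegree
  · subst h; simp [hd, hf.coeff_natDegree]
  · by_cases h0 : i = 0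
    · subst h0; simp [h]; ring
    · simp [h, h0]

theorem scaleU_monic (v : Fˣ) {f : F[X]} (hf : f.Monic) :
    (scaleU τ v f).Monic ∧ (scaleU τ v f).natDegree = f.natDegree := by
  by_cases h1 : f = 1
  · simp [scaleU, h1]
  · refine monic_of_coeff (by rw [coeff_scaleU v hf h1, if_pos rfl]) fun i hi => ?_
    rw [coeff_scaleU v hf h1, if_neg hi.ne', if_neg (by omega), coeff_eq_zero_of_natDegree_lt hi,
      mul_zero]

theorem scaleU_eq_one_iff (v : Fˣ) {f : F[X]} (hf : f.Monic) : scaleU τ v f = 1 ↔ f = 1 := by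
  rw [← (scaleU_monic v hf).1.natDegree_eq_zero, (scaleU_monic v hf).2, hf.natDegree_eq_zero]

open Classical in
theorem scaleU_coeff_zero (v : Fˣ) {f : F[X]} (hf : f.Monic) :
    (scaleU τ v f).coeff 0 = ((if f = 1 then 1 else phiU τ v : Fˣ) : F) * f.coeff 0 := by
  split_ifs with h1
  · simp [scaleU, h1]
  · rw [coeff_scaleU v hf h1, if_neg (fun h => h1 (hf.natDegree_eq_zero.1 h.symm)), if_pos rfl]

theorem scaleU_inv (v : Fˣ) {f : F[X]} (hf : f.Monic) : scaleU τ v⁻¹ (scaleU τ v f) = f := by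
  by_cases h1 : f = 1
  · simp [scaleU, h1]
  · ext i
    rw [coeff_scaleU _ (scaleU_monic v hf).1 (mt (scaleU_eq_one_iff v hf).1 h1),
      (scaleU_monic v hf).2, scaleU_coeff_zero v hf, if_neg h1, coeff_scaleU v hf h1]
    split_ifs with h2 h3
    · rw [h2, hf.coeff_natDegree]
    · rw [h3, map_inv, Units.inv_mul_cancel_left]
    · rw [Units.inv_mul_cancel_left]

theorem scaleU_mem (hττ : ∀ a, τ (τ a) = a) (v : Fˣ) {f : F[X]} (hf : f ∈ uS τ) :
    scaleU τ v f ∈ uS τ := by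
  obtain ⟨h1, h2, h3⟩ := hf
  by_cases h0 : f = 1
  · simpa [scaleU, h0] using one_mem_uS
  have hd : f.natDegree ≠ 0 := fun h => h0 (h1.natDegree_eq_zero.1 h)
  refine ⟨(scaleU_monic v h1).1, by
    rw [scaleU_coeff_zero v h1]; exact mul_ne_zero (Units.ne_zero _) h2, ?_⟩
  have hn := h3.norm h1
  rw [sd_iff_coeff (scaleU_monic v h1).2]
  rw [sd_iff_coeff rfl] at h3
  intro i
  have hv : τ v ≠ 0 := by simp
  have hv' : (v : F) ≠ 0 := v.ne_zero
  rw [scaleU_coeff_zero v h1, if_neg h0, coeff_scaleU v h1 h0, coeff_scaleU v h1 h0, coe_phiU]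
  by_cases hi : i = f.natDegree
  · rw [hi, revAt_le le_rfl, Nat.sub_self, if_neg hd.symm, if_pos rfl, if_pos rfl, mul_one]
  · by_cases hi0 : i = 0
    · rw [hi0, revAt_zero, if_pos rfl, if_neg hd.symm, if_pos rfl]
      simp only [map_one, map_mul, map_div₀, hττ]
      field_simp
      linear_combination -hn
    · have e1 : revAt f.natDegree i ≠ f.natDegree := fun h =>
        hi0 (by rw [← revAt_invol (N := f.natDegree) (i := i), h, revAt_le le_rfl, Nat.sub_self])
      have e2 : revAt f.natDegree i ≠ 0 := fun h =>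
        hi (by rw [← revAt_invol (N := f.natDegree) (i := i), h, revAt_zero])
      rw [if_neg e1, if_neg e2, if_neg hi, if_neg hi0]
      simp only [map_mul, map_div₀, hττ, h3 i]
      field_simp

/-- The action on unitary types. -/
noncomputable def actU (τ : F →+* F) {N : ℕ} (t : Fin (N + 1) → Fˣ) (g : ℕ → F[X]) : ℕ → F[X] :=
  fun e => if h : e < N + 1 then scaleU τ (t ⟨e, h⟩) (g e) else g e

theorem actU_mem (hττ : ∀ a, τ (τ a) = a) {N m : ℕ} (t : Fin (N + 1) → Fˣ) {g : ℕ → F[X]}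
    (hg : g ∈ TyU τ N m) : actU τ t g ∈ TyU τ N m := by
  obtain ⟨h1, h2, h3⟩ := hg
  refine ⟨fun e => ?_, fun e he => ?_, ?_⟩
  · unfold actU; split_ifs with h
    · exact scaleU_mem hττ _ (h1 e)
    · exact h1 e
  · unfold actU; split_ifs with h
    · exact (scaleU_eq_one_iff _ (h1 e).1).mpr (h2 e he)
    · exact h2 e he
  · rw [← h3]
    exact sum_congr rfl fun e he => by
      rw [actU, dif_pos (mem_range.mp he), (scaleU_monic _ (h1 e).1).2]

theorem actU_inv {N m : ℕ} (t : Fin (N + 1) → Fˣ) {g : ℕ → F[X]} (hg : g ∈ TyU τ N m) :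
    actU τ t⁻¹ (actU τ t g) = g := by
  funext e
  unfold actU; split_ifs with h
  · exact scaleU_inv _ (hg.1 e).1
  · rfl

theorem idxU_actU {N m : ℕ} (t : Fin (N + 1) → Fˣ) {g : ℕ → F[X]} (hg : g ∈ TyU τ N m) :
    idxU τ N (actU τ t g) = idxU τ N g := by
  unfold idxU tyHomU
  rw [tyHom_congr (g' := g) fun e => ?_]
  unfold actU; split_ifs with h
  · exact scaleU_eq_one_iff _ (hg.1 e).1
  · rfl

theorem tyDet_actU {N m : ℕ} (t : Fin (N + 1) → Fˣ) {g : ℕ → F[X]} (hg : g ∈ TyU τ N m) :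
    tyDet N (actU τ t g) = ((tyHomU τ N g t : Fˣ) : F) * tyDet N g := by
  have : (tyHomU τ N g t : Fˣ) = phiU τ (tyHom N g t) := rfl
  rw [this]
  simp only [tyDet, tyHom, MonoidHom.coe_mk, OneHom.coe_mk, ← Fin.prod_univ_eq_prod_range
    (fun e => (actU τ t g e).coeff 0 ^ e), ← Fin.prod_univ_eq_prod_range
    (fun e => (g e).coeff 0 ^ e), map_prod, Units.coe_prod, ← prod_mul_distrib]
  refine prod_congr rfl fun e _ => ?_
  rw [actU, dif_pos e.2, scaleU_coeff_zero _ (hg.1 e).1, mul_pow]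
  split_ifs <;> simp

variable [Finite F]

theorem TyU_finite (N m : ℕ) : (TyU τ N m).Finite := (Ty_finite F N m).subset (TyU_subset N m)

/-- The finite set of unitary types. -/
noncomputable def TyUF (τ : F →+* F) (N m : ℕ) : Finset (ℕ → F[X]) :=
  (TyU_finite (τ := τ) N m).toFinset

theorem mem_TyUF {N m : ℕ} {g : ℕ → F[X]} : g ∈ TyUF τ N m ↔ g ∈ TyU τ N m :=
  Set.Finite.mem_toFinset _

theorem card_TyUF (N m : ℕ) : #(TyUF τ N m) = (TyU τ N m).ncard :=
  (Set.ncard_eq_toFinset_card _ _).symm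

open Classical in
theorem tyKU_mul_le (hττ : ∀ a, τ (τ a) = a) (N m : ℕ) (a : F) :
    Nat.card (phiU τ).range * (∑ g ∈ TyUF τ N m, if tyDet N g = a then idxU τ N g else 0) ≤
      ∑ g ∈ TyUF τ N m, idxU τ N g ^ 2 := by
  have := Fintype.ofFinite F
  have h1 : ∀ t : Fin (N + 1) → Fˣ, (∑ g ∈ TyUF τ N m, if tyDet N g = a then idxU τ N g else 0) =
      ∑ g ∈ TyUF τ N m, if ((tyHomU τ N g t : Fˣ) : F) * tyDet N g = a then idxU τ N g else 0 := by
    intro t
    symm
    refine sum_nbij' (actU τ t) (actU τ t⁻¹) ?_ ?_ ?_ ?_ ?_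
    · exact fun g hg => mem_TyUF.mpr (actU_mem hττ t (mem_TyUF.mp hg))
    · exact fun g hg => mem_TyUF.mpr (actU_mem hττ _ (mem_TyUF.mp hg))
    · exact fun g hg => actU_inv t (mem_TyUF.mp hg)
    · exact fun g hg => by simpa using actU_inv t⁻¹ (mem_TyUF.mp hg)
    · exact fun g hg => by rw [tyDet_actU t (mem_TyUF.mp hg), idxU_actU t (mem_TyUF.mp hg)]
  have h2 : Nat.card (Fin (N + 1) → Fˣ) *
      (∑ g ∈ TyUF τ N m, if tyDet N g = a then idxU τ N g else 0) =
      ∑ g ∈ TyUF τ N m, #{t | ((tyHomU τ N g t : Fˣ) : F) * tyDet N g = a} * idxU τ N g := by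
    rw [Nat.card_eq_fintype_card, ← card_univ, ← smul_eq_mul, ← sum_const,
      sum_congr rfl fun t _ => h1 t, sum_comm]
    exact sum_congr rfl fun g _ => by rw [← sum_filter, sum_const, smul_eq_mul]
  refine Nat.le_of_mul_le_mul_left ?_ (Nat.card_pos (α := Fin (N + 1) → Fˣ))
  rw [mul_left_comm, h2, mul_sum, mul_sum]
  refine sum_le_sum fun g hg => ?_
  have hd : tyDet N g ≠ 0 :=
    prod_ne_zero_iff.mpr fun e _ => pow_ne_zero _ ((mem_TyUF.mp hg).1 e).2.1
  have h3 := card_fiber_le_card_ker (tyHomU τ N g) (fun u => ((u : Fˣ) : F) * tyDet N g = a)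
    fun u v hu hv => Subtype.ext (Units.ext (mul_right_cancel₀ hd (hu.trans hv.symm)))
  have h4 : Nat.card (tyHomU τ N g).ker * Nat.card (tyHomU τ N g).range =
      Nat.card (Fin (N + 1) → Fˣ) := by
    rw [← Subgroup.index_ker, Subgroup.card_mul_index]
  have h5 := Subgroup.card_mul_index (tyHomU τ N g).range
  rw [← h5, ← h4, idxU]
  calc _ ≤ Nat.card (tyHomU τ N g).range * (tyHomU τ N g).range.index *
        (Nat.card (tyHomU τ N g).ker * (tyHomU τ N g).range.index) := by gcongr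
    _ = _ := by ring

theorem idxU_dvd {N m : ℕ} {g : ℕ → F[X]} (hg : g ∈ TyU τ N m) {e : ℕ} (he : g e ≠ 1) :
    idxU τ N g ∣ e := by
  classical
  have heN : e < N + 1 := by
    by_contra h; exact he (hg.2.1 e (by omega))
  have : IsCyclic ((phiU τ).range ⧸ (tyHomU τ N g).range) :=
    isCyclic_of_surjective (QuotientGroup.mk' _) (QuotientGroup.mk'_surjective _)
  rw [idxU, Subgroup.index_eq_card, ← IsCyclic.exponent_eq_card]
  refine Monoid.exponent_dvd_of_forall_pow_eq_one fun x => ?_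
  obtain ⟨x, rfl⟩ := QuotientGroup.mk_surjective x
  obtain ⟨x, rfl⟩ := (phiU τ).rangeRestrict_surjective x
  rw [← QuotientGroup.mk_pow, QuotientGroup.eq_one_iff]
  refine ⟨Pi.mulSingle ⟨e, heN⟩ x, ?_⟩
  rw [← map_pow, tyHomU, MonoidHom.comp_apply]
  congr 1
  simp only [tyHom, MonoidHom.coe_mk, OneHom.coe_mk]
  rw [prod_eq_single ⟨e, heN⟩ (fun j _ hj => by simp [hj]) (by simp)]
  simp [he]

theorem card_filter_idxU_le {N m r : ℕ} (hr0 : 0 < r) :
    #{g ∈ TyUF τ N m | idxU τ N g = r} ≤ (TyU τ N (m / r)).ncard := by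
  rw [← card_TyUF]
  refine card_le_card_of_injOn (fun g e => g (r * e)) (fun g hg => ?_) fun g hg g' hg' h => ?_
  · simp only [coe_filter, Set.mem_ofPred_eq, mem_TyUF] at hg
    exact mem_TyUF.mpr ⟨fun e => hg.1.1 _, (div_mem_Ty F hr0 (TyU_subset _ _ hg.1)
      fun e he => hg.2 ▸ idxU_dvd hg.1 he).2⟩
  · simp only [coe_filter, Set.mem_ofPred_eq, mem_TyUF] at hg hg'
    funext e
    by_cases he : r ∣ e
    · obtain ⟨k, rfl⟩ := he
      exact congrFun h k
    · have e1 : g e = 1 := by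
        by_contra h1; exact he (hg.2 ▸ idxU_dvd hg.1 h1)
      have e2 : g' e = 1 := by
        by_contra h1; exact he (hg'.2 ▸ idxU_dvd hg'.1 h1)
      rw [e1, e2]

theorem tyWU_le {N m : ℕ} (hm : 0 < m) : ∑ g ∈ TyUF τ N m, idxU τ N g ^ 2 ≤ (TyU τ N m).ncard +
    ∑ r ∈ Icc 2 m, if r ∣ m ∧ r ∣ Nat.card (phiU τ).range then
      (r ^ 2 - 1) * (TyU τ N (m / r)).ncard else 0 := by
  have h1 : ∀ g ∈ TyUF τ N m, idxU τ N g ^ 2 ≤ 1 + ∑ r ∈ Icc 2 m,
      if r ∣ m ∧ r ∣ Nat.card (phiU τ).range then (if idxU τ N g = r then r ^ 2 - 1 else 0)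
        else 0 := by
    intro g hg
    have hg' := mem_TyUF.mp hg
    have hd : idxU τ N g ∣ m := dvd_of_mem_Ty F (TyU_subset _ _ hg') fun e he => idxU_dvd hg' he
    have hp : 0 < idxU τ N g := Nat.pos_of_ne_zero Subgroup.index_ne_zero_of_finite
    have hd' : idxU τ N g ∣ Nat.card (phiU τ).range := Subgroup.index_dvd_card _
    by_cases h : idxU τ N g = 1
    · rw [h]; simp
    · have := single_le_sum (f := fun r => if r ∣ m ∧ r ∣ Nat.card (phiU τ).range then
        (if idxU τ N g = r then r ^ 2 - 1 else 0) else 0) (fun _ _ => Nat.zero_le _)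
        (mem_Icc.mpr ⟨(by omega : 2 ≤ idxU τ N g), Nat.le_of_dvd hm hd⟩)
      simp only [hd, hd', and_self, if_true] at this
      omega
  refine (sum_le_sum h1).trans ?_
  rw [sum_add_distrib, sum_const, smul_eq_mul, mul_one, card_TyUF, sum_comm]
  refine Nat.add_le_add_left (sum_le_sum fun r hr => ?_) _
  split_ifs with h
  · rw [← sum_filter, sum_const, smul_eq_mul, mul_comm]
    exact Nat.mul_le_mul_left _ (card_filter_idxU_le (by have := mem_Icc.mp hr; omega))
  · simp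

section Classes

variable {n : ℕ} {S : Subgroup (Matrix.SpecialLinearGroup (Fin n) F)}

/-- The type of a class of `SU_n`. -/
noncomputable def suTy (c : ConjClasses S) : ℕ → F[X] := tyOf (elemDiv (Quotient.out c).1.val)

omit [Finite F] in
theorem suTy_mem (hττ : ∀ a, τ (τ a) = a)
    (hS : ∀ g : Matrix.SpecialLinearGroup (Fin n) F, g ∈ S ↔ IsU τ (g : Matrix (Fin n) (Fin n) F))
    (c : ConjClasses S) : suTy c ∈ TyU τ n n ∧ tyDet n (suTy c) = (-1) ^ n := by
  have h := hasED_elemDiv (Quotient.out c).1.val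
  have h1 := h.tyOf_mem (by rw [(Quotient.out c).1.2]; exact one_ne_zero)
  rw [Fintype.card_fin] at h1
  refine ⟨⟨fun e => ⟨(h1.1 e).1, (h1.1 e).2, (sd_iff (h1.1 e).2).2 ?_⟩, h1.2⟩, ?_⟩
  · exact dualP_tyOf hττ (G := 1) (by simp) (by simpa [IsU] using (hS _).1 (Quotient.out c).2) h e
  have := h.det_eq_tyDet
  rw [(Quotient.out c).1.2, Fintype.card_fin] at this
  unfold suTy
  linear_combination -(-1) ^ n * this - tyDet n (tyOf (elemDiv (Quotient.out c).1.val)) *
    neg_one_pow_mul_neg_one_pow_self (R := F) n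

theorem card_suTy_fiber_le (hττ : ∀ a, τ (τ a) = a) (hne : ∃ θ, τ θ ≠ θ)
    (hS : ∀ g : Matrix.SpecialLinearGroup (Fin n) F, g ∈ S ↔ IsU τ (g : Matrix (Fin n) (Fin n) F))
    (g : ℕ → F[X]) : Nat.card {c : ConjClasses S // suTy c = g} ≤ idxU τ n g := by
  by_cases h : ∃ c : ConjClasses S, suTy c = g
  swap
  · have : IsEmpty {c : ConjClasses S // suTy c = g} := ⟨fun c => h ⟨c.1, c.2⟩⟩
    simp
  obtain ⟨c0, rfl⟩ := h
  have hc : ∀ c : {c : ConjClasses S // suTy c = suTy c0},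
      ∃ (u : Matrix (Fin n) (Fin n) F) (t : Fˣ), IsU τ u ∧
        u * (Quotient.out c0).1.val = (Quotient.out c.1).1.val * u ∧ u.det = t / τ t := by
    intro c
    have h1 := (hasED_elemDiv _).1.eq_of_tyOf_eq (hasED_elemDiv _).1 c.2.symm
    obtain ⟨u, h2, h3⟩ := exists_isU_conj hττ hne ((hS _).1 (Quotient.out c0).2)
      ((hS _).1 (Quotient.out c.1).2) (isConj_iff_elemDiv.mpr h1)
    obtain ⟨t, ht⟩ := exists_div_tau hττ hne h2.det
    exact ⟨u, t, h2, h3, ht⟩
  choose u t hu hC ht using hc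
  rw [idxU, Subgroup.index_eq_card]
  refine Nat.card_le_card_of_injective
    (fun c => QuotientGroup.mk ((phiU τ).rangeRestrict (t c))) fun c d h => ?_
  obtain ⟨s, hs⟩ := QuotientGroup.eq.mp h
  have hs' : phiU τ (tyHom n (suTy c0) s) = (phiU τ (t c))⁻¹ * phiU τ (t d) :=
    congrArg Subtype.val hs
  have huc : IsUnit (u c).det := IsUnit.mk0 _ (hu c).det_ne
  have h2 : IsConj (Quotient.out c.1) (Quotient.out d.1) := by
    refine su_isConj_of hττ hne hS (u := u d * (u c)⁻¹) ((hu d).mul (hu c).inv) ?_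
      (t := tyHom n (suTy c0) s) ?_ ?_
    · have e1 : (u c)⁻¹ * (Quotient.out c.1).1.val = (Quotient.out c0).1.val * (u c)⁻¹ := by
        calc _ = (u c)⁻¹ * ((Quotient.out c.1).1.val * u c) * (u c)⁻¹ := by
              rw [mul_assoc, mul_assoc, Matrix.mul_nonsing_inv _ huc, mul_one]
          _ = _ := by rw [← hC c, ← mul_assoc, Matrix.nonsing_inv_mul _ huc, one_mul]
      change u d * (u c)⁻¹ * (Quotient.out c.1).1.val = (Quotient.out d.1).1.val * _
      rw [mul_assoc, e1, ← mul_assoc, hC d, mul_assoc]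
    · apply (hasED_elemDiv _).range_tyHom_le n
      change _ ∈ (tyHom n (suTy c.1)).range
      rw [c.2]
      exact ⟨s, rfl⟩
    · rw [← coe_phiU, hs', Matrix.det_mul, Matrix.det_nonsing_inv, ht, ht, ← coe_phiU, ← coe_phiU,
        Ring.inverse_unit, Units.val_mul, mul_comm]
  apply Subtype.ext
  rw [← Quotient.out_eq c.1, ← Quotient.out_eq d.1]
  exact Quotient.sound h2

open Classical in
theorem card_conjClasses_SU_le (hττ : ∀ a, τ (τ a) = a) (hne : ∃ θ, τ θ ≠ θ)
    (hS : ∀ g : Matrix.SpecialLinearGroup (Fin n) F, g ∈ S ↔ IsU τ (g : Matrix (Fin n) (Fin n) F)) :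
    Nat.card (ConjClasses S) ≤
      ∑ g ∈ TyUF τ n n, if tyDet n g = (-1) ^ n then idxU τ n g else 0 := by
  have := Fintype.ofFinite (ConjClasses S)
  rw [Nat.card_eq_fintype_card, ← card_univ,
    card_eq_sum_card_fiberwise (f := suTy) (t := TyUF τ n n) (fun c _ =>
      mem_coe.2 (mem_TyUF.2 (suTy_mem hττ hS c).1))]
  refine sum_le_sum fun g _ => ?_
  split_ifs with h
  · refine le_trans ?_ (card_suTy_fiber_le hττ hne hS g)
    rw [Nat.card_eq_fintype_card, Fintype.card_subtype]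
  · rw [Nat.le_zero, card_eq_zero]
    exact filter_eq_empty_iff.mpr fun c _ hc => h (hc ▸ (suTy_mem hττ hS c).2)

end Classes

end Cfsg.Agent.Forms
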