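import Cfsg.Agent.Polar.Pts
import Cfsg.Agent.Polar.URep
import Cfsg.Agent.Polar.Count
import Cfsg.Agent.S2481

/-! Orders of classical groups compared with their Sylow subgroups. -/

set_option autoImplicit false

namespace Cfsg.Agent.Forms

open Module Finset Cfsg.Agent.Polar Cfsg.Agent.Polar.PQ

theorem card_mul_dvd_of_normalizes {G : Type*} [Group G] {A B H : Subgroup G} (hA : A ≤ H)
    (hB : B ≤ H) (hn : ∀ b ∈ B, ∀ a ∈ A, b * a * b⁻¹ ∈ A) (hd : ∀ a ∈ A, a ∈ B → a = 1) :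
    Nat.card A * Nat.card B ∣ Nat.card H := by
  let K : Subgroup G :=
    { carrier := {x | ∃ a ∈ A, ∃ b ∈ B, x = a * b}
      one_mem' := ⟨1, one_mem _, 1, one_mem _, (mul_one _).symm⟩
      mul_mem' := by
        rintro _ _ ⟨a, ha, b, hb, rfl⟩ ⟨a', ha', b', hb', rfl⟩
        exact ⟨_, mul_mem ha (hn b hb a' ha'), _, mul_mem hb hb', by group⟩
      inv_mem' := by
        rintro _ ⟨a, ha, b, hb, rfl⟩
        exact ⟨_, hn _ (inv_mem hb) _ (inv_mem ha), _, inv_mem hb, by group⟩ }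
  have h1 : K ≤ H := by rintro _ ⟨a, ha, b, hb, rfl⟩; exact mul_mem (hA ha) (hB hb)
  refine Dvd.dvd.trans (dvd_of_eq ?_) (Subgroup.card_dvd_of_le h1)
  rw [← Nat.card_prod]
  refine Nat.card_eq_of_bijective (fun x => ⟨x.1 * x.2, _, x.1.2, _, x.2.2, rfl⟩) ⟨?_, ?_⟩
  · rintro ⟨a, b⟩ ⟨a', b'⟩ h
    have h2 : (a : G) * b = a' * b' := congrArg Subtype.val h
    have h3 : (a' : G)⁻¹ * a = b' * (b : G)⁻¹ := by
      rw [inv_mul_eq_iff_eq_mul, ← mul_assoc, ← h2, mul_inv_cancel_right]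
    have h4 := hd _ (mul_mem (inv_mem a'.2) a.2) (h3 ▸ mul_mem b'.2 (inv_mem b.2))
    rw [h4] at h3
    exact Prod.ext (Subtype.ext (inv_mul_eq_one.1 h4).symm)
      (Subtype.ext (mul_inv_eq_one.1 h3.symm).symm)
  · rintro ⟨_, a, ha, b, hb, rfl⟩
    exact ⟨(⟨a, ha⟩, ⟨b, hb⟩), rfl⟩

theorem cube_lt_of_dvd {G : Type*} [Group G] [Finite G] {p a : ℕ} (hp : p.Prime)
    (h1 : p ^ a ∣ Nat.card G) (h2 : Nat.card G ^ 3 < p ^ (8 * a)) :
    Nat.card G ^ 3 < p ^ (8 * (Nat.card G).factorization p) :=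
  h2.trans_le (Nat.pow_le_pow_right hp.pos (Nat.mul_le_mul_left 8
    ((hp.pow_dvd_iff_le_factorization Nat.card_pos.ne').1 h1)))

theorem cube_lt_of_quot {G H : Type*} [Group G] [Group H] [Finite H]
    (e : G ≃* H ⧸ Subgroup.center H) {p a : ℕ} (hp : p.Prime) (h1 : p ^ a ∣ Nat.card H)
    (h2 : Nat.card H ^ 3 < p ^ (8 * a)) (h3 : ¬ p ∣ Nat.card (Subgroup.center H)) :
    Nat.card G ^ 3 < p ^ (8 * (Nat.card G).factorization p) := by
  have : Finite G := Finite.of_equiv _ e.symm.toEquiv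
  have h4 := Subgroup.card_eq_card_quotient_mul_card_subgroup (Subgroup.center H)
  rw [← Nat.card_congr e.toEquiv] at h4
  refine cube_lt_of_dvd (a := a) hp ?_ (lt_of_le_of_lt (Nat.pow_le_pow_left ?_ 3) h2)
  · rw [h4] at h1
    exact (Nat.Coprime.pow_left _ (hp.coprime_iff_not_dvd.2 h3)).dvd_of_dvd_mul_right h1
  · rw [h4]; exact Nat.le_mul_of_pos_right _ Nat.card_pos

theorem center_equiv_card {G H : Type*} [Group G] [Group H] (e : G ≃* H) :
    Nat.card (Subgroup.center G) = Nat.card (Subgroup.center H) :=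
  Nat.card_congr (Subgroup.centerCongr e).toEquiv

universe u

variable {F : Type*} [Field F] {τ : F →+* F} {π : FP F τ}

section Gen

variable {V : Type*} [AddCommGroup V] [Module F V] {P : PQ π V}

theorem finite_iso [Finite V] : Finite P.Iso :=
  Finite.of_injective (fun g : P.Iso => fun x : V => g • x) fun _ _ h => iso_ext (congrFun h)

theorem card_iso_le [Finite F] [FiniteDimensional F V] :
    Nat.card P.Iso ≤ Nat.card F ^ (finrank F V * finrank F V) := by
  have : Finite (V →ₗ[F] V) := Module.finite_of_finite F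
  rw [← Module.finrank_linearMap F F V V, ← Module.natCard_eq_pow_finrank (K := F)]
  exact Nat.card_le_card_of_injective (fun g : P.Iso => ((g : V ≃ₗ[F] V) : V →ₗ[F] V))
    fun _ _ h => iso_ext (LinearMap.congr_fun h)

theorem EG_dvd {e f : V} (h : P.Hyp e f) :
    Nat.card (P.perp {e, f}) * Nat.card π.Λ * Nat.card (P.res (P.perp {e, f})).EG ∣
      Nat.card P.EG := by
  rw [← h.card_U, ← Subgroup.card_map_of_injective (K := (P.res (P.perp {e, f})).EG)
    h.emb.ext_injective]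
  refine card_mul_dvd_of_normalizes h.U_le_EG ?_ ?_ ?_
  · rintro _ ⟨g, hg, rfl⟩; exact h.emb.ext_mem_EG hg
  · rintro _ ⟨g, -, rfl⟩ a ha
    have := conj_mem_U (g := h.emb.ext g) ha
    rwa [h.emb.ext_smul_ker g h.emb_r_left] at this
  · rintro _ ha ⟨g, -, rfl⟩
    exact h.eq_one_of_mem_U ha (h.emb.ext_smul_ker g h.emb_r_right)

theorem not_dvd_center_EG [Fintype F] [FiniteDimensional F V] (hP : P.ND) (hr : P.Rich) {e f : V}
    (h : P.Hyp e f) (p : ℕ) [Fact p.Prime] [CharP F p] :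
    ¬ p ∣ Nat.card (Subgroup.center P.EG) := by
  intro hd
  have : Finite V := Module.finite_of_finite F
  have := finite_iso (P := P)
  obtain ⟨z, hz⟩ := exists_prime_orderOf_dvd_card' p hd
  obtain ⟨t, ht⟩ := exists_scalar_of_commute hP hr h (z := (z.1 : P.Iso)) fun g hg =>
    (congrArg Subtype.val (Subgroup.mem_center_iff.1 z.2 ⟨g, hg⟩)).symm
  have h0 : t ≠ 0 := fun h0 => act_ne_zero (z.1 : P.Iso) h.left_ne_zero (by rw [ht, h0, zero_smul])
  have h1 : ∀ k : ℕ, ∀ x : V, (z.1 : P.Iso) ^ k • x = t ^ k • x := fun k => by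
    induction k with
    | zero => simp
    | succ k ih => intro x; rw [pow_succ, mul_smul, ht, act_smul, ih, smul_smul, pow_succ']
  have h2 : z ^ (Fintype.card F - 1) = 1 := Subtype.ext (Subtype.ext (iso_ext fun x => by
    have := h1 (Fintype.card F - 1) x
    rw [FiniteField.pow_card_sub_one_eq_one t h0, one_smul] at this
    simpa using this))
  have h3 := orderOf_dvd_of_pow_eq_one h2
  rw [hz] at h3
  exact (Fact.out : p.Prime).coprime_iff_not_dvd.1 (GLn.coprime_card_sub_one (F := F) p) h3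

theorem card_sing_of_aniso (h : ∀ x, P.Sing x → x = 0) : Nat.card {x : V // P.Sing x} = 1 :=
  Nat.card_eq_one_iff_unique.2 ⟨⟨fun x y => Subtype.ext ((h _ x.2).trans (h _ y.2).symm)⟩,
    ⟨⟨0, sing_zero⟩⟩⟩

/-- One step of the recursion for the orders. -/
theorem step_rec [Finite F] [FiniteDimensional F V] (hP : P.ND) {e f : V} (h : P.Hyp e f) {n : ℕ}
    (hn : finrank F V = n + 2) :
    finrank F (P.perp {e, f}) = n ∧
    Nat.card {x : V // P.Sing x} = (Nat.card F - 1) * (Nat.card F ^ n * Nat.card π.Λ) +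
      Nat.card F * Nat.card {x // (P.res (P.perp {e, f})).Sing x} ∧
    Nat.card P.Iso + Nat.card F ^ n * Nat.card π.Λ * Nat.card (P.res (P.perp {e, f})).Iso =
      Nat.card {x : V // P.Sing x} *
        (Nat.card F ^ n * Nat.card π.Λ * Nat.card (P.res (P.perp {e, f})).Iso) ∧
    Nat.card F ^ n * Nat.card π.Λ * Nat.card (P.res (P.perp {e, f})).EG ∣ Nat.card P.EG := by
  have : Finite V := Module.finite_of_finite F
  have h1 : finrank F (P.perp {e, f}) = n := by have := h.finrank_perp; omega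
  have h2 : Nat.card (P.perp {e, f}) = Nat.card F ^ n := by
    rw [Module.natCard_eq_pow_finrank (K := F), h1]
  refine ⟨h1, h2 ▸ h.card_QEq 0, ?_, h2 ▸ EG_dvd h⟩
  rw [h.card_iso hP, ← card_sing_ne_zero, h2]; ring

end Gen

section U

variable [Fintype F] {q : ℕ} (hF : Fintype.card F = q ^ 2)

theorem card_uLam : Nat.card (uFP hF).Λ = q := (card_lam_eq_card_fix hF).trans (card_fix hF)

theorem u_card_iso_one {V : Type*} [AddCommGroup V] [Module F V] [FiniteDimensional F V]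
    {P : PQ (uFP hF) V} (hP : P.ND) (h : finrank F V = 1) :
    (∀ x, P.Sing x → x = 0) ∧ Nat.card P.Iso = q + 1 := by
  classical
  obtain ⟨v, hv, hv'⟩ := finrank_eq_one_iff'.1 h
  have h1 : P.B v v ≠ 0 := fun h0 => hv (hP v fun y => by
    obtain ⟨c, rfl⟩ := hv' y
    rw [B_smul_right, h0, mul_zero])
  refine ⟨fun x hx => ?_, ?_⟩
  · obtain ⟨c, rfl⟩ := hv' x
    rw [u_sing_iff, B_smul_left, B_smul_right] at hx
    have : c = 0 := by simpa [h1] using hx
    rw [this, zero_smul]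
  · rw [← card_nrm_one hF, ← Fintype.card_subtype, ← Nat.card_eq_fintype_card]
    have key : ∀ t : {x : F // nrm hF x = 1}, ∃ g : P.Iso, ∀ x, g • x = t.1 • x := fun t =>
      have hB : ∀ x y, P.B (t.1 • x) (t.1 • y) = P.B x y := fun x y => by
        rw [B_smul_left, B_smul_right, ← mul_assoc, ← nrm_def, t.2, one_mul]
      exists_iso hP (t.1 • LinearMap.id) hB fun x => by
        rw [u_QEq_iff]; exact (u_QEq_iff.1 (QEq.self x)).trans (hB x x).symm
    choose φ hφ using key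
    refine (Nat.card_eq_of_bijective φ ⟨fun s t e => ?_, fun g => ?_⟩).symm
    · have := hφ s v
      rw [e, hφ] at this
      exact Subtype.ext (smul_left_injective F hv this).symm
    · obtain ⟨c, hc⟩ := hv' (g • v)
      have h2 := B_smul_smul g v v
      rw [← hc, B_smul_left, B_smul_right, ← mul_assoc] at h2
      refine ⟨⟨c, mul_right_cancel₀ h1 (by rw [nrm_def, h2, one_mul])⟩, iso_ext fun x => ?_⟩
      obtain ⟨a, rfl⟩ := hv' x
      rw [hφ, act_smul, ← hc, smul_comm]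

theorem u_card_aux (n : ℕ) : ∀ (V : Type u) [AddCommGroup V] [Module F V] [FiniteDimensional F V]
    (P : PQ (uFP hF) V), P.ND → finrank F V = n →
      q ^ (∑ i ∈ range n, i) ∣ Nat.card P.EG ∧
      (q : ℤ) * Nat.card {x : V // P.Sing x} = q ^ (2 * n) + (-1) ^ n * (q ^ (n + 1) - q ^ n) ∧
      (Nat.card P.Iso : ℤ) =
        q ^ (∑ i ∈ range n, i) * ∏ i ∈ range n, ((q : ℤ) ^ (i + 1) - (-1) ^ (i + 1)) := by
  induction n using Nat.twoStepInduction with
  | zero =>
    intro V _ _ _ P _ hn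
    have : Subsingleton V := Module.finrank_zero_iff.1 hn
    rw [card_iso_of_subsingleton, card_sing_of_aniso fun _ _ => Subsingleton.elim _ _]
    simp
  | one =>
    intro V _ _ _ P hP hn
    obtain ⟨h1, h2⟩ := u_card_iso_one hF hP hn
    rw [h2, card_sing_of_aniso h1]
    simp [sq]
  | more n ih _ =>
    intro V _ _ _ P hP hn
    obtain ⟨e, he0, he⟩ := u_exists_sing P (by omega)
    obtain ⟨f, hf⟩ := hP.exists_hyp he he0
    obtain ⟨h1, h2, h3, h4⟩ := step_rec hP hf hn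
    obtain ⟨i1, i2, i3⟩ := ih _ _ (hf.emb.nd hP) h1
    have hq := two_le_q hF
    rw [card_uLam hF, Nat.card_eq_fintype_card (α := F), hF] at h2 h3 h4
    have h5 : (q : ℤ) * Nat.card {x : V // P.Sing x} =
        q ^ (2 * (n + 2)) + (-1) ^ (n + 2) * (q ^ (n + 2 + 1) - q ^ (n + 2)) := by
      rw [h2]
      push_cast [Nat.cast_sub (Nat.one_le_pow 2 q (by omega))]
      linear_combination (q : ℤ) ^ 2 * i2
    refine ⟨Dvd.dvd.trans ?_ h4, h5, ?_⟩
    · rw [sum_range_succ, sum_range_succ, add_assoc, pow_add, mul_comm]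
      exact Nat.mul_dvd_mul (dvd_of_eq (by ring)) i1
    · have h6 := congrArg (Nat.cast : ℕ → ℤ) h3
      push_cast at h6
      rw [i3] at h6
      rw [sum_range_succ, sum_range_succ, prod_range_succ, prod_range_succ]
      have h7 : ((-1 : ℤ) ^ n) ^ 2 = 1 := by rw [← pow_mul, mul_comm, pow_mul]; simp
      generalize ∏ i ∈ range n, ((q : ℤ) ^ (i + 1) - (-1) ^ (i + 1)) = A at h6 ⊢
      linear_combination h6 + (q : ℤ) ^ (2 * n) * q ^ (∑ i ∈ range n, i) * A * h5 +
        (q : ℤ) ^ (2 * n + 1) * q ^ (∑ i ∈ range n, i) * A * h7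

theorem prod_bound {q : ℤ} (hq : 2 ≤ q) (n : ℕ) (hn : 2 ≤ n) :
    q * ∏ i ∈ range n, (q ^ (i + 1) - (-1) ^ (i + 1)) < (q + 1) * q ^ (∑ i ∈ range n, i + n) := by
  have hpos : ∀ i : ℕ, 0 < q ^ (i + 1) - (-1) ^ (i + 1) := fun i => by
    have : 1 < q ^ (i + 1) := one_lt_pow₀ (by omega) (by omega)
    rcases neg_one_pow_eq_or ℤ (i + 1) with h | h <;> omega
  have two : ∀ k : ℕ, (q ^ (2 * k + 1 + 1) - (-1) ^ (2 * k + 1 + 1)) *
      (q ^ (2 * k + 1 + 1 + 1) - (-1) ^ (2 * k + 1 + 1 + 1)) < q ^ (4 * k + 5) := fun k => by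
    rw [Even.neg_one_pow ⟨k + 1, by ring⟩, Odd.neg_one_pow ⟨k + 1, by ring⟩]
    have h1 : 0 < q ^ (2 * k + 2) := by positivity
    have h2 : q ^ (4 * k + 5) = q ^ (2 * k + 2) * q ^ (2 * k + 2) * q := by ring
    rw [h2, pow_succ _ (2 * k + 1 + 1)]
    nlinarith
  have odd : ∀ k : ℕ, q * ∏ i ∈ range (2 * k + 1), (q ^ (i + 1) - (-1) ^ (i + 1)) ≤
      (q + 1) * q ^ (∑ i ∈ range (2 * k + 1), i + (2 * k + 1)) := fun k => by
    induction k with
    | zero => simp [mul_comm]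
    | succ k ih =>
      rw [show 2 * (k + 1) + 1 = 2 * k + 1 + 1 + 1 by ring, prod_range_succ, prod_range_succ,
        sum_range_succ, sum_range_succ, mul_assoc, ← mul_assoc q]
      refine (mul_le_mul ih (two k).le (mul_pos (hpos _) (hpos _)).le (by positivity)).trans_eq ?_
      ring
  obtain ⟨k, rfl | rfl⟩ : ∃ k, n = 2 * k + 1 + 1 ∨ n = 2 * k + 1 + 1 + 1 := ⟨(n - 2) / 2, by omega⟩
  · rw [prod_range_succ, sum_range_succ, ← mul_assoc]
    refine (mul_lt_mul' (odd k) (c := _) (d := q ^ (2 * k + 1 + 1)) ?_ (hpos _).le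
      (by positivity)).trans_eq (by ring)
    rw [Even.neg_one_pow ⟨k + 1, by ring⟩]; omega
  · rw [prod_range_succ, prod_range_succ, sum_range_succ, sum_range_succ, mul_assoc, ← mul_assoc q]
    exact (mul_lt_mul' (odd k) (two k) (mul_pos (hpos _) (hpos _)).le (by positivity)).trans_eq
      (by ring)

theorem u_cube {V : Type*} [AddCommGroup V] [Module F V] [FiniteDimensional F V]
    {P : PQ (uFP hF) V} (hP : P.ND) (h3 : 3 ≤ finrank F V) :
    ∃ a, q ^ a ∣ Nat.card P.EG ∧ Nat.card P.EG ^ 3 < q ^ (8 * a) := by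
  obtain ⟨h1, -, h2⟩ := u_card_aux hF _ V P hP rfl
  refine ⟨_, h1, ?_⟩
  have hq := two_le_q hF
  obtain ⟨e, he0, he⟩ := u_exists_sing P (by omega)
  obtain ⟨f, hf⟩ := hP.exists_hyp he he0
  have h4 : q + 1 ≤ Nat.card P.det.range := by
    rw [← S2481.card_range_phiU hF]
    refine Subgroup.card_le_of_le ?_
    rintro _ ⟨t, rfl⟩
    exact ⟨hf.tor t, Units.ext (by rw [hf.det_tor, coe_phiU, div_eq_mul_inv])⟩
  have h5 := Subgroup.card_mul_index P.det.ker
  rw [Subgroup.index_ker, ← u_EG_eq_ker_det hP] at h5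
  have h6 := prod_bound (q := q) (by exact_mod_cast hq) (finrank F V) (by omega)
  have h7 := Finset.sum_range_id_mul_two (finrank F V)
  generalize ∑ i ∈ range (finrank F V), i = A at *
  obtain ⟨n, hn⟩ : ∃ n, finrank F V = n + 1 := ⟨finrank F V - 1, by omega⟩
  rw [hn] at h2 h6 h7 h3
  have h8 : ((q : ℤ) + 1) * q * Nat.card P.EG < (q + 1) * q * q ^ (2 * A + n) := by
    have h9 : (Nat.card P.EG : ℤ) * (q + 1) ≤ Nat.card P.Iso := by
      rw [← h5]; exact_mod_cast Nat.mul_le_mul_left _ h4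
    have := mul_lt_mul_of_pos_left h6 (show (0 : ℤ) < q ^ A by positivity)
    calc _ = q * ((Nat.card P.EG : ℤ) * (q + 1)) := by ring
      _ ≤ q * Nat.card P.Iso := by gcongr
      _ < _ := by rw [h2]; linarith [show (q : ℤ) ^ A * ((q + 1) * q ^ (A + (n + 1))) =
          (q + 1) * q * q ^ (2 * A + n) by ring]
  have h9 : Nat.card P.EG < q ^ (2 * A + n) := by
    exact_mod_cast lt_of_mul_lt_mul_left h8 (by positivity)
  refine (Nat.pow_lt_pow_left h9 (by norm_num)).trans_le ?_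
  rw [← pow_mul]
  refine Nat.pow_le_pow_right (by omega) ?_
  rw [Nat.add_sub_cancel] at h7
  nlinarith

end U

section O

variable [Finite F]

theorem card_oLam : Nat.card (oFP F).Λ = 1 := AddSubgroup.card_bot

theorem o_odd_aux (m : ℕ) : ∀ (V : Type u) [AddCommGroup V] [Module F V] [FiniteDimensional F V]
    (P : PQ (oFP F) V), P.ND → finrank F V = 2 * m + 1 →
      Nat.card F ^ (m * m) ∣ Nat.card P.EG ∧ Nat.card {x : V // P.Sing x} ≤ Nat.card F ^ (2 * m) ∧
      Nat.card P.Iso ≤ Nat.card F ^ (2 * (m * m) + m + 1) := by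
  have hq : 1 < Nat.card F := Finite.one_lt_card
  induction m with
  | zero =>
    intro V _ _ _ P hP hn
    refine ⟨by simp, (card_sing_of_aniso fun x hx => ?_).le, by simpa [hn] using card_iso_le (P := P)⟩
    by_contra h0
    obtain ⟨f, hf⟩ := hP.exists_hyp hx h0
    have := hf.finrank_perp
    omega
  | succ m ih =>
    intro V _ _ _ P hP hn
    obtain ⟨e, he0, he⟩ := o_exists_sing P (by omega)
    obtain ⟨f, hf⟩ := hP.exists_hyp he he0
    obtain ⟨h1, h2, h3, h4⟩ := step_rec hP hf (n := 2 * m + 1) hn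
    obtain ⟨i1, i2, i3⟩ := ih _ _ (hf.emb.nd hP) h1
    rw [card_oLam, mul_one] at h2 h3 h4
    obtain ⟨r, hr⟩ : ∃ r, Nat.card F = r + 1 := ⟨Nat.card F - 1, by omega⟩
    have h5 : Nat.card {x : V // P.Sing x} ≤ Nat.card F ^ (2 * (m + 1)) := by
      rw [h2]
      refine (Nat.add_le_add_left (Nat.mul_le_mul_left _ i2) _).trans_eq ?_
      rw [hr, Nat.add_sub_cancel]; ring
    refine ⟨Dvd.dvd.trans ?_ h4, h5, ((Nat.le_add_right _ _).trans_eq h3).trans ?_⟩
    · exact (dvd_of_eq (by ring)).trans (Nat.mul_dvd_mul_left _ i1)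
    · exact (Nat.mul_le_mul h5 (Nat.mul_le_mul_left _ i3)).trans_eq (by ring)

theorem o_even_aux (m : ℕ) : ∀ (V : Type u) [AddCommGroup V] [Module F V] [FiniteDimensional F V]
    (P : PQ (oFP F) V), P.ND → finrank F V = 2 * m + 2 →
      Nat.card F ^ (m * m + m) ∣ Nat.card P.EG ∧
      ((Nat.card {x : V // P.Sing x} ≤ Nat.card F ^ (2 * m + 1) ∧
        Nat.card P.Iso ≤ Nat.card F ^ (2 * (m * m) + 3 * m + 4)) ∨
      (Nat.card {x : V // P.Sing x} ≤ 2 * Nat.card F ^ (2 * m + 1) ∧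
        Nat.card P.Iso < Nat.card F ^ (2 * (m * m) + 4 * m + 2))) := by
  have hq : 1 < Nat.card F := Finite.one_lt_card
  obtain ⟨r, hr⟩ : ∃ r, Nat.card F = r + 1 := ⟨Nat.card F - 1, by omega⟩
  induction m with
  | zero =>
    intro V _ _ _ P hP hn
    refine ⟨by simp, ?_⟩
    by_cases h : ∀ x, P.Sing x → x = 0
    · exact Or.inl ⟨by rw [card_sing_of_aniso h]; simp; omega,
        by simpa [hn] using card_iso_le (P := P)⟩
    · push Not at h
      obtain ⟨e, he, he0⟩ := h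
      obtain ⟨f, hf⟩ := hP.exists_hyp he he0
      obtain ⟨h1, h2, h3, -⟩ := step_rec hP hf (n := 0) hn
      have : Subsingleton (P.perp {e, f}) := Module.finrank_zero_iff.1 h1
      rw [card_iso_of_subsingleton (P := P.res _), card_oLam] at h3
      rw [card_sing_of_aniso (P := P.res _) fun _ _ => Subsingleton.elim _ _, card_oLam] at h2
      rw [hr] at h2 h3 hq ⊢
      simp only [pow_zero, mul_one, Nat.add_sub_cancel] at h2 h3
      refine Or.inr ⟨by simp; omega, ?_⟩
      simp only [mul_zero, zero_add]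
      nlinarith
  | succ m ih =>
    intro V _ _ _ P hP hn
    obtain ⟨e, he0, he⟩ := o_exists_sing P (by omega)
    obtain ⟨f, hf⟩ := hP.exists_hyp he he0
    obtain ⟨h1, h2, h3, h4⟩ := step_rec hP hf (n := 2 * m + 2) hn
    obtain ⟨i1, i2⟩ := ih _ _ (hf.emb.nd hP) h1
    rw [card_oLam, mul_one] at h2 h3 h4
    refine ⟨Dvd.dvd.trans ?_ h4, ?_⟩
    · exact (dvd_of_eq (by ring)).trans (Nat.mul_dvd_mul_left _ i1)
    have h6 := (Nat.le_add_right _ _).trans_eq h3
    rcases i2 with ⟨i2, i3⟩ | ⟨i2, i3⟩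
    · have h5 : Nat.card {x : V // P.Sing x} ≤ Nat.card F ^ (2 * (m + 1) + 1) := by
        rw [h2]
        refine (Nat.add_le_add_left (Nat.mul_le_mul_left _ i2) _).trans_eq ?_
        rw [hr, Nat.add_sub_cancel]; ring
      exact Or.inl ⟨h5, h6.trans ((Nat.mul_le_mul h5 (Nat.mul_le_mul_left _ i3)).trans_eq (by ring))⟩
    · have h5 : Nat.card {x : V // P.Sing x} ≤ 2 * Nat.card F ^ (2 * (m + 1) + 1) := by
        rw [h2]
        refine (Nat.add_le_add_left (Nat.mul_le_mul_left _ i2) _).trans ?_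
        rw [hr, Nat.add_sub_cancel]
        calc _ = (r + 2) * (r + 1) ^ (2 * m + 2) := by ring
          _ ≤ (2 * (r + 1)) * (r + 1) ^ (2 * m + 2) := by gcongr; omega
          _ = _ := by ring
      refine Or.inr ⟨h5, h6.trans_lt ?_⟩
      have h7 : Nat.card {x : V // P.Sing x} ≤ Nat.card F * Nat.card F ^ (2 * (m + 1) + 1) :=
        h5.trans (Nat.mul_le_mul_right _ hq)
      refine (Nat.mul_le_mul_right _ h7).trans_lt ?_
      exact (Nat.mul_lt_mul_of_pos_left (Nat.mul_lt_mul_of_pos_left i3 (by positivity))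
        (by positivity)).trans_eq (by ring)

theorem o_cube {V : Type*} [AddCommGroup V] [Module F V] [FiniteDimensional F V]
    {P : PQ (oFP F) V} (hP : P.ND) (h7 : 7 ≤ finrank F V) :
    ∃ a, Nat.card F ^ a ∣ Nat.card P.EG ∧ Nat.card P.EG ^ 3 < Nat.card F ^ (8 * a) := by
  have hq : 1 < Nat.card F := Finite.one_lt_card
  have : Finite V := Module.finite_of_finite F
  have := finite_iso (P := P)
  have h0 : Nat.card P.EG ≤ Nat.card P.Iso := Subgroup.card_le_card_group _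
  obtain ⟨m, hm | hm⟩ : ∃ m, finrank F V = 2 * m + 1 ∨ finrank F V = 2 * m + 2 :=
    ⟨(finrank F V - 1) / 2, by omega⟩
  · obtain ⟨h1, -, h2⟩ := o_odd_aux m V P hP hm
    refine ⟨_, h1, (Nat.pow_le_pow_left (h0.trans h2) 3).trans_lt ?_⟩
    rw [← pow_mul]
    exact Nat.pow_lt_pow_right hq (by have : 3 ≤ m := by omega
                                      nlinarith)
  · have : 3 ≤ m := by omega
    obtain ⟨h1, ⟨-, h2⟩ | ⟨-, h2⟩⟩ := o_even_aux m V P hP hm
    · refine ⟨_, h1, (Nat.pow_le_pow_left (h0.trans h2) 3).trans_lt ?_⟩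
      rw [← pow_mul]
      exact Nat.pow_lt_pow_right hq (by nlinarith)
    · refine ⟨_, h1, (Nat.pow_lt_pow_left (h0.trans_lt h2) (by norm_num)).trans_le ?_⟩
      rw [← pow_mul]
      exact Nat.pow_le_pow_right hq.le (by nlinarith)

end O

end Cfsg.Agent.Forms
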