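import Cfsg.Agent.Forms.RegSU3

/-! Generation of `SU_n(q)`, `n` odd, by three conjugate regular unipotent elements. -/

set_option autoImplicit false

open Module

namespace Cfsg.Agent.Forms.RegCl

open Cfsg.Agent.Polar Cfsg.Agent.Polar.PQ Cfsg.Agent.GLn

variable {F : Type*} [Field F] [Fintype F] {q : ℕ} {hF : Fintype.card F = q ^ 2}

local notation "σ" => frobq hF

universe w in
theorem u_cyc (n : ℕ) : ∀ (V : Type w) [AddCommGroup V] [Module F V] [FiniteDimensional F V]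
    (P : PQ (uFP hF) V), P.ND → finrank F V = 2 * n + 1 → ∃ u f, Cyc P u f := by
  induction n with
  | zero =>
    intro V _ _ _ P hP hn
    obtain ⟨v, -, hv⟩ := finrank_eq_one_iff'.1 hn
    exact ⟨1, v, cyc_one fun x => by obtain ⟨a, ha⟩ := hv x; exact ⟨a, ha.symm⟩⟩
  | succ n ih =>
    intro V _ _ _ P hP hn
    obtain ⟨e, he0, he⟩ := u_exists_sing P (by omega)
    obtain ⟨f, hf⟩ := hP.exists_hyp he he0
    have h1 := hf.finrank_perp
    obtain ⟨u, v, hu⟩ := ih _ _ (hf.emb.nd hP) (by omega)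
    have : Nontrivial (P.perp {e, f}) := Module.nontrivial_of_finrank_pos (R := F) (by omega)
    exact ⟨_, _, (RD.of_cyc hf hu).cyc_step hP (QEq.self _)
      (Or.inl fun h => hu.ne_zero (Subtype.ext h))⟩

variable {V : Type*} [AddCommGroup V] [Module F V] [FiniteDimensional F V] {P : PQ (uFP hF) V}

theorem u_RD (hP : P.ND) {n : ℕ} (hn : finrank F V = 2 * n + 5) :
    ∃ e f v u, RD P e f v u ∧ P.Sing v ∧ v ≠ 0 := by
  obtain ⟨e, he0, he⟩ := u_exists_sing P (by omega)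
  obtain ⟨f, hf⟩ := hP.exists_hyp he he0
  have h1 := hf.finrank_perp
  obtain ⟨e', he0', he'⟩ := u_exists_sing (P.res (P.perp {e, f})) (by omega)
  obtain ⟨f', hf'⟩ := (hf.emb.nd hP).exists_hyp he' he0'
  have h2 := hf'.finrank_perp
  obtain ⟨u, v, hu⟩ := u_cyc n _ _ (hf'.emb.nd (hf.emb.nd hP)) (by omega)
  have : Nontrivial ((P.res (P.perp {e, f})).perp {e', f'}) :=
    Module.nontrivial_of_finrank_pos (R := F) (by omega)
  obtain ⟨u, h3, h4, h5, -⟩ := exists_top hP hf (RD.of_cyc hf' hu) (QEq.self _)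
    (Or.inl fun h => hu.ne_zero (Subtype.ext h))
  exact ⟨_, _, _, _, h3, h4, h5⟩

theorem su_big (hP : P.ND) {n : ℕ} (hn : finrank F V = 2 * n + 7) : Gen3 P := by
  obtain ⟨e, he0, he⟩ := u_exists_sing P (by omega)
  obtain ⟨f, hf⟩ := hP.exists_hyp he he0
  have h1 := hf.finrank_perp
  obtain ⟨e', f', v', u', D', hs', hv'⟩ := u_RD (hf.emb.nd hP) (n := n) (by omega)
  obtain ⟨u, D, hs, hv, hb, -⟩ := exists_top hP hf D' (c := 0) hs' (Or.inl hv')
  generalize (f' : V) = v at *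
  rw [neg_zero] at hb
  obtain ⟨ω, hω0, hω⟩ := exists_generator F
  obtain ⟨c, hc, hc0⟩ := u_exists_lam hF
  have ht : σ (-c)⁻¹ ≠ 0 := by simpa using hc0
  obtain ⟨s, hs0, hs1⟩ := D.exists_L hP hs hv hb ht ω hω0
  obtain ⟨g, hg, hg'⟩ := D.exists_swap hs hc hc0
  refine ⟨_, _, D.cyc_step hP hs (Or.inl hv), g, hg, _, eich_mem_EG e ((-s) • v) 0,
    fun H h1 h3 h4 => ?_⟩
  rw [hg'] at h3
  obtain ⟨h5, h6⟩ := D.conj_U (D.ok0 hs (-s)) (D.ok1 hs)
  rw [h5] at h4
  have hA1 : s • (u • v - v) ∈ P.vecs H D.hyp.left := by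
    have h7 : _ ∈ P.vecs H D.hyp.left := ⟨_, RD.div_mem (D.ok1 hs) h6 h1 h4⟩
    convert h7 using 1
    rw [act_smul]
    generalize u • v = y
    module
  obtain ⟨L, hL, hLe, a, ha⟩ := hs1 H h1 h3 hA1
  exact D.finish hP hs hv ht h1 h3 (U_le_of_min D.hyp hP (u_lam_min hF) D.vp hv
    (D.coreII hs (addGen_of_generator hω) hω0 hs0 h1 hA1 hL hLe ha))

theorem su_five (hP : P.ND) (hn : finrank F V = 5) : Gen3 P := by
  obtain ⟨ω, hω0, hω⟩ := exists_generator F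
  obtain ⟨c, hc, hc0⟩ := u_exists_lam hF
  have hc' : σ c = -c := by rw [mem_uFP_lam] at hc; linear_combination hc
  have hq := two_le_q hF
  have hσ : σ ω = ω ^ (q - 1) * ω := by rw [frobq_apply, ← pow_succ]; congr 1; omega
  have hω2 : (ω ^ (q - 1)) ^ 2 ≠ 1 := fun h => by
    have := Nat.le_of_dvd two_pos (exists_norm_one hF hω0 hω h)
    omega
  have hgen : ∀ r, σ r = r → r ≠ 0 → AddGen (ω * r) := fun r hr hr0 =>
    addGen_of_pow (mul_ne_zero hω0 hr0) fun k d hk hd h h1 => by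
      have h2 : r ^ (q - 1) = 1 := by
        refine mul_right_cancel₀ hr0 ?_
        rw [← pow_succ, one_mul, show q - 1 + 1 = q by omega, ← frobq_apply hF, hr]
      have h3 : (ω ^ (q - 1)) ^ (k - 1) = 1 := by
        rw [← mul_one (ω ^ (q - 1)), ← h2, ← mul_pow, ← pow_mul, mul_comm (q - 1), pow_mul, h1,
          one_pow, h2]
      have h4 := Nat.le_of_dvd (by omega) (exists_norm_one hF hω0 hω h3)
      have h5 : k ^ 2 ≤ q ^ 2 := hF ▸ h ▸ Nat.pow_le_pow_right (by omega) hd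
      have := (Nat.pow_le_pow_iff_left two_ne_zero).1 h5
      omega
  obtain ⟨e, he0, he⟩ := u_exists_sing P (by omega)
  obtain ⟨f, hf⟩ := hP.exists_hyp he he0
  have h1 := hf.finrank_perp
  obtain ⟨e', v', f', T⟩ := exists_fr3 (hf.emb.nd hP) (by omega)
  have htr : -(ω / c) + σ (-(ω / c)) ≠ 0 := fun h => hω2 (by
    rw [map_neg, map_div₀, hc', hσ] at h
    field_simp at h
    rw [show ω ^ (q - 1) = 1 from mul_left_cancel₀ hω0 (by linear_combination h), one_pow])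
  obtain ⟨a, ha⟩ := exists_norm_eq hF (-(ω / c) + σ (-(ω / c))) (by
    rw [map_add, frobq_frobq, add_comm])
  have ha0 : a ≠ 0 := fun h => htr (by rw [← ha, h, zero_mul])
  have D' : RD _ e' f' (a • v') 1 := { T.rd with
    vp := mem_perp_pair.2 ⟨by simp [T.ve], by simp [T.vf]⟩
    cyc := fun W hW => T.rd.cyc W (by simpa [ha0] using W.smul_mem a⁻¹ hW) }
  obtain ⟨u, D, hs, hv, hb, -⟩ := exists_top hP hf D' (T.oke ha.symm).val
    (Or.inr (by simp [hω0, hc0]))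
  generalize (f' : V) = v at *
  rw [neg_neg] at hb
  have hb' : P.B v (u • v) = -(ω ^ (q - 1) * ω / c) := by
    rw [u_swap, hb, map_div₀, hc', hσ, div_neg]
  obtain ⟨g, hg, hg'⟩ := D.exists_swap hs hc hc0
  rw [map_inv₀, map_neg, hc', neg_neg] at hg'
  have ht := inv_ne_zero hc0
  have key : ∀ H : Subgroup P.Iso, P.eich e v 0 * u ∈ H → P.eich f (c⁻¹ • v) 0 * u ∈ H →
      ∀ d ∈ (uFP hF).Λ, d ≠ 0 → P.eich e 0 d ∈ H → ∀ s : F, s ≠ 0 →
      s • (u • v - v) ∈ P.vecs H D.hyp.left → P.EG ≤ H := fun H h1 h3 d hd hd0 h4 s hs0 h5 => by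
    obtain ⟨L, hL, hLe, h6⟩ := D.zconj hs h1 h3 (EOk.lam D.hyp.left hd) (zero_mem _) (by simp) h4
    have hd' : σ d = -d := by rw [mem_uFP_lam] at hd; linear_combination hd
    refine D.finish hP hs hv ht h1 h3 (U_le_of_min D.hyp hP (u_lam_min hF) D.vp hv
      (D.perp_le_vecs (D.ok1 hs) h1 (coreL D.hyp.left hL hLe
      ((h6 _ (sub_mem (D.act_mem D.vp) D.vp)).trans (congrArg₂ _ (congrArg _ ?_) rfl))
      (fun s hs' => ?_) (hgen (d / c ^ 3) ?_ (by simp [hd0, hc0])) (by simp [hd0, hc0, hω0]) hs0 h5)))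
    · simp only [map_sub, LinearMap.sub_apply, hb, hs.B_self, map_inv₀, hc', uFP_eps, map_zero]
      match_scalars
      field_simp; ring
    · rw [smul_sub, ← act_smul]
      exact sub_mem (D.act_vecs_u (D.ok1 hs) h1 (Submodule.smul_mem _ _ D.vp) hs') hs'
    · rw [map_div₀, map_pow, hd', hc']; field_simp
  by_cases h2 : (2 : F) = 0
  · refine ⟨_, _, D.cyc_step hP hs (Or.inl hv), g, hg, _, eich_mem_EG e v 0, fun H h1 h3 h4 => ?_⟩
    rw [hg'] at h3
    obtain ⟨h5, h6⟩ := D.conj_U (D.ok1 hs) (D.ok1 hs)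
    rw [h5] at h4
    obtain ⟨h7, h8⟩ := RD.div_mem (D.ok1 hs) h6 h1 h4
    rw [show v + v + -(u • v) + -v = (-1 : F) • (u • v - v) by simp; abel] at h7 h8
    have h9 := H.mul_mem h8 h8
    have h10 := h7.add h7
    rw [h7.eich_mul h7] at h9
    rw [← two_smul F, h2, zero_smul, ← two_mul, h2, zero_mul, zero_add] at h9 h10
    refine key H h1 h3 _ ((sing_iff_of_QEq h10.val).1 sing_zero) (fun h => htr ?_) h9 _ (by simp)
      ⟨_, h7, h8⟩
    rw [map_neg, map_div₀, hc', hσ, div_neg, ← h]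
    simp [hb, hb', hs.B_self]
    ring
  · obtain ⟨k, hk, hk'⟩ := D.exists_torus (neg_mem hc) (neg_ne_zero.2 hc0) hc hc0
    refine ⟨_, _, D.cyc_step hP hs (Or.inl hv), g, hg, k, hk, fun H h1 h3 h4 => ?_⟩
    rw [hg'] at h3
    rw [hk' v D.vp hs] at h4
    obtain ⟨h7, h8⟩ := RD.div_mem (D.ok1 hs) (D.ok0 hs _) h1 h4
    rw [show σ (-c / c) • v + -v = (-2 : F) • v by
      rw [neg_div_self hc0, map_neg, map_one]; module] at h7 h8
    have h9 := D.act_vecs_u (D.ok1 hs) h1 (Submodule.smul_mem _ _ D.vp) ⟨_, h7, h8⟩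
    have h10 := sub_mem h9 (⟨_, h7, h8⟩ : _ ∈ P.vecs H D.hyp.left)
    rw [act_smul, ← smul_sub] at h10
    obtain ⟨c', h11, h12⟩ := h9
    have h13 := H.mul_mem (H.mul_mem (H.mul_mem h8 h12) (H.inv_mem h8)) (H.inv_mem h12)
    rw [eich_comm h7 h11] at h13
    refine key H h1 h3 _ ?_ (fun h => hω2 ?_) h13 _ (neg_ne_zero.2 h2) h10
    · rw [mem_uFP_lam, map_sub, ← u_swap, ← u_swap]; ring
    · simp only [act_smul, B_smul_left, B_smul_right, hb, hb', map_neg, map_ofNat] at h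
      field_simp at h
      rw [show ω ^ (q - 1) = -1 from mul_left_cancel₀ (mul_ne_zero (pow_ne_zero 2 h2) hω0)
        (by linear_combination h)]; simp

theorem su_gen3 (hP : P.ND) (h3 : 3 ≤ finrank F V) (ho : Odd (finrank F V))
    (h : ¬ (finrank F V = 3 ∧ q = 2)) : Gen3 P := by
  obtain ⟨k, hk⟩ := ho
  rcases k with _ | _ | _ | k
  · omega
  · obtain ⟨u, f, hu, g, hg, h⟩ := su3_gen2 hP hk fun e => h ⟨hk, e⟩
    exact ⟨u, f, hu, g, hg, g, hg, fun H h1 h2 _ => h H h1 h2⟩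
  · exact su_five hP hk
  · exact su_big hP (n := k) (by omega)

end Cfsg.Agent.Forms.RegCl
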