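import Cfsg.Agent.Forms.RegCl

/-! Generation of symplectic groups by three conjugate regular unipotent elements. -/

set_option autoImplicit false

open Module

namespace Cfsg.Agent.Forms.RegCl

open Cfsg.Agent.Polar Cfsg.Agent.Polar.PQ Cfsg.Agent.GLn

variable {F : Type*} [Field F]

universe w in
theorem sp_cyc (n : ℕ) : ∀ (V : Type w) [AddCommGroup V] [Module F V]
    [FiniteDimensional F V] (P : PQ (spFP F) V), P.ND → finrank F V = n → ∃ u f, Cyc P u f := by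
  induction n using Nat.strong_induction_on with
  | _ n ih =>
  intro V _ _ _ P hP hn
  by_cases hV : ∀ x : V, x = 0
  · exact ⟨1, 0, cyc_one fun x => ⟨0, by simp [hV x]⟩⟩
  push Not at hV
  obtain ⟨e, he⟩ := hV
  obtain ⟨f, hf⟩ := hP.exists_hyp (sp_sing e) he
  have h1 := hf.finrank_perp
  obtain ⟨u, v, hu⟩ := ih _ (by omega) _ _ (hf.emb.nd hP) rfl
  exact ⟨_, _, (RD.of_cyc hf hu).cyc_step hP (c := 1) trivial (Or.inr one_ne_zero)⟩

variable {V : Type*} [AddCommGroup V] [Module F V] [FiniteDimensional F V] {P : PQ (spFP F) V}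

theorem sp_RD (hP : P.ND) (h2 : 2 ≤ finrank F V) : ∃ e f v u, RD P e f v u := by
  have : Nontrivial V := Module.nontrivial_of_finrank_pos (R := F) (by omega)
  obtain ⟨e, he⟩ := exists_ne (0 : V)
  obtain ⟨f, hf⟩ := hP.exists_hyp (sp_sing e) he
  obtain ⟨u, v, hu⟩ := sp_cyc _ _ _ (hf.emb.nd hP) rfl
  exact ⟨e, f, v, _, RD.of_cyc hf hu⟩

theorem sp_top (hP : P.ND) (h4 : 4 ≤ finrank F V) : ∃ e f v u, RD P e f v u ∧ v ≠ 0 ∧
    (P.B (u • v) v = 0 ∨ finrank F V = 4 ∧ P.B (u • v) v = -1 ∧ u • (u • v - v) = u • v - v) := by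
  have : Nontrivial V := Module.nontrivial_of_finrank_pos (R := F) (by omega)
  obtain ⟨e, he⟩ := exists_ne (0 : V)
  obtain ⟨f, hf⟩ := hP.exists_hyp (sp_sing e) he
  have h1 := hf.finrank_perp
  obtain ⟨e', f', v', u', D⟩ := sp_RD (hf.emb.nd hP) (by omega)
  by_cases hv : v' = 0
  · obtain ⟨u, h2, -, h3, h4, h5⟩ := exists_top hP hf D (c := 1) trivial (Or.inr one_ne_zero)
    refine ⟨_, _, _, _, h2, h3, Or.inr ⟨?_, h4, h5 hv⟩⟩
    have h6 := D.hyp.finrank_perp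
    rw [le_bot_iff.1 (D.cyc ⊥ (by simp [hv]) fun x hx _ => by
      rw [(Submodule.mem_bot F).1 hx]; simp), finrank_bot] at h6
    omega
  · obtain ⟨u, h2, -, h3, h4, -⟩ := exists_top hP hf D (c := 0) trivial (Or.inl hv)
    exact ⟨_, _, _, _, h2, h3, Or.inl (by simpa using h4)⟩

variable {e f v : V} {u : P.Iso} {H : Subgroup P.Iso}

theorem sp_swap_conj (D : RD P e f v u) {t : F} (ht : t ≠ 0) : ∃ g ∈ P.EG,
    g * (P.eich e v 0 * u) * g⁻¹ = P.eich f (t • v) 0 * u := by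
  simpa using D.exists_swap trivial (c := -t⁻¹) trivial (by simpa using ht)

theorem sp_odd [Finite F] (h2 : (2 : F) ≠ 0) (hP : P.ND) (D : RD P e f v u) (hv : v ≠ 0) :
    Gen3 P := by
  obtain ⟨ω, hω0, hω⟩ := exists_generator F
  obtain ⟨k, hk⟩ := D.exists_ne hP hv
  have ht : ω / (-(2 * 2) * P.B (u ^ k • v) v) ≠ 0 :=
    div_ne_zero hω0 (mul_ne_zero (neg_ne_zero.2 (mul_ne_zero h2 h2)) hk)
  obtain ⟨g, hg, hg'⟩ := sp_swap_conj D ht
  obtain ⟨h, hh, hh'⟩ := D.exists_torus (c := -1) (c' := 1) trivial (by simp) trivial one_ne_zero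
  refine ⟨_, _, D.cyc_step hP (c := 0) trivial (Or.inl hv), g, hg, h, hh, fun H h1 h3 h4 => ?_⟩
  rw [hg'] at h3
  rw [hh' v D.vp trivial] at h4
  obtain ⟨h5, h6⟩ := RD.div_mem (D.ok1 trivial) (D.ok0 trivial _) h1 h4
  have e1 : (RingHom.id F) (-1 / 1) • v + -v = (-2 : F) • v := by simp; module
  rw [e1] at h5 h6
  obtain ⟨L, hL, hLe, h7⟩ := D.zconj trivial h1 h3 h5 (Submodule.smul_mem _ _ D.vp)
    (by simp [sp_B_self]) h6
  refine D.finish hP trivial hv ht h1 h3 (U_le_of_min D.hyp hP (fun c _ => ⟨c / 2, ?_⟩) D.vp hv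
    (D.perp_le_vecs (D.ok1 trivial) h1 (coreL D.hyp.left hL (x := u ^ k • v) (s := -2) hLe
    ((h7 _ (D.pow_act_mem k D.vp)).trans (congrArg₂ _ (congrArg _ ?_) rfl)) (fun σ hσ => ?_)
    (addGen_of_generator hω) hω0 (neg_ne_zero.2 h2) ?_)))
  · simp; field_simp; ring
  · simp [sp_B_self]
    match_scalars
    field_simp; ring
  · rw [← act_smul]
    exact D.pow_vecs_u (D.ok1 trivial) h1 k (Submodule.smul_mem _ _ D.vp) hσ
  · rw [← act_smul]
    exact D.pow_vecs_u (D.ok1 trivial) h1 k (Submodule.smul_mem _ _ D.vp) ⟨_, h5, h6⟩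

section Two

variable (H e) in
/-- `E(e, w, c)` lies in `H`. -/
def In (w : V) (c : F) : Prop := P.B w e = 0 ∧ P.eich e w c ∈ H

omit [FiniteDimensional F V]

theorem In.add {w w' : V} {c c' : F} (h : In e H w c) (h' : In e H w' c') :
    In e H (w + w') (c + c' + P.B w' w) :=
  ⟨by simp [h.1, h'.1], (sp_eOk h.1 c).eich_mul (sp_eOk h'.1 c') ▸ H.mul_mem h.2 h'.2⟩

theorem In.congr {w w' : V} {c c' : F} (h : In e H w c) (h1 : w = w') (h2 : c = c') :
    In e H w' c' := h1 ▸ h2 ▸ h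

variable [CharP F 2]

theorem In.cancel {w : V} {c c' : F} (h : In e H w c) (h' : In e H w c') : In e H 0 (c + c') :=
  (h.add h').congr (by rw [← two_smul F, CharTwo.two_eq_zero, zero_smul])
    (by rw [sp_B_self, add_zero])

theorem in_step {x y : V} {a : F} (hx : x ∈ P.vecs H (sp_sing e)) {L : P.Iso}
    (hL : L ∈ H) (hLe : L • e = e) (h : L • x = x + y + a • e) : In e H y (P.B x y) := by
  obtain ⟨c, h1, h2⟩ := hx
  obtain ⟨h3, h4⟩ := step h1 h2 hL hLe h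
  refine ⟨h3.perp, ?_⟩
  convert h4 using 2
  simp only [spFP_eps, RingHom.id_apply]
  linear_combination (P.B x y - a) * (CharTwo.two_eq_zero : (2 : F) = 0)

theorem in_of_L (D : RD P e f v u) {t : F} (h1 : P.eich e v 0 * u ∈ H)
    (h2 : P.eich f (t • v) 0 * u ∈ H) {μ c : F} (h : In e H (μ • v) c) : ∃ L ∈ H, L • e = e ∧
      ∀ x ∈ P.perp {e, f}, ∃ a : F, L • x = x + (c * t ^ 2 * P.B x v) • v + a • e := by
  obtain ⟨L, hL, hLe, h3⟩ := D.zconj trivial h1 h2 (sp_eOk h.1 c) (Submodule.smul_mem _ _ D.vp)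
    (by simp [sp_B_self]) h.2
  refine ⟨L, hL, hLe, fun x hx => ⟨_, (h3 x hx).trans (congrArg₂ _ (congrArg _ ?_) rfl)⟩⟩
  simp only [spFP_eps, RingHom.id_apply, B_smul_right]
  match_scalars
  linear_combination (t * P.B x v * μ) * (CharTwo.two_eq_zero : (2 : F) = 0)

theorem in_sq (D : RD P e f v u) {t : F} (ht : t ≠ 0) (h1 : P.eich e v 0 * u ∈ H)
    (h2 : P.eich f (t • v) 0 * u ∈ H) (hA : ∀ x ∈ P.perp {e, f}, x ∈ P.vecs H (sp_sing e))
    {x : V} (hx : x ∈ P.perp {e, f}) (hxv : P.B x v ≠ 0) {μ c : F} (hc : c ≠ 0)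
    (h : In e H (μ • v) c) (σ : F) : In e H (σ • v) (σ ^ 2 / (c * t ^ 2)) := by
  obtain ⟨L, hL, hLe, h3⟩ := in_of_L D h1 h2 h
  have h4 := Submodule.smul_mem _ (σ / (c * t ^ 2 * P.B x v)) hx
  obtain ⟨a, ha⟩ := h3 _ h4
  refine (in_step (hA _ h4) hL hLe ha).congr ?_ ?_
  · rw [B_smul_left]; congr 1; field_simp
  · simp only [B_smul_left, B_smul_right, RingHom.id_apply]; field_simp

theorem exists_sq_two [Finite F] (a : F) : ∃ t : F, t ^ 2 = a :=
  (Finite.injective_iff_surjective.mp (frobenius F 2).injective) a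

theorem U_le_of_sq [Finite F] (D : RD P e f v u)
    (hA : ∀ x ∈ P.perp {e, f}, x ∈ P.vecs H (sp_sing e)) {r : F} (hr : r ≠ 0)
    (h : ∀ σ : F, In e H 0 (σ ^ 2 * r)) : P.U e ≤ H :=
  D.hyp.U_le_of_vecs (fun c _ => by
    obtain ⟨σ, hσ⟩ := exists_sq_two (c / r)
    have := (h σ).2
    rwa [hσ, div_mul_cancel₀ _ hr] at this) hA

end Two

theorem sp_two_big [Finite F] [CharP F 2] (hP : P.ND) (D : RD P e f v u) (hv : v ≠ 0)
    (hb : P.B (u • v) v = 0) : Gen3 P := by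
  have h2 : (2 : F) = 0 := CharTwo.two_eq_zero
  obtain ⟨ω, hω0, hω⟩ := exists_generator F
  obtain ⟨s, hs0, hs⟩ := D.exists_L hP trivial hv hb one_ne_zero ω hω0
  obtain ⟨g, hg, hg'⟩ := sp_swap_conj D one_ne_zero
  obtain ⟨m, hm, hb'⟩ := D.exists_fix hP hv
  obtain ⟨m, rfl⟩ : ∃ k, m = k + 2 := by
    rcases m with _ | _ | m
    · simp [sp_B_self] at hb'
    · simp [nil_apply, hb, sp_B_self] at hb'
    · exact ⟨m, rfl⟩
  obtain ⟨z, hz⟩ : ∃ z, (nil u ^ (m + 2)) v = z := ⟨_, rfl⟩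
  have hzp := D.nil_mem (m + 2) D.vp
  rw [hz] at hm hb' hzp
  have hze := (mem_perp_pair.1 hzp).1
  have huz : ∀ x, P.B (u • x) z = P.B x z := fun x => by rw [← hm, B_smul_smul, hm]
  have hτ := D.comm_of_fix (sp_sing z) hm (c := s / P.B v z) trivial
  have hτe : P.eich z 0 (s / P.B v z) • e = e :=
    (sp_eOk (by simp) _).eich_smul_of_perp₂ (B_swap_zero hze) (by simp)
  have hτv : P.eich z 0 (s / P.B v z) • v = v + s • z := by
    rw [(sp_eOk (by simp) _).eich_smul]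
    simp [div_mul_cancel₀ _ (B_swap_ne hb')]
  have hok : P.EOk e (v + s • z) 0 := sp_eOk (by simp [hze, D.ve]) _
  refine ⟨_, _, D.cyc_step hP (c := 0) trivial (Or.inl hv), g, hg,
    P.eich e (s • v) 0 * P.eich z 0 (s / P.B v z), mul_mem (eich_mem_EG _ _ _) hτ.1,
    fun H h1 h3 h4 => ?_⟩
  rw [hg'] at h3
  obtain ⟨h5, h6⟩ := D.conj_U (D.ok0 trivial s) hok
  rw [mul_inv_rev, mul_assoc, mul_assoc, ← mul_assoc _ (P.eich z 0 _)⁻¹, ← mul_assoc (P.eich z 0 _),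
    ← mul_assoc (P.eich z 0 _), RD.conj_eq hτ (D.ok1 trivial), hτe, hτv, ← mul_assoc, h5] at h4
  obtain ⟨h7, h8⟩ := RD.div_mem (D.ok1 trivial) h6 h1 h4
  have hy : In e H (s • (u • v - v) + s • z) (s * P.B v z) := In.congr ⟨h7.perp, h8⟩ (by
      rw [act_smul]
      generalize u • v = y
      match_scalars <;> grind) (by
      simp [sp_B_self, act_smul, hb, B_swap_zero hb, huz, sp_swap v z]
      grind)
  have hp := Submodule.smul_mem _ s (sub_mem (D.act_mem D.vp) D.vp)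
  have hA1 : s • (u • v - v) ∈ P.vecs H D.hyp.left := by
    have h9 : s • (u • v - v) + s • z ∈ P.vecs H D.hyp.left := ⟨_, sp_eOk hy.1 _, hy.2⟩
    have := D.nil_vecs_u (D.ok1 trivial) h1 (m + 1) (add_mem hp (Submodule.smul_mem _ _ hzp)) h9
    rw [map_add, map_smul, map_smul, ← nil_apply, ← Module.End.mul_apply, ← pow_succ, hz,
      pow_succ, Module.End.mul_apply, nil_apply, hm, sub_self, map_zero, smul_zero, add_zero] at this
    simpa using sub_mem h9 this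
  obtain ⟨L, hL, hLe, a, ha⟩ := hs H h1 h3 hA1
  have hA := D.coreII trivial (addGen_of_generator hω) hω0 hs0 h1 hA1 hL hLe ha
  have hx0 := sub_mem D.vp (D.inv_act_mem D.vp)
  have i1 : ∀ σ : F, In e H (σ • v) 0 := fun σ =>
    (in_step (hA _ (Submodule.smul_mem _ (σ / ω) hx0)) hL hLe (y := σ • v) (a := σ / ω * a) (by
      rw [act_smul, ha]; generalize u⁻¹ • v = y; match_scalars <;> field_simp)).congr rfl (by
      simp [sp_B_self, B_act_left u⁻¹, B_swap_zero hb])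
  have i2 : ∀ x ∈ P.perp {e, f}, In e H (nil u x) (P.B x (u • x)) := fun x hx =>
    (in_step (hA x hx) h1 (D.smul_e (D.ok1 trivial)) (by
      rw [D.smul_eq (D.ok1 trivial) hx, nil_apply, add_sub_cancel])).congr rfl (by
      simp [nil_apply, sp_B_self])
  have i3 : In e H (s • (u • v - v)) 0 := (i2 _ (Submodule.smul_mem _ s D.vp)).congr
    (by rw [map_smul, nil_apply]) (by simp [act_smul, B_swap_zero hb])
  have i4 : In e H (s • z) 0 := by
    have h9 : nil u ((nil u ^ (m + 1)) v) = z := by rw [← Module.End.mul_apply, ← pow_succ', hz]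
    refine (i2 _ (Submodule.smul_mem _ s (D.nil_mem (m + 1) D.vp))).congr
      (by rw [map_smul, h9]) ?_
    rw [nil_apply, sub_eq_iff_eq_add] at h9
    rw [act_smul, h9, B_smul_left, B_smul_right, map_add, sp_B_self, pow_succ',
      Module.End.mul_apply, nil_apply, map_sub, LinearMap.sub_apply, huz]
    simp
  have i5 : In e H ((0 : F) • v) (s * P.B v z) := (hy.cancel (i3.add i4)).congr (by simp) (by
    simp [sp_swap (u • v) z, sp_swap v z, huz])
  have hc := mul_ne_zero hs0 (B_swap_ne hb')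
  refine D.finish hP trivial hv one_ne_zero h1 h3 (U_le_of_sq D hA (inv_ne_zero hc) fun σ => ?_)
  exact ((in_sq D one_ne_zero h1 h3 hA hzp hb' hc i5 σ).cancel (i1 σ)).congr rfl (by
    rw [one_pow, mul_one, add_zero, div_eq_mul_inv])

theorem sp_two_four [Finite F] [CharP F 2] (hF : ∃ x : F, x ≠ 0 ∧ x ≠ 1) (hP : P.ND)
    (D : RD P e f v u) (hv : v ≠ 0) (hb : P.B (u • v) v = -1)
    (hm : u • (u • v - v) = u • v - v) : Gen3 P := by
  have h2 : (2 : F) = 0 := CharTwo.two_eq_zero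
  obtain ⟨ω, hω0, hω⟩ := exists_generator F
  have hω1 : ω + 1 ≠ 0 := fun h => by
    obtain ⟨x, hx0, hx1⟩ := hF
    obtain ⟨k, rfl⟩ := hω x hx0
    exact hx1 (by rw [show ω = 1 by linear_combination h - h2, one_pow])
  obtain ⟨t, ht⟩ := exists_sq_two (ω / (ω + 1))
  have ht0 : t ≠ 0 := fun h => div_ne_zero hω0 hω1 (by rw [← ht, h]; simp)
  obtain ⟨g, hg, hg'⟩ := sp_swap_conj D ht0
  obtain ⟨k, hk, hk'⟩ := D.exists_torus (c := ω) (c' := 1) trivial hω0 trivial one_ne_zero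
  have hzp := sub_mem (D.act_mem D.vp) D.vp
  have hze := (mem_perp_pair.1 hzp).1
  have hτ := D.comm_of_fix (sp_sing _) hm (c := (ω + 1) / ω) trivial
  have hτe : P.eich (u • v - v) 0 ((ω + 1) / ω) • e = e :=
    (sp_eOk (by simp) _).eich_smul_of_perp₂ (B_swap_zero hze) (by simp)
  have hτv : P.eich (u • v - v) 0 ((ω + 1) / ω) • v = v + ((ω + 1) / ω) • (u • v - v) := by
    rw [(sp_eOk (by simp) _).eich_smul]
    simp [sp_B_self, sp_swap (u • v) v, hb]
  have hp := add_mem D.vp (Submodule.smul_mem _ ((ω + 1) / ω) hzp)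
  refine ⟨_, _, D.cyc_step hP (c := 0) trivial (Or.inl hv), g, hg,
    k * P.eich (u • v - v) 0 ((ω + 1) / ω), mul_mem hk hτ.1, fun H h1 h3 h4 => ?_⟩
  rw [hg'] at h3
  rw [mul_inv_rev, mul_assoc, mul_assoc, ← mul_assoc _ (P.eich _ 0 _)⁻¹, ← mul_assoc (P.eich _ 0 _),
    ← mul_assoc (P.eich _ 0 _), RD.conj_eq hτ (D.ok1 trivial), hτe, hτv, ← mul_assoc,
    hk' _ hp trivial] at h4
  obtain ⟨h7, h8⟩ := RD.div_mem (D.ok1 trivial)
    (sp_eOk (mem_perp_pair.1 (Submodule.smul_mem _ _ hp)).1 0) h1 h4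
  have hy : In e H ((ω + 1) • u • v) (ω + 1) := In.congr ⟨h7.perp, h8⟩ (by
      simp only [RingHom.id_apply]
      generalize u • v = y
      match_scalars <;> field_simp <;> grind) (by
      simp [sp_B_self, sp_swap (u • v) v, hb]
      field_simp
      grind)
  have hy' : In e H ((ω + 1) • v) (ω + 1) := by
    have h5 := H.mul_mem (H.mul_mem (H.inv_mem h1) hy.2) (H.inv_mem (H.inv_mem h1))
    rw [(sp_eOk hy.1 _).conj_eich, inv_smul_eq_iff.2 (D.smul_e (D.ok1 trivial)).symm,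
      D.inv_smul_eq (D.ok1 trivial) (Submodule.smul_mem _ _ (D.act_mem D.vp)), act_smul,
      inv_smul_smul, (sp_eOk (D.ok0 trivial _).perp _).eich_add_smul_e] at h5
    refine In.congr ⟨(D.ok0 trivial _).perp, h5⟩ rfl ?_
    simp [hb]
    grind
  obtain ⟨L, hL, hLe, h5⟩ := in_of_L D h1 h3 hy'
  obtain ⟨a, ha⟩ := h5 _ (D.act_mem D.vp)
  have e1 : (ω + 1) * t ^ 2 = ω := by rw [ht]; field_simp
  rw [e1, hb, mul_neg_one, CharTwo.neg_eq] at ha
  have hA := D.perp_le_vecs (D.ok1 trivial) h1 (coreL D.hyp.left hL hLe ha (fun σ hσ => by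
    rw [← act_smul]
    exact D.act_vecs_u (D.ok1 trivial) h1 (Submodule.smul_mem _ _ D.vp) hσ)
    (addGen_of_generator hω) hω0 hω1 ⟨_, sp_eOk hy.1 _, hy.2⟩)
  have hb' : P.B (u • v) v ≠ 0 := by rw [hb]; simp
  have i1 := in_sq D ht0 h1 h3 hA (D.act_mem D.vp) hb' hω1 hy'
  have i2 : In e H ((0 : F) • v) ((ω + 1) / ω) := ((i1 _).cancel hy').congr (by simp) (by
    rw [e1]; field_simp; linear_combination ω * h2)
  have hd := div_ne_zero hω1 hω0
  refine D.finish hP trivial hv ht0 h1 h3 (U_le_of_sq D hA hd fun σ => ?_)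
  refine ((i1 σ).cancel (in_sq D ht0 h1 h3 hA (D.act_mem D.vp) hb' hd i2 σ)).congr rfl ?_
  rw [e1, ht]; field_simp; ring

theorem sp_gen3 [Finite F] (hP : P.ND) (h4 : 4 ≤ finrank F V)
    (hF : finrank F V = 4 → ∃ x : F, x ≠ 0 ∧ x ≠ 1) : Gen3 P := by
  obtain ⟨e, f, v, u, D, hv, h⟩ := sp_top hP h4
  by_cases h2 : (2 : F) = 0
  · have : CharP F 2 := CharTwo.of_one_ne_zero_of_two_eq_zero one_ne_zero h2
    rcases h with h | ⟨h, h1, h3⟩
    · exact sp_two_big hP D hv h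
    · exact sp_two_four (hF h) hP D hv h1 h3
  · exact sp_odd h2 hP D hv

end Cfsg.Agent.Forms.RegCl
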