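import Cfsg.Agent.Forms.MinDegSp

/-!
The embedding of a power of `SL₂` in the symplectic group, and a lower bound for the degree of a
representation of a product of groups of dihedral type.
-/

set_option autoImplicit false

namespace Cfsg.Agent.Forms

open Module Finset Matrix

/-- The embedding of a power of `SL₂` in the symplectic group. -/
def slPow (ι : Type*) [Fintype ι] [DecidableEq ι] (F : Type*) [CommRing F] :
    (ι → SpecialLinearGroup (Fin 2) F) →* symplecticGroup ι F where
  toFun g := ⟨fromBlocks (diagonal fun i => g i 0 0) (diagonal fun i => g i 0 1)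
      (diagonal fun i => g i 1 0) (diagonal fun i => g i 1 1), by
    rw [SymplecticGroup.fromBlocks_mem_iff]
    refine ⟨by simp [mul_comm], by simp [mul_comm], ?_⟩
    simp only [diagonal_transpose, diagonal_mul_diagonal, diagonal_sub, ← diagonal_one]
    congr 1
    funext i
    have := (g i).det_coe
    rw [det_fin_two] at this
    linear_combination this⟩
  map_one' := Subtype.ext (by simp [← fromBlocks_one])
  map_mul' g h := Subtype.ext (by
    simp [fromBlocks_multiply, diagonal_add, Matrix.mul_apply, Fin.sum_univ_two])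

theorem slPow_injective {ι : Type*} [Fintype ι] [DecidableEq ι] {F : Type*} [CommRing F] :
    Function.Injective (slPow ι F) := by
  intro g h hgh
  obtain ⟨h1, h2, h3, h4⟩ := fromBlocks_inj.1 (congrArg Subtype.val hgh)
  funext i
  ext a b
  fin_cases a <;> fin_cases b
  exacts [congrFun (diagonal_injective h1) i, congrFun (diagonal_injective h2) i,
    congrFun (diagonal_injective h3) i, congrFun (diagonal_injective h4) i]

theorem two_mul_le_card_of_flip {K : Type*} [Group K] [DecidableEq K] {n : ℕ}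
    (S : Finset (Fin n → K)) (h1 : ∀ l ∈ S, ∀ i, Function.update l i (l i)⁻¹ ∈ S)
    (h2 : ∀ i, ∃ l ∈ S, l i ≠ (l i)⁻¹) : 2 * n ≤ #S := by
  obtain ⟨o, -⟩ := exists_wellFoundedLT K
  have h3 : ∀ l ∈ S, ∀ A : Finset (Fin n), (fun i => if i ∈ A then (l i)⁻¹ else l i) ∈ S := by
    intro l hl A
    induction A using Finset.induction_on with
    | empty => simpa using hl
    | insert a A ha ih =>
      convert h1 _ ih a using 1
      funext i
      by_cases h : i = a
      · simp [h, ha]
      · simp [h]
  have h4 : ∀ l ∈ S, (fun i => min (l i) (l i)⁻¹) ∈ S := fun l hl => by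
    convert h3 l hl {i | (l i)⁻¹ < l i} using 2 with i
    simp only [mem_filter, mem_univ, true_and, min_def, ← not_le, ite_not]
  choose μ hμ hμ' using h2
  have h5 : ∀ x : K, min (min x x⁻¹) (min x x⁻¹)⁻¹ = min x x⁻¹ := fun x => by
    rcases min_choice x x⁻¹ with h | h
    · rw [h, h]
    · rw [h, inv_inv, min_comm, h]
  have h6 : ∀ i, min (μ i i) (μ i i)⁻¹ ≠ (min (μ i i) (μ i i)⁻¹)⁻¹ := fun i => by
    rcases min_choice (μ i i) (μ i i)⁻¹ with h | h
    · rw [h]; exact hμ' i
    · rw [h, inv_inv]; exact (hμ' i).symm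
  rw [show 2 * n = #(univ : Finset (Bool × Fin n)) by simp]
  refine card_le_card_of_injOn (fun x j => if j ∈ ({j | decide (j ≤ x.2) = x.1} : Finset _) then
    (min (μ x.2 j) (μ x.2 j)⁻¹)⁻¹ else min (μ x.2 j) (μ x.2 j)⁻¹) (fun x _ => h3 _ (h4 _ (hμ _)) _) ?_
  rintro ⟨b, i⟩ - ⟨b', i'⟩ - h
  have h7 : ∀ j, min (μ i j) (μ i j)⁻¹ = min (μ i' j) (μ i' j)⁻¹ := fun j => by
    have := congrArg (fun x => min x x⁻¹) (congrFun h j)
    simp only at this
    split_ifs at this <;> simpa only [inv_inv, min_comm (_⁻¹) (min _ _), h5] using this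
  have h8 := congrFun h i
  have h9 := congrFun h i'
  simp only [← h7 i, h7 i', mem_filter, mem_univ, true_and, le_refl, decide_true] at h8 h9
  have := h6 i
  have := (h6 i).symm
  have := h6 i'
  have := (h6 i').symm
  cases b <;> cases b' <;> simp_all <;> omega

theorem two_mul_le_finrank {K M : Type*} [Field K] [IsAlgClosed K] [AddCommGroup M] [Module K M]
    [FiniteDimensional K M] {G : Type*} [Group G] {n : ℕ} (ρ : (Fin n → G) →* End K M)
    (hρ : ∀ g, ρ g = 1 → g = 1) {a b : G} (hab : b * a * b⁻¹ = a⁻¹) (ha : a * a ≠ 1) {m : ℕ}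
    (hm : (m : K) ≠ 0) (ham : a ^ m = 1) : 2 * n ≤ finrank K M := by
  classical
  let f : Fin n → End K M := fun i => ρ (Pi.mulSingle i a)
  have hc : ∀ i j (x y : G), i ≠ j → ρ (Pi.mulSingle i x) * ρ (Pi.mulSingle j y) =
      ρ (Pi.mulSingle j y) * ρ (Pi.mulSingle i x) := fun i j x y h => by
    rw [← map_mul, ← map_mul, (Pi.mulSingle_commute (f := fun _ => G) h x y).eq]
  have hc' : ∀ i j x, f i (f j x) = f j (f i x) := fun i j x => by
    by_cases h : i = j
    · rw [h]
    · exact LinearMap.congr_fun (hc i j a a h) x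
  have hmul : ∀ i (x y : G) v, ρ (Pi.mulSingle i x) (ρ (Pi.mulSingle i y) v) =
      ρ (Pi.mulSingle i (x * y)) v := fun i x y v => by
    rw [← End.mul_apply, ← map_mul, Pi.mulSingle_mul]
  let E : Set (Fin n → Kˣ) := {l | ∃ v, v ≠ 0 ∧ v ∈ wsp f fun i => l i}
  have hE : ∀ S : Finset (Fin n → Kˣ), ↑S ⊆ E → #S ≤ finrank K M := fun S hS => by
    have := card_le_of_wsp f hc' ⊤ (S.image fun l i => l i) (by
      simp only [mem_image]
      rintro _ ⟨l, hl, rfl⟩
      obtain ⟨v, hv⟩ := hS hl
      exact ⟨v, trivial, hv⟩)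
    rwa [finrank_top, card_image_of_injective _ fun l l' h =>
      funext fun i => Units.ext (congrFun h i)] at this
  have hfin : E.Finite := by
    by_contra h
    obtain ⟨S, hS, hS'⟩ := Set.Infinite.exists_subset_card_eq h (finrank K M + 1)
    have := hE S hS
    omega
  refine (two_mul_le_card_of_flip hfin.toFinset (fun l hl i => ?_) fun i => ?_).trans
    (hE _ (by simp))
  · obtain ⟨v, hv0, hv⟩ := hfin.mem_toFinset.1 hl
    refine hfin.mem_toFinset.2 ⟨ρ (Pi.mulSingle i b⁻¹) v, fun h => hv0 (by
      simpa [hmul] using congrArg (ρ (Pi.mulSingle i b)) h), mem_wsp.2 fun j => ?_⟩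
    by_cases h : j = i
    · subst h
      have h1 := congrArg (ρ (Pi.mulSingle j (b⁻¹ * a⁻¹))) (mem_wsp.1 hv j)
      simp only [f, hmul, inv_mul_cancel_right, map_smul] at h1
      simp only [f, hmul, Function.update_self, Units.val_inv_eq_inv_val]
      rw [h1, inv_smul_smul₀ (l j).ne_zero, ← hab]
      simp [mul_assoc]
    · rw [Function.update_of_ne h, ← End.mul_apply, hc j i _ _ h, End.mul_apply, ← map_smul]
      exact congrArg _ (mem_wsp.1 hv j)
  · obtain ⟨χ, v, hv0, hv, hχ⟩ := exists_weight_ne_one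
      (fun x : Option (Fin n) => x.elim (f i * f i) f) (by
        rintro (_ | j) (_ | k) x
        · rfl
        · exact (congrArg (f i) (hc' i k x)).trans (hc' i k _)
        · exact ((congrArg (f i) (hc' i j x)).trans (hc' i j _)).symm
        · exact hc' j k x) (i₀ := none) hm
      (by
        change (f i * f i) ^ m = 1
        simp only [f]
        rw [← map_mul, ← map_pow, ← Pi.mulSingle_mul, ← Pi.mulSingle_pow, ← pow_two, ← pow_mul,
          mul_comm, pow_mul, ham]
        simp)
      (fun h => ha (by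
        change f i * f i = 1 at h
        simp only [f] at h
        rw [← map_mul, ← Pi.mulSingle_mul] at h
        simpa using congrFun (hρ _ h) i))
    have h1 : ∀ j, χ (some j) ≠ 0 := fun j h => hv0 (by
      simpa [h, f, hmul] using congrArg (ρ (Pi.mulSingle j a⁻¹)) (mem_wsp.1 hv (some j)))
    refine ⟨fun j => Units.mk0 _ (h1 j), hfin.mem_toFinset.2 ⟨v, hv0,
      mem_wsp.2 fun j => mem_wsp.1 hv (some j)⟩, fun h => hχ (smul_left_injective K hv0 ?_)⟩
    have h2 : f i v = χ (some i) • v := mem_wsp.1 hv (some i)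
    have h3 : f i (f i v) = χ none • v := mem_wsp.1 hv none
    have h4 : χ (some i) * χ (some i) = 1 := congrArg Units.val (mul_eq_one_iff_eq_inv.2 h)
    simp only
    rw [← h3, h2, map_smul, h2, smul_smul, h4]

end Cfsg.Agent.Forms
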