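import Cfsg.Agent.Forms.NormCount
import Cfsg.Agent.Forms.TwoRank

/-!
Involutions of `SU₃(q)`, `q` odd, as negatives of reflections in non-isotropic vectors.
-/

set_option autoImplicit false

namespace Cfsg.Agent.Forms

open Module Finset

variable {F : Type*} [Field F] [Fintype F] {q : ℕ} (hF : Fintype.card F = q ^ 2)

/-- The standard Hermitian form in dimension three. -/
abbrev hm : (Fin 3 → F) →ₗ[F] (Fin 3 → F) →ₛₗ[frobq hF] F := hermB (frobq hF) (Fin 3)

theorem hm_apply (x y : Fin 3 → F) :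
    hm hF x y = x 0 * frobq hF (y 0) + x 1 * frobq hF (y 1) + x 2 * frobq hF (y 2) := by
  rw [hermB_apply, Fin.sum_univ_three]

theorem hm_self (x : Fin 3 → F) : hm hF x x = nrm hF (x 0) + nrm hF (x 1) + nrm hF (x 2) :=
  hm_apply hF x x

theorem hm_symm (x y : Fin 3 → F) : hm hF y x = frobq hF (hm hF x y) :=
  hermB_symm (frobq_frobq hF) x y

theorem hm_eq_zero_comm {x y : Fin 3 → F} : hm hF x y = 0 ↔ hm hF y x = 0 := by
  rw [hm_symm, map_eq_zero]

theorem exists_su3inv {v : Fin 3 → F} (hv : hm hF v v ≠ 0) :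
    ∃ g : SU 3 F q, ∀ x, sulin g x = (2 * hm hF x v / hm hF v v) • v - x := by
  obtain ⟨g, hg⟩ := exists_sulin_eq hF
    (f := (-1 : F) • LinearMap.transvection ((-2 / hm hF v v) • (hm hF).flip v) v) (by
      rw [LinearMap.det_smul, LinearMap.transvection.det]
      simp only [finrank_fin_fun, LinearMap.smul_apply, LinearMap.flip_apply, smul_eq_mul]
      rw [div_mul_cancel₀ _ hv]
      norm_num) (by
      intro x y
      have := qrefl_isometry (B := hm hF) (ε := 1) (d := v) (c := -2 / hm hF v v)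
        (fun x y => by rw [one_mul, hm_symm]) (by
          rw [map_div₀, ← hm_symm, map_neg, map_ofNat]
          field_simp
          ring) x y
      rw [← this]
      simp [qrefl_apply, LinearMap.transvection.apply, hm]
      ring)
  refine ⟨g, fun x => ?_⟩
  rw [hg]
  simp only [LinearMap.smul_apply, LinearMap.transvection.apply, LinearMap.flip_apply, smul_eq_mul]
  rw [show 2 * hm hF x v / hm hF v v = -(-2 / hm hF v v * hm hF x v) by ring]
  module

open Classical in
/-- The element of `SU₃` that fixes `v` and negates `v^⊥`. -/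
noncomputable def su3inv (v : Fin 3 → F) : SU 3 F q :=
  if hv : hm hF v v ≠ 0 then (exists_su3inv hF hv).choose else 1

variable {hF}

theorem su3inv_apply {v : Fin 3 → F} (hv : hm hF v v ≠ 0) (x : Fin 3 → F) :
    sulin (su3inv hF v) x = (2 * hm hF x v / hm hF v v) • v - x := by
  rw [su3inv, dif_pos hv]
  exact (exists_su3inv hF hv).choose_spec x

theorem su3inv_self {v : Fin 3 → F} (hv : hm hF v v ≠ 0) : sulin (su3inv hF v) v = v := by
  rw [su3inv_apply hv, mul_div_cancel_right₀ _ hv, two_smul, add_sub_cancel_right]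

theorem su3inv_perp {v x : Fin 3 → F} (hv : hm hF v v ≠ 0) (hx : hm hF x v = 0) :
    sulin (su3inv hF v) x = -x := by
  rw [su3inv_apply hv, hx, mul_zero, zero_div, zero_smul, zero_sub]

theorem su3inv_mul_self {v : Fin 3 → F} (hv : hm hF v v ≠ 0) : su3inv hF v * su3inv hF v = 1 := by
  refine sulin_ext fun x => ?_
  rw [sulin_mul_apply, su3inv_apply hv x, map_sub, map_smul, su3inv_self hv, su3inv_apply hv x,
    sulin_one, LinearMap.id_apply, sub_sub_cancel]

theorem ne_zero_of_hm {v : Fin 3 → F} (hv : hm hF v v ≠ 0) : v ≠ 0 := by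
  rintro rfl
  exact hv (map_zero _)

theorem su3inv_ne_one (h2 : (2 : F) ≠ 0) {v : Fin 3 → F} (hv : hm hF v v ≠ 0) :
    su3inv hF v ≠ 1 := by
  intro h
  have h1 : ∀ x, hm hF x v = 0 → x = 0 := by
    intro x hx
    have := su3inv_perp hv hx
    rw [h, sulin_one, LinearMap.id_apply] at this
    by_contra h0
    exact ne_neg_self h2 h0 this
  have h3 := h1 ![frobq hF (v 1), -frobq hF (v 0), 0] (by rw [hm_apply]; simp [mul_comm])
  have h4 := h1 ![0, 0, 1] (by
    have h4 := h1 ![frobq hF (v 2), 0, -frobq hF (v 0)] (by rw [hm_apply]; simp [mul_comm])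
    have := congrFun h4 0
    rw [hm_apply]
    simpa using this)
  simpa using congrFun h4 2

theorem hm_smul_smul (c : F) (v : Fin 3 → F) : hm hF (c • v) (c • v) = nrm hF c * hm hF v v := by
  simp only [map_smul, map_smulₛₗ, LinearMap.smul_apply, smul_eq_mul, nrm, RingHom.id_apply]
  ring

theorem hm_smul_ne {c : F} (hc : c ≠ 0) {v : Fin 3 → F} (hv : hm hF v v ≠ 0) :
    hm hF (c • v) (c • v) ≠ 0 := by
  rw [hm_smul_smul]
  exact mul_ne_zero ((nrm_eq_zero hF).not.2 hc) hv

theorem su3inv_smul {c : F} (hc : c ≠ 0) {v : Fin 3 → F} (hv : hm hF v v ≠ 0) :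
    su3inv hF (c • v) = su3inv hF v := by
  refine sulin_ext fun x => ?_
  rw [su3inv_apply hv, su3inv_apply (hm_smul_ne hc hv), smul_smul, hm_smul_smul, map_smulₛₗ, nrm]
  congr 2
  have : frobq hF c ≠ 0 := (map_ne_zero _).2 hc
  rw [smul_eq_mul]
  field_simp

theorem su3inv_eq_iff (h2 : (2 : F) ≠ 0) {v w : Fin 3 → F} (hv : hm hF v v ≠ 0)
    (hw : hm hF w w ≠ 0) : su3inv hF w = su3inv hF v ↔ ∃ c : F, w = c • v := by
  constructor
  · intro h
    have := su3inv_self hw
    rw [h, su3inv_apply hv, sub_eq_iff_eq_add, ← two_smul F] at this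
    exact ⟨_, by rw [← inv_smul_smul₀ h2 w, ← this, smul_smul]⟩
  · rintro ⟨c, rfl⟩
    exact su3inv_smul (by rintro rfl; exact ne_zero_of_hm hw (zero_smul _ _)) hv

theorem conj_su3inv (g : SU 3 F q) {v : Fin 3 → F} (hv : hm hF v v ≠ 0) :
    g * su3inv hF v * g⁻¹ = su3inv hF (sulin g v) := by
  refine sulin_ext fun x => ?_
  obtain ⟨x, rfl⟩ := sulin_surj g x
  rw [sulin_mul_apply, sulin_mul_apply, sulin_inv_apply, su3inv_apply hv,
    su3inv_apply (by rwa [sulin_form]), sulin_form, sulin_form, map_sub, map_smul]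

theorem commute_su3inv_iff' (h2 : (2 : F) ≠ 0) (g : SU 3 F q) {v : Fin 3 → F}
    (hv : hm hF v v ≠ 0) : Commute g (su3inv hF v) ↔ ∃ c : F, sulin g v = c • v := by
  rw [← su3inv_eq_iff h2 hv (by rwa [sulin_form]), ← conj_su3inv g hv, mul_inv_eq_iff_eq_mul]
  rfl

theorem commute_su3inv_iff (h2 : (2 : F) ≠ 0) {v w : Fin 3 → F} (hv : hm hF v v ≠ 0)
    (hw : hm hF w w ≠ 0) :
    Commute (su3inv hF v) (su3inv hF w) ↔ su3inv hF w = su3inv hF v ∨ hm hF w v = 0 := by
  constructor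
  · intro h
    obtain ⟨c, hc⟩ := (commute_su3inv_iff' h2 _ hw).1 h
    rw [or_iff_not_imp_right]
    intro h0
    rw [su3inv_apply hv, sub_eq_iff_eq_add] at hc
    rw [eq_comm, su3inv_eq_iff h2 hw hv]
    refine ⟨(2 * hm hF w v / hm hF v v)⁻¹ * (c + 1), ?_⟩
    rw [mul_smul, add_smul, one_smul, ← hc, inv_smul_smul₀ (div_ne_zero (mul_ne_zero h2 h0) hv)]
  · rintro (h | h)
    · rw [h]
    · exact (commute_su3inv_iff' h2 _ hw).2 ⟨-1, by rw [su3inv_perp hv h, neg_one_smul]⟩

theorem exists_eq_su3inv (h2 : (2 : F) ≠ 0) {t : SU 3 F q} (ht : t ≠ 1) (ht2 : t * t = 1) :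
    ∃ v, hm hF v v ≠ 0 ∧ t = su3inv hF v := by
  obtain ⟨b, hb⟩ := exists_signBasis h2 (fun _ : Unit => sulin t) (fun _ _ _ => rfl)
    (fun _ x => by rw [← sulin_mul_apply, ht2, sulin_one, LinearMap.id_apply])
  obtain ⟨b, hb⟩ : ∃ b : Basis (Fin 3) F (Fin 3 → F), ∀ i, sulin t (b i) = b i ∨
      sulin t (b i) = -b i :=
    ⟨b.reindex (finCongr (by simp)), fun i => by rw [Basis.reindex_apply]; exact hb _ ()⟩
  have good : ∀ i, sulin t (b i) = b i → (∀ j ≠ i, sulin t (b j) = -b j) →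
      ∃ v, hm hF v v ≠ 0 ∧ t = su3inv hF v := by
    intro i h1 h3
    have h4 : ∀ j ≠ i, hm hF (b j) (b i) = 0 := by
      intro j hj
      have := sulin_form hF t (b j) (b i)
      rw [h1, h3 j hj, map_neg, LinearMap.neg_apply, neg_eq_iff_add_eq_zero, ← two_mul] at this
      exact (mul_eq_zero.1 this).resolve_left h2
    have h5 : hm hF (b i) (b i) ≠ 0 := by
      intro h
      refine b.ne_zero i ((hermB_rep (frobq_frobq hF)).sepLeft fun y => ?_)
      rw [hm_eq_zero_comm]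
      have : (hm hF).flip (b i) = 0 := b.ext fun j => by
        by_cases hj : j = i
        · rw [hj]; exact h
        · exact h4 j hj
      exact LinearMap.congr_fun this y
    refine ⟨b i, h5, sulin_injective (b.ext fun j => ?_)⟩
    by_cases hj : j = i
    · rw [hj, h1, su3inv_self h5]
    · rw [h3 j hj, su3inv_perp h5 (h4 j hj)]
  have bad : ∀ i, sulin t (b i) = -b i → (∀ j ≠ i, sulin t (b j) = b j) → False := by
    intro i h1 h3
    have := det_eq_neg_one_of_basis b h1 h3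
    rw [det_sulin] at this
    exact h2 (by linear_combination this)
  rcases hb 0 with h0 | h0 <;> rcases hb 1 with h1 | h1 <;> rcases hb 2 with h3 | h3
  · refine absurd (sulin_injective ((b.ext fun j => ?_).trans sulin_one.symm)) ht
    fin_cases j <;> assumption
  · exact (bad 2 h3 fun j hj => by fin_cases j <;> first | assumption | exact absurd rfl hj).elim
  · exact (bad 1 h1 fun j hj => by fin_cases j <;> first | assumption | exact absurd rfl hj).elim
  · exact good 0 h0 fun j hj => by fin_cases j <;> first | assumption | exact absurd rfl hj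
  · exact (bad 0 h0 fun j hj => by fin_cases j <;> first | assumption | exact absurd rfl hj).elim
  · exact good 1 h1 fun j hj => by fin_cases j <;> first | assumption | exact absurd rfl hj
  · exact good 2 h3 fun j hj => by fin_cases j <;> first | assumption | exact absurd rfl hj
  · exfalso
    have h4 : sulin t = (-1 : F) • LinearMap.id := b.ext fun j => by
      rw [LinearMap.smul_apply, neg_one_smul]
      fin_cases j <;> assumption
    have := det_sulin t
    rw [h4, LinearMap.det_smul, LinearMap.det_id, finrank_fin_fun] at this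
    exact h2 (by linear_combination -this)

/-- The first basis vector. -/
abbrev e0 (F : Type*) [Field F] : Fin 3 → F := ![1, 0, 0]

theorem hm_e0 (x : Fin 3 → F) : hm hF x (e0 F) = x 0 := by
  rw [hm_apply]; simp

theorem hm_e0_ne : hm hF (e0 F) (e0 F) ≠ 0 := by
  rw [hm_e0]; simp

theorem exists_conj_e0 {v : Fin 3 → F} (hv : hm hF v v ≠ 0) :
    ∃ g : SU 3 F q, g * su3inv hF (e0 F) * g⁻¹ = su3inv hF v := by
  have hσ := frobq_frobq hF
  obtain ⟨c, hc⟩ := exists_norm_eq hF (hm hF v v)⁻¹ (by rw [map_inv₀, ← hm_symm])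
  have hc0 : c ≠ 0 := by rintro rfl; exact inv_ne_zero hv (by rw [← hc, zero_mul])
  obtain ⟨f, hf, hf'⟩ := witt_herm_family (hermB_rep hσ) hσ (exists_frobq_ne hF) (hermB_symm hσ)
    (r := 1) (fun _ => e0 F) (fun _ => c • v)
    (linearIndependent_unique_iff.2 (ne_zero_of_hm (hF := hF) hm_e0_ne))
    (linearIndependent_unique_iff.2 (ne_zero_of_hm (hm_smul_ne hc0 hv)))
    (fun _ _ => by rw [hm_smul_smul, hm_e0, nrm, hc, inv_mul_cancel₀ hv]; rfl)
  have hd := det_mul_conj_det hf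
  have hd0 : LinearMap.det f ≠ 0 := left_ne_zero_of_mul_eq_one hd
  obtain ⟨g, hg⟩ := exists_sulin_eq hF
    (f := f ∘ₗ Matrix.toLin' (Matrix.diagonal ![(LinearMap.det f)⁻¹, 1, 1]))
    (by rw [LinearMap.det_comp, LinearMap.det_toLin', Matrix.det_diagonal, Fin.prod_univ_three]
        simp [hd0])
    (fun x y => by
      rw [LinearMap.comp_apply, LinearMap.comp_apply, hf, hm_apply, hm_apply]
      simp only [Matrix.toLin'_apply, Matrix.mulVec_diagonal, Matrix.cons_val, one_mul, map_mul,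
        map_inv₀]
      have : frobq hF (LinearMap.det f) ≠ 0 := right_ne_zero_of_mul_eq_one hd
      field_simp
      linear_combination (-(x 0 * frobq hF (y 0))) * hd)
  refine ⟨g, ?_⟩
  have h1 : sulin g (e0 F) = ((LinearMap.det f)⁻¹ * c) • v := by
    rw [hg, LinearMap.comp_apply, mul_smul, ← hf' 0, ← map_smul]
    congr 1
    ext i
    fin_cases i <;> simp [Matrix.mulVec_diagonal]
  rw [conj_su3inv g hm_e0_ne, h1, su3inv_smul (mul_ne_zero (inv_ne_zero hd0) hc0) hv]

theorem su3inv_eq_e0_iff (h2 : (2 : F) ≠ 0) {w : Fin 3 → F} (hw : hm hF w w ≠ 0) :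
    su3inv hF w = su3inv hF (e0 F) ↔ w 1 = 0 ∧ w 2 = 0 := by
  rw [su3inv_eq_iff h2 hm_e0_ne hw]
  constructor
  · rintro ⟨c, rfl⟩
    simp
  · rintro ⟨h1, h3⟩
    refine ⟨w 0, ?_⟩
    ext i
    fin_cases i <;> simp [h1, h3]

theorem commute_e0_iff (h2 : (2 : F) ≠ 0) {w : Fin 3 → F} (hw : hm hF w w ≠ 0) :
    Commute (su3inv hF (e0 F)) (su3inv hF w) ↔ (w 1 = 0 ∧ w 2 = 0) ∨ w 0 = 0 := by
  rw [commute_su3inv_iff h2 hm_e0_ne hw, su3inv_eq_e0_iff h2 hw, hm_e0]

/-- A vector orthogonal to `e0` and to `w`. -/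
def perpV (hF : Fintype.card F = q ^ 2) (w : Fin 3 → F) : Fin 3 → F :=
  ![0, frobq hF (w 2), -frobq hF (w 1)]

theorem hm_perpV (w : Fin 3 → F) : hm hF (perpV hF w) w = 0 := by
  rw [hm_apply]; simp [perpV, mul_comm]

theorem hm_perpV_self (w : Fin 3 → F) :
    hm hF (perpV hF w) (perpV hF w) = nrm hF (w 1) + nrm hF (w 2) := by
  rw [hm_apply]; simp [perpV, frobq_frobq, nrm]; ring

theorem eq_smul_perpV {w u : Fin 3 → F} (hw : ¬ (w 1 = 0 ∧ w 2 = 0)) (h0 : u 0 = 0)
    (h : hm hF u w = 0) : ∃ c : F, u = c • perpV hF w := by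
  rw [hm_apply, h0, zero_mul, zero_add] at h
  by_cases h1 : w 1 = 0
  · have h3 : frobq hF (w 2) ≠ 0 := (map_ne_zero _).2 fun h' => hw ⟨h1, h'⟩
    rw [h1, map_zero, mul_zero, zero_add, mul_eq_zero, or_iff_left h3] at h
    refine ⟨u 1 / frobq hF (w 2), ?_⟩
    ext i
    fin_cases i <;> simp [perpV, h0, h1, h, h3]
  · have h3 : frobq hF (w 1) ≠ 0 := (map_ne_zero _).2 h1
    refine ⟨-u 2 / frobq hF (w 1), ?_⟩
    ext i
    fin_cases i
    · simp [perpV, h0]
    · simp only [perpV, Fin.mk_one, Pi.smul_apply, Matrix.cons_val, smul_eq_mul]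
      field_simp
      linear_combination h
    · simp only [perpV, Fin.reduceFinMk, Pi.smul_apply, Matrix.cons_val, smul_eq_mul]
      field_simp

theorem exists_common_iff (h2 : (2 : F) ≠ 0) {w : Fin 3 → F} (hw : hm hF w w ≠ 0)
    (hc : ¬ Commute (su3inv hF (e0 F)) (su3inv hF w)) :
    (∃ y : SU 3 F q, y ≠ 1 ∧ y * y = 1 ∧ Commute (su3inv hF (e0 F)) y ∧ Commute y (su3inv hF w)) ↔
      nrm hF (w 1) + nrm hF (w 2) ≠ 0 := by
  constructor
  · rintro ⟨y, hy, hy2, h3, h4⟩
    obtain ⟨u, hu, rfl⟩ := exists_eq_su3inv (hF := hF) h2 hy hy2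
    rcases (commute_su3inv_iff h2 hm_e0_ne hu).1 h3 with h5 | h5
    · exact absurd (h5 ▸ h4) hc
    rcases (commute_su3inv_iff h2 hw hu).1 h4.symm with h6 | h6
    · exact absurd (h6 ▸ h3) hc
    rw [commute_e0_iff h2 hw, not_or] at hc
    obtain ⟨c, rfl⟩ := eq_smul_perpV hc.1 (hm_e0 u ▸ h5) h6
    rw [hm_smul_smul, hm_perpV_self] at hu
    exact right_ne_zero_of_mul hu
  · intro h
    rw [← hm_perpV_self] at h
    exact ⟨_, su3inv_ne_one h2 h, su3inv_mul_self h, (commute_e0_iff h2 h).2 (Or.inr rfl),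
      ((commute_su3inv_iff h2 hw h).2 (Or.inr (hm_perpV w))).symm⟩

theorem card_invol [DecidableEq F] (h2 : (2 : F) ≠ 0) (P : SU 3 F q → Prop)
    (R : F × F → F → Prop) [∀ p, DecidablePred (R p)]
    (h : ∀ w : Fin 3 → F, (hm hF w w ≠ 0 ∧ P (su3inv hF w)) ↔ R (w 1, w 2) (w 0)) :
    Nat.card {x : SU 3 F q // x ≠ 1 ∧ x * x = 1 ∧ P x} * (q ^ 2 - 1) =
      ∑ p : F × F, #{a | R p a} := by
  classical
  have := Fintype.ofFinite (SU 3 F q)
  have h1 : #{w : Fin 3 → F | hm hF w w ≠ 0 ∧ P (su3inv hF w)} = ∑ p : F × F, #{a | R p a} := by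
    rw [← card_filter_prod (fun z : (F × F) × F => R z.1 z.2)]
    refine card_bij (fun w _ => ((w 1, w 2), w 0)) (fun w hw => ?_) (fun w _ w' _ e => ?_)
      fun z hz => ⟨![z.2, z.1.1, z.1.2], ?_, rfl⟩
    · simp only [mem_filter, mem_univ, true_and] at hw ⊢
      exact (h w).1 hw
    · simp only [Prod.mk.injEq] at e
      ext i
      fin_cases i
      exacts [e.2, e.1.1, e.1.2]
    · simp only [mem_filter, mem_univ, true_and] at hz ⊢
      exact (h _).2 hz
  rw [← h1, card_eq_sum_card_fiberwise (f := su3inv hF)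
    (t := {x : SU 3 F q | x ≠ 1 ∧ x * x = 1 ∧ P x}) (by
      intro w hw
      simp only [coe_filter, mem_univ, true_and, Set.mem_setOf_eq] at hw ⊢
      exact ⟨su3inv_ne_one h2 hw.1, su3inv_mul_self hw.1, hw.2⟩),
    Nat.card_eq_fintype_card, Fintype.card_subtype, ← smul_eq_mul, ← sum_const]
  refine sum_congr rfl fun x hx => ?_
  simp only [mem_filter, mem_univ, true_and] at hx
  obtain ⟨v, hv, rfl⟩ := exists_eq_su3inv (hF := hF) h2 hx.1 hx.2.1
  rw [← hF, ← card_univ, ← card_erase_of_mem (mem_univ (0 : F))]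
  refine card_bij (fun c _ => c • v) (fun c hc => ?_) (fun c _ c' _ e => ?_) fun w hw => ?_
  · have hc0 := ne_of_mem_erase hc
    simp only [mem_filter, mem_univ, true_and, su3inv_smul hc0 hv]
    exact ⟨⟨hm_smul_ne hc0 hv, hx.2.2⟩, trivial⟩
  · exact smul_left_injective F (ne_zero_of_hm hv) e
  · simp only [mem_filter, mem_univ, true_and] at hw
    obtain ⟨c, rfl⟩ := (su3inv_eq_iff h2 hv hw.1.1).1 hw.2
    refine ⟨c, mem_erase.2 ⟨?_, mem_univ _⟩, rfl⟩
    rintro rfl
    exact ne_zero_of_hm hw.1.1 (zero_smul _ _)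

theorem two_ne_zero_of_odd_q (hF : Fintype.card F = q ^ 2) (hq : Odd q) : (2 : F) ≠ 0 :=
  two_ne_zero_of_odd_card (hF ▸ hq.pow)

end Cfsg.Agent.Forms
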