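import Cfsg.Agent.Forms.USemi
import Cfsg.Agent.Forms.SympGroup

/-! Conjugacy in symplectic groups; semisimple classes. -/

set_option autoImplicit false

namespace Cfsg.Agent.Forms

open Polynomial Module Cfsg.Agent.GLn

variable {F : Type*} [Field F] {V : Type*} [AddCommGroup V] [Module F V]
  {B : LinearMap.BilinForm F V}

theorem alt_swap (ha : ∀ x, B x x = 0) (x y : V) : B y x = -B x y := by
  have := ha (x + y)
  simp only [map_add, LinearMap.add_apply, ha] at this
  linear_combination this

/-- A linear map matching two families with the same Gram matrix. -/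
theorem exists_map_family {I : Type*} (a a' : I → V) (hG : ∀ i j, B (a i) (a j) = B (a' i) (a' j))
    (hnd : ∀ x ∈ Submodule.span F (Set.range a'), (∀ i, B x (a' i) = 0) → x = 0) :
    ∃ φ : V →ₗ[F] V, (∀ i, φ (a i) = a' i) ∧ ∀ x ∈ Submodule.span F (Set.range a),
      ∀ y ∈ Submodule.span F (Set.range a), B (φ x) (φ y) = B x y := by
  have key : ∀ c i, B (Finsupp.linearCombination F a c) (a i) =
      B (Finsupp.linearCombination F a' c) (a' i) := fun c i => by
    simp [Finsupp.linearCombination_apply, Finsupp.sum, hG]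
  have hker : LinearMap.ker (Finsupp.linearCombination F a) ≤
      LinearMap.ker (Finsupp.linearCombination F a') := fun c hc =>
    hnd _ (by rw [← Finsupp.range_linearCombination]; exact ⟨c, rfl⟩) fun i => by
      rw [← key, LinearMap.mem_ker.1 hc]; simp
  obtain ⟨φ, hφ⟩ := LinearMap.exists_extend
    (((LinearMap.ker (Finsupp.linearCombination F a)).liftQ _ hker).comp
      (Finsupp.linearCombination F a).quotKerEquivRange.symm.toLinearMap)
  have h1 : ∀ i, φ (a i) = a' i := fun i => by
    have h2 := LinearMap.congr_fun hφ ⟨_, LinearMap.mem_range_self _ (Finsupp.single i 1)⟩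
    simp only [LinearMap.comp_apply, LinearEquiv.coe_coe,
      LinearMap.quotKerEquivRange_symm_apply_image] at h2
    simpa using h2
  refine ⟨φ, h1, fun x hx y hy => ?_⟩
  induction hx using Submodule.span_induction with
  | mem x hx =>
    obtain ⟨i, rfl⟩ := hx
    induction hy using Submodule.span_induction with
    | mem y hy => obtain ⟨j, rfl⟩ := hy; rw [h1, h1, hG]
    | zero => simp
    | add y z _ _ h1 h2 => simp [h1, h2]
    | smul c y _ h => simp [h]
  | zero => simp
  | add y z _ _ h1 h2 => simp [h1, h2]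
  | smul c y _ h => simp [h]

variable [FiniteDimensional F V]

/-- The adjoint with respect to `B`. -/
noncomputable def adjB (hB : B.Nondegenerate) (φ : End F V) : End F V :=
  (B.toDual hB).symm.toLinearMap ∘ₗ φ.dualMap ∘ₗ (B.toDual hB).toLinearMap

theorem adjB_apply (hB : B.Nondegenerate) (φ : End F V) (x y : V) :
    B (adjB hB φ x) y = B x (φ y) := by
  simp [adjB, LinearMap.BilinForm.toDual_def]

omit [FiniteDimensional F V] in
theorem end_ext_form (hB : B.Nondegenerate) {φ ψ : End F V} (h : ∀ x y, B (φ x) y = B (ψ x) y) :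
    φ = ψ := LinearMap.ext fun x => sub_eq_zero.1 (hB.1 _ fun y => by simp [h])

/-- The star structure given by an alternating form. -/
@[reducible] noncomputable def spStar (hB : B.Nondegenerate) (ha : ∀ x, B x x = 0) :
    StarRing (End F V) where
  star := adjB hB
  star_involutive φ := end_ext_form hB fun x y => by
    rw [adjB_apply, alt_swap ha, adjB_apply, ← alt_swap ha]
  star_mul φ ψ := end_ext_form hB fun x y => by
    simp only [adjB_apply, End.mul_apply]
  star_add φ ψ := end_ext_form hB fun x y => by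
    simp only [adjB_apply, LinearMap.add_apply, map_add]

theorem adjB_mul_self_iff (hB : B.Nondegenerate) (g : End F V) :
    adjB hB g * g = 1 ↔ ∀ x y, B (g x) (g y) = B x y :=
  ⟨fun h x y => by rw [← adjB_apply hB, ← End.mul_apply, h, End.one_apply],
    fun h => end_ext_form hB fun x y => by rw [End.mul_apply, adjB_apply, h, End.one_apply]⟩

theorem sp_conj_of_parts [Finite F] (hB : B.Nondegenerate) (ha : ∀ x, B x x = 0) {g h : End F V}
    (hg : ∀ x y, B (g x) (g y) = B x y) (hh : ∀ x y, B (h x) (h y) = B x y)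
    {U W U' W' : Submodule F V} (hc : IsCompl W U) (ho : ∀ x ∈ U, ∀ y ∈ W, B x y = 0)
    (hd' : Disjoint U' W') (ho' : ∀ x ∈ U', ∀ y ∈ W', B x y = 0)
    (hgU : ∀ x ∈ U, g x ∈ U) (hgW : ∀ x ∈ W, g x ∈ W) (hinj : ∀ x ∈ W, g (g x) = x → x = 0)
    {u x : End F V} (hu : ∀ v ∈ U, u v ∈ U') (hu' : ∀ v ∈ U, ∀ w ∈ U, B (u v) (u w) = B v w)
    (hug : ∀ v ∈ U, u (g v) = h (u v)) (hx : ∀ v ∈ W, x v ∈ W') (hx' : ∀ v ∈ W, x v = 0 → v = 0)
    (hxg : ∀ v ∈ W, x (g v) = h (x v)) :
    ∃ w : End F V, (∀ x y, B (w x) (w y) = B x y) ∧ w * g = h * w := by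
  letI := spStar hB ha
  have : Finite V := Module.finite_of_finite F
  have : Finite (End F V) := Finite.of_injective _ DFunLike.coe_injective
  have hst : ∀ (φ : End F V) x y, B (star φ x) y = B x (φ y) := adjB_apply hB
  set e : End F V := W.projection U hc with he
  have e1 : ∀ v, e v ∈ W := Submodule.projection_apply_mem hc
  have e2 : ∀ v, v - e v ∈ U := Submodule.sub_projection_mem hc
  have e3 : ∀ v ∈ W, e v = v := fun v hv => Submodule.projection_apply_of_mem_left hc hv
  have e4 : ∀ v ∈ U, e v = 0 := fun v hv => Submodule.projection_apply_of_mem_right hc hv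
  have e5 : ∀ v w, B (e v) w = B (e v) (e w) := fun v w => by
    have := ho _ (e2 w) _ (e1 v)
    rw [alt_swap ha, map_sub] at this
    linear_combination -this
  have e6 : ∀ v w, B v (e w) = B (e v) (e w) := fun v w => by
    have := ho _ (e2 v) _ (e1 w)
    rw [map_sub, LinearMap.sub_apply] at this
    linear_combination this
  have hse : star e = e := end_ext_form hB fun v w => by rw [hst, e5, e6]
  have hee : e * e = e := LinearMap.ext fun v => e3 _ (e1 v)
  have heg : Commute e g := LinearMap.ext fun v => by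
    have : g v = g (e v) + g (v - e v) := by rw [← map_add]; simp
    rw [End.mul_apply, End.mul_apply, this, map_add, e3 _ (hgW _ (e1 v)), e4 _ (hgU _ (e2 v)),
      add_zero]
  have hg1 : star g * g = 1 := (adjB_mul_self_iff hB g).2 hg
  have hg2 : g * star g = 1 := mul_eq_one_comm.1 hg1
  have hgg : Commute (star g) g := hg1.trans hg2.symm
  set y : End F V := u * (1 - e) + x * e with hy
  have hy1 : ∀ v, y v = u (v - e v) + x (e v) := fun v => rfl
  have hyg : y * g = h * y := LinearMap.ext fun v => by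
    rw [End.mul_apply, End.mul_apply, hy1, hy1, map_add h, ← hug _ (e2 v), ← hxg _ (e1 v),
      map_sub g, ← End.mul_apply e g, heg.eq, End.mul_apply]
  have hyu : IsUnit y := (LinearMap.isUnit_iff_ker_eq_bot _).2 (by
    rw [LinearMap.ker_eq_bot']
    intro v hv
    rw [hy1] at hv
    have h1 : x (e v) = 0 := Submodule.disjoint_def.1 hd' _
      (by rw [eq_neg_of_add_eq_zero_right hv]; exact U'.neg_mem (hu _ (e2 v))) (hx _ (e1 v))
    rw [h1, add_zero] at hv
    have h2 := hx' _ (e1 v) h1
    refine hB.1 v fun w => ?_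
    have h3 := hu' _ (e2 v) _ (e2 w)
    rw [hv, h2, sub_zero, map_sub (B v), e6, h2] at h3
    simpa using h3.symm)
  have h1 : (1 - e) * (star y * y) = 1 - e := end_ext_form hB fun v w => by
    have : star (1 - e) = 1 - e := by rw [star_sub, star_one, hse]
    rw [End.mul_apply, ← this, hst, hst, End.mul_apply, hst]
    have e7 : (1 - e) w = w - e w := rfl
    have e8 : y (w - e w) = u (w - e w) := by rw [hy1, e4 _ (e2 w)]; simp
    have e9 := ho' _ (hu _ (e2 w)) _ (hx _ (e1 v))
    rw [alt_swap ha, neg_eq_zero] at e9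
    have e10 := ho _ (e2 w) _ (e1 v)
    rw [alt_swap ha, neg_eq_zero] at e10
    rw [e7, e8, hy1, map_add, LinearMap.add_apply, e9, hu' _ (e2 v) _ (e2 w), map_sub B v,
      LinearMap.sub_apply, e10]
    simp
  have hae : Commute (star y * y) e := by
    have h2 := congrArg star h1
    rw [star_mul, star_mul, star_star, star_sub, star_one, hse, mul_sub, mul_one] at h2
    rw [sub_mul, one_mul] at h1
    change _ * _ = _ * _
    exact sub_right_injective (h2.trans h1.symm)
  have hh1 : star h * h = 1 := (adjB_mul_self_iff hB h).2 hh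
  have hag : Commute (star y * y) g := by
    have h2 : star y * h = g * star y := by
      have := congrArg star hyg
      rw [star_mul, star_mul] at this
      calc star y * h = g * (star g * star y) * h := by rw [← mul_assoc g, hg2, one_mul]
        _ = g * star y := by rw [this, mul_assoc, mul_assoc, hh1, mul_one]
    change _ * _ = _ * _
    rw [mul_assoc, hyg, ← mul_assoc, h2, mul_assoc]
  have hes : Commute e (star g) := by simpa [hse] using heg.star_star
  have hD : IsUnit ((g - star g) ^ 2 * e + (1 - e)) := (LinearMap.isUnit_iff_ker_eq_bot _).2 (by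
    rw [LinearMap.ker_eq_bot']
    intro v hv
    have k1 : ∀ w ∈ W, (g - star g) w ∈ W := fun w hw => by
      rw [← e3 w hw, ← End.mul_apply, ← (heg.sub_right hes).eq]; exact e1 _
    have k2 : ∀ w ∈ W, (g - star g) w = 0 → w = 0 := fun w hw h0 => hinj w hw (by
      have := congrArg g h0
      rwa [LinearMap.sub_apply, map_sub, ← End.mul_apply g (star g), hg2, map_zero,
        sub_eq_zero] at this)
    have hv' : (g - star g) ((g - star g) (e v)) + (v - e v) = 0 := by rw [← hv, sq]; rfl
    have k3 : v - e v = 0 := Submodule.disjoint_def.1 hc.disjoint _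
      (by rw [eq_neg_of_add_eq_zero_right hv']; exact W.neg_mem (k1 _ (k1 _ (e1 v)))) (e2 v)
    rw [k3, add_zero] at hv'
    rw [← k3, k2 _ (e1 v) (k2 _ (k1 _ (e1 v)) hv'), sub_zero])
  obtain ⟨w, hw1, hw2⟩ := exists_unitary_of_conj (s := g) hg1 hh1 hyu hyg hse hee heg
    (Commute.refl _) hgg hae hag heg hgg.symm h1 hD
  exact ⟨w, (adjB_mul_self_iff hB w).1 hw1, hw2⟩

omit [FiniteDimensional F V] in
theorem aeval_eq_zero_of_sq {g : End F V} {S : F[X]} (hS : Squarefree S) (h : aeval g S = 0)
    (P : F[X]) {v : V} (hv : aeval g P (aeval g P v) = 0) : aeval g P v = 0 := by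
  classical
  have h1 : EuclideanDomain.gcd S (P ^ 2) ∣ P :=
    ((hS.squarefree_of_dvd (EuclideanDomain.gcd_dvd_left _ _)).dvd_pow_iff_dvd two_ne_zero).1
      (EuclideanDomain.gcd_dvd_right _ _)
  obtain ⟨c, hc⟩ := h1
  have h2 : aeval g (EuclideanDomain.gcd S (P ^ 2)) v = 0 := by
    rw [EuclideanDomain.gcd_eq_gcd_ab, mul_comm S, mul_comm (P ^ 2), map_add, map_mul, map_mul, h,
      mul_zero, zero_add, sq, map_mul, End.mul_apply, End.mul_apply, hv, map_zero]
  rw [hc, mul_comm, map_mul, End.mul_apply, h2, map_zero]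

omit [FiniteDimensional F V] in
theorem eig_orth {g : End F V} (hg : ∀ x y, B (g x) (g y) = B x y) {c d : F} (hc : c * c = 1)
    (hcd : c ≠ d) {v w : V} (hv : g v = c • v) (hw : g w = d • w) : B v w = 0 := by
  have := hg v w
  simp only [hv, hw, map_smul, LinearMap.smul_apply, smul_eq_mul] at this
  have h1 : c - d ≠ 0 := sub_ne_zero.2 hcd
  apply mul_left_cancel₀ h1
  linear_combination -c * this + d * B v w * hc

/-- Decomposition data for a semisimple isometry. -/
theorem ss_decomp (hB : B.Nondegenerate) (ha : ∀ x, B x x = 0) {g : End F V}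
    (hg : ∀ x y, B (g x) (g y) = B x y) {S : F[X]} (hS : Squarefree S) (h : aeval g S = 0) :
    IsCompl (LinearMap.range (g * g - 1)) (LinearMap.ker (g * g - 1)) ∧
    (∀ x ∈ LinearMap.ker (g * g - 1), ∀ y ∈ LinearMap.range (g * g - 1), B x y = 0) ∧
    (∀ x ∈ LinearMap.ker (g * g - 1), ∃ y z, g y = (1 : F) • y ∧ g z = (-1 : F) • z ∧ x = y + z) ∧
    ∀ c : F, c * c = 1 → ∀ x, g x = c • x → (∀ y, g y = c • y → B x y = 0) → x = 0 := by
  have h1 : IsCompl (LinearMap.range (g * g - 1)) (LinearMap.ker (g * g - 1)) := by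
    have hd : Disjoint (LinearMap.range (g * g - 1)) (LinearMap.ker (g * g - 1)) := by
      rw [Submodule.disjoint_def]
      rintro _ ⟨v, rfl⟩ hv
      have := aeval_eq_zero_of_sq hS h (X * X - 1) (v := v) (by simpa using hv)
      rwa [map_sub, map_mul, aeval_X, map_one] at this
    refine ⟨hd, codisjoint_iff.2 (Submodule.eq_top_of_disjoint _ _ ?_ hd)⟩
    rw [LinearMap.finrank_range_add_finrank_ker]
  have h2 : ∀ x ∈ LinearMap.ker (g * g - 1), ∀ y ∈ LinearMap.range (g * g - 1), B x y = 0 := by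
    rintro x hx _ ⟨y, rfl⟩
    have hx' : g (g x) = x := sub_eq_zero.1 hx
    have : B x (g (g y)) = B x y := by conv_lhs => rw [← hx', hg, hg]
    simp [this]
  have h3 : ∀ x ∈ LinearMap.ker (g * g - 1),
      ∃ y z, g y = (1 : F) • y ∧ g z = (-1 : F) • z ∧ x = y + z := by
    intro x hx
    have hx' : g (g x) = x := sub_eq_zero.1 hx
    by_cases h2 : (2 : F) = 0
    · have := aeval_eq_zero_of_sq hS h (X - 1) (v := x) (by
        simp only [map_sub, aeval_X, map_one, LinearMap.sub_apply, End.one_apply, hx']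
        have : x - g x - (g x - x) = (2 : F) • (x - g x) := by module
        rw [this, h2, zero_smul])
      exact ⟨x, 0, by simpa [sub_eq_zero] using this, by simp, by simp⟩
    · refine ⟨(2 : F)⁻¹ • (x + g x), (2 : F)⁻¹ • (x - g x), by simp [hx', add_comm], ?_, ?_⟩
      · rw [map_smul, map_sub, hx']; module
      · rw [← smul_add, add_add_sub_cancel, ← two_smul F x, smul_smul, inv_mul_cancel₀ h2, one_smul]
  refine ⟨h1, h2, h3, fun c hc x hx hx' => hB.1 x fun y => ?_⟩
  have hx2 : x ∈ LinearMap.ker (g * g - 1) := by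
    simp [hx, smul_smul, hc]
  obtain ⟨w, hw, u, hu, rfl⟩ := Submodule.mem_sup.1 (h1.sup_eq_top ▸ Submodule.mem_top (x := y))
  obtain ⟨a, b, e1, e2, rfl⟩ := h3 u hu
  have k : ∀ d w, g w = d • w → B x w = 0 := fun d w hw => by
    by_cases hcd : c = d
    · exact hx' w (hcd ▸ hw)
    · exact eig_orth hg hc hcd hx hw
  rw [map_add, map_add, h2 x hx2 w hw, k _ _ e1, k _ _ e2]; simp

theorem exists_eig_family (ha : ∀ x, B x x = 0) {g : End F V} {c : F}
    (hnd : ∀ x, g x = c • x → (∀ y, g y = c • y → B x y = 0) → x = 0) :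
    ∃ (k : ℕ) (a : Fin k ⊕ Fin k → V), (∀ i, g (a i) = c • a i) ∧
      (∀ i j, B (a i) (a j) = Matrix.J (Fin k) F i j) ∧
      (∀ x, g x = c • x → x ∈ Submodule.span F (Set.range a)) ∧
      finrank F (End.eigenspace g c) = k + k := by
  obtain ⟨k, b, hb⟩ := HForm.exists_symplectic_basis (B.restrict (End.eigenspace g c))
    (fun v => ha _) (fun x hx => Subtype.ext (hnd _ (End.mem_eigenspace_iff.1 x.2)
      fun y hy => hx ⟨y, End.mem_eigenspace_iff.2 hy⟩))
  refine ⟨k, fun i => b i, fun i => End.mem_eigenspace_iff.1 (b i).2, hb, fun x hx => ?_, ?_⟩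
  · have := Submodule.mem_map_of_mem (f := (End.eigenspace g c).subtype)
      (b.mem_span ⟨x, End.mem_eigenspace_iff.2 hx⟩)
    rwa [Submodule.map_span, ← Set.range_comp] at this
  · rw [finrank_eq_card_basis b]; simp

theorem sp_conj_of_semisimple [Finite F] (hB : B.Nondegenerate) (ha : ∀ x, B x x = 0)
    {g h : End F V} (hg : ∀ x y, B (g x) (g y) = B x y) (hh : ∀ x y, B (h x) (h y) = B x y)
    {S : F[X]} (hS : Squarefree S) (hSg : aeval g S = 0) (hc : Sim g h) :
    ∃ w : End F V, (∀ x y, B (w x) (w y) = B x y) ∧ w * g = h * w := by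
  have hSh : aeval h S = 0 := (hc.aeval S).eq_zero_iff.1 hSg
  obtain ⟨x, hx⟩ := sim_iff.1 hc
  obtain ⟨g1, g2, g3, g4⟩ := ss_decomp hB ha hg hS hSg
  obtain ⟨h1, h2, h3, h4⟩ := ss_decomp hB ha hh hS hSh
  choose k a a1 a2 a3 a4 using fun c : {c : F // c * c = 1} => exists_eig_family ha (g4 c c.2)
  choose k' a' a1' a2' a3' a4' using fun c : {c : F // c * c = 1} => exists_eig_family ha (h4 c c.2)
  have hk : k = k' := funext fun c => by
    have : (End.eigenspace g c.1).map x.toLinearMap = End.eigenspace h c.1 := by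
      ext v
      obtain ⟨v, rfl⟩ := x.surjective v
      rw [End.mem_eigenspace_iff, ← hx, ← map_smul, x.injective.eq_iff, ← End.mem_eigenspace_iff]
      exact Submodule.mem_map_equiv _ |>.trans (by simp)
    have e := LinearEquiv.finrank_map_eq x (End.eigenspace g c.1)
    rw [this, a4, a4'] at e
    omega
  subst hk
  have span_le : ∀ {g : End F V} {a : ∀ c : {c : F // c * c = 1}, Fin (k c) ⊕ Fin (k c) → V},
      (∀ c x, g x = c.1 • x → x ∈ Submodule.span F (Set.range (a c))) → ∀ c : F, c * c = 1 →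
      ∀ x, g x = c • x → x ∈ Submodule.span F (Set.range fun i : Σ c, Fin (k c) ⊕ Fin (k c) =>
        a i.1 i.2) := fun h c hc x hx =>
    Submodule.span_mono (by rintro _ ⟨i, rfl⟩; exact ⟨⟨_, i⟩, rfl⟩) (h ⟨c, hc⟩ x hx)
  have span_ker : ∀ {g : End F V} {a : ∀ c : {c : F // c * c = 1}, Fin (k c) ⊕ Fin (k c) → V},
      (∀ c i, g (a c i) = c.1 • a c i) → Submodule.span F (Set.range
        fun i : Σ c, Fin (k c) ⊕ Fin (k c) => a i.1 i.2) ≤ LinearMap.ker (g * g - 1) := fun h =>
    Submodule.span_le.2 (by rintro _ ⟨⟨c, i⟩, rfl⟩; simp [h, smul_smul, c.2])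
  have hU : ∀ v ∈ LinearMap.ker (g * g - 1), v ∈ Submodule.span F (Set.range
      fun i : Σ c, Fin (k c) ⊕ Fin (k c) => a i.1 i.2) := fun v hv => by
    obtain ⟨y, z, e1, e2, rfl⟩ := g3 v hv
    exact add_mem (span_le a3 1 (by simp) _ e1) (span_le a3 (-1) (by simp) _ e2)
  obtain ⟨u, u1, u2⟩ := exists_map_family (B := B) (fun i : Σ c, Fin (k c) ⊕ Fin (k c) => a i.1 i.2)
    (fun i => a' i.1 i.2) (by
      rintro ⟨c, i⟩ ⟨d, j⟩
      by_cases hcd : c = d
      · subst hcd; simp only [a2, a2']
      · rw [eig_orth hg c.2 (Subtype.coe_injective.ne hcd) (a1 c i) (a1 d j),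
          eig_orth hh c.2 (Subtype.coe_injective.ne hcd) (a1' c i) (a1' d j)])
    (fun v hv hv' => hB.1 v fun y => by
      obtain ⟨w, hw, u, hu, rfl⟩ := Submodule.mem_sup.1 (h1.sup_eq_top ▸ Submodule.mem_top (x := y))
      obtain ⟨y, z, e1, e2, rfl⟩ := h3 u hu
      have : Submodule.span F (Set.range fun i : Σ c, Fin (k c) ⊕ Fin (k c) => a' i.1 i.2) ≤
          LinearMap.ker (B v) := Submodule.span_le.2 (by rintro _ ⟨i, rfl⟩; exact hv' i)
      rw [map_add, h2 v (span_ker a1' hv) w hw, zero_add]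
      exact this (add_mem (span_le a3' 1 (by simp) _ e1) (span_le a3' (-1) (by simp) _ e2)))
  refine sp_conj_of_parts hB ha hg hh g1 g2 h1.symm.disjoint h2 (u := u) (x := x.toLinearMap)
    ?_ ?_ ?_ ?_ (fun v hv w hw => u2 v (hU v hv) w (hU w hw)) ?_ ?_
    (fun v _ h0 => x.injective (by simpa using h0)) (fun v _ => hx v)
  · intro v hv
    have hv' : g (g v) = v := sub_eq_zero.1 hv
    simp [hv']
  · rintro _ ⟨v, rfl⟩
    exact ⟨g v, by simp⟩
  · intro v hv h0
    exact Submodule.disjoint_def.1 g1.disjoint v hv (by simp [h0])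
  · intro v hv
    refine span_ker a1' ?_
    have := Submodule.mem_map_of_mem (f := u) (hU v hv)
    rw [Submodule.map_span, ← Set.range_comp] at this
    simpa only [Function.comp_def, u1] using this
  · intro v hv
    refine LinearMap.eqOn_span (f := u ∘ₗ g) (g := h ∘ₗ u) ?_ (hU v hv)
    rintro _ ⟨⟨c, i⟩, rfl⟩
    have := u1 ⟨c, i⟩
    simp only at this
    simp [a1, this, a1']
  · rintro _ ⟨v, rfl⟩
    exact ⟨x v, by simp [hx]⟩

section Mat

variable {n : ℕ}

theorem sp_isConj_of {g h : Matrix.symplecticGroup (Fin n) F}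
    (H : ∃ w : End F (Fin n ⊕ Fin n → F), (∀ x y, sympB n F (w x) (w y) = sympB n F x y) ∧
      w * slin g = slin h * w) : IsConj g h := by
  obtain ⟨w, h1, h2⟩ := H
  obtain ⟨w, rfl⟩ := exists_slin_eq h1
  refine isConj_iff.2 ⟨w, mul_inv_eq_iff_eq_mul.2 (slin_injective ?_)⟩
  rw [slin_mul, slin_mul]; exact h2

/-- The inclusion of the symplectic group in `GL`. -/
def spGL (n : ℕ) (F : Type*) [Field F] :
    Matrix.symplecticGroup (Fin n) F →* GL (Fin n ⊕ Fin n) F :=
  (Matrix.symplecticGroup (Fin n) F).subtype.toHomUnits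

theorem spGL_injective : Function.Injective (spGL n F) := fun _ _ h =>
  Subtype.ext (congrArg Units.val h)

theorem even_count_of_inv {K : Type*} [Field K] [DecidableEq K] {R : Multiset K}
    (hR : R.map (·⁻¹) = R) (h0 : (0 : K) ∉ R) (hc : Even R.card) (hp : R.prod = 1) (x : K)
    (hx : x = x⁻¹) : Even (R.count x) := by
  obtain ⟨h1, h2⟩ := HForm.prod_eq_one_of_inv _ (R.filter fun y => y ≠ y⁻¹) rfl (by
    conv_rhs => rw [← hR, Multiset.filter_map]
    congr 1
    exact Multiset.filter_congr fun y _ => by simp [eq_comm]) (fun y hy => (Multiset.mem_filter.1 hy).2)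
  have e := Multiset.filter_add_not (fun y => y ≠ y⁻¹) R
  have hm : ∀ y ∈ R.filter fun y => ¬ y ≠ y⁻¹, y = 1 ∨ y = -1 := fun y hy =>
    HForm.eq_one_or_neg_one_of_eq_inv (fun h => h0 (h ▸ (Multiset.mem_filter.1 hy).1))
      (not_not.1 (Multiset.mem_filter.1 hy).2)
  have hcx : R.count x = (R.filter fun y => ¬ y ≠ y⁻¹).count x :=
    (Multiset.count_filter_of_pos (p := fun y => ¬ y ≠ y⁻¹) (not_not.2 hx)).symm
  rw [← e, Multiset.card_add] at hc
  rw [← e, Multiset.prod_add, h1, one_mul] at hp
  replace hc := (Nat.even_add.1 hc).1 h2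
  rw [hcx]
  generalize (R.filter fun y => ¬ y ≠ y⁻¹) = T at hm hc hp
  by_cases h12 : (1 : K) = -1
  · by_cases hx1 : x = 1
    · rwa [Multiset.count_eq_card.2 fun y hy => by rcases hm y hy with h | h <;> simp [h, hx1, ← h12]]
    · rw [Multiset.count_eq_zero_of_notMem fun hy => by
        rcases hm x hy with h | h
        exacts [hx1 h, hx1 (h.trans h12.symm)]]
      simp
  have e2 : T = Multiset.replicate (T.count 1) 1 + Multiset.replicate (T.count (-1)) (-1) := by
    ext y
    rw [Multiset.count_add, Multiset.count_replicate, Multiset.count_replicate]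
    split_ifs with k1 k2 k2
    · exact (h12 (k1.trans k2.symm)).elim
    · simp [k1]
    · simp [k2]
    · exact Multiset.count_eq_zero_of_notMem fun hy => (hm y hy).elim (k1 ·.symm) (k2 ·.symm)
  rw [e2] at hp hc
  simp only [Multiset.prod_add, Multiset.prod_replicate, one_pow, one_mul] at hp
  simp only [Multiset.card_add, Multiset.card_replicate] at hc
  have h3 : Even (T.count (-1)) := (neg_one_pow_eq_one_iff_even (Ne.symm h12)).1 hp
  by_cases hxT : x ∈ T
  · rcases hm x hxT with rfl | rfl
    · exact (Nat.even_add.1 hc).2 h3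
    · exact h3
  · rw [Multiset.count_eq_zero_of_notMem hxT]; simp

variable [Finite F] (p : ℕ) [Fact p.Prime] [CharP F p]

theorem sp_isConj_of_charpoly_eq {g h : Matrix.symplecticGroup (Fin n) F}
    (hg : (orderOf g).Coprime p) (hh : (orderOf h).Coprime p)
    (hc : g.1.charpoly = h.1.charpoly) : IsConj g h := by
  have hp : p.Prime := Fact.out
  have eg := hasED_elemDiv g.1
  have eh := hasED_elemDiv h.1
  have e := eg.1.eq_of_semisimple eh.1
    ((HasED.coprime_iff p (g := spGL n F g) eg).1 (by rwa [orderOf_injective _ spGL_injective]))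
    ((HasED.coprime_iff p (g := spGL n F h) eh).1 (by rwa [orderOf_injective _ spGL_injective]))
    (by rw [← eg.charpoly, ← eh.charpoly, hc])
  refine sp_isConj_of (sp_conj_of_semisimple sympB_nondegenerate sympB_self (slin_form g)
    (slin_form h) (S := X ^ orderOf g - 1) ?_ ?_ (isConj_iff_sim.1 (isConj_iff_elemDiv.2 e)))
  · refine (X_pow_sub_one_separable_iff.mpr ?_).squarefree
    rw [Ne, CharP.cast_eq_zero_iff F p]
    exact fun hd => hp.one_lt.ne' (hg.symm.eq_one_of_dvd hd)
  · rw [slin, ← toLin'_aeval, map_sub, map_pow, aeval_X, map_one, ← SubmonoidClass.coe_pow,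
      pow_orderOf_eq_one]
    simp

omit [Finite F] in
theorem reverse_charpoly_sp (g : Matrix.symplecticGroup (Fin n) F) :
    g.1.charpoly.reverse = g.1.charpoly := by
  have h0 : g.1.charpoly.coeff 0 = 1 := by
    have := SymplecticGroup.det_eq_one g.2
    rw [Matrix.det_eq_sign_charpoly_coeff, Fintype.card_sum, ← two_mul, pow_mul] at this
    simpa using this
  have := (sd_iff (by rw [h0]; exact one_ne_zero)).2 (dualP_charpoly (τ := RingHom.id F)
    (fun _ => rfl) HForm.J_det_ne_zero (by simpa using SymplecticGroup.mem_iff'.mp g.2))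
  simpa [SD, h0] using this

theorem card_semisimple_Sp (n : ℕ) :
    Nat.card {c : ConjClasses (Matrix.symplecticGroup (Fin n) F) //
      ∃ g, ConjClasses.mk g = c ∧ (orderOf g).Coprime p} = Nat.card F ^ n := by
  classical
  rw [← card_palin n]
  refine card_conjClasses_subtype_eq _
    (fun g : Matrix.symplecticGroup (Fin n) F => g.1.charpoly) _ ?_ ?_ ?_
  · intro g _
    exact ⟨Matrix.charpoly_monic _, by simp [two_mul], reverse_charpoly_sp g⟩
  · intro g h hg hh
    refine ⟨fun H => ?_, sp_isConj_of_charpoly_eq p hg hh⟩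
    have := gl_isConj_iff.mp ((spGL n F).map_isConj H)
    exact (isConj_iff_sim.mp this).charpoly |> fun h => by
      rw [Matrix.charpoly_toLin', Matrix.charpoly_toLin'] at h; exact h
  · rintro χ ⟨h1, h2, h3⟩
    have := Fintype.ofFinite F
    have h0 : χ.coeff 0 = 1 := by rw [← h3, coeff_zero_reverse, h1.leadingCoeff]
    obtain ⟨h5, h6⟩ := aroots_of_sd (K := AlgebraicClosure F) (RingHom.id F) (RingHom.id _)
      (fun _ => rfl) h1 (by simpa [SD, h0] using h3)
    obtain ⟨χ', k1, k2, k3⟩ := HForm.realR_sp_ss (F := F) _ (HForm.aroots_frob χ) h6 h5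
      (even_count_of_inv h6 h5 (by rw [HForm.card_aroots_eq, h2]; simp) (by
        have := HForm.algebraMap_coeff_zero (K := AlgebraicClosure F) χ h1
        rw [h0, h2, pow_mul] at this
        simpa using this.symm))
    rw [HForm.eq_of_aroots_eq _ _ k1 h1 k2] at k3
    obtain ⟨g, e2, e3⟩ := k3.toSp n h2
    exact ⟨g, coprime_of_aeval p (Matrix.symplecticGroup (Fin n) F).subtype Subtype.val_injective
      _ _ e3, e2⟩

end Mat

end Cfsg.Agent.Forms
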