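import Cfsg.Agent.Forms.SpClass
import Cfsg.Agent.Forms.StdDisc

/-! Normal form of nilpotent skew-adjoint operators on symplectic spaces (odd characteristic). -/

set_option autoImplicit false

namespace Cfsg.Agent.Forms

open Module Finset

variable {F : Type*} [Field F]

/-- Standard Gram matrices. -/
def GG (δ : F) (e : ℕ) (d : ℕ × Bool) : ℕ ⊕ ℕ → ℕ ⊕ ℕ → F
  | .inl a, .inl b => if Even e ∧ a = b ∧ a < d.1 then (if a + 1 = d.1 ∧ d.2 then δ else 1) else 0
  | .inl a, .inr b => if Odd e ∧ a = b ∧ a < d.1 then -1 else 0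
  | .inr a, .inl b => if Odd e ∧ a = b ∧ a < d.1 then 1 else 0
  | .inr _, .inr _ => 0

/-- The dimension of the part with blocks of size `e`. -/
def dimc (e : ℕ) (d : ℕ × Bool) : ℕ := if Even e then e * d.1 else 2 * e * d.1

/-- Admissible data. -/
def ValidD (e : ℕ) (d : ℕ × Bool) : Prop := (Odd e → d.2 = false) ∧ (d.1 = 0 → d.2 = false)

theorem form_classify [Fintype F] (hF : Odd (Fintype.card F)) {δ : F} (hδ : ¬ IsSquare δ)
    {L : Type*} [AddCommGroup L] [Module F L] [FiniteDimensional F L]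
    (β : LinearMap.BilinForm F L) (hnd : ∀ x, (∀ y, β x y = 0) → x = 0) (e : ℕ)
    (hs : ∀ x y, β y x = (-1) ^ e * β x y) :
    ∃ (d : ℕ × Bool) (v : ℕ ⊕ ℕ → L), ValidD e d ∧ ⊤ ≤ Submodule.span F (Set.range v) ∧
      (∀ i j, β (v i) (v j) = GG δ e d i j) ∧ e * finrank F L = dimc e d := by
  have h2 := two_ne_zero_of_odd_card hF
  rcases Nat.even_or_odd e with he | he
  · have hs' : ∀ x y, β y x = β x y := fun x y => by rw [hs, he.neg_one_pow, one_mul]
    have hp : ∀ x y, pol β.toQuadraticMap x y = 2 * β x y := fun x y => by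
      rw [pol, QuadraticMap.polarBilin_apply_apply, LinearMap.BilinMap.polar_toQuadraticMap,
        hs' x y, two_mul]
    have hnd' : (pol β.toQuadraticMap).Nondegenerate :=
      ⟨fun x hx => hnd x fun y => by simpa [hp, h2] using hx y,
        fun x hx => hnd x fun y => by simpa [hp, h2, hs' x y] using hx y⟩
    obtain ⟨v, hv, hv1⟩ := exists_orthFam_const hF hnd' one_ne_zero
    have hb : ∃ b : Bool, (finrank F L = 0 → b = false) ∧ ∀ i : Fin (finrank F L), ∃ s : F, s ≠ 0 ∧
        s * s * β (v i) (v i) = if i.1 + 1 = finrank F L ∧ b then δ else 1 := by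
      rcases Nat.eq_zero_or_pos (finrank F L) with h0 | h0
      · exact ⟨false, fun _ => rfl, fun i => absurd i.2 (by omega)⟩
      have hl := hv.2 ⟨finrank F L - 1, by omega⟩
      by_cases hsq : IsSquare (β.toQuadraticMap (v ⟨finrank F L - 1, by omega⟩))
      · refine ⟨false, fun _ => rfl, fun i => ?_⟩
        by_cases hi : i.1 + 1 < finrank F L
        · exact ⟨1, one_ne_zero, by simpa using hv1 i hi⟩
        · obtain rfl : i = ⟨finrank F L - 1, Nat.sub_one_lt h0.ne'⟩ := Fin.ext (by simp; omega)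
          obtain ⟨s, hs⟩ := hsq
          have hs0 : s ≠ 0 := by rintro rfl; exact hl (by simpa using hs)
          refine ⟨s⁻¹, inv_ne_zero hs0, ?_⟩
          rw [LinearMap.BilinMap.toQuadraticMap_apply] at hs
          rw [hs]; simp; field_simp
      · refine ⟨true, fun h => by omega, fun i => ?_⟩
        by_cases hi : i.1 + 1 < finrank F L
        · exact ⟨1, one_ne_zero, by rw [if_neg (by omega)]; simpa using hv1 i hi⟩
        · obtain rfl : i = ⟨finrank F L - 1, Nat.sub_one_lt h0.ne'⟩ := Fin.ext (by simp; omega)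
          obtain ⟨s, hs⟩ := (isSquare_mul_nonsquare_iff hl hδ).2 hsq
          have hδ0 : δ ≠ 0 := by rintro rfl; exact hδ IsSquare.zero
          have hs0 : s ≠ 0 := by rintro rfl; exact mul_ne_zero hl hδ0 (by simpa using hs)
          refine ⟨δ / s, div_ne_zero hδ0 hs0, ?_⟩
          rw [LinearMap.BilinMap.toQuadraticMap_apply] at hs
          rw [if_pos ⟨by simp; omega, rfl⟩]
          field_simp
          linear_combination hs
    obtain ⟨b, hb0, hb⟩ := hb
    choose s hs0 hs1 using hb
    refine ⟨(finrank F L, b), Sum.elim (fun a => if h : a < finrank F L then s ⟨a, h⟩ • v ⟨a, h⟩ else 0)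
      0, ⟨fun h => absurd he (Nat.not_even_iff_odd.2 h), hb0⟩, ?_, ?_, by simp [dimc, he]⟩
    · rw [← (hv.linearIndependent h2).span_eq_top_of_card_eq_finrank' (by simp), Submodule.span_le]
      rintro _ ⟨i, rfl⟩
      have : v i = (s i)⁻¹ • (s i • v i) := by rw [smul_smul, inv_mul_cancel₀ (hs0 i), one_smul]
      rw [this]
      exact Submodule.smul_mem _ _ (Submodule.subset_span ⟨.inl i, by simp⟩)
    · have ho := Nat.not_odd_iff_even.2 he
      rintro (a | a) (c | c)
      · simp only [Sum.elim_inl, GG, he, true_and]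
        by_cases hac : a = c
        · subst hac
          by_cases h : a < finrank F L
          · simp only [h, dite_true, true_and, if_true, map_smul, LinearMap.smul_apply, smul_eq_mul,
              ← mul_assoc]
            exact hs1 ⟨a, h⟩
          · simp [h]
        · rw [if_neg (by tauto)]
          split_ifs with k1 k2
          · have := hv.1 ⟨a, k1⟩ ⟨c, k2⟩ (by simpa using hac)
            rw [hp] at this
            simp [(mul_eq_zero.1 this).resolve_left h2]
          · simp
          · simp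
          · simp
      · simp [GG, ho]
      · simp [GG, ho]
      · simp [GG]
  · have hev := Nat.not_even_iff_odd.2 he
    obtain ⟨k, b, hb⟩ := HForm.exists_symplectic_basis β (fun x => by
      have := hs x x
      rw [he.neg_one_pow] at this
      apply mul_left_cancel₀ h2
      linear_combination this) hnd
    refine ⟨(k, false), Sum.elim (fun a => if h : a < k then b (.inl ⟨a, h⟩) else 0)
      (fun a => if h : a < k then b (.inr ⟨a, h⟩) else 0), ⟨fun _ => rfl, fun _ => rfl⟩, ?_, ?_, ?_⟩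
    · rw [← b.span_eq, Submodule.span_le]
      rintro _ ⟨i | i, rfl⟩
      · exact Submodule.subset_span ⟨.inl i, by simp⟩
      · exact Submodule.subset_span ⟨.inr i, by simp⟩
    · rintro (a | a) (c | c) <;> simp only [Sum.elim_inl, Sum.elim_inr, GG, he, hev, true_and,
        false_and, if_false] <;> by_cases k1 : a < k <;> by_cases k2 : c < k <;>
        simp [k1, k2, hb, Matrix.J, Matrix.one_apply, apply_ite (Neg.neg : F → F)] <;> omega
    · rw [finrank_eq_card_basis b]; simp [dimc, hev]; ring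

variable {V : Type*} [AddCommGroup V] [Module F V] {B : LinearMap.BilinForm F V} {X : End F V}

theorem skew_pow (hX : ∀ u v, B (X u) v = -B u (X v)) (j : ℕ) (u v : V) :
    B u ((X ^ j) v) = (-1) ^ j * B ((X ^ j) u) v := by
  induction j generalizing u with
  | zero => simp
  | succ j ih =>
    have : B u ((X ^ (j + 1)) v) = -B (X u) ((X ^ j) v) := by
      rw [hX, neg_neg, pow_succ', End.mul_apply]
    rw [this, ih, ← End.mul_apply, ← pow_succ]; ring

theorem skew_pow_pow (hX : ∀ u v, B (X u) v = -B u (X v)) (i j : ℕ) (u v : V) :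
    B ((X ^ i) u) ((X ^ j) v) = (-1) ^ j * B ((X ^ (i + j)) u) v := by
  rw [skew_pow hX, ← End.mul_apply, ← pow_add, add_comm]

theorem skew_swap (ha : ∀ x, B x x = 0) (hX : ∀ u v, B (X u) v = -B u (X v)) (j : ℕ) (u v : V) :
    B ((X ^ j) v) u = (-1) ^ (j + 1) * B ((X ^ j) u) v := by
  rw [alt_swap ha, skew_pow hX]; ring

theorem pow_mem_of_inv {W : Submodule F V} (hW : ∀ w ∈ W, X w ∈ W) (j : ℕ) {w : V} (hw : w ∈ W) :
    (X ^ j) w ∈ W := by
  induction j with
  | zero => simpa
  | succ j ih => rw [pow_succ', End.mul_apply]; exact hW _ ih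

theorem pow_eq_zero_of_le {N j : ℕ} {w : V} (hw : (X ^ N) w = 0) (hj : N ≤ j) : (X ^ j) w = 0 := by
  obtain ⟨k, rfl⟩ := Nat.exists_eq_add_of_le hj
  rw [add_comm, pow_add, End.mul_apply, hw, map_zero]

theorem exists_top_layer (h2 : (2 : F) ≠ 0) (ha : ∀ x, B x x = 0)
    (hX : ∀ u v, B (X u) v = -B u (X v)) {W : Submodule F V} (hW : ∀ w ∈ W, X w ∈ W) {N : ℕ}
    (hN : ∀ w ∈ W, (X ^ (N + 1)) w = 0) {L : Type*} [AddCommGroup L] [Module F L]
    [FiniteDimensional F L] (l0 : L →ₗ[F] V) (hl0 : ∀ l, l0 l ∈ W)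
    (hnd : ∀ x, (∀ y, B ((X ^ N) (l0 x)) (l0 y) = 0) → x = 0) (t : ℕ) (ht : t ≤ N) :
    ∃ l : L →ₗ[F] V, (∀ x, l x ∈ W) ∧ (∀ x, (X ^ N) (l x) = (X ^ N) (l0 x)) ∧
      ∀ j, N - t ≤ j → j < N → ∀ x y, B ((X ^ j) (l x)) (l y) = 0 := by
  induction t with
  | zero => exact ⟨l0, hl0, fun _ => rfl, fun j h1 h2 => by omega⟩
  | succ t ih =>
    obtain ⟨l, h1, h3, h4⟩ := ih (by omega)
    let β : LinearMap.BilinForm F L := B.compl₁₂ ((X ^ N) ∘ₗ l0) l0
    have hβ : ∀ x y, β x y = B ((X ^ N) (l0 x)) (l0 y) := fun _ _ => rfl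
    have hβ' : β.Nondegenerate := ⟨hnd, fun x hx => hnd x fun y => by
      rw [skew_swap ha hX, ← hβ, hx, mul_zero]⟩
    have hl : ∀ x y, B ((X ^ N) (l x)) (l y) = β x y := fun x y => by
      rw [h3, skew_swap ha hX, h3, hβ, skew_swap ha hX N (l0 y)]
    let γ : LinearMap.BilinForm F L := (-(2 : F)⁻¹) • B.compl₁₂ ((X ^ (N - (t + 1))) ∘ₗ l) l
    let φ : L →ₗ[F] L := (β.toDual hβ').symm.toLinearMap ∘ₗ γ
    have hφ : ∀ x y, β (φ x) y = -(2 : F)⁻¹ * B ((X ^ (N - (t + 1))) (l x)) (l y) := fun x y => by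
      simp [φ, γ]
    refine ⟨l + (X ^ (t + 1)) ∘ₗ l ∘ₗ φ,
      fun x => W.add_mem (h1 x) (pow_mem_of_inv hW (t + 1) (h1 (φ x))),
      fun x => ?_, fun j hj hj' x y => ?_⟩
    · simp only [LinearMap.add_apply, LinearMap.comp_apply, map_add]
      rw [← End.mul_apply, ← pow_add, pow_eq_zero_of_le (j := N + (t + 1)) (hN _ (h1 _)) (by omega),
        add_zero, h3]
    · simp only [LinearMap.add_apply, LinearMap.comp_apply, map_add]
      rw [skew_pow_pow hX, skew_pow_pow hX, ← End.mul_apply, ← End.mul_apply, ← pow_add, ← pow_add,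
        pow_eq_zero_of_le (j := j + (t + 1) + (t + 1)) (hN _ (h1 _)) (by omega)]
      rcases (by omega : j = N - (t + 1) ∨ N - t ≤ j) with rfl | hj2
      · rw [show N - (t + 1) + (t + 1) = N by omega, hl, skew_swap ha hX N, hl, hφ, hφ,
          skew_swap ha hX (N - (t + 1)) (l x)]
        have e : (-1 : F) ^ (t + 1) * ((-1) ^ (N + 1) * (-1) ^ (N - (t + 1) + 1)) = 1 := by
          rw [← pow_add, ← pow_add]
          exact Even.neg_one_pow ⟨N + 1, by omega⟩
        simp only [map_zero, LinearMap.zero_apply, mul_zero, add_zero]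
        have e2 : (2 : F) * 2⁻¹ = 1 := mul_inv_cancel₀ h2
        linear_combination (-2⁻¹ * B ((X ^ (N - (t + 1))) (l x)) (l y)) * e -
          B ((X ^ (N - (t + 1))) (l x)) (l y) * e2
      · rw [h4 j hj2 hj', pow_eq_zero_of_le (j := j + (t + 1)) (hN _ (h1 _)) (by omega),
          pow_eq_zero_of_le (j := j + (t + 1)) (hN _ (h1 _)) (by omega)]
        simp

/-- The normal form data of `X` on `W`. -/
structure NilData (B : LinearMap.BilinForm F V) (X : End F V) (δ : F) (W : Submodule F V) (N : ℕ)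
    (d : ℕ → ℕ × Bool) (v : ℕ → ℕ ⊕ ℕ → V) : Prop where
  mem : ∀ e i, v e i ∈ W
  gram : ∀ e e' i i' j, B ((X ^ j) (v e i)) (v e' i') =
    if e = e' ∧ j + 1 = e then GG δ e (d e) i i' else 0
  span : W ≤ Submodule.span F (Set.range fun x : ℕ × (ℕ ⊕ ℕ) × ℕ => (X ^ x.2.2) (v x.1 x.2.1))
  dim : finrank F W = ∑ e ∈ range (N + 1), dimc e (d e)
  zero : ∀ e, e = 0 ∨ N < e → d e = (0, false)
  valid : ∀ e, ValidD e (d e)

theorem exists_nilData [FiniteDimensional F V] [Fintype F] (hF : Odd (Fintype.card F)) {δ : F}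
    (hδ : ¬ IsSquare δ) (ha : ∀ x, B x x = 0) (hX : ∀ u v, B (X u) v = -B u (X v)) (N : ℕ)
    (W : Submodule F V) (hW : ∀ w ∈ W, X w ∈ W) (hN : ∀ w ∈ W, (X ^ N) w = 0)
    (hnd : ∀ w ∈ W, (∀ w' ∈ W, B w w' = 0) → w = 0) : ∃ d v, NilData B X δ W N d v := by
  have h2 := two_ne_zero_of_odd_card hF
  induction N generalizing W with
  | zero =>
    have : W = ⊥ := eq_bot_iff.2 fun w hw => by simpa using hN w hw
    subst this
    refine ⟨fun _ => (0, false), fun _ _ => 0, fun _ _ => zero_mem _, ?_, bot_le,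
      by simp [dimc], fun _ _ => rfl, fun _ => ⟨fun _ => rfl, fun _ => rfl⟩⟩
    rintro e e' (i | i) (i' | i') j <;> simp [GG]
  | succ N ih =>
    obtain ⟨C, hC⟩ := (W ⊓ LinearMap.ker (X ^ N)).exists_isCompl
    have hdec : ∀ w ∈ W, ∃ l : ↥(C ⊓ W), (X ^ N) (w - l) = 0 := fun w hw => by
      obtain ⟨k, hk, c, hc, rfl⟩ := Submodule.mem_sup.1 (hC.sup_eq_top ▸ Submodule.mem_top (x := w))
      exact ⟨⟨c, hc, by simpa using W.sub_mem hw hk.1⟩, by simpa using hk.2⟩
    have hnd0 : ∀ x : ↥(C ⊓ W), (∀ y : ↥(C ⊓ W), B ((X ^ N) x) y = 0) → x = 0 := fun x hx => by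
      have h1 : (X ^ N) x = 0 := hnd _ (pow_mem_of_inv hW _ x.2.2) fun w hw => by
        obtain ⟨l, hl⟩ := hdec w hw
        have := skew_swap ha hX N (w - l) x
        rw [hl, map_sub, hx] at this
        simpa using this
      exact Subtype.ext (Submodule.disjoint_def.1 hC.disjoint _ ⟨x.2.2, h1⟩ x.2.1)
    obtain ⟨l, l1, l2, l3⟩ := exists_top_layer h2 ha hX hW hN (C ⊓ W).subtype (fun l => l.2.2)
      hnd0 N le_rfl
    let β : LinearMap.BilinForm F ↥(C ⊓ W) := B.compl₁₂ ((X ^ N) ∘ₗ l) l
    have hβ : ∀ x y, β x y = B ((X ^ N) (l x)) (l y) := fun _ _ => rfl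
    have hβnd : ∀ x, (∀ y, β x y = 0) → x = 0 := fun x hx => hnd0 x fun y => by
      have := hx y
      rw [hβ, skew_swap ha hX, l2, skew_swap ha hX, ← mul_assoc, ← mul_pow] at this
      rw [l2] at this
      simpa using this
    have hgram : ∀ j x y, B ((X ^ j) (l x)) (l y) = if j = N then β x y else 0 := fun j x y => by
      split_ifs with h
      · rw [h, hβ]
      · rcases lt_or_gt_of_ne h with h | h
        · exact l3 j (by omega) h x y
        · rw [pow_eq_zero_of_le (hN _ (l1 x)) h]; simp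
    obtain ⟨d0, v0, d1, d2, d3, d4⟩ := form_classify hF hδ β hβnd (N + 1)
      (fun x y => skew_swap ha hX N _ _)
    let Φ : (Fin (N + 1) → ↥(C ⊓ W)) →ₗ[F] V := ∑ j : Fin (N + 1), (X ^ j.1) ∘ₗ l ∘ₗ LinearMap.proj j
    have hΦ : ∀ x, Φ x = ∑ j : Fin (N + 1), (X ^ j.1) (l (x j)) := fun x => by simp [Φ]
    have hU : ∀ j x, (X ^ j) (l x) ∈ LinearMap.range Φ := fun j x => by
      by_cases h : j < N + 1
      · refine ⟨Pi.single ⟨j, h⟩ x, ?_⟩
        rw [hΦ, sum_eq_single ⟨j, h⟩ (fun i _ hi => by simp [hi]) (by simp)]; simp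
      · rw [pow_eq_zero_of_le (hN _ (l1 x)) (by omega)]; exact zero_mem _
    have hΦnd : ∀ x, (∀ u ∈ LinearMap.range Φ, B (Φ x) u = 0) → x = 0 := fun x hx => by
      funext j
      refine hβnd _ fun y => ?_
      have := hx _ (hU (N - j) y)
      rw [hΦ, map_sum, LinearMap.sum_apply, sum_eq_single j (fun i _ hi => by
        rw [skew_pow_pow hX, hgram, if_neg (fun h => hi (Fin.ext (by omega))), mul_zero]) (by simp),
        skew_pow_pow hX, hgram, if_pos (by omega)] at this
      simpa using this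
    have hUW : LinearMap.range Φ ≤ W := by
      rintro _ ⟨x, rfl⟩
      rw [hΦ]; exact sum_mem fun j _ => pow_mem_of_inv hW _ (l1 _)
    have hUX : ∀ u ∈ LinearMap.range Φ, X u ∈ LinearMap.range Φ := by
      rintro _ ⟨x, rfl⟩
      rw [hΦ, map_sum]
      exact sum_mem fun j _ => by rw [← End.mul_apply, ← pow_succ']; exact hU _ _
    have hrefl : B.IsRefl := fun x y h => by rw [alt_swap ha, h, neg_zero]
    have hcompl : IsCompl (LinearMap.range Φ) (B.orthogonal (LinearMap.range Φ)) := by
      refine LinearMap.BilinForm.isCompl_orthogonal_of_restrict_nondegenerate hrefl ⟨?_, ?_⟩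
      · rintro ⟨_, x, rfl⟩ hx
        exact Subtype.ext (by rw [hΦnd x fun u hu => hx ⟨u, hu⟩]; simp)
      · rintro ⟨_, x, rfl⟩ hx
        exact Subtype.ext (by rw [hΦnd x fun u hu => hrefl _ _ (hx ⟨u, hu⟩)]; simp)
    set W' := W ⊓ B.orthogonal (LinearMap.range Φ) with hW'
    have hsup : LinearMap.range Φ ⊔ W' = W := by
      rw [hW', inf_comm W, ← sup_inf_assoc_of_le _ hUW, hcompl.sup_eq_top, top_inf_eq]
    have horth : ∀ u ∈ LinearMap.range Φ, ∀ w ∈ W', B u w = 0 := fun u hu w hw => hw.2 u hu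
    have hW'X : ∀ w ∈ W', X w ∈ W' := fun w hw => ⟨hW _ hw.1, fun u hu => by
      have := horth _ (hUX u hu) w hw
      rwa [hX, neg_eq_zero] at this⟩
    obtain ⟨d, v, hd⟩ := ih W' hW'X (fun w hw => hnd _ (pow_mem_of_inv hW _ hw.1) fun y hy => by
        obtain ⟨c, hc⟩ := hdec y hy
        have e1 := skew_swap ha hX N w (y - l c)
        have e2 : (X ^ N) (y - l c) = 0 := by rw [map_sub, l2, ← hc, map_sub]; rfl
        have e3 := skew_swap ha hX N w (l c)
        rw [horth _ (hU N c) w hw] at e3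
        rw [e2, map_sub, mul_sub, ← e3] at e1
        simpa using e1)
      (fun w hw h => hnd w hw.1 fun y hy => by
        obtain ⟨u, hu, w', hw', rfl⟩ := Submodule.mem_sup.1 (hsup ▸ hy)
        rw [map_add, h w' hw', hrefl _ _ (horth u hu w hw), add_zero])
    refine ⟨Function.update d (N + 1) d0, Function.update v (N + 1) (l ∘ v0), ?_, ?_, ?_, ?_, ?_, ?_⟩
    · intro e i
      by_cases he : e = N + 1
      · subst he; simpa using l1 _
      · rw [Function.update_of_ne he]; exact (hd.mem e i).1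
    · intro e e' i i' j
      by_cases he : e = N + 1 <;> by_cases he' : e' = N + 1
      · subst he he'
        simp only [Function.update_self, Function.comp_apply, hgram, d3, true_and,
          Nat.add_right_cancel_iff]
      · subst he
        rw [Function.update_self, Function.update_of_ne he', if_neg (fun h => he' h.1.symm)]
        exact horth _ (hU _ _) _ (hd.mem _ _)
      · subst he'
        rw [Function.update_self, Function.update_of_ne he, if_neg (fun h => he h.1)]
        exact hrefl _ _ (horth _ (by simpa using hU 0 _) _ (pow_mem_of_inv hW'X _ (hd.mem _ _)))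
      · rw [Function.update_of_ne he, Function.update_of_ne he', Function.update_of_ne he, hd.gram]
    · refine hsup.symm.le.trans (sup_le ?_ (hd.span.trans (Submodule.span_le.2 ?_)))
      · rintro _ ⟨x, rfl⟩
        rw [hΦ]
        refine sum_mem fun j _ => ?_
        have := Submodule.mem_map_of_mem (f := (X ^ j.1) ∘ₗ l) (d2 (Submodule.mem_top (x := x j)))
        rw [Submodule.map_span] at this
        refine Submodule.span_mono ?_ this
        rintro _ ⟨_, ⟨i, rfl⟩, rfl⟩
        exact ⟨(N + 1, i, j), by simp⟩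
      · rintro _ ⟨⟨e, i, j⟩, rfl⟩
        by_cases he : e = N + 1
        · subst he
          have : v (N + 1) i = 0 := hnd _ (hd.mem _ _).1 fun y hy => by
            obtain ⟨u, hu, w', hw', rfl⟩ := Submodule.mem_sup.1 (hsup ▸ hy)
            rw [map_add, hrefl _ _ (horth u hu _ (hd.mem _ _)), zero_add]
            have : Submodule.span F (Set.range fun x : ℕ × (ℕ ⊕ ℕ) × ℕ =>
                (X ^ x.2.2) (v x.1 x.2.1)) ≤ LinearMap.ker (B (v (N + 1) i)) := by
              refine Submodule.span_le.2 ?_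
              rintro _ ⟨⟨e, i', j⟩, rfl⟩
              refine LinearMap.mem_ker.2 ?_
              rw [skew_pow hX, hd.gram, hd.zero _ (Or.inr N.lt_succ_self)]
              rcases i with i | i <;> rcases i' with i' | i' <;> simp [GG]
            exact this (hd.span hw')
          simp [this]
        · exact Submodule.subset_span ⟨(e, i, j), by simp [he]⟩
    · have e1 := Submodule.finrank_sup_add_finrank_inf_eq (LinearMap.range Φ) W'
      rw [hsup, (hcompl.disjoint.mono_right inf_le_right).eq_bot, finrank_bot, add_zero,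
        LinearMap.finrank_range_of_inj (LinearMap.ker_eq_bot.1 (LinearMap.ker_eq_bot'.2
          fun x hx => hΦnd x fun u _ => by rw [hx]; simp)), finrank_pi_fintype, sum_const,
        card_univ, Fintype.card_fin, smul_eq_mul, d4, hd.dim] at e1
      rw [e1, sum_range_succ _ (N + 1), Function.update_self, add_comm]
      congr 1
      exact sum_congr rfl fun e he => by
        rw [Function.update_of_ne (by have := mem_range.1 he; omega)]
    · intro e he
      rw [Function.update_of_ne (by omega)]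
      exact hd.zero e (by omega)
    · intro e
      by_cases he : e = N + 1
      · subst he; simpa using d1
      · rw [Function.update_of_ne he]; exact hd.valid e

end Cfsg.Agent.Forms
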