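import Cfsg.Agent.Forms.SpNil

/-! Types of conjugacy classes in symplectic groups (odd characteristic). -/

set_option autoImplicit false

namespace Cfsg.Agent.Forms

open Polynomial Module Finset Cfsg.Agent.GLn

variable {F : Type*} [Field F] {V : Type*} [AddCommGroup V] [Module F V]
  {B : LinearMap.BilinForm F V}

/-- Generalised eigenspace. -/
noncomputable def Vc (g : End F V) (c : F) (N : ℕ) : Submodule F V := LinearMap.ker (aeval g ((X - C c) ^ N))

/-- The part without eigenvalues `±1`. -/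
noncomputable def Wg (g : End F V) (N : ℕ) : Submodule F V := LinearMap.range (aeval g ((X * X - 1 : F[X]) ^ N))

theorem aeval_comm_apply (g : End F V) (P Q : F[X]) (v : V) :
    aeval g P (aeval g Q v) = aeval g Q (aeval g P v) := by
  rw [← End.mul_apply, ← map_mul, mul_comm, map_mul, End.mul_apply]

theorem mem_Vc_of_comm {g f : End F V} (h : Commute f g) {c : F} {N : ℕ} {v : V}
    (hv : v ∈ Vc g c N) : f v ∈ Vc g c N := by
  have : Commute f (aeval g ((X - C c) ^ N)) := by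
    rw [map_pow, map_sub, aeval_X, aeval_C]
    exact (h.sub_right (Algebra.commute_algebraMap_right _ _)).pow_right _
  rw [Vc, LinearMap.mem_ker, ← End.mul_apply, ← this.eq, End.mul_apply, hv, map_zero]

theorem Wg_inv (g : End F V) (N : ℕ) : ∀ v ∈ Wg g N, g v ∈ Wg g N := by
  rintro _ ⟨v, rfl⟩
  have := aeval_comm_apply g ((X * X - 1 : F[X]) ^ N) X v
  rw [aeval_X] at this
  exact ⟨g v, this⟩

theorem orth_pow {g : End F V} (hg : ∀ x y, B (g x) (g y) = B x y) {c : F} (hc : c * c = 1)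
    (k : ℕ) {x : V} (hx : x ∈ Vc g c k) (z : V) : B x (aeval g ((X - C c) ^ k) z) = 0 := by
  induction k generalizing x z with
  | zero =>
    have : x = 0 := by simpa [Vc] using hx
    simp [this]
  | succ k ih =>
    have h1 : g x - c • x ∈ Vc g c k := by
      rw [Vc, LinearMap.mem_ker, pow_succ, map_mul, End.mul_apply] at hx
      simpa [Vc, Algebra.algebraMap_eq_smul_one] using hx
    have h2 := ih h1 (g z)
    have h3 : aeval g ((X - C c) ^ k) (g z) = g (aeval g ((X - C c) ^ k) z) := by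
      have := aeval_comm_apply g ((X - C c) ^ k) X z
      rwa [aeval_X] at this
    rw [pow_succ', map_mul, End.mul_apply]
    rw [h3] at h2
    generalize aeval g ((X - C c) ^ k) z = w at h2
    simp only [map_sub, aeval_X, aeval_C, LinearMap.sub_apply, Module.algebraMap_end_apply,
      map_smul, smul_eq_mul, LinearMap.smul_apply, hg] at h2 ⊢
    linear_combination -c * h2 - B x (g w) * hc

theorem X_sq_sub_one_pow (N : ℕ) :
    (X * X - 1 : F[X]) ^ N = (X - C 1) ^ N * (X - C (-1)) ^ N := by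
  rw [← mul_pow]; congr 1; simp only [C_1, C_neg]; ring

theorem isCoprime_pm (h2 : (2 : F) ≠ 0) (N : ℕ) :
    IsCoprime ((X - C 1 : F[X]) ^ N) ((X - C (-1)) ^ N) :=
  (isCoprime_X_sub_C_of_isUnit_sub (IsUnit.mk0 _ (by rwa [sub_neg_eq_add, one_add_one_eq_two]))).pow

theorem Vc_orth (h2 : (2 : F) ≠ 0) {g : End F V} (hg : ∀ x y, B (g x) (g y) = B x y) {N : ℕ}
    {x y : V} (hx : x ∈ Vc g 1 N) (hy : y ∈ Vc g (-1) N) : B x y = 0 := by
  obtain ⟨a, b, hab⟩ := isCoprime_pm h2 N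
  have : y = aeval g ((X - C (1 : F)) ^ N) (aeval g a y) := by
    have h : aeval g (a * (X - C (1 : F)) ^ N + b * (X - C (-1 : F)) ^ N) y = aeval g (1 : F[X]) y := by
      rw [hab]
    rw [map_add, map_mul, map_mul, LinearMap.add_apply, End.mul_apply, End.mul_apply,
      LinearMap.mem_ker.1 hy, map_zero, add_zero, aeval_comm_apply] at h
    simpa using h.symm
  rw [this]; exact orth_pow hg (one_mul 1) N hx _

theorem UW_orth {g : End F V} (hg : ∀ x y, B (g x) (g y) = B x y) (N : ℕ) :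
    ∀ x ∈ Vc g 1 N ⊔ Vc g (-1) N, ∀ y ∈ Wg g N, B x y = 0 := by
  rintro x hx _ ⟨z, rfl⟩
  obtain ⟨a, ha, b, hb, rfl⟩ := Submodule.mem_sup.1 hx
  rw [map_add, LinearMap.add_apply, X_sq_sub_one_pow, map_mul, End.mul_apply,
    orth_pow hg (one_mul 1) N ha, aeval_comm_apply, orth_pow hg (by simp) N hb, add_zero]

variable [FiniteDimensional F V]

theorem isCompl_WU (h2 : (2 : F) ≠ 0) (g : End F V) {N : ℕ} (hN : finrank F V ≤ N) :
    IsCompl (Wg g N) (Vc g 1 N ⊔ Vc g (-1) N) := by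
  rw [Vc, Vc, sup_ker_aeval_eq_ker_aeval_mul_of_coprime _ (isCoprime_pm h2 N), ← X_sq_sub_one_pow]
  have hd : Disjoint (Wg g N) (LinearMap.ker (aeval g ((X * X - 1 : F[X]) ^ N))) := by
    rw [Submodule.disjoint_def]
    rintro _ ⟨v, rfl⟩ hv
    rw [map_pow] at hv ⊢
    rw [LinearMap.mem_ker, ← End.mul_apply, ← pow_add, ← LinearMap.mem_ker,
      End.ker_pow_eq_ker_pow_finrank_of_le (by omega),
      ← End.ker_pow_eq_ker_pow_finrank_of_le hN] at hv
    exact hv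
  refine ⟨hd, codisjoint_iff.2 (Submodule.eq_top_of_disjoint _ _ ?_ hd)⟩
  rw [Wg, LinearMap.finrank_range_add_finrank_ker]

theorem Wg_inj (h2 : (2 : F) ≠ 0) (g : End F V) {N : ℕ} (hN : finrank F V ≤ N) (hN0 : 0 < N) :
    ∀ x ∈ Wg g N, g (g x) = x → x = 0 := fun x hx h => by
  refine Submodule.disjoint_def.1 (isCompl_WU h2 g hN).disjoint x hx ?_
  rw [Vc, Vc, sup_ker_aeval_eq_ker_aeval_mul_of_coprime _ (isCoprime_pm h2 N), ← X_sq_sub_one_pow]
  obtain ⟨N, rfl⟩ : ∃ M, N = M + 1 := ⟨N - 1, by omega⟩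
  rw [LinearMap.mem_ker, pow_succ, map_mul, End.mul_apply]
  simp [h]

theorem Vc_nondeg (h2 : (2 : F) ≠ 0) (hB : B.Nondegenerate) (ha : ∀ x, B x x = 0) {g : End F V}
    (hg : ∀ x y, B (g x) (g y) = B x y) {N : ℕ} (hN : finrank F V ≤ N) {c : F}
    (hc : c = 1 ∨ c = -1) : ∀ w ∈ Vc g c N, (∀ w' ∈ Vc g c N, B w w' = 0) → w = 0 := by
  intro w hw h
  refine hB.1 w fun y => ?_
  obtain ⟨x, hx, u, hu, rfl⟩ := Submodule.mem_sup.1
    ((isCompl_WU h2 g hN).sup_eq_top ▸ Submodule.mem_top (x := y))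
  obtain ⟨a, ha', b, hb, rfl⟩ := Submodule.mem_sup.1 hu
  rcases hc with rfl | rfl
  · rw [map_add, map_add, UW_orth hg N w (Submodule.mem_sup_left hw) x hx, h a ha',
      Vc_orth h2 hg hw hb]; simp
  · rw [map_add, map_add, UW_orth hg N w (Submodule.mem_sup_right hw) x hx, h b hb,
      alt_swap ha, Vc_orth h2 hg ha' hw]; simp

theorem finrank_decomp (h2 : (2 : F) ≠ 0) (g : End F V) {N : ℕ} (hN : finrank F V ≤ N) :
    finrank F V = finrank F (Wg g N) + (finrank F (Vc g 1 N) + finrank F (Vc g (-1) N)) := by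
  have hd : Disjoint (Vc g 1 N) (Vc g (-1) N) := disjoint_ker_aeval_of_isCoprime g (isCoprime_pm h2 N)
  rw [← Submodule.finrank_add_eq_of_isCompl (isCompl_WU h2 g hN),
    ← Submodule.finrank_sup_add_finrank_inf_eq (Vc g 1 N), hd.eq_bot, finrank_bot, add_zero]

section Xop

variable (hB : B.Nondegenerate) {g : End F V} (hg : ∀ x y, B (g x) (g y) = B x y)
include hg

theorem adjB_mul : adjB hB g * g = 1 := (adjB_mul_self_iff hB g).2 hg

theorem mul_adjB : g * adjB hB g = 1 := mul_eq_one_comm.1 (adjB_mul hB hg)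

theorem commute_adjB : Commute (adjB hB g) g := (adjB_mul hB hg).trans (mul_adjB hB hg).symm

theorem Xop_skew (u v : V) : B ((g - adjB hB g) u) v = -B u ((g - adjB hB g) v) := by
  have : B (g u) v = B u (adjB hB g v) := by
    rw [← hg u, ← End.mul_apply g (adjB hB g), mul_adjB hB hg, End.one_apply]
  simp only [LinearMap.sub_apply, map_sub, adjB_apply, this]; ring

theorem Xop_inv {c : F} {N : ℕ} : ∀ w ∈ Vc g c N, (g - adjB hB g) w ∈ Vc g c N := fun _ hw =>
  mem_Vc_of_comm ((Commute.refl g).sub_left (commute_adjB hB hg)) hw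

theorem Xop_nil {c : F} (hc : c * c = 1) {N : ℕ} :
    ∀ w ∈ Vc g c N, ((g - adjB hB g) ^ N) w = 0 := fun w hw => by
  have e : g - adjB hB g = (adjB hB g * aeval g (X + C c)) * aeval g (X - C c) := by
    rw [mul_assoc, ← map_mul, show (X + C c) * (X - C c) = X * X - C (c * c) by rw [C_mul]; ring,
      hc]
    simp [mul_sub, ← mul_assoc, adjB_mul hB hg]
  have hc : Commute (adjB hB g * aeval g (X + C c)) (aeval g (X - C c)) := by
    refine Commute.mul_left ?_ ((Commute.all _ _).map (aeval g))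
    rw [map_sub, aeval_X, aeval_C]
    exact (commute_adjB hB hg).sub_right (Algebra.commute_algebraMap_right _ _)
  rw [e, hc.mul_pow, End.mul_apply, ← map_pow, LinearMap.mem_ker.1 hw, map_zero]

theorem Zop_eq (h2 : (2 : F) ≠ 0) {p : ℕ} [Fact p.Prime] [CharP F p] {c : F} (hc : c * c = 1)
    {N j k : ℕ} (hN : N ≤ p ^ k) (hj : 2 * j = p ^ k + 1) {w : V} (hw : w ∈ Vc g c N) :
    g w = (2 : F)⁻¹ • (g - adjB hB g) w +
      c • (((2 : F)⁻¹ • (2 : F)⁻¹ • ((g - adjB hB g) * (g - adjB hB g)) + 1 : End F V) ^ j) w := by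
  set Z : End F V := ((2 : F)⁻¹ * c) • (g + adjB hB g) with hZ
  have e2 : (2 : F) * 2⁻¹ = 1 := mul_inv_cancel₀ h2
  have h1 : (2 : F)⁻¹ • (2 : F)⁻¹ • ((g - adjB hB g) * (g - adjB hB g)) + 1 = Z ^ 2 := by
    rw [hZ, _root_.smul_pow, sq (g + _)]
    simp only [mul_add, add_mul, mul_sub, sub_mul, adjB_mul hB hg, mul_adjB hB hg]
    match_scalars
    · linear_combination -2⁻¹ ^ 2 * hc
    · linear_combination -2 * 2⁻¹ ^ 2 * hc - (2 * 2⁻¹ + 1) * e2
    · linear_combination -2⁻¹ ^ 2 * hc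
  have h3 : Z - 1 = (((2 : F)⁻¹ * c) • (adjB hB g * aeval g (X - C c))) * aeval g (X - C c) := by
    rw [smul_mul_assoc, mul_assoc, ← map_mul,
      show (X - C c) * (X - C c) = X * X - C (2 * c) * X + C (c * c) by
        rw [C_mul, C_mul, map_ofNat]; ring, hc, hZ]
    simp only [map_add, map_sub, map_mul (aeval g), aeval_X, aeval_C, mul_add, mul_sub, ← mul_assoc,
      adjB_mul hB hg, Algebra.algebraMap_eq_smul_one, mul_smul_comm, smul_mul_assoc, mul_one,
      one_mul]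
    match_scalars
    · ring
    · ring
    · linear_combination e2 + 2 * 2⁻¹ * hc
  have hc' : Commute (((2 : F)⁻¹ * c) • (adjB hB g * aeval g (X - C c))) (aeval g (X - C c)) := by
    refine Commute.smul_left (Commute.mul_left ?_ (Commute.refl _)) _
    rw [map_sub, aeval_X, aeval_C]
    exact (commute_adjB hB hg).sub_right (Algebra.commute_algebraMap_right _ _)
  have h4 : (Z ^ p ^ k) w = w := by
    have h5 : ((Z - 1) ^ N) w = 0 := by
      rw [h3, hc'.mul_pow, End.mul_apply, ← map_pow, LinearMap.mem_ker.1 hw, map_zero]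
    have h6 := pow_eq_zero_of_le h5 hN
    have h7 : (Z - 1) ^ p ^ k = Z ^ p ^ k - 1 := by
      have := congrArg (aeval Z) (sub_pow_char_pow (R := F[X]) (p := p) X 1 k)
      simpa using this
    rwa [h7, LinearMap.sub_apply, sub_eq_zero] at h6
  rw [h1, ← pow_mul, hj, pow_succ', End.mul_apply, h4, hZ]
  simp only [LinearMap.sub_apply, LinearMap.smul_apply, LinearMap.add_apply]
  match_scalars
  · linear_combination -e2 - 2⁻¹ * hc
  · linear_combination -2⁻¹ * hc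

end Xop

theorem intertwine_of_Xop [Fintype F] (hF : Odd (Fintype.card F)) (hB : B.Nondegenerate)
    {g h u : End F V} (hg : ∀ x y, B (g x) (g y) = B x y) (hh : ∀ x y, B (h x) (h y) = B x y)
    {c : F} (hc : c * c = 1) {N : ℕ} (hu : ∀ w ∈ Vc g c N, u w ∈ Vc h c N)
    (hX : ∀ w ∈ Vc g c N, u ((g - adjB hB g) w) = (h - adjB hB h) (u w)) :
    ∀ w ∈ Vc g c N, u (g w) = h (u w) := by
  have h2 := two_ne_zero_of_odd_card hF
  obtain ⟨p, hp⟩ := CharP.exists F
  have : Fact p.Prime := ⟨CharP.char_is_prime F p⟩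
  have hodd : Odd p := (Fact.out : p.Prime).odd_of_ne_two (by
    rintro rfl; exact h2 (CharP.cast_eq_zero F 2))
  obtain ⟨j, hj⟩ : Even (p ^ N + 1) := hodd.pow.add_one
  have hN : N ≤ p ^ N := (Nat.lt_pow_self (Fact.out : p.Prime).one_lt).le
  have key : ∀ i, ∀ w ∈ Vc g c N,
      (((2 : F)⁻¹ • (2 : F)⁻¹ • ((g - adjB hB g) * (g - adjB hB g)) + 1 : End F V) ^ i) w ∈ Vc g c N ∧
      u ((((2 : F)⁻¹ • (2 : F)⁻¹ • ((g - adjB hB g) * (g - adjB hB g)) + 1 : End F V) ^ i) w) =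
      (((2 : F)⁻¹ • (2 : F)⁻¹ • ((h - adjB hB h) * (h - adjB hB h)) + 1 : End F V) ^ i) (u w) := by
    intro i w hw
    induction i with
    | zero => simpa
    | succ i ih =>
      rw [pow_succ', pow_succ', End.mul_apply, End.mul_apply, ← ih.2]
      have h1 := Xop_inv hB hg _ ih.1
      refine ⟨add_mem (Submodule.smul_mem _ _ (Submodule.smul_mem _ _ (Xop_inv hB hg _ h1))) ih.1, ?_⟩
      simp only [LinearMap.add_apply, LinearMap.smul_apply, End.mul_apply, End.one_apply, map_add,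
        map_smul, hX _ h1, hX _ ih.1]
  intro w hw
  rw [Zop_eq hB hg h2 hc hN (j := j) (by omega) hw,
    Zop_eq hB hh h2 hc hN (j := j) (by omega) (hu w hw), map_add, map_smul, map_smul, hX w hw,
    (key j w hw).2]

/-- The type of an isometry. -/
def HasTy (hB : B.Nondegenerate) (δ : F) (N : ℕ) (g : End F V)
    (τ : (ℕ → F[X]) × (ℕ → ℕ × Bool) × (ℕ → ℕ × Bool)) : Prop :=
  (∃ v, NilData B (g - adjB hB g) δ (Vc g 1 N) N τ.2.1 v) ∧
  (∃ v, NilData B (g - adjB hB g) δ (Vc g (-1) N) N τ.2.2 v) ∧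
  ∃ (k : ℕ) (A : Matrix (Fin k) (Fin k) F),
    Sim (g.restrict (Wg_inv g N)) (Matrix.toLin' A) ∧ τ.1 = tyOf (elemDiv A)

theorem conj_of_hasTy [Fintype F] (hF : Odd (Fintype.card F)) (hB : B.Nondegenerate)
    (ha : ∀ x, B x x = 0) {δ : F} {N : ℕ} (hN : finrank F V ≤ N) (hN0 : 0 < N) {g h : End F V}
    (hg : ∀ x y, B (g x) (g y) = B x y) (hh : ∀ x y, B (h x) (h y) = B x y)
    {τ : (ℕ → F[X]) × (ℕ → ℕ × Bool) × (ℕ → ℕ × Bool)} (H : HasTy hB δ N g τ)
    (H' : HasTy hB δ N h τ) :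
    ∃ w : End F V, (∀ x y, B (w x) (w y) = B x y) ∧ w * g = h * w := by
  have h2 := two_ne_zero_of_odd_card hF
  obtain ⟨⟨v1, d1⟩, ⟨v2, d2⟩, k, A, hA, hT⟩ := H
  obtain ⟨⟨v1', d1'⟩, ⟨v2', d2'⟩, k', A', hA', hT'⟩ := H'
  have e1 := (hasED_elemDiv A).1.eq_of_tyOf_eq (hasED_elemDiv A').1 (hT.symm.trans hT')
  have e2 : Sim (Matrix.toLin' A) (Matrix.toLin' A') :=
    Sim.trans (hasED_elemDiv A).2 (Sim.symm (e1 ▸ hasED_elemDiv A').2)
  obtain ⟨x, hx⟩ := sim_iff.1 ((hA.trans e2).trans hA'.symm)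
  have hc := isCompl_WU h2 g hN
  have hc' := isCompl_WU h2 h hN
  let fam := fun (X : End F V) (v1 v2 : ℕ → ℕ ⊕ ℕ → V) =>
    Sum.elim (fun x : ℕ × (ℕ ⊕ ℕ) × ℕ => (X ^ x.2.2) (v1 x.1 x.2.1))
      (fun x : ℕ × (ℕ ⊕ ℕ) × ℕ => (X ^ x.2.2) (v2 x.1 x.2.1))
  have hspan : ∀ {g : End F V} {v1 v2 : ℕ → ℕ ⊕ ℕ → V}, (∀ x y, B (g x) (g y) = B x y) →
      NilData B (g - adjB hB g) δ (Vc g 1 N) N τ.2.1 v1 →
      NilData B (g - adjB hB g) δ (Vc g (-1) N) N τ.2.2 v2 →
      Submodule.span F (Set.range (fam (g - adjB hB g) v1 v2)) = Vc g 1 N ⊔ Vc g (-1) N := by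
    intro g v1 v2 hg d1 d2
    rw [Set.Sum.elim_range, Submodule.span_union]
    congr 1
    · refine le_antisymm (Submodule.span_le.2 ?_) d1.span
      rintro _ ⟨i, rfl⟩; exact pow_mem_of_inv (Xop_inv hB hg) _ (d1.mem _ _)
    · refine le_antisymm (Submodule.span_le.2 ?_) d2.span
      rintro _ ⟨i, rfl⟩; exact pow_mem_of_inv (Xop_inv hB hg) _ (d2.mem _ _)
  obtain ⟨u, u1, u2⟩ := exists_map_family (B := B) (fam (g - adjB hB g) v1 v2)
    (fam (h - adjB hB h) v1' v2') (by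
      rintro (⟨e, i, j⟩ | ⟨e, i, j⟩) (⟨e', i', j'⟩ | ⟨e', i', j'⟩) <;>
        simp only [fam, Sum.elim_inl, Sum.elim_inr]
      · rw [skew_pow_pow (Xop_skew hB hg), skew_pow_pow (Xop_skew hB hh), d1.gram, d1'.gram]
      · rw [Vc_orth h2 hg (pow_mem_of_inv (Xop_inv hB hg) _ (d1.mem _ _))
          (pow_mem_of_inv (Xop_inv hB hg) _ (d2.mem _ _)),
          Vc_orth h2 hh (pow_mem_of_inv (Xop_inv hB hh) _ (d1'.mem _ _))
          (pow_mem_of_inv (Xop_inv hB hh) _ (d2'.mem _ _))]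
      · rw [alt_swap ha, Vc_orth h2 hg (pow_mem_of_inv (Xop_inv hB hg) _ (d1.mem _ _))
          (pow_mem_of_inv (Xop_inv hB hg) _ (d2.mem _ _)), alt_swap ha,
          Vc_orth h2 hh (pow_mem_of_inv (Xop_inv hB hh) _ (d1'.mem _ _))
          (pow_mem_of_inv (Xop_inv hB hh) _ (d2'.mem _ _))]
      · rw [skew_pow_pow (Xop_skew hB hg), skew_pow_pow (Xop_skew hB hh), d2.gram, d2'.gram])
    (fun v hv hv' => hB.1 v fun y => by
      obtain ⟨w, hw, u, hu, rfl⟩ := Submodule.mem_sup.1 (hc'.sup_eq_top ▸ Submodule.mem_top (x := y))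
      have : Submodule.span F (Set.range (fam (h - adjB hB h) v1' v2')) ≤
          LinearMap.ker (B v) := Submodule.span_le.2 (by rintro _ ⟨i, rfl⟩; exact hv' i)
      rw [hspan hh d1' d2'] at hv this
      rw [map_add, UW_orth hh N v hv w hw, zero_add]
      exact this hu)
  rw [hspan hg d1 d2] at u2
  have key : ∀ {c : F} {d : ℕ → ℕ × Bool} {v v' : ℕ → ℕ ⊕ ℕ → V}, c * c = 1 →
      NilData B (g - adjB hB g) δ (Vc g c N) N d v → NilData B (h - adjB hB h) δ (Vc h c N) N d v' →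
      (∀ e i j, u (((g - adjB hB g) ^ j) (v e i)) = ((h - adjB hB h) ^ j) (v' e i)) →
      (∀ w ∈ Vc g c N, u w ∈ Vc h c N) ∧ ∀ w ∈ Vc g c N, u (g w) = h (u w) := by
    intro c d v v' hc dv dv' hu
    have k1 : ∀ w ∈ Vc g c N, u w ∈ Vc h c N := fun w hw => by
      have : Submodule.span F (Set.range fun x : ℕ × (ℕ ⊕ ℕ) × ℕ =>
          ((g - adjB hB g) ^ x.2.2) (v x.1 x.2.1)) ≤ (Vc h c N).comap u := Submodule.span_le.2 (by
        rintro _ ⟨i, rfl⟩
        change u _ ∈ Vc h c N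
        rw [hu]; exact pow_mem_of_inv (Xop_inv hB hh) _ (dv'.mem _ _))
      exact this (dv.span hw)
    refine ⟨k1, intertwine_of_Xop hF hB hg hh hc k1 fun w hw => ?_⟩
    refine LinearMap.eqOn_span (f := u ∘ₗ (g - adjB hB g)) (g := (h - adjB hB h) ∘ₗ u) ?_
      (dv.span hw)
    rintro _ ⟨⟨e, i, j⟩, rfl⟩
    simp only [LinearMap.comp_apply]
    rw [hu, ← End.mul_apply (g - _), ← End.mul_apply (h - _), ← pow_succ', ← pow_succ', hu]
  obtain ⟨k1, k2⟩ := key (one_mul 1) d1 d1' fun e i j => u1 (.inl (e, i, j))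
  obtain ⟨k3, k4⟩ := key (by simp) d2 d2' fun e i j => u1 (.inr (e, i, j))
  refine sp_conj_of_parts hB ha hg hh hc (UW_orth hg N) hc'.symm.disjoint (UW_orth hh N)
    (u := u) (x := (Wg h N).subtype ∘ₗ x.toLinearMap ∘ₗ (Wg g N).projectionOnto _ hc) ?_
    (Wg_inv g N) (Wg_inj h2 g hN hN0) ?_ u2 ?_ (fun v _ => Subtype.property _) ?_ ?_
  · intro v hv
    obtain ⟨a, ha, b, hb, rfl⟩ := Submodule.mem_sup.1 hv
    rw [map_add]
    exact Submodule.add_mem_sup (mem_Vc_of_comm (Commute.refl _) ha)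
      (mem_Vc_of_comm (Commute.refl _) hb)
  · intro v hv
    obtain ⟨a, ha, b, hb, rfl⟩ := Submodule.mem_sup.1 hv
    rw [map_add]
    exact Submodule.add_mem_sup (k1 a ha) (k3 b hb)
  · intro v hv
    obtain ⟨a, ha, b, hb, rfl⟩ := Submodule.mem_sup.1 hv
    simp only [map_add, k2 a ha, k4 b hb]
  · intro v hv h0
    simpa [Submodule.projectionOnto_apply_of_mem_left hc hv] using h0
  · intro v hv
    have := congrArg Subtype.val (hx ⟨v, hv⟩)
    simpa [Submodule.projectionOnto_apply_of_mem_left hc hv,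
      Submodule.projectionOnto_apply_of_mem_left hc (Wg_inv g N v hv),
      LinearMap.restrict_apply] using this

theorem exists_hasTy [Fintype F] (hF : Odd (Fintype.card F)) (hB : B.Nondegenerate)
    (ha : ∀ x, B x x = 0) {δ : F} (hδ : ¬ IsSquare δ) {N : ℕ} (hN : finrank F V ≤ N) (hN0 : 0 < N)
    {g : End F V} (hg : ∀ x y, B (g x) (g y) = B x y) :
    ∃ τ, HasTy hB δ N g τ ∧ (∀ e, (τ.1 e).Monic ∧ (τ.1 e).coeff 0 ≠ 0 ∧ SD (RingHom.id F) (τ.1 e) ∧
      (τ.1 e).eval 1 ≠ 0 ∧ (τ.1 e).eval (-1) ≠ 0 ∧ ValidD e (τ.2.1 e) ∧ ValidD e (τ.2.2 e)) ∧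
      (∀ e, e = 0 ∨ N < e → τ.1 e = 1 ∧ τ.2.1 e = (0, false) ∧ τ.2.2 e = (0, false)) ∧
      finrank F V = ∑ e ∈ range (N + 1),
        (e * (τ.1 e).natDegree + (dimc e (τ.2.1 e) + dimc e (τ.2.2 e))) := by
  have h2 := two_ne_zero_of_odd_card hF
  obtain ⟨d1, v1, h1⟩ := exists_nilData hF hδ ha (Xop_skew hB hg) N (Vc g 1 N) (Xop_inv hB hg)
    (Xop_nil hB hg (one_mul 1)) (Vc_nondeg h2 hB ha hg hN (Or.inl rfl))
  obtain ⟨d2, v2, h3⟩ := exists_nilData hF hδ ha (Xop_skew hB hg) N (Vc g (-1) N) (Xop_inv hB hg)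
    (Xop_nil hB hg (by simp)) (Vc_nondeg h2 hB ha hg hN (Or.inr rfl))
  let b := finBasis F (Wg g N)
  let A := LinearMap.toMatrix b b (g.restrict (Wg_inv g N))
  have hsim : Sim (g.restrict (Wg_inv g N)) (Matrix.toLin' A) :=
    sim_iff.2 ⟨b.equivFun, fun v => (LinearMap.toMatrix_mulVec_repr b b _ v).symm⟩
  have hG : (HForm.gram (B.restrict (Wg g N)) b).det ≠ 0 :=
    HForm.gram_det_ne_zero _ b fun x hx => Subtype.ext (hB.1 _ fun y => by
      obtain ⟨w, hw, u, hu, rfl⟩ := Submodule.mem_sup.1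
        ((isCompl_WU h2 g hN).sup_eq_top ▸ Submodule.mem_top (x := y))
      rw [map_add, alt_swap ha u, UW_orth hg N u hu _ x.2]
      simpa using hx ⟨w, hw⟩)
  have hA := HForm.gram_isom (B.restrict (Wg g N)) b (g.restrict (Wg_inv g N)) fun x y => hg _ _
  have hdet := HForm.det_ne_zero_of_isom _ _ _ hG hA
  have hE := hasED_elemDiv A
  have hT := hE.tyOf_mem hdet
  rw [Fintype.card_fin] at hT
  have hk : finrank F (Wg g N) ≤ N := (Submodule.finrank_le _).trans hN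
  have hev : ∀ c : F, c * c = 1 → ∀ e, (tyOf (elemDiv A) e).eval c ≠ 0 := by
    intro c hc e h0
    have h4 : A.charpoly.eval c = 0 := by
      by_cases he : e = 0 ∨ finrank F (Wg g N) < e
      · rw [hT.2.1 e he] at h0; simp at h0
      · rw [hE.charpoly_eq_tyOf, eval_prod]
        exact prod_eq_zero (i := e) (by simp; omega) (by rw [eval_pow, h0, zero_pow (by omega)])
    rw [Matrix.eval_charpoly] at h4
    obtain ⟨w, hw0, hw⟩ := Matrix.exists_mulVec_eq_zero_iff.2 h4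
    obtain ⟨w, rfl⟩ := b.equivFun.surjective w
    have h5 : g.restrict (Wg_inv g N) w = c • w := by
      apply b.equivFun.injective
      rw [map_smul]
      have := LinearMap.toMatrix_mulVec_repr b b (g.restrict (Wg_inv g N)) w
      rw [Matrix.sub_mulVec, sub_eq_zero] at hw
      exact this.symm.trans (hw.symm.trans (by simp))
    have h6 : g w = c • (w : V) := congrArg Subtype.val h5
    apply hw0
    rw [show w = 0 from Subtype.ext (Wg_inj h2 g hN hN0 _ w.2 (by simp [h6, smul_smul, hc])),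
      map_zero]
  refine ⟨(tyOf (elemDiv A), d1, d2), ⟨⟨v1, h1⟩, ⟨v2, h3⟩, _, A, hsim, rfl⟩, fun e => ⟨(hT.1 e).1,
    (hT.1 e).2, (sd_iff (hT.1 e).2).2 (dualP_tyOf (fun _ => rfl) hG hA hE e), hev 1 (by simp) e,
    hev (-1) (by simp) e, h1.valid e, h3.valid e⟩,
    fun e he => ⟨hT.2.1 e (by omega), h1.zero e he, h3.zero e he⟩, ?_⟩
  rw [sum_add_distrib, sum_add_distrib, ← h1.dim, ← h3.dim, finrank_decomp h2 g hN]
  congr 1
  refine hT.2.2.symm.trans (sum_subset (range_mono (by omega)) fun e _ he => ?_)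
  rw [hT.2.1 e (by simp at he; omega)]; simp

end Cfsg.Agent.Forms
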