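import Cfsg.Agent.Forms.NormLem
import Cfsg.Agent.Forms.Dual
import Cfsg.Agent.HForm.Realize

/-! Conjugacy in unitary groups. -/

set_option autoImplicit false

namespace Cfsg.Agent.Forms

open Polynomial Matrix Cfsg.Agent.GLn

variable {F : Type*} [Field F] {τ : F →+* F}

/-- The star structure given by an involution. -/
@[reducible] def tauStar (hττ : ∀ a, τ (τ a) = a) : StarRing F where
  star := τ
  star_involutive := hττ
  star_mul a b := by rw [map_mul, mul_comm]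
  star_add := map_add τ

variable {ι : Type*} [Fintype ι] [DecidableEq ι]

/-- Unitary matrices. -/
def IsU (τ : F →+* F) (g : Matrix ι ι F) : Prop := gᵀ * g.map τ = 1

theorem isU_iff (hττ : ∀ a, τ (τ a) = a) (g : Matrix ι ι F) :
    IsU τ g ↔ (g.map τ)ᵀ * g = 1 := by
  have key : ∀ A : Matrix ι ι F, (A.map τ).map τ = A := fun A => by ext i j; simp [hττ]
  constructor
  · intro h
    have := congrArg (·.map τ) h
    simpa [Matrix.map_mul, key, transpose_map] using this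
  · intro h
    have := congrArg (·.map τ) h
    simp only [Matrix.map_mul, ← transpose_map, key] at this
    simpa [IsU, transpose_map, key] using this

theorem IsU.mul {g h : Matrix ι ι F} (hg : IsU τ g) (hh : IsU τ h) : IsU τ (g * h) := by
  unfold IsU at *
  rw [transpose_mul, Matrix.map_mul, mul_assoc, ← mul_assoc gᵀ, hg, one_mul, hh]

theorem IsU.det {g : Matrix ι ι F} (hg : IsU τ g) : g.det * τ g.det = 1 := by
  have := congrArg Matrix.det hg
  rwa [det_mul, det_transpose, ← RingHom.mapMatrix_apply, ← RingHom.map_det, det_one] at this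

theorem IsU.det_ne {g : Matrix ι ι F} (hg : IsU τ g) : g.det ≠ 0 :=
  left_ne_zero_of_mul_eq_one hg.det

theorem IsU.inv {g : Matrix ι ι F} (hg : IsU τ g) : IsU τ g⁻¹ := by
  have hu : IsUnit g.det := IsUnit.mk0 _ hg.det_ne
  unfold IsU at *
  calc g⁻¹ᵀ * g⁻¹.map τ = g⁻¹ᵀ * (gᵀ * g.map τ) * g⁻¹.map τ := by rw [hg, mul_one]
    _ = (g * g⁻¹)ᵀ * (g * g⁻¹).map τ := by
        rw [transpose_mul, Matrix.map_mul]; simp only [mul_assoc]
    _ = 1 := by rw [mul_nonsing_inv _ hu]; simp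

variable [Finite F]

theorem exists_isU_conj (hττ : ∀ a, τ (τ a) = a) (hne : ∃ θ, τ θ ≠ θ) {g h : Matrix ι ι F}
    (hg : IsU τ g) (hh : IsU τ h) (hc : IsConj g h) : ∃ u, IsU τ u ∧ u * g = h * u := by
  letI := tauStar hττ
  obtain ⟨θ, hθ⟩ := hne
  obtain ⟨x, hx⟩ := hc
  have hst : ∀ A : Matrix ι ι F, star A = (A.map τ)ᵀ := fun A => rfl
  obtain ⟨u, h1, h2⟩ := exists_unitary_of_conj_central (θ := θ • (1 : Matrix ι ι F))
    ((isU_iff hττ g).1 hg) ((isU_iff hττ h).1 hh) x.isUnit hx.eq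
    (fun m => (Commute.one_left m).smul_left θ) (by
      rw [star_smul, star_one, ← sub_smul]
      exact (IsUnit.mk0 _ (sub_ne_zero.2 hθ.symm)).map (algebraMap F (Matrix ι ι F)) |>.mul
        isUnit_one |> fun h => by rwa [← Algebra.smul_def] at h)
  exact ⟨u, (isU_iff hττ u).2 h1, h2⟩

theorem exists_isU_cent_det (hττ : ∀ a, τ (τ a) = a) (hne : ∃ θ, τ θ ≠ θ) {g : Matrix ι ι F}
    (hg : IsU τ g) {t : Fˣ} (ht : t ∈ centDet g) :
    ∃ u, IsU τ u ∧ Commute u g ∧ u.det = t / τ t := by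
  letI := tauStar hττ
  obtain ⟨θ, hθ⟩ := hne
  obtain ⟨x, hx, rfl⟩ := ht
  have hg1 : star g * g = 1 := (isU_iff hττ g).1 hg
  have hg2 : g * star g = 1 := mul_eq_one_comm.1 hg1
  obtain ⟨z, u, h1, h2, h3⟩ := exists_unitary_conj (Subring.centralizer {g})
    (fun w hw m hm => by
      rw [Set.mem_singleton_iff.1 hm]
      have := congrArg star (hw g rfl)
      rw [star_mul, star_mul] at this
      calc g * star w = g * star w * (star g * g) := by rw [hg1, mul_one]
        _ = g * (star w * star g) * g := by simp only [mul_assoc]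
        _ = star w * g := by rw [this, ← mul_assoc, hg2, one_mul])
    (θ := θ • (1 : Matrix ι ι F)) (fun m _ => ((Commute.one_left m).smul_left θ).symm.eq)
    (fun m => (Commute.one_left m).smul_left θ) (by
      rw [star_smul, star_one, ← sub_smul]
      exact (IsUnit.mk0 _ (sub_ne_zero.2 hθ.symm)).map (algebraMap F (Matrix ι ι F)) |>.mul
        isUnit_one |> fun h => by rwa [← Algebra.smul_def] at h) x
    (fun m hm => by rw [Set.mem_singleton_iff.1 hm]; exact hx.symm.eq)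
  refine ⟨u, (isU_iff hττ _).2 h2, (h1 g rfl).symm, ?_⟩
  have h4 := congrArg (fun w : (Matrix ι ι F)ˣ => (w : Matrix ι ι F).det) h3
  simp only [Units.val_mul, det_mul] at h4
  have hz : (z : Matrix ι ι F).det ≠ 0 := GeneralLinearGroup.det_ne_zero z
  rw [mul_comm] at h4
  rw [mul_left_cancel₀ hz h4, div_eq_mul_inv]
  congr 1
  have h5 : (((star x)⁻¹ : (Matrix ι ι F)ˣ) : Matrix ι ι F).det *
      τ ((GeneralLinearGroup.det x : Fˣ) : F) = 1 := by
    have : τ ((GeneralLinearGroup.det x : Fˣ) : F) = ((star x : (Matrix ι ι F)ˣ) : Matrix ι ι F).det :=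
      (det_conjTranspose (x : Matrix ι ι F)).symm
    rw [this, ← det_mul, Units.inv_mul, det_one]
  exact eq_inv_of_mul_eq_one_left h5

variable {S : Subgroup (SpecialLinearGroup ι F)}

theorem su_isConj_of (hττ : ∀ a, τ (τ a) = a) (hne : ∃ θ, τ θ ≠ θ)
    (hS : ∀ g : SpecialLinearGroup ι F, g ∈ S ↔ IsU τ (g : Matrix ι ι F)) {g h : S}
    {u : Matrix ι ι F} (hu : IsU τ u) (hc : u * g.1 = h.1 * u) {t : Fˣ}
    (ht : t ∈ centDet (g.1 : Matrix ι ι F)) (hd : u.det = t / τ t) : IsConj g h := by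
  obtain ⟨v, h1, h2, h3⟩ := exists_isU_cent_det hττ hne ((hS _).1 g.2) ht
  have hv : IsUnit v.det := IsUnit.mk0 _ h1.det_ne
  have hdet : (u * v⁻¹).det = 1 := by
    rw [det_mul, det_nonsing_inv, hd, ← h3, Ring.mul_inverse_cancel _ hv]
  refine isConj_iff.mpr ⟨⟨⟨_, hdet⟩, (hS _).2 (hu.mul h1.inv)⟩, mul_inv_eq_iff_eq_mul.mpr ?_⟩
  apply Subtype.ext
  apply Subtype.ext
  change (u * v⁻¹) * g.1 = h.1 * (u * v⁻¹)
  have : v⁻¹ * g.1 = g.1 * v⁻¹ := by
    calc v⁻¹ * g.1 = v⁻¹ * (g.1 * v) * v⁻¹ := by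
          rw [mul_assoc, mul_assoc, mul_nonsing_inv _ hv, mul_one]
      _ = g.1 * v⁻¹ := by rw [← h2.eq, ← mul_assoc, nonsing_inv_mul _ hv, one_mul]
  rw [mul_assoc, this, ← mul_assoc, hc, mul_assoc]

omit [Finite F] in
theorem exists_div_tau (hττ : ∀ a, τ (τ a) = a) (hne : ∃ θ, τ θ ≠ θ) {c : F} (hc : c * τ c = 1) :
    ∃ t : Fˣ, c = t / τ t := by
  obtain ⟨t, h0, ht⟩ := HForm.exists_hilbert90 hττ hne c hc
  refine ⟨Units.mk0 t h0, ?_⟩
  have : τ t ≠ 0 := by simpa using h0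
  rw [Units.val_mk0, eq_div_iff this, ← ht]

variable (p : ℕ) [Fact p.Prime] [CharP F p]

theorem su_isConj_of_charpoly_eq (hττ : ∀ a, τ (τ a) = a) (hne : ∃ θ, τ θ ≠ θ)
    (hS : ∀ g : SpecialLinearGroup ι F, g ∈ S ↔ IsU τ (g : Matrix ι ι F)) {g h : S}
    (hg : (orderOf g).Coprime p) (hh : (orderOf h).Coprime p)
    (hc : (g.1 : Matrix ι ι F).charpoly = (h.1 : Matrix ι ι F).charpoly) : IsConj g h := by
  rw [← Subgroup.orderOf_coe] at hg hh
  have eg := hasED_elemDiv (g.1 : Matrix ι ι F)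
  have eh := hasED_elemDiv (h.1 : Matrix ι ι F)
  have he := (sl_coprime_iff p eg).mp hg
  have e := eg.1.eq_of_semisimple eh.1 he ((sl_coprime_iff p eh).mp hh)
    (by rw [← eg.charpoly, ← eh.charpoly, hc])
  obtain ⟨u, h1, h2⟩ := exists_isU_conj hττ hne ((hS _).1 g.2) ((hS _).1 h.2)
    (isConj_iff_elemDiv.2 e)
  obtain ⟨t, ht⟩ := exists_div_tau hττ hne h1.det
  by_cases h0 : elemDiv (g.1 : Matrix ι ι F) = 0
  · have : IsEmpty ι := by
      rw [← Fintype.card_eq_zero_iff, ← eg.card_eq, h0]; simp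
    have : g = h := Subtype.ext (Subtype.ext (Subsingleton.elim _ _))
    rw [this]
  · obtain ⟨x, hx⟩ := Multiset.exists_mem_of_ne_zero h0
    exact su_isConj_of hττ hne hS h1 h2 (t := t)
      (by simpa [he x hx] using eg.pow_mem_centDet hx t) ht

end Cfsg.Agent.Forms
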