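import Cfsg.Agent.Forms.UClass
import Cfsg.Agent.Forms.UnitGroup

/-! Semisimple classes of special unitary groups. -/

set_option autoImplicit false

namespace Cfsg.Agent.Forms

open Polynomial Matrix Cfsg.Agent.GLn

variable {F : Type*} [Field F]

theorem aroots_of_sd {K : Type*} [Field K] [Algebra F K] [IsAlgClosed K] (τ : F →+* F)
    (τK : K →+* K) (hτ : ∀ a, τK (algebraMap F K a) = algebraMap F K (τ a)) {f : F[X]}
    (hf : f.Monic) (h : SD τ f) :
    (0 : K) ∉ f.aroots K ∧ (f.aroots K).map (fun x => (τK x)⁻¹) = f.aroots K := by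
  have h1 := h.norm hf
  have h0 : (0 : K) ∉ f.aroots K := by
    intro h0
    rw [mem_aroots, ← coeff_zero_eq_aeval_zero', map_eq_zero] at h0
    exact left_ne_zero_of_mul_eq_one h1 h0.2
  refine ⟨h0, ?_⟩
  have h2 := congrArg (fun p => aroots p K) h
  rw [aroots_C_mul _ (right_ne_zero_of_mul_eq_one h1), aroots_def, ← HForm.reverse_map_algebraMap,
    HForm.roots_reverse_of_monic _ ((hf.map _).map _), ← aroots_def, HForm.aroots_map_tau τ τK hτ,
    Multiset.map_map] at h2
  · exact h2
  · rw [← aroots_def, HForm.aroots_map_tau τ τK hτ]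
    simpa using h0

theorem coprime_of_aeval {K : Type*} [Field K] [Algebra F K] (p : ℕ) [Fact p.Prime] [CharP F p]
    {ι : Type*} [Fintype ι] [DecidableEq ι] {G : Type*} [Group G] [Finite G]
    (φ : G →* Matrix ι ι F) (hφ : Function.Injective φ) (g : G) (R : Multiset K)
    (h : ∀ P : F[X], aeval (φ g) P = 0 ↔ ∀ x ∈ R, aeval x P = 0) : (orderOf g).Coprime p := by
  have hp : p.Prime := Fact.out
  have : CharP K p := charP_of_injective_algebraMap (algebraMap F K).injective p
  obtain ⟨a, m, hm, hom⟩ := Nat.exists_eq_pow_mul_and_not_dvd (orderOf_pos g).ne' p hp.one_lt.ne'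
  have h1 := (h (X ^ orderOf g - 1)).1 (by
    rw [map_sub, map_pow, aeval_X, map_one, ← map_pow, pow_orderOf_eq_one, map_one, sub_self])
  have h2 := (h (X ^ m - 1)).2 fun x hx => by
    have := h1 x hx
    simp only [map_sub, map_pow, aeval_X, map_one] at this ⊢
    rw [hom, mul_comm, pow_mul, ← one_pow (p ^ a), ← sub_pow_char_pow] at this
    exact pow_eq_zero_iff (pow_pos hp.pos a).ne' |>.1 this
  have h3 : orderOf g ∣ m := orderOf_dvd_of_pow_eq_one (hφ (by
    simpa [sub_eq_zero] using h2))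
  exact Nat.Coprime.coprime_dvd_left h3 ((Nat.coprime_comm.mp (hp.coprime_iff_not_dvd.mpr hm)))

theorem card_semisimple_SU [Fintype F] {q : ℕ} (hF : Fintype.card F = q ^ 2) (p : ℕ) [Fact p.Prime]
    [CharP F p] (n : ℕ) :
    Nat.card {c : ConjClasses (SU (n + 1) F q) //
      ∃ g, ConjClasses.mk g = c ∧ (orderOf g).Coprime p} = q ^ n := by
  classical
  have hττ := frobq_frobq hF
  have hne := exists_frobq_ne hF
  have hS := HForm.mem_SU_iff (q := q) (n + 1) (frobq_apply hF)
  have h1 := card_sd_sq hττ hne n (c := (-1) ^ (n + 1)) (by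
    rw [map_pow, map_neg, map_one, neg_one_pow_mul_neg_one_pow_self])
  rw [Nat.card_eq_fintype_card (α := F), hF, ← pow_mul, mul_comm, pow_mul] at h1
  rw [← Nat.pow_left_injective two_ne_zero h1]
  refine card_conjClasses_subtype_eq _ (fun g : SU (n + 1) F q => g.1.val.charpoly) _ ?_ ?_ ?_
  · intro g _
    have h0 : g.1.val.charpoly.coeff 0 = (-1) ^ (n + 1) := by
      have := g.1.det_coe
      rw [Matrix.det_eq_sign_charpoly_coeff, Fintype.card_fin] at this
      linear_combination (-1) ^ (n + 1) * this - g.1.val.charpoly.coeff 0 *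
        neg_one_pow_mul_neg_one_pow_self (R := F) (n + 1)
    refine ⟨Matrix.charpoly_monic _, by simp, h0, (sd_iff (by rw [h0]; simp)).2 ?_⟩
    exact dualP_charpoly hττ (G := 1) (by simp) (by simpa using (hS _).1 g.2)
  · intro g h hg hh
    refine ⟨fun H => ?_, su_isConj_of_charpoly_eq p hττ hne hS hg hh⟩
    have := gl_isConj_iff.mp (Matrix.SpecialLinearGroup.toGL.map_isConj
      ((SU (n + 1) F q).subtype.map_isConj H))
    exact (isConj_iff_sim.mp this).charpoly |> fun h => by
      rw [Matrix.charpoly_toLin', Matrix.charpoly_toLin'] at h; exact h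
  · rintro χ ⟨h1, h2, h3, h4⟩
    obtain ⟨τK, hτK⟩ := HForm.exists_tau hF (AlgebraicClosure F)
    obtain ⟨h5, h6⟩ := aroots_of_sd (frobq hF) τK (fun a => by rw [hτK, frobq_apply, map_pow]) h1 h4
    obtain ⟨χ', k1, k2, k3⟩ := HForm.realR_u_ss hF (frobq_apply hF) _ (by simpa [hτK] using h6) h5
    rw [HForm.eq_of_aroots_eq _ _ k1 h1 k2] at k3
    obtain ⟨g, e1, e2, e3⟩ := k3.toU hF (frobq_apply hF) (n + 1) h2
    have hd : g.det = 1 := by
      rw [Matrix.det_eq_sign_charpoly_coeff, e2, h3, Fintype.card_fin,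
        neg_one_pow_mul_neg_one_pow_self]
    refine ⟨⟨⟨g, hd⟩, (hS _).2 e1⟩, ?_, e2⟩
    exact coprime_of_aeval p ((SpecialLinearGroup.coeMonoidHom).comp (SU (n + 1) F q).subtype)
      (fun a b h => Subtype.ext (Subtype.ext h)) _ _ e3

end Cfsg.Agent.Forms
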