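import Cfsg.Agent.Forms.LowRank
import Cfsg.Agent.Forms.Weil

/-!
The Weil representations are the representations of `Sp_{2n}(q)` with weights of rank at most one.
-/

set_option autoImplicit false

namespace Cfsg.Agent.Forms

open Module Finset Matrix Cfsg.Agent.Polar Cfsg.Agent.Polar.PQ Cfsg.Agent.CharLib

variable {F : Type*} [Field F] {n : ℕ} {ψ : AddChar F ℂ}

theorem op_heis (h2 : (2 : F) ≠ 0) (u : Fin n ⊕ Fin n → F) : OP fun s : F => heis ψ (s • u) where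
  zero := by rw [zero_smul, heis_zero]
  add c d := by simp [heis_mul h2, add_smul, sympB_self]

theorem heis_mem_Wt (h2 : (2 : F) ≠ 0) {u : Fin n ⊕ Fin n → F} (v : Fin n ⊕ Fin n → F) {r : F}
    {f : (Fin n → F) → ℂ} (hf : f ∈ Wt ψ (fun s : F => heis ψ (s • u)) r) :
    heis ψ v f ∈ Wt ψ (fun s : F => heis ψ (s • u)) (r - (spStd F n).B u v) := mem_Wt.2 fun s => by
  have h1 : heis ψ (s • u) * heis ψ v = ψ (-(s * (spStd F n).B u v)) • (heis ψ v * heis ψ (s • u)) := by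
    rw [heis_mul h2, heis_mul h2, smul_smul, ← AddChar.map_add_eq_mul, add_comm v, ← spStd_B,
      ← spStd_B, sp_swap (s • u), B_smul_left]
    congr 2
    field_simp
    ring
  rw [← End.mul_apply, h1, LinearMap.smul_apply, End.mul_apply, mem_Wt.1 hf, map_smul, smul_smul,
    ← AddChar.map_add_eq_mul]
  congr 2
  ring

theorem single_mem_Wt [DecidableEq F] {u : Fin n ⊕ Fin n → F} (hu : xs u = 0) (t : Fin n → F) :
    Pi.single t 1 ∈ Wt ψ (fun s : F => heis ψ (s • u)) (ys u ⬝ᵥ t) := mem_Wt.2 fun s => by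
  funext x
  simp only [heis, wcomp_apply, show xs (s • u) = s • xs u from rfl, hu, smul_zero, add_zero,
    show ys (s • u) = s • ys u from rfl, zero_dotProduct, mul_zero, smul_dotProduct, smul_eq_mul,
    Pi.smul_apply, Pi.single_apply]
  split_ifs with h
  · rw [h]
  · simp

variable [Fintype F]

variable (ψ) in
/-- The action of transvections in the Weil representation. -/
noncomputable def wtv (u : Fin n ⊕ Fin n → F) (c : F) : End ℂ ((Fin n → F) → ℂ) :=
  fcal ψ (fun s : F => heis ψ (s • u)) fun r => ψ (c * (2⁻¹ * (r * r)))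

theorem mem_Wt_wtv (hψ : ψ ≠ 1) {u : Fin n ⊕ Fin n → F} {r : F} {f : (Fin n → F) → ℂ}
    (hf : f ∈ Wt ψ (fun s : F => heis ψ (s • u)) r) : f ∈ Wt ψ (wtv ψ u) (2⁻¹ * (r * r)) :=
  mem_Wt.2 fun _ => fcal_of_mem hψ _ hf

theorem op_wtv (h2 : (2 : F) ≠ 0) (hψ : ψ ≠ 1) (u : Fin n ⊕ Fin n → F) : OP (wtv ψ u) where
  zero := wt_ext hψ (op_heis (ψ := ψ) h2 u) fun r f hf => by simp [mem_Wt.1 (mem_Wt_wtv hψ hf)]
  add c d := wt_ext hψ (op_heis (ψ := ψ) h2 u) fun r f hf => by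
    simp [mem_Wt.1 (mem_Wt_wtv hψ hf), add_mul, AddChar.map_add_eq_mul, smul_smul, mul_comm]

theorem wtv_mul_heis (h2 : (2 : F) ≠ 0) (hψ : ψ ≠ 1) (u v : Fin n ⊕ Fin n → F) (c : F) :
    wtv ψ u c * heis ψ v = heis ψ ((spStd F n).eich u 0 c • v) * wtv ψ u c :=
  wt_ext hψ (op_heis (ψ := ψ) h2 u) fun r f hf => by
    have h1 : heis ψ ((spStd F n).eich u 0 c • v) = ψ (2⁻¹ * (spStd F n).B v
        ((c * (spStd F n).B v u) • u)) • (heis ψ v * heis ψ ((c * (spStd F n).B v u) • u)) := by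
      rw [heis_mul h2, smul_smul, ← AddChar.map_add_eq_mul, spStd_B v (_ • _), add_neg_cancel,
        (sp_eOk (by simp) c).eich_smul]
      simp
    rw [End.mul_apply, mem_Wt.1 (mem_Wt_wtv hψ (heis_mem_Wt h2 v hf)), End.mul_apply,
      mem_Wt.1 (mem_Wt_wtv hψ hf), map_smul, h1, LinearMap.smul_apply, End.mul_apply, mem_Wt.1 hf,
      map_smul (heis ψ v), smul_smul, smul_smul, ← AddChar.map_add_eq_mul,
      ← AddChar.map_add_eq_mul, B_smul_right, sp_swap u v, RingHom.id_apply]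
    congr 2
    field_simp
    ring

variable [DecidableEq F] {ω : Representation ℂ (spStd F n).EG ((Fin n → F) → ℂ)}

theorem tv_eq_wtv (hn : 2 ≤ n) (h2 : (2 : F) ≠ 0) (hψ : ψ ≠ 1)
    (hω : ∀ g v, ω g * heis ψ v = heis ψ ((g : (spStd F n).Iso) • v) * ω g)
    {u : Fin n ⊕ Fin n → F} (hu : u ≠ 0) : tv ω u = wtv ψ u := by
  let i : Fin n := ⟨0, by omega⟩
  let j : Fin n := ⟨1, by omega⟩
  have hij : i ≠ j := by simp [i, j]
  let a : Fin n ⊕ Fin n → F := Pi.single (.inr i) 1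
  let b : Fin n ⊕ Fin n → F := Pi.single (.inr j) 1
  have h1 : ∀ c, ∃ l : ℂ, tv ω a c = l • wtv ψ a c := by
    intro c
    obtain ⟨l, hl⟩ := eq_smul_of_comm_heis h2 hψ (S := wtv ψ a (-c) * tv ω a c) fun v => by
      rw [mul_assoc, tv, hω, ← mul_assoc, ← mul_assoc, wtv_mul_heis h2 hψ, coe_ee, ← mul_smul,
        (sp_eOk (by simp) _).eich_mul (sp_eOk (by simp) _)]
      simp only [add_zero, neg_add_cancel, map_zero, PQ.eich_zero, one_smul]
    refine ⟨l, ?_⟩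
    rw [← mul_one (wtv ψ a c), ← mul_smul_comm, ← hl, ← mul_assoc, ← (op_wtv h2 hψ a).add,
      add_neg_cancel, (op_wtv h2 hψ a).zero, one_mul]
  choose l hl using h1
  have h3 : ∀ u ≠ 0, ∀ c, tv ω u c = l c • wtv ψ u c := by
    intro u hu c
    obtain ⟨g, hg, rfl⟩ := sp_vTrans (spStd_nd n) a u trivial trivial (by simp [a]) hu
    refine ((Group.isUnit (⟨g, hg⟩ : (spStd F n).EG)).map ω).mul_right_cancel ?_
    rw [← tv_conj ⟨g, hg⟩, hl, mul_smul_comm, smul_mul_assoc, wtv, wtv,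
      fcal_comm (τ' := fun s : F => heis ψ (s • g • a)) fun s => by rw [hω, act_smul]]
  have h4 : ∀ u ≠ 0, xs u = 0 → ∀ c, tv ω u c (Pi.single 0 1) = l c • Pi.single 0 1 := by
    intro u hu hu' c
    rw [h3 u hu, LinearMap.smul_apply, mem_Wt.1 (mem_Wt_wtv hψ (single_mem_Wt hu' 0))]
    simp
  have ha : xs a = 0 := funext fun k => by simp [xs, a]
  have hb : xs b = 0 := funext fun k => by simp [xs, b]
  have ha0 : a ≠ 0 := by simp [a]
  have hinj := smul_left_injective ℂ (show (Pi.single 0 1 : (Fin n → F) → ℂ) ≠ 0 by simp)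
  have h5 : ∀ c d, l (c + d) = l c * l d := fun c d => hinj (by
    simp only [← h4 a ha0 ha]
    rw [(op_tv ω a).add, End.mul_apply, h4 a ha0 ha, map_smul, h4 a ha0 ha, smul_smul, mul_comm])
  have h6 : l 0 = 1 := hinj (by simp only [← h4 a ha0 ha, (op_tv ω a).zero, one_smul, End.one_apply])
  have hab : (spStd F n).B b a = 0 := by rw [spStd_B, sympB_eq_dot, ha, hb]; simp
  have h7 : ∀ c, l c * l c = l (c + c) * l (c + c) := fun c => hinj (by
    have h8 : (spStd F n).ee (a + b) 0 c * (spStd F n).ee (a - b) 0 c =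
        (spStd F n).ee a 0 (c + c) * (spStd F n).ee b 0 (c + c) := Subtype.ext (iso_ext fun v => by
      have h9 : ∀ e c v, (spStd F n).eich e 0 c • v = v + (c * (spStd F n).B v e) • e :=
        fun e c v => by simp [(sp_eOk (P := spStd F n) (e := e) (w := 0) (by simp) c).eich_smul]
      simp only [Subgroup.coe_mul, coe_ee, mul_smul, h9, map_add, map_sub, LinearMap.add_apply,
        LinearMap.sub_apply, B_smul_left, sp_B_self, hab, B_swap_zero hab]
      module)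
    have h9 := congrArg (fun g => ω g (Pi.single 0 1)) h8
    simp only [map_mul, End.mul_apply, ← tv.eq_def] at h9
    rw [h4 _ (fun h => by simpa [a, b, hij] using congrFun h (.inr i))
      (by rw [show xs (a - b) = xs a - xs b from rfl, ha, hb, sub_zero]), map_smul,
      h4 _ (fun h => by simpa [a, b, hij] using congrFun h (.inr i))
      (by rw [show xs (a + b) = xs a + xs b from rfl, ha, hb, add_zero]),
      h4 b (by simp [b]) hb, map_smul, h4 a ha0 ha, smul_smul, smul_smul] at h9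
    exact h9)
  funext c
  have h8 := h7 (c / 2)
  have h9 : c / 2 + c / 2 = c := by field_simp; norm_num
  rw [← h5, h9] at h8
  have h10 : l c ≠ 0 := left_ne_zero_of_mul_eq_one (by rw [← h5, add_neg_cancel, h6])
  rw [h3 u hu, mul_left_cancel₀ h10 (h8.symm.trans (mul_one _).symm), one_smul]

omit [DecidableEq F] in
theorem wtv_typed (h2 : (2 : F) ≠ 0) (hψ : ψ ≠ 1) {u : Fin n ⊕ Fin n → F} {x : F}
    {f : (Fin n → F) → ℂ} (hf0 : f ≠ 0) (hf : f ∈ Wt ψ (wtv ψ u) x) : ∃ r, x = 2⁻¹ * (r * r) := by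
  by_contra h
  refine hf0 (wt_induction hψ (op_heis (ψ := ψ) h2 u) (W := Wt ψ (wtv ψ u) x) (N := ⊥)
    (fun s f hf => map_mem_Wt' (fun c => fcal_comm (fun t => ?_) _) hf) (fun r f hf hf' => ?_) hf)
  · rw [← (op_heis (ψ := ψ) h2 u).add, ← (op_heis (ψ := ψ) h2 u).add, add_comm]
  · classical
    rw [← prj_self hψ hf, prj_of_mem hψ (mem_Wt_wtv hψ hf'), if_neg fun h' => h ⟨r, h'⟩]
    rfl

theorem weil_factor (hn : 2 ≤ n) (h2 : (2 : F) ≠ 0) (hψ : ψ ≠ 1)
    (hω : ∀ g v, ω g * heis ψ v = heis ψ ((g : (spStd F n).Iso) • v) * ω g)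
    (hJ : ∀ g, ω g * parity n F = parity n F * ω g) {M : Type*} [AddCommGroup M] [Module ℂ M]
    {ρ : Representation ℂ (spStd F n).EG M} (h : Low ρ ψ) (ht : Typed ρ ψ)
    (hfix : ∀ m, (∀ g, ρ g m = m) → m = 0) :
    ∃ Θ : End ℂ ((Fin n → F) → ℂ) →ₗ[ℂ] End ℂ M, ∀ g, Θ (ω g) = ρ g := by
  let Θ : End ℂ ((Fin n → F) → ℂ) →ₗ[ℂ] End ℂ M :=
    (heisBasis h2 hψ).constr ℂ fun v => (2⁻¹ : ℂ) • evn ρ ψ v
  have hΘ : ∀ v, Θ (heis ψ v) = (2⁻¹ : ℂ) • evn ρ ψ v := fun v => by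
    rw [← heisBasis_apply h2 hψ, Basis.constr_basis]
  let s : End ℂ ((Fin n → F) → ℂ) →ₗ[ℂ] End ℂ ((Fin n → F) → ℂ) :=
    (2⁻¹ : ℂ) • (LinearMap.id + LinearMap.mulLeftRight ℂ (parity n F, parity n F))
  have hs : ∀ v, s (heis ψ v) = (2⁻¹ : ℂ) • (heis ψ v + heis ψ (-v)) := fun v => by
    simp only [s, LinearMap.smul_apply, LinearMap.add_apply, LinearMap.id_apply,
      LinearMap.mulLeftRight_apply, parity_mul_heis, mul_assoc, parity_mul_parity, mul_one]
  have hs' : ∀ g, s (ω g) = ω g := fun g => by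
    simp only [s, LinearMap.smul_apply, LinearMap.add_apply, LinearMap.id_apply,
      LinearMap.mulLeftRight_apply, ← hJ, mul_assoc, parity_mul_parity, mul_one]
    module
  have h1 : ∀ S T, Θ (s S * s T) = Θ S * Θ T := by
    have := LinearMap.ext_basis (B := ((LinearMap.mul ℂ _).compl₁₂ s s).compr₂ Θ)
      (B' := (LinearMap.mul ℂ _).compl₁₂ Θ Θ) (heisBasis h2 hψ) (heisBasis h2 hψ) fun u v => by
      change Θ (s _ * s _) = Θ _ * Θ _
      simp only [heisBasis_apply, hs, hΘ, smul_mul_smul_comm, add_mul, mul_add, heis_mul h2,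
        map_smul, map_add, h.evn_mul ht hψ (spStd_nd n) (by rw [finrank_spStd]; omega) h2 hfix,
        spStd_B, map_neg, LinearMap.neg_apply, mul_neg, neg_neg]
      rw [← neg_add, evn_neg, neg_add_eq_sub, ← neg_sub u v, evn_neg, ← sub_eq_add_neg]
      module
    exact fun S T => LinearMap.congr_fun₂ this S T
  let Φ : (spStd F n).EG →* End ℂ M :=
    { toFun := fun g => Θ (ω g)
      map_one' := by
        rw [map_one, ← heis_zero (ψ := ψ), hΘ, evn_zero hψ h2, smul_smul]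
        simp
      map_mul' := fun g k => by rw [← h1, hs', hs', map_mul] }
  suffices key : ∀ u ≠ 0, ∀ c, Θ (tv ω u c) = tv ρ u c by
    refine ⟨Θ, fun g => ?_⟩
    obtain ⟨k, hk, hk'⟩ := TG_le (H := (Φ.eqLocus ρ).map (spStd F n).EG.subtype)
      (fun u c _ hu _ _ => ⟨(spStd F n).ee u 0 c, key u hu c, rfl⟩)
      ((sp_TG_eq_EG (spStd_nd n)).ge g.2)
    exact (Subtype.ext hk' : k = g) ▸ hk
  intro u hu c
  rw [tv_eq_wtv hn h2 hψ hω hu]
  refine wt_ext hψ (op_tv ρ u) fun x m hm => ?_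
  by_cases hm0 : m = 0
  · simp [hm0]
  obtain ⟨r, rfl⟩ := ht _ _ _ hm0 hm
  have h3 : ∀ s : F, evn ρ ψ (s • u) m = (ψ (s * r) + ψ (-(s * r))) • m := fun s =>
    evn_of_mem hψ h2 (by convert wt_smul s hm using 2; ring)
  have h4 : ∀ x, Θ (prj ψ (fun s : F => heis ψ (s • u)) x) m =
      (2⁻¹ * ((if x = r then 1 else 0) + if x = -r then 1 else 0) : ℂ) • m := by
    intro x
    simp only [prj, map_smul, map_sum, hΘ, LinearMap.smul_apply, LinearMap.sum_apply, h3, smul_smul,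
      ← sum_smul, mul_comm (ψ _) (2⁻¹ : ℂ), mul_assoc, ← mul_sum, mul_add (ψ _),
      ← AddChar.map_add_eq_mul,
      sum_add_distrib, show ∀ s, -(s * x) + s * r = s * (r - x) from fun s => by ring,
      show ∀ s, -(s * x) + -(s * r) = s * (-r - x) from fun s => by ring, sum_addChar_mul hψ,
      sub_eq_zero, eq_comm (a := x)]
    congr 1
    have : (Fintype.card F : ℂ) ≠ 0 := Nat.cast_ne_zero.2 Fintype.card_ne_zero
    split_ifs <;> simp [this, mul_add, mul_left_comm _ (2⁻¹ : ℂ)]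
  simp only [wtv, fcal, map_sum, map_smul, LinearMap.sum_apply, LinearMap.smul_apply, h4, smul_smul,
    ← sum_smul, mem_Wt.1 hm, mul_add, mul_ite, mul_one, mul_zero, sum_add_distrib, sum_ite_eq',
    mem_univ, if_true, neg_mul_neg]
  congr 1
  ring

theorem exists_weil_EG (h2 : (2 : F) ≠ 0) (hψ : ψ ≠ 1) :
    ∃ ω : Representation ℂ (symplecticGroup (Fin n) F) ((Fin n → F) → ℂ),
      (∀ g v, ω g * heis ψ v = heis ψ (slin g v) * ω g) ∧
      (∀ g, ω g * parity n F = parity n F * ω g) ∧ ∀ g v, ω ((spEquivEG n).symm g) * heis ψ v =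
        heis ψ ((g : (spStd F n).Iso) • v) * ω ((spEquivEG n).symm g) := by
  obtain ⟨ω, hω, hJ⟩ := exists_weil (n := n) h2 hψ
  refine ⟨ω, hω, hJ, fun g v => ?_⟩
  obtain ⟨g, rfl⟩ := (spEquivEG n).surjective g
  rw [MulEquiv.symm_apply_apply, hω, coe_spEquivEG, spEquiv_smul, slin_apply]

theorem weil_char_ne (hn : 2 ≤ n) (h2 : (2 : F) ≠ 0) (hψ : ψ ≠ 1) {ν : F} (hν : ¬IsSquare ν)
    {ω₁ ω₂ : Representation ℂ (symplecticGroup (Fin n) F) ((Fin n → F) → ℂ)}
    (hJ₁ : ∀ g, ω₁ g * parity n F = parity n F * ω₁ g)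
    (hJ₂ : ∀ g, ω₂ g * parity n F = parity n F * ω₂ g)
    (hω₁ : ∀ g v, ω₁ ((spEquivEG n).symm g) * heis ψ v =
        heis ψ ((g : (spStd F n).Iso) • v) * ω₁ ((spEquivEG n).symm g))
    (hω₂ : ∀ g v, ω₂ ((spEquivEG n).symm g) * heis (ψ.mulShift ν) v =
        heis (ψ.mulShift ν) ((g : (spStd F n).Iso) • v) * ω₂ ((spEquivEG n).symm g))
    {ε : ℂ} (hε : ε * ε = 1) :
    (weilSub hJ₁ ε).toRepresentation.character ≠ (weilSub hJ₂ ε).toRepresentation.character := by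
  intro h
  have hν0 : ν ≠ 0 := by rintro rfl; exact hν ⟨0, by simp⟩
  have hψ' : ψ.mulShift ν ≠ 1 := AddChar.IsPrimitive.of_ne_one hψ hν0
  let i : Fin n := ⟨0, by omega⟩
  let u : Fin n ⊕ Fin n → F := Pi.single (.inr i) 1
  let t : Fin n → F := Pi.single i 1
  have hu : xs u = 0 := funext fun k => by simp [xs, u]
  have hu0 : u ≠ 0 := by simp [u]
  have hut : ys u ⬝ᵥ t = 1 := by simp [ys, u, t]
  have ht : t ≠ -t := ne_neg_self h2 (by simp [t])
  have e1 := tv_eq_wtv (ω := ω₁.comp (spEquivEG n).symm.toMonoidHom) hn h2 hψ hω₁ hu0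
  have e2 := tv_eq_wtv (ω := ω₂.comp (spEquivEG n).symm.toMonoidHom) hn h2 hψ' hω₂ hu0
  have hf : (Pi.single t 1 + ε • Pi.single (-t) 1 : (Fin n → F) → ℂ) ∈ parSp n F ε := by
    refine End.mem_eigenspace_iff.2 (funext fun x => ?_)
    simp only [parity_apply, Pi.add_apply, Pi.smul_apply, Pi.single_apply, neg_inj, smul_eq_mul,
      neg_eq_iff_eq_neg, neg_neg, mul_add, ← mul_assoc, hε, one_mul, add_comm]
  obtain ⟨m, hm, hm0⟩ := exists_wt_of_trace_eq hψ
    (op_tv ((weilSub hJ₁ ε).toRepresentation.comp (spEquivEG n).symm.toMonoidHom) u)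
    (op_tv ((weilSub hJ₂ ε).toRepresentation.comp (spEquivEG n).symm.toMonoidHom) u)
    (fun c => by exact congrFun h ((spEquivEG n).symm _)) (x := 2⁻¹ * (1 * 1)) (m := ⟨_, hf⟩)
    (mem_Wt.2 fun c => Subtype.ext (by
      have h3 := mem_Wt_wtv hψ (single_mem_Wt hu t)
      have h4 := mem_Wt_wtv hψ (single_mem_Wt hu (-t))
      rw [dotProduct_neg, neg_mul_neg] at h4
      rw [hut, ← e1] at h3 h4
      exact mem_Wt.1 (Submodule.add_mem _ h3 (Submodule.smul_mem _ _ h4)) c))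
    (fun h => by simpa [ht] using congrFun (congrArg Subtype.val h) t)
  obtain ⟨r, hr⟩ := wtv_typed h2 hψ' (u := u) (x := 2⁻¹ * ν⁻¹) (f := m.1)
    (fun h => hm0 (Subtype.ext h)) (mem_Wt.2 fun c => by
      rw [← e2, AddChar.mulShift_apply, show ν * (c * (2⁻¹ * ν⁻¹)) = c * (2⁻¹ * (1 * 1)) by
        field_simp]
      exact congrArg Subtype.val (mem_Wt.1 hm c))
  exact hν (isSquare_inv.1 ⟨r, mul_left_cancel₀ (inv_ne_zero h2) hr⟩)

theorem weil_classify (hn : 2 ≤ n) (h2 : (2 : F) ≠ 0) (hψ : ψ ≠ 1) {ν : F} (hν : ¬IsSquare ν)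
    {k : ℕ} (ρ : Representation ℂ (symplecticGroup (Fin n) F) (Fin k → ℂ)) [ρ.IsIrreducible]
    (hk : 2 ≤ k) (hb : ¬(Nat.card F ^ n - 1) * (Nat.card F ^ n - Nat.card F) ≤
      2 * (Nat.card F + 1) * k) : ∃ ψ' ∈ [ψ, ψ.mulShift ν],
      ∀ (ω : Representation ℂ (symplecticGroup (Fin n) F) ((Fin n → F) → ℂ)),
      (∀ g, ω g * parity n F = parity n F * ω g) → (∀ g v, ω ((spEquivEG n).symm g) * heis ψ' v =
        heis ψ' ((g : (spStd F n).Iso) • v) * ω ((spEquivEG n).symm g)) →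
      ∃ Θ : End ℂ ((Fin n → F) → ℂ) →ₗ[ℂ] End ℂ (Fin k → ℂ), ∀ g, Θ (ω g) = ρ g := by
  have hν0 : ν ≠ 0 := by rintro rfl; exact hν ⟨0, by simp⟩
  let ρ' : Representation ℂ (spStd F n).EG (Fin k → ℂ) := ρ.comp (spEquivEG n).symm.toMonoidHom
  have hρ' : ∀ g, ρ' (spEquivEG n g) = ρ g := fun g => by simp [ρ']
  have hsub : ∀ N : Subrepresentation ρ', N = ⊥ ∨ N = ⊤ := fun N => by
    rcases eq_bot_or_eq_top (⟨N.toSubmodule, fun g m hm => hρ' g ▸ N.apply_mem_toSubmodule _ hm⟩ :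
      Subrepresentation ρ) with h | h
    · exact Or.inl (Subrepresentation.ext (congrArg (Subrepresentation.toSubmodule (ρ := ρ)) h))
    · exact Or.inr (Subrepresentation.ext (congrArg (Subrepresentation.toSubmodule (ρ := ρ)) h))
  have : Nontrivial (Subrepresentation ρ') := ⟨⊥, ⊤, fun h => by
    have := congrArg (fun N : Subrepresentation ρ' => finrank ℂ N.toSubmodule) h
    change finrank ℂ (⊥ : Submodule ℂ _) = finrank ℂ (⊤ : Submodule ℂ _) at this
    rw [finrank_bot, finrank_top, finrank_fin_fun] at this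
    omega⟩
  have : ρ'.IsIrreducible := ⟨hsub⟩
  obtain ⟨g, hg⟩ := exists_ne_one_of_irreducible ρ' (by simpa using hk)
  have hfix : ∀ m, (∀ g, ρ' g m = m) → m = 0 := by
    intro m hm
    rcases hsub ⟨ρ'.invariants, fun g m hm => by rwa [hm g]⟩ with h | h
    · exact (congrArg Subrepresentation.toSubmodule h).le hm
    · exact absurd (LinearMap.ext fun m => (congrArg Subrepresentation.toSubmodule h).ge trivial g) hg
  obtain ⟨a, c, -, -, -, hc⟩ := exists_transvec_ne_one (sp_TG_eq_EG (spStd_nd n)) ⟨g, hg⟩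
  obtain ⟨x, m, hm, hm0, hx⟩ : ∃ x m, m ∈ Wt ψ (tv ρ' a) x ∧ m ≠ 0 ∧ x ≠ 0 := by
    by_contra h
    push Not at h
    refine hc (wt_ext hψ (op_tv ρ' a) (S := tv ρ' a c) fun x m hm => ?_)
    by_cases hm0 : m = 0
    · simp [hm0]
    · rw [mem_Wt.1 hm, h x m hm hm0]
      simp
  obtain ⟨ψ', h1, h3, r, hr⟩ : ∃ ψ' ∈ [ψ, ψ.mulShift ν], ψ' ≠ 1 ∧
      ∃ r, r ≠ 0 ∧ m ∈ Wt ψ' (tv ρ' a) (2⁻¹ * (r * r)) := by
    by_cases h : IsSquare (2 * x)
    · obtain ⟨r, hr⟩ := h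
      refine ⟨ψ, by simp, hψ, r, by rintro rfl; simp [h2, hx] at hr, ?_⟩
      rwa [← hr, inv_mul_cancel_left₀ h2]
    · obtain ⟨r, hr⟩ : IsSquare (2 * x * ν⁻¹) := by
        have h4 := mul_ne_zero h2 hx
        rw [← quadraticChar_one_iff_isSquare (mul_ne_zero h4 (inv_ne_zero hν0)), map_mul,
          quadraticChar_neg_one_iff_not_isSquare.2 h,
          quadraticChar_neg_one_iff_not_isSquare.2 (mt isSquare_inv.1 hν)]
        norm_num
      refine ⟨ψ.mulShift ν, by simp, AddChar.IsPrimitive.of_ne_one hψ hν0, r,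
        by rintro rfl; simp [h2, hx, hν0] at hr, mem_Wt.2 fun c => ?_⟩
      rw [mem_Wt.1 hm, AddChar.mulShift_apply, ← hr]
      congr 2
      field_simp
  refine ⟨ψ', h1, fun ω hJ hω => ?_⟩
  have hlow : Low ρ' ψ' := by
    by_contra h
    simpa using hb (by simpa using bound_of_not_low (spStd_nd n) (finrank_spStd n) hn h3 h)
  obtain ⟨Θ, hΘ⟩ := weil_factor (ω := ω.comp (spEquivEG n).symm.toMonoidHom) hn h2 h3 hω
    (fun g => hJ _) hlow (hlow.typed h3 (spStd_nd n) (by rw [finrank_spStd]; omega) h2 hfix hr.1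
      hr.2 hm0) hfix
  exact ⟨Θ, fun g => by simpa [hρ'] using hΘ (spEquivEG n g)⟩

end Cfsg.Agent.Forms
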